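import Cfsg.Agent.H42.PcDefs
import Cfsg.Agent.S0227
import Cfsg.Agent.S0205

/-! Project PC, piece GL. -/

set_option autoImplicit false

namespace Cfsg.Agent.H88.PcGl

open Subgroup Cfsg.Agent.H42.Pc

universe u

theorem mem_iff {C : Type u} [Group C] [Finite C] (T : Sylow 2 C) (N : Subgroup C) [N.Normal]
    (h : IsComplement' N (T : Subgroup C)) (c : C) : c ∈ N ↔ Odd (orderOf c) := by
  have : Fact (Nat.Prime 2) := ⟨Nat.prime_two⟩
  constructor
  · intro hc
    have h1 : Odd (Nat.card N) := by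
      rw [← h.index_eq_card, ← Nat.not_even_iff_odd, even_iff_two_dvd]
      exact T.not_dvd_index
    exact h1.of_dvd_nat (N.orderOf_dvd_natCard hc)
  · intro hc
    obtain ⟨k, hk⟩ := T.isPGroup'.exists_card_eq
    have h1 : c ^ N.index ∈ N := N.pow_index_mem c
    rw [h.symm.index_eq_card, hk] at h1
    have h2 : c ∈ zpowers (c ^ 2 ^ k) :=
      mem_zpowers_pow_iff.2 (Nat.Coprime.pow_left k ((Nat.coprime_two_left).2 hc))
    exact zpowers_le.2 h1 h2

theorem gl : GlStmt.{u} := by
  intro G _ _ S _ T hs hn hc hT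
  have : Fact (Nat.Prime 2) := ⟨Nat.prime_two⟩
  have hp : IsPGroup 2 (T.subgroupOf S) := hT.2.1.comap_subtype
  have hi : ¬ 2 ∣ (T.subgroupOf S).index := by
    rw [← even_iff_two_dvd, Nat.not_even_iff_odd]
    exact hT.2.2
  let C : Subgroup (MulAut S) :=
    { carrier := {φ | ∀ s : S, s ∈ T.subgroupOf S → φ s = s}
      one_mem' := fun _ _ => rfl
      mul_mem' := fun {a b} ha hb s h => by rw [MulAut.mul_apply, hb s h, ha s h]
      inv_mem' := fun {a} ha s h => by
        conv_lhs => rw [← ha s h]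
        exact a.symm_apply_apply s }
  obtain ⟨h1, -⟩ := Cfsg.Agent.S0227.result (G := S) (fun N hN ho => by
    rcases hs.eq_bot_or_eq_top_of_normal N hN with e | e
    · exact e
    · rw [e, card_top] at ho
      exact absurd ⟨⟨IsSimpleGroup.comm_iff_isSolvable.2 (Cfsg.Agent.S0205.result ho)⟩⟩ hn)
    (hp.toSylow hi) C (fun φ => Iff.rfl)
  obtain ⟨-, N, hN, hNc⟩ := h1 default
  let κ : G →* MulAut S := MulAut.conjNormal
  have hκ : ∀ (g : G) (s : S), (κ g s : G) = g * s * g⁻¹ := fun g s => rfl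
  have hinj : Function.Injective κ := by
    rw [injective_iff_map_eq_one]
    intro g hg
    rw [← mem_bot, ← hc, mem_centralizer_iff]
    intro s hs'
    have := hκ g ⟨s, hs'⟩
    rw [hg] at this
    exact eq_mul_inv_iff_mul_eq.1 this
  have hC : ∀ g, κ g ∈ C ↔ g ∈ centralizer (T : Set G) := fun g => by
    rw [mem_centralizer_iff]
    constructor
    · intro h t ht
      have h2 := congrArg Subtype.val (h ⟨t, hT.1 ht⟩ (mem_subgroupOf.2 ht))
      rw [hκ] at h2
      exact (mul_inv_eq_iff_eq_mul.1 h2).symm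
    · intro h s hs'
      apply Subtype.ext
      rw [hκ, ← h s (mem_subgroupOf.1 hs'), mul_inv_cancel_right]
  refine ⟨(N.map C.subtype).comap κ, fun g => ?_⟩
  rw [mem_comap, ← hC, ← orderOf_injective κ hinj g]
  constructor
  · rintro ⟨c, hc', e⟩
    rw [← e]
    refine ⟨c.2, ?_⟩
    rw [orderOf_injective C.subtype (subtype_injective C)]
    exact (mem_iff _ N hNc c).1 hc'
  · rintro ⟨h2, h3⟩
    refine ⟨⟨_, h2⟩, (mem_iff _ N hNc _).2 ?_, rfl⟩
    rwa [orderOf_mk]

end Cfsg.Agent.H88.PcGl
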