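import Cfsg.Agent.H45.GdDefs

/-! Project CY, chapter IV: every point lies in a maximal subspace with non-trivial `E`. -/

set_option autoImplicit false

namespace Cfsg.Agent.H88.CyD0

open Subgroup MulAction Cfsg.Agent.H11.Cy Cfsg.Agent.H45.Iv Cfsg.Agent.H45.Gd
open scoped commutatorElement

theorem comm_of {G : Type} [Group G] {a b : G} (ha : a * a = 1) (hb : b * b = 1)
    (h : a * b * (a * b) = 1) : a * b = b * a := by
  rw [← inv_eq_of_mul_eq_one_right h, mul_inv_rev, inv_eq_of_mul_eq_one_right ha,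
    inv_eq_of_mul_eq_one_right hb]

theorem d0 : D0Stmt := by
  intro G _ _ Ω _ _ p A h k fp d
  by_contra hc
  have E0 : ∀ Ψ, Mx A Ψ → Es A Ψ = ⊥ := fun Ψ hΨ => by
    obtain ⟨w, hw⟩ := k.ne Ψ hΨ
    obtain ⟨g, hg⟩ := k.tr w d
    obtain ⟨h1, h2⟩ := k.cj g Ψ hΨ
    refine (eq_bot_iff_forall _).2 fun z hz => by_contra fun z1 => hc ⟨_, h1, fun e => z1 ?_,
      w, hw, hg⟩
    simpa using (eq_bot_iff_forall _).1 e _ (h2 z hz)
  have Z0 : ∀ x y, x ≠ y → ∀ z ∈ Zl A x y, z = 1 := fun x y e z hz => by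
    obtain ⟨Ψ, h1, h2⟩ := k.two x y e
    exact (eq_bot_iff_forall _).1 (E0 Ψ h1) z
      (k.ze Ψ h1 x (h2 (h.sk.ln x y).1) y (h2 (h.sk.ln x y).2) e hz)
  have sq : ∀ x y, x ≠ y → ∀ r ∈ Rl A x y, r * r = 1 := fun x y e r hr =>
    Z0 x y e _ ((h.ls x y e).2.1.sq r hr)
  have RF : ∀ x y, Rl A x y ≤ Fl A x y := fun x y => commutator_le_self _
  obtain ⟨a, ha, a1⟩ : ∃ a ∈ A d, a ≠ 1 := by
    by_contra e
    push Not at e
    have := h.bs.card d
    rw [(eq_bot_iff_forall _).2 e, card_bot] at this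
    exact h.bs.pp.one_lt.ne this
  have form : ∀ y, d ≠ y → ∀ r ∈ Rl A d y, r ≠ 1 →
      ∃ w, d ≠ w ∧ r ∈ Rl A d w ∧ ∃ b ∈ A w, r = a * b⁻¹ := fun y e r hr r1 => by
    obtain ⟨s, hs, h1⟩ := (h.ls d y e).2.2.1.surj a ha a1 r hr
    have h2 := inv_mul_eq_one.1 (Z0 d y e _ h1)
    have h3 : d ≠ s • d := fun e' => r1 (by
      rw [h2, Z0 d y e s ((h.ls d y e).2.1.stab s hs d (h.sk.ln d y).1 e'.symm),
        commutatorElement_one_right])
    have h4 : s • d ∈ Ln A d y := fun c hc => by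
      have := h.bs.eqv s⁻¹ _ c hc
      rw [inv_smul_smul] at this
      simpa [mul_assoc] using
        mul_mem (mul_mem (RF d y hs) (mem_sup_left this)) (inv_mem (RF d y hs))
    exact ⟨_, h3, (h.sk.sp d y e d (h.sk.ln d y).1 _ h4 h3).1 ▸ hr, _, h.bs.eqv s d a ha, by
      rw [h2, commutatorElement_def]; group⟩
  let X : Set G := {r | ∃ y, d ≠ y ∧ r ∈ Rl A d y}
  have cm : ∀ r ∈ X, ∀ s ∈ X, r * s = s * r := by
    rintro r ⟨y, e, hr⟩ s ⟨y', e', hs⟩
    by_cases r1 : r = 1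
    · simp [r1]
    by_cases s1 : s = 1
    · simp [s1]
    have r2 := sq d y e r hr
    have s2 := sq d y' e' s hs
    obtain ⟨w, f, hw, b, hb, eb⟩ := form y e r hr r1
    obtain ⟨w', f', hw', b', hb', eb'⟩ := form y' e' s hs s1
    refine comm_of r2 s2 ?_
    by_cases ww : w = w'
    · exact sq d w f _ (mul_mem hw (ww ▸ hw'))
    refine sq w w' ww _ (by_contra fun hn => ?_)
    have hg : r * s ∈ Fl A w w' := by
      rw [← inv_eq_of_mul_eq_one_right r2, eb, eb']
      simpa [mul_assoc] using mul_mem (mem_sup_left hb) (inv_mem (mem_sup_right hb'))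
    obtain ⟨c, -, h1, -⟩ := (h.ls w w' ww).1.out _ hg hn
    refine fp d y e r hr (fun z => r1 (Z0 d y e r z)) c ((h1 _).1 ?_)
    have h2 : (s * r) • c = c := by
      conv_lhs => rw [← (h1 c).2 rfl, smul_smul, mul_assoc, ← mul_assoc r, r2, one_mul, s2]
      exact one_smul _ _
    rw [smul_smul, mul_assoc, mul_smul, h2]
  have cD : ∀ r ∈ closure X, ∀ s ∈ closure X, r * s = s * r := fun r hr s hs =>
    closure_le_centralizer_centralizer X hs r
      ((closure_le (centralizer X)).2 (fun x hx y hy => cm y hy x hx) hr)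
  have D2 : IsPGroup 2 (closure X) := fun ⟨r, hr⟩ => ⟨1, Subtype.ext (by
    show r ^ 2 ^ 1 = 1
    rw [pow_one, pow_two]
    induction hr using closure_induction with
    | mem x hx => exact sq d _ hx.choose_spec.1 x hx.choose_spec.2
    | one => exact one_mul 1
    | mul x y hx hy a b => rw [mul_assoc, ← mul_assoc y, ← cD x hx y hy, mul_assoc, b, mul_one, a]
    | inv x _ a => rw [← mul_inv_rev, a, inv_one])⟩
  have nd : A d ≤ normalizer (closure X : Set G) := fun g hg => by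
    refine mem_normalizer_fintype fun n hn => ?_
    have : closure X ≤ (closure X).comap (MulAut.conj g).toMonoidHom := (closure_le _).2 (by
      rintro r ⟨y, e, hr⟩
      have := (h.sk.cj g d y r).2.1 hr
      rw [h.bs.fix d g hg] at this
      exact subset_closure ⟨_, fun e' => e (MulAction.injective g
        ((h.bs.fix d g hg).trans e')), this⟩)
    exact this hn
  have RD : ∀ y, d ≠ y → Rl A d y ≤ closure X := fun y e r hr => subset_closure ⟨y, e, hr⟩
  have N : (closure X).Normal := normalizer_eq_top_iff.1 (top_le_iff.1 (h.bs.top ▸ iSup₂_le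
    fun w _ => by
      by_cases e : d = w
      · exact e ▸ nd
      · exact le_sup_right.trans ((h.ls d w e).1.sup ▸ sup_le ((RD w e).trans le_normalizer) nd)))
  have := h.bs.nt
  obtain ⟨y, e⟩ := exists_ne d
  obtain ⟨r, hr, h1⟩ := (h.ls d y e.symm).1.tr y (h.sk.ln d y).2
  rw [(eq_bot_iff_forall _).1 (h.bs.o2 _ N D2) r (RD y e.symm hr), one_smul] at h1
  exact e h1.symm

end Cfsg.Agent.H88.CyD0
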