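import Mathlib
import Cfsg.Agent.H11.CyLp
import Cfsg.Agent.H15.ElAb

/-! An elementary abelian section acted on by commuting elements of order `p` and `p'`-order. -/

set_option autoImplicit false

namespace Cfsg.Agent.H88.CyLpAb

open Cfsg.Agent.H11.EL (Nm Ct Ex WS)
open Subgroup

universe u

theorem kill {V : Type u} [AddCommGroup V] {p : ℕ} (hp : p.Prime)
    (h11 : ∀ v : V, (p : ℤ) • v = 0) (t : ℤ)
    (ht : ¬ (p : ℤ) ∣ t) (v : V) (h : t • v = 0) : v = 0 := by
  have hp' : Prime (p : ℤ) := Nat.prime_iff_prime_int.1 hp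
  obtain ⟨a, b, hab⟩ := (hp'.irreducible.coprime_iff_not_dvd).2 ht
  rw [← one_smul ℤ v, ← hab, add_smul, mul_smul, mul_smul, h11, h, smul_zero, smul_zero, add_zero]

theorem abs1 {V : Type u} [AddCommGroup V] {p e : ℕ} (hp : p.Prime) (he : ¬ p ∣ e)
    (h11 : ∀ v : V, (p : ℤ) • v = 0)
    (K F : Module.End ℤ V) (m : ℤ) (hK : K ^ p = 1) (hF : F ^ e = 1) (hc : Commute F K)
    (h : ∀ v, K v = v → F v = m • v) : ∀ v, F v = m • v := by
  obtain ⟨n, rfl⟩ : ∃ n, e = n + 1 := by
    rcases e with _ | n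
    · exact absurd (dvd_zero p) he
    · exact ⟨n, rfl⟩
  have ss : ∀ u : V, F (F u - m • u) = m • (F u - m • u) → F u = m • u := by
    intro u hu
    set w := F u - m • u with hw
    have h1 : F u = m • u + w := by rw [hw]; abel
    have e5 : ∀ v, (F ^ (n + 1)) v = v := fun v => by rw [hF]; rfl
    have pw : ∀ j : ℕ, (F ^ j) w = m ^ j • w := by
      intro j
      induction j with
      | zero => simp
      | succ j ih =>
        rw [pow_succ', Module.End.mul_apply, ih, map_zsmul, hu, smul_smul, pow_succ]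
    have pu : ∀ j : ℕ, (F ^ (j + 1)) u = m ^ (j + 1) • u + (((j : ℤ) + 1) * m ^ j) • w := by
      intro j
      induction j with
      | zero => simp [h1]
      | succ j ih =>
        rw [pow_succ', Module.End.mul_apply, ih, map_add, map_zsmul, map_zsmul, hu, h1]
        push_cast
        module
    have hw5 : (1 - m ^ (n + 1)) • w = 0 := by
      rw [sub_smul, one_smul, ← pw, e5, sub_self]
    have hu5 : (1 - m ^ (n + 1)) • u = (((n : ℤ) + 1) * m ^ n) • w := by
      have := pu n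
      rw [e5] at this
      rw [sub_smul, one_smul, sub_eq_iff_eq_add, add_comm]
      exact this
    have hw0 : w = 0 := by
      by_cases ht : (p : ℤ) ∣ 1 - m ^ (n + 1)
      · obtain ⟨c, hc⟩ := ht
        rw [hc, mul_comm, mul_smul, h11, smul_zero] at hu5
        apply kill hp h11 ((n : ℤ) + 1) (fun hd => he (by exact_mod_cast hd))
        have h2 : ((n : ℤ) + 1) • w = ((n : ℤ) + 1) • ((1 - m ^ (n + 1)) • w) +
            m • ((((n : ℤ) + 1) * m ^ n) • w) := by module
        rw [h2, hw5, ← hu5]; simp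
      · exact kill hp h11 _ ht _ hw5
    rw [h1, hw0, add_zero]
  have hN : (K - 1) ^ p = 0 := by
    obtain ⟨r, hr⟩ := Commute.exists_add_pow_prime_eq hp (Commute.neg_one_right K)
    rw [sub_eq_add_neg, hr, hK]
    ext v
    have hz : ∀ v : V, (p : Module.End ℤ V) v = 0 := fun v => by
      have := h11 v
      rw [natCast_zsmul] at this
      rw [Module.End.natCast_apply]
      exact this
    rcases hp.eq_two_or_odd' with h2 | h2
    · have h3 := h11 v
      rw [h2] at h3
      have h4 : v + v = 0 := by rw [← h3]; simp [two_smul]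
      have h5 : (-1 : Module.End ℤ V) ^ p = 1 := by rw [h2]; simp
      simp [mul_assoc, hz, h5, h4]
    · simp [mul_assoc, hz, Odd.neg_one_pow h2]
  have ind : ∀ j : ℕ, ∀ u : V, ((K - 1) ^ j) u = 0 → F u = m • u := by
    intro j
    induction j with
    | zero => intro u hu; simp at hu; simp [hu]
    | succ j ih =>
      intro u hu
      rw [pow_succ, Module.End.mul_apply] at hu
      have h1 := ih _ hu
      apply ss
      apply h
      have hc' : ∀ v, K (F v) = F (K v) := fun v => (LinearMap.congr_fun hc.eq v).symm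
      simp only [LinearMap.sub_apply, Module.End.one_apply, map_sub, smul_sub] at h1
      rw [map_sub, map_zsmul, hc', sub_eq_sub_iff_sub_eq_sub, h1]
  intro v
  exact ind p v (by rw [hN]; rfl)

theorem abs2 {Q : Type u} [Group Q] {p e : ℕ} (hp : p.Prime) (he : ¬ p ∣ e)
    (V : Subgroup Q) [V.Normal]
    (hab : ∀ x ∈ V, ∀ y ∈ V, x * y = y * x) (h11 : ∀ x ∈ V, x ^ p = 1) (k f : Q)
    (hk : k ^ p = 1) (hf : f ^ e = 1) (hc : Commute f k) (m : ℤ)
    (h : ∀ v ∈ V, k * v * k⁻¹ = v → f * v * f⁻¹ = v ^ m) : ∀ v ∈ V, f * v * f⁻¹ = v ^ m := by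
  let : CommGroup V := { (inferInstance : Group V) with
    mul_comm := fun x y => Subtype.ext (hab _ x.2 _ y.2) }
  let T : Q →* Module.End ℤ (Additive V) :=
    { toFun := fun g => (MulAut.conjNormal g : V ≃* V).toMonoidHom.toAdditive.toIntLinearMap
      map_one' := by ext v; simp
      map_mul' := fun a b => by ext v; simp [mul_assoc] }
  have hT : ∀ g (v : V), ((T g (Additive.ofMul v)).toMul : Q) = g * v * g⁻¹ := fun g v => rfl
  intro v hv
  have := abs1 (V := Additive V) hp he (fun v => by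
      apply Additive.toMul.injective
      apply Subtype.ext
      simpa using h11 _ v.toMul.2) (T k) (T f) m
    (by rw [← map_pow, hk, map_one]) (by rw [← map_pow, hf, map_one]) (hc.map T)
    (fun v hv => by
      apply Additive.toMul.injective
      apply Subtype.ext
      have h1 := congrArg (fun x : Additive V => (x.toMul : Q)) hv
      exact (hT f v.toMul).trans ((h _ v.toMul.2 h1).trans (by simp))) (Additive.ofMul ⟨v, hv⟩)
  have h2 := congrArg (fun x : Additive V => (x.toMul : Q)) this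
  exact (hT f ⟨v, hv⟩).symm.trans (h2.trans (by simp))

theorem ab : Cfsg.Agent.H11.Cy.Lp.ABStmt := by
  intro G _ _ p e A W k f m hpp hA hW hk hk11 hf hf5 he hm hm2 hfk hcen
  have cA : ∀ a ∈ A, ∀ w ∈ W, Commute a w := fun a ha w hw =>
    (mem_centralizer_iff.1 (hW.ct hw)) a ha
  have ckA : ∀ a ∈ A, Commute a k := fun a ha => (mem_centralizer_iff.1 hk) a ha
  have hkN : k ∈ Nm A := centralizer_le_normalizer _ hk
  have nW : ∀ g ∈ Nm A, ∀ w ∈ W, g * w * g⁻¹ ∈ W := fun g hg w hw =>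
    (mem_normalizer_iff.1 (hW.nm hg) w).1 hw
  have hWN : W ≤ Nm A := hW.ct.trans (centralizer_le_normalizer _)
  have step1 : ∀ w ∈ W, k * w * k⁻¹ * w⁻¹ ∈ A → f * w * f⁻¹ * (w ^ m)⁻¹ ∈ A := by
    intro w hw hc
    set c := k * w * k⁻¹ * w⁻¹ with hcd
    have h1 : k * w * k⁻¹ = c * w := by rw [hcd]; group
    have h2 : k * w ^ m * k⁻¹ = c ^ m * w ^ m := by
      rw [← conj_zpow, h1, (cA c hc w hw).mul_zpow]
    have h3 : k * (f * w * f⁻¹) * k⁻¹ = c ^ m * (f * w * f⁻¹) := by
      calc k * (f * w * f⁻¹) * k⁻¹ = (k * f) * w * (k * f)⁻¹ := by group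
        _ = (f * k) * w * (f * k)⁻¹ := by rw [hfk.eq]
        _ = f * (k * w * k⁻¹) * f⁻¹ := by group
        _ = (f * c * f⁻¹) * (f * w * f⁻¹) := by rw [h1]; group
        _ = _ := by rw [hm c hc]
    have hfw := nW f hf w hw
    apply hcen _ (W.mul_mem hfw (W.inv_mem (W.zpow_mem hw m)))
    have h4 : k * (f * w * f⁻¹ * (w ^ m)⁻¹) * k⁻¹ = f * w * f⁻¹ * (w ^ m)⁻¹ := by
      calc k * (f * w * f⁻¹ * (w ^ m)⁻¹) * k⁻¹
          = (k * (f * w * f⁻¹) * k⁻¹) * (k * w ^ m * k⁻¹)⁻¹ := by group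
        _ = c ^ m * (f * w * f⁻¹ * (w ^ m)⁻¹) * (c ^ m)⁻¹ := by rw [h2, h3]; group
        _ = _ := by
          rw [(cA _ (A.zpow_mem hc m) _ (W.mul_mem hfw (W.inv_mem (W.zpow_mem hw m)))).eq]
          group
    exact (mul_inv_eq_iff_eq_mul.1 h4).symm
  have step2 : ∀ w ∈ W, f * w * f⁻¹ * (w ^ m)⁻¹ ∈ A := by
    intro w hw
    have : (A.subgroupOf (Nm A)).Normal := normal_in_normalizer
    have : (W.subgroupOf (Nm A)).Normal :=
      ⟨fun x hx g => mem_subgroupOf.2 (nW _ g.2 _ (mem_subgroupOf.1 hx))⟩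
    let q := QuotientGroup.mk' (A.subgroupOf (Nm A))
    have hp : ∀ x y : Nm A, q x = q y ↔ (x : G) * (y : G)⁻¹ ∈ A := fun x y => by
      rw [← mul_inv_eq_one, ← map_inv, ← map_mul, QuotientGroup.mk'_apply,
        QuotientGroup.eq_one_iff, mem_subgroupOf]
      rfl
    have : ((W.subgroupOf (Nm A)).map q).Normal :=
      Subgroup.Normal.map inferInstance q (QuotientGroup.mk'_surjective _)
    have := abs2 hpp he ((W.subgroupOf (Nm A)).map q) (by
        rintro _ ⟨x, hx, rfl⟩ _ ⟨y, hy, rfl⟩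
        rw [← map_mul, ← map_mul, hp]
        have := hW.ab _ (mem_subgroupOf.1 hx) _ (mem_subgroupOf.1 hy)
        simpa [mul_assoc] using this) (by
        rintro _ ⟨x, hx, rfl⟩
        rw [← map_pow, ← map_one q, hp]
        simpa using hW.el _ (mem_subgroupOf.1 hx)) (q ⟨k, hkN⟩) (q ⟨f, hf⟩)
      (by rw [← map_pow, ← map_one q]; congr 1; exact Subtype.ext hk11)
      (by rw [← map_pow, ← map_one q]; congr 1; exact Subtype.ext hf5)
      (Commute.map (Subtype.ext hfk.eq) q) m (by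
        rintro _ ⟨x, hx, rfl⟩ h
        rw [← map_inv, ← map_mul, ← map_mul, hp] at h
        rw [← map_inv, ← map_mul, ← map_mul, ← map_zpow, hp]
        exact step1 _ (mem_subgroupOf.1 hx) h) (q ⟨w, hWN hw⟩) ⟨_, mem_subgroupOf.2 hw, rfl⟩
    rw [← map_inv, ← map_mul, ← map_mul, ← map_zpow, hp] at this
    exact this
  intro x hx y hy
  have hc := hW.ab x hx y hy
  set c := x * y * x⁻¹ * y⁻¹ with hcd
  have h1 : x * y * x⁻¹ = c * y := by rw [hcd]; group
  have h2 := Cfsg.Agent.H15.ElAb.bil x y c h1 (cA c hc y hy) (cA c hc x hx) m m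
  have ha := step2 x hx
  have hb := step2 y hy
  set a := f * x * f⁻¹ * (x ^ m)⁻¹ with had
  set b := f * y * f⁻¹ * (y ^ m)⁻¹ with hbd
  have hxa : f * x * f⁻¹ = a * x ^ m := by rw [had]; group
  have hyb : f * y * f⁻¹ = b * y ^ m := by rw [hbd]; group
  have hxm := W.zpow_mem hx m
  have hym := W.zpow_mem hy m
  have h3 : (a * x ^ m) * (b * y ^ m) = c ^ m * ((b * y ^ m) * (a * x ^ m)) := by
    rw [← hxa, ← hyb, ← hm c hc, hcd]; group
  have h4 : (a * x ^ m) * (b * y ^ m) = (a * b) * (x ^ m * y ^ m) := by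
    rw [mul_assoc, ← mul_assoc (x ^ m), ← (cA b hb _ hxm).eq]; group
  have h5 : (b * y ^ m) * (a * x ^ m) = (a * b) * (y ^ m * x ^ m) := by
    rw [mul_assoc, ← mul_assoc (y ^ m), ← (cA a ha _ hym).eq, (cA a ha b (hW.le hb)).eq]; group
  have h6 : c ^ (m * m) = c ^ m := by
    rw [h4, h5, h2, ← mul_assoc, ← mul_assoc (c ^ m),
      (cA _ (A.zpow_mem hc m) _ (hW.le (A.mul_mem ha hb))).eq] at h3
    exact mul_left_cancel (mul_right_cancel h3)
  have hc11 : c ^ (p : ℤ) = 1 := by
    have : (⟨c, hc⟩ : A) ^ Nat.card A = 1 := pow_card_eq_one'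
    rw [hA] at this
    have h0 : c ^ p = 1 := congrArg Subtype.val this
    exact_mod_cast h0
  have hp : Prime (p : ℤ) := Nat.prime_iff_prime_int.1 hpp
  have hc1 : c = 1 := by
    by_cases hm0 : (p : ℤ) ∣ m
    · obtain ⟨d, hd⟩ := hm0
      have := hm c hc
      rw [hd, zpow_mul, hc11, one_zpow] at this
      simpa using this
    · have hnd : ¬ (p : ℤ) ∣ m * m - m := by
        intro h
        rcases hp.dvd_or_dvd (show (p : ℤ) ∣ m * (m - 1) by convert h using 1; ring) with h | h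
        · exact hm0 h
        · exact hm2 h
      obtain ⟨s, t, hst⟩ := (hp.irreducible.coprime_iff_not_dvd).2 hnd
      have h7 : c ^ (m * m - m) = 1 := by rw [zpow_sub, h6, mul_inv_cancel]
      rw [← zpow_one c, ← hst, zpow_add, mul_comm s, mul_comm t, zpow_mul, zpow_mul, hc11, h7]
      simp
  rw [hc1, one_mul] at h1
  exact mul_inv_eq_iff_eq_mul.1 h1

end Cfsg.Agent.H88.CyLpAb
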