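import Cfsg.Agent.H56.SpDefs

/-! Project CY, chapter SP, piece SIM. -/

set_option autoImplicit false

namespace Cfsg.Agent.H88.CySim

open Subgroup MulAction Cfsg.Agent.H11.Cy Cfsg.Agent.H56.Sp
open Cfsg.Agent.H45.Iv (Fx Sub Ms)

section
variable {G : Type} [Group G] {Ω : Type} [MulAction G Ω] {p : ℕ} {A : Ω → Subgroup G}

theorem trn (h : St p A) (N : Subgroup G) [hN : N.Normal] (hne : N ≠ ⊥) (u v : Ω) :
    ∃ k ∈ N, k • u = v := by
  by_cases e : u = v
  · exact ⟨1, N.one_mem, by rw [one_smul, e]⟩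
  obtain ⟨k, hk, hk1⟩ := (Subgroup.bot_or_exists_ne_one N).resolve_left hne
  obtain ⟨y, hy⟩ : ∃ y : Ω, y ≠ k • y := by
    by_contra c
    push Not at c
    exact hk1 (h.faith k fun y => (c y).symm)
  obtain ⟨g, -, h1, h2⟩ := h.two y trivial (k • y) trivial u trivial v trivial hy e
  refine ⟨g * k * g⁻¹, hN.conj_mem k hk g, ?_⟩
  rw [← h1, ← h2, mul_smul, mul_smul, inv_smul_smul]

theorem ms_le {N : Subgroup G} (hN : ∀ w, A w ≤ N) : Ms A Set.univ ≤ N :=
  iSup₂_le fun w _ => hN w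

theorem le_ms (w : Ω) : A w ≤ Ms A Set.univ :=
  le_iSup₂_of_le (f := fun w (_ : w ∈ (Set.univ : Set Ω)) => A w) w trivial le_rfl

theorem ms_normal (h : St p A) : (Ms A Set.univ).Normal := by
  refine ⟨fun n hn g => ?_⟩
  have : Ms A Set.univ ≤ (Ms A Set.univ).comap (MulAut.conj g).toMonoidHom :=
    ms_le fun w a ha => le_ms (g • w) (h.eqv g w a ha)
  exact this hn

theorem le_of_mem (h : St p A) (x : Ω) {c : G} (hc : c ∈ A x) (h1 : c ≠ 1) : A x ≤ zpowers c := by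
  haveI : Fact p.Prime := ⟨h.pp⟩
  intro a ha
  have hc1 : (⟨c, hc⟩ : A x) ≠ 1 := fun e => h1 (congrArg Subtype.val e)
  obtain ⟨n, hn⟩ := mem_zpowers_of_prime_card (h.card x) hc1 (g' := ⟨a, ha⟩)
  exact ⟨n, congrArg Subtype.val hn⟩

theorem a_comm (h : St p A) (x : Ω) {a b : G} (ha : a ∈ A x) (hb : b ∈ A x) : a * b = b * a := by
  by_cases h1 : a = 1
  · rw [h1, one_mul, mul_one]
  obtain ⟨n, rfl⟩ := le_of_mem h x ha h1 hb
  exact ((Commute.refl a).zpow_right n).eq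

end

theorem sim : SimStmt := by
  intro G _ _ Ω _ _ p A h hy l2 hn
  obtain ⟨x, t, htx, ht⟩ := hn
  have hL : Ms A Set.univ = ⊤ :=
    hy.mc.min _ (ms_normal h) le_ms (l2 Set.univ fun _ _ _ _ _ => Set.subset_univ _)
  obtain ⟨a, ha, hat⟩ : ∃ a ∈ A x, a * t ≠ t * a := by
    by_contra c
    push Not at c
    exact ht (mem_centralizer_iff.2 fun a ha => c a ha)
  have hc : t * a * t⁻¹ * a⁻¹ ∈ A x := by
    have := h.eqv t x a ha
    rw [htx] at this
    exact (A x).mul_mem this ((A x).inv_mem ha)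
  have hc1 : t * a * t⁻¹ * a⁻¹ ≠ 1 := fun e => hat (by
    rw [mul_inv_eq_one, mul_inv_eq_iff_eq_mul] at e
    exact e.symm)
  refine ⟨?_, fun hcm => hat (hcm.is_comm.comm a t)⟩
  haveI : Nontrivial G := ⟨⟨_, _, hc1⟩⟩
  refine ⟨fun N hN => ?_⟩
  by_cases hne : N = ⊥
  · exact Or.inl hne
  right
  let q := QuotientGroup.mk' N
  have hq : ∀ g : G, q g ∈ (A x).map q := by
    intro g
    have : Ms A Set.univ ≤ ((A x).map q).comap q := by
      refine ms_le fun w b hb => ?_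
      obtain ⟨k, hk, e⟩ := trn h N hne w x
      have hk1 : q k = 1 := (QuotientGroup.eq_one_iff k).2 hk
      refine ⟨k * b * k⁻¹, e ▸ h.eqv k w b hb, ?_⟩
      rw [map_mul, map_mul, map_inv, hk1, one_mul, inv_one, mul_one]
    rw [hL] at this
    exact this (mem_top g)
  have hcN : t * a * t⁻¹ * a⁻¹ ∈ N := by
    obtain ⟨b, hb, e⟩ := hq t
    rw [← QuotientGroup.eq_one_iff]
    change q _ = 1
    rw [map_mul, map_mul, map_mul, map_inv, ← e, ← map_inv, ← map_mul, ← map_mul, ← map_mul,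
      a_comm h x hb ha]
    simp
  have hAx : A x ≤ N := (le_of_mem h x hc hc1).trans (zpowers_le.2 hcN)
  rw [eq_top_iff, ← hL]
  refine ms_le fun w b hb => ?_
  obtain ⟨k, hk, e⟩ := trn h N hne w x
  have := hN.conj_mem _ (hAx (e ▸ h.eqv k w b hb)) k⁻¹
  simpa [mul_assoc] using this

end Cfsg.Agent.H88.CySim
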