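import Mathlib
import Cfsg.Agent.H99.E72Defs
import Cfsg.Agent.H29.G2Oct
import Cfsg.Agent.H28.SUmk
import Cfsg.Agent.H37.Autos

/-!
# The group `5² : S₃` inside `G₂(4)`
-/

set_option autoImplicit false

namespace Cfsg.Agent.H88.E72

open Cfsg Cfsg.Lie Matrix Cfsg.Agent.H24 Cfsg.Agent.H28 Cfsg.Agent.H29 Cfsg.Agent.H99.E72

universe u

/-- A matrix from its code. -/
def mt (n : ℕ) : Matrix (Fin 8) (Fin 8) K4 := of fun r c => dec4 (n >>> (2 * (8 * r.1 + c.1)))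

def a1 := mt 0x830b08c024b041051cd00440420dc30a
def a2 := mt 0x3010060005043092850386003004300
def a3 := mt 0x51450189000082c002800c30f4004
def a4 := mt 0x810734e01030830610203490c207c106
def b1 := mt 0x810704c01cb083061c600480c207c106
def b4 := mt 0x830b18e02030410510103470420dc30a
def u1 := mt 0x4df8ea43f81f98c2e3ab0be47c210df9
def u2 := mt 0x71f8ec4fea13a43223b4cbab7c8131f9
def t1 := mt 0x40000400100001000010004000040001
def ub := mt 0x4df831f86ddd98c2e53794ca7c210df9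
def ab := mt 0x40001c003c00010000f000d000040001
def f1 : Fin 8 → K4 := fun i => dec4 (![0, 0, 0, 1, 0, 2, 1, 0] i)

/-- The check of the multiplication on the basis. -/
def Ck (A : Matrix (Fin 8) (Fin 8) K4) : Prop :=
  ∀ i j k : Fin 8, (A *ᵥ zm (zb i) (zb j)) k = zm (fun l => A l i) (fun l => A l j) k

instance (A : Matrix (Fin 8) (Fin 8) K4) : Decidable (Ck A) := inferInstanceAs (Decidable (∀ _, _))

theorem Ck.aut {A : Matrix (Fin 8) (Fin 8) K4} (h : Ck A) (x y : Fin 8 → K4) :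
    A *ᵥ zm x y = zm (A *ᵥ x) (A *ᵥ y) := by
  have : zm.compr₂ A.mulVecLin = zm.compl₁₂ A.mulVecLin A.mulVecLin :=
    LinearMap.ext_basis (Pi.basisFun K4 _) (Pi.basisFun K4 _) fun i j => by
      simp only [LinearMap.compr₂_apply, LinearMap.compl₁₂_apply, Pi.basisFun_apply,
        mulVecLin_apply, mulVec_single_one]
      exact funext (h i j)
  exact LinearMap.congr_fun₂ this x y

theorem k1 : Ck a1 := by decide +kernel
theorem k2 : Ck b1 := by decide +kernel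
theorem k3 : Ck u1 := by decide +kernel
theorem k4 : Ck t1 := by decide +kernel

theorem r1 : a1 * a1 = a2 ∧ a2 * a1 = a3 ∧ a3 * a1 = a4 ∧ a1 * a4 = 1 ∧ b1 * b4 = 1 ∧ u1 * u2 = 1 ∧
    t1 * t1 = 1 := by decide +kernel

theorem r2 : u1 * a1 = b1 * u1 ∧ a1 * b1 = ab ∧ b1 * a1 = ab ∧ u1 * b1 = ub ∧ ab * ub = u1 ∧
    t1 * a1 = b4 * t1 ∧ t1 * b1 = a4 * t1 := by decide +kernel

theorem r3 : b1 *ᵥ f1 = f1 ∧ a1 *ᵥ f1 ≠ f1 ∧ a2 *ᵥ f1 ≠ f1 ∧ a3 *ᵥ f1 ≠ f1 ∧ a4 *ᵥ f1 ≠ f1 := by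
  decide +kernel

theorem cfgZ : Cfg5 (autZ K4) := by
  obtain ⟨p1, p2, p3, p4, p5, p6, p7⟩ := r1
  obtain ⟨q1, q2, q3, q4, q5, q6, q7⟩ := r2
  obtain ⟨s0, s1, s2, s3, s4⟩ := r3
  obtain ⟨a, ha⟩ : ∃ a, autMat K4 a = a1 := ⟨_, autMat_autOfMat _ _ p4 k1.aut⟩
  obtain ⟨b, hb⟩ : ∃ a, autMat K4 a = b1 := ⟨_, autMat_autOfMat _ _ p5 k2.aut⟩
  obtain ⟨u, hu⟩ : ∃ a, autMat K4 a = u1 := ⟨_, autMat_autOfMat _ _ p6 k3.aut⟩
  obtain ⟨t, ht⟩ : ∃ a, autMat K4 a = t1 := ⟨_, autMat_autOfMat _ _ p7 k4.aut⟩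
  have e2 : a1 ^ 2 = a2 := by rw [sq, p1]
  have e3 : a1 ^ 3 = a3 := by rw [pow_succ, e2, p2]
  have e4 : a1 ^ 4 = a4 := by rw [pow_succ, e3, p3]
  have h1 : a ^ 5 = 1 := autMat_injective (by rw [map_pow, ha, pow_succ', e4, p4, map_one])
  have h2 : u * a * u⁻¹ = b := mul_inv_eq_iff_eq_mul.2
    (autMat_injective (by rw [map_mul, map_mul, ha, hb, hu, q1]))
  have h3 : ∀ i < 5, a1 ^ i *ᵥ f1 = f1 → i = 0 := fun i hi h => by
    interval_cases i
    · rfl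
    · exact (s1 (pow_one a1 ▸ h)).elim
    · exact (s2 (e2 ▸ h)).elim
    · exact (s3 (e3 ▸ h)).elim
    · exact (s4 (e4 ▸ h)).elim
  have h4 : ∀ j, b1 ^ j *ᵥ f1 = f1 := fun j => by
    induction j with
    | zero => simp
    | succ j ih => rw [pow_succ, ← mulVec_mulVec, s0, ih]
  refine ⟨a, b, u, t, ⟨h1, by rw [← h2, conj_pow, h1]; simp,
    autMat_injective (by rw [map_mul, map_mul, ha, hb, q2, q3]), fun i hi j hj h => ?_⟩, h2, ?_, ?_, ?_⟩
  · have h5 := congrArg (fun g => autMat K4 g *ᵥ f1) h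
    simp only [map_mul, map_pow, ha, hb, map_one, one_mulVec, ← mulVec_mulVec, h4] at h5
    obtain rfl := h3 i hi h5
    rw [pow_zero, one_mul, ← h2, conj_pow, conj_eq_one_iff] at h
    exact ⟨rfl, h3 j hj (by rw [← ha, ← map_pow, h, map_one, one_mulVec])⟩
  · rw [eq_comm, inv_eq_iff_mul_eq_one, ← mul_assoc, mul_inv_eq_one]
    exact autMat_injective (by rw [map_mul, map_mul, map_mul, ha, hb, hu, q2, q4, q5])
  · rw [eq_comm, inv_eq_iff_mul_eq_one, ← mul_assoc, mul_inv_eq_one]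
    exact autMat_injective (by rw [map_mul, map_mul, ha, hb, ht, q6, ← mul_assoc, p5, one_mul])
  · rw [eq_comm, inv_eq_iff_mul_eq_one, ← mul_assoc, mul_inv_eq_one]
    exact autMat_injective (by rw [map_mul, map_mul, ha, hb, ht, q7, ← mul_assoc, p4, one_mul])

theorem cfg_map {Γ Δ : Type*} [Group Γ] [Group Δ] (f : Γ →* Δ) (hf : Function.Injective f)
    (h : Cfg5 Γ) : Cfg5 Δ := by
  obtain ⟨a, b, u, t, h0, h1, h2, h3, h4⟩ := h
  exact ⟨f a, f b, f u, f t, ⟨by rw [← map_pow, h0.a5, map_one], by rw [← map_pow, h0.b5, map_one],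
    by rw [← map_mul, h0.ab, map_mul], fun i hi j hj e => h0.ind i hi j hj
      (hf (by rw [map_mul, map_pow, map_pow, e, map_one]))⟩, by rw [← h1]; simp,
    by simpa using congrArg f h2, by simpa using congrArg f h3, by simpa using congrArg f h4⟩

theorem cfg : CfgStmt.{u} := fun F _ _ h => by
  obtain ⟨e⟩ := nonempty_g2Iso K4
  exact cfg_map _ ((H34.cert (D := chevG2) (by simp)).V.fieldHom_injective
    (equivK4 h).symm.toRingHom) (cfg_map e.symm.toMonoidHom e.symm.injective cfgZ)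

end Cfsg.Agent.H88.E72
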