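import Cfsg.Agent.H50.E72Defs
import Cfsg.Agent.H64.E72Sub
import Cfsg.Agent.H81.E72Count
import Cfsg.Agent.H9.InvCount
import Cfsg.Agent.S1054
import Cfsg.Agent.S1064

/-! A small maximal subgroup of `E₇(2)` has no normal subgroup of index dividing six that fixes a
vector. -/

set_option autoImplicit false

namespace Cfsg.Agent.H88.E72B

open Cfsg.Lie Module Subgroup Cfsg.Agent.H50.E72
open Cfsg.Agent.H99.E72 (V EV)
open Cfsg.Agent.H81.E72Count (stab card_VV)
open scoped Matrix

theorem cardG : Nat.card G0 = 7997476042075799759100487262680802918400 := by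
  have := S1064.result (F := ZMod 2) (q := 2) (ZMod.card 2)
  norm_num at this
  exact this

theorem maxB : MaxBStmt := by
  classical
  intro π hπ H L N _ _ hH hLN h2 h3 hc ⟨v, v0, hv⟩
  have : Finite G0 := Nat.finite_of_card_ne_zero (by rw [cardG]; norm_num)
  have := (S1054.result (F := ZMod 2) chevE7 (by simp)).1
  let ρ : G0 →* EV := ((Matrix.toLinAlgEquiv' : M56 (ZMod 2) ≃ₐ[ZMod 2] _) : _ →* _).comp π
  have hρ : ∀ g u, ρ g u = π g *ᵥ u := fun g u => Matrix.toLinAlgEquiv'_apply _ _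
  obtain ⟨v₁, v₂, h1, hU⟩ := H64.E72Sub.sub H (ρ.comp H.subtype) L inferInstance (by
    rw [← relIndex_mul_index hLN]
    exact (Nat.mul_dvd_mul h2 h3).trans (by norm_num)) v v0 fun s hs => (hρ s v).trans (hv s hs)
  set U := Submodule.span (ZMod 2) {v₁, v₂} with hUd
  have m1 : v₁ ∈ U := Submodule.subset_span (Or.inl rfl)
  have le : H ≤ stab ρ U := fun g hg => hU ⟨g, hg⟩
  have ne : stab ρ U ≠ ⊤ := fun e => by
    let _i : MulAction G0 V := MulAction.compHom V ρ
    have h4 : MulAction.stabilizer G0 v₁ ≠ ⊤ := fun e' => h1 (hπ.nofix v₁ fun g =>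
      (hρ g v₁).symm.trans (show g ∈ MulAction.stabilizer G0 v₁ from e' ▸ mem_top g))
    have h5 : (MulAction.stabilizer G0 v₁).index ≤ 4 := by
      rw [MulAction.index_stabilizer]
      refine (Set.ncard_le_ncard (t := (fun c : ZMod 2 × ZMod 2 => c.1 • v₁ + c.2 • v₂) '' Set.univ)
        ?_).trans ((Set.ncard_image_le).trans (by simp))
      rintro _ ⟨g, rfl⟩
      obtain ⟨a, b, h⟩ := Submodule.mem_span_pair.1
        ((show g ∈ stab ρ U from e ▸ mem_top g) v₁ m1)
      exact ⟨(a, b), trivial, h⟩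
    have h6 := (Nat.le_of_dvd (Nat.factorial_pos _) (H9.card_dvd_factorial_index h4)).trans
      (Nat.factorial_le h5)
    rw [cardG] at h6
    exact absurd h6 (by decide)
  have eq : H = stab ρ U := by
    by_contra n
    exact ne (hH.2 _ (lt_of_le_of_ne le n))
  let _j := H81.E72Count.act ρ
  have kl : MulAction.stabilizer G0 ((v₁, v₂) : V × V) ≤ H := fun g hg => by
    rw [eq]
    have e : (ρ g v₁, ρ g v₂) = (v₁, v₂) := hg
    intro u hu
    obtain ⟨a, b, rfl⟩ := Submodule.mem_span_pair.1 hu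
    rw [map_add, map_smul, map_smul, (Prod.mk.inj e).1, (Prod.mk.inj e).2]
    exact hu
  have i1 : (MulAction.stabilizer G0 ((v₁, v₂) : V × V)).index ≤ 2 ^ 112 := by
    rw [MulAction.index_stabilizer, ← card_VV]
    exact Set.ncard_le_card _
  have i2 : H.index ≤ 2 ^ 112 :=
    (Nat.le_of_dvd (Nat.pos_of_ne_zero index_ne_zero_of_finite) (index_dvd_of_le kl)).trans i1
  have i3 := Nat.mul_le_mul hc i2
  rw [H.card_mul_index, cardG] at i3
  exact absurd i3 (by norm_num)

end Cfsg.Agent.H88.E72B
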