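import Mathlib
import Cfsg.Agent.H6.E82Defs

/-!
# The Jacobi identity for three root vectors
-/

set_option autoImplicit false

namespace Cfsg.Agent.H88.E82Jac1

open Cfsg.Agent.H6.E82

/-- The iterated bracket. -/
noncomputable def T (r s t : Rt) : V := br (ee r) (br (ee s) (ee t))

theorem two (v : V) : v + v = 0 := funext fun _ => CharTwo.add_self_eq_zero _

theorem jac1 (hR : RfStmt) (hB : BrbStmt) (hC : BrcStmt) : Jac1Stmt := by
  obtain ⟨r1, r2, sy, -⟩ := hR
  obtain ⟨-, cm, -, b4, b5, b6, b7, -⟩ := hB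
  obtain ⟨c1, c2, c3, c4, -, -, -, -, -, -, -, -, c13, -, -, c16, -⟩ := hC
  have ps : ∀ r, pr r r = 2 := C8.R.pair_self
  have pn : ∀ r, pr r (ng r) = -2 := fun r => by rw [(c13 r r).1, ps]
  have Ts : ∀ r s t, T r s t = T r t s := fun r s t => by rw [T, T, cm (ee s)]
  have T0 : ∀ r s t, 0 ≤ pr s t → T r s t = 0 := fun r s t h => by rw [T, b7 s t h, map_zero]
  have Tn : ∀ r s, T r s (ng s) = (pr s r : K) • ee r := fun r s => by
    rw [T, b5, cm, b4 _ (c1 s), c2]
  have T1 : ∀ r s t, pr s t = -1 → 0 ≤ pr r s + pr r t → T r s t = 0 := fun r s t h h' => by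
    rw [T, b6 s t h, b7 _ _ (by rwa [(c16 s t h).2])]
  have T2 : ∀ r s t u, pr s t = -1 → pr r s + pr r t = -1 →
      C8.R.rc (C8.R.τ r (C8.R.τ s t)) = C8.R.rc u → T r s t = ee u := fun r s t u h h' e => by
    rw [T, b6 s t h, b6 _ _ (by rwa [(c16 s t h).2]), C8.R.rc_inj e]
  have Tc : ∀ r s t, pr s t = -1 → pr r s + pr r t = -1 →
      C8.R.rc (C8.R.τ r (C8.R.τ s t)) = C8.R.rc r + C8.R.rc s + C8.R.rc t := fun r s t h h' => by
    have := (c16 s t h).2 r
    rw [h'] at this
    rw [C8.R.rc_τ, C8.R.rc_τ, show C8.R.pair r _ = -1 from this, show C8.R.pair s t = -1 from h]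
    module
  have T3 : ∀ r s t, pr s t = -1 → pr r s + pr r t = -2 →
      T r s t = hr r ∧ hr r = hr s + hr t := fun r s t h h' => by
    have e : C8.R.τ s t = ng r := by
      have := (c16 s t h).2 r
      rcases r1 r (C8.R.τ s t) with h1 | h1 | h1
      · exact h1
      all_goals omega
    exact ⟨by rw [T, b6 s t h, e, b5], by rw [← c4 s t h, e, c3]⟩
  have op : ∀ r s, T r s (ng s) + T s (ng s) r + T (ng s) r s = 0 := fun r s => by
    have e1 := (c13 s r).2
    have e2 := (c13 s s).2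
    have e3 := sy r s
    have e4 := ps s
    have e5 := pn s
    rw [Tn]
    rcases r1 s r with h | h | h
    · rw [h, T0 s _ _ (by rw [ps]; decide), Ts, Tn, add_zero, two]
    · rw [T0 s _ _ (by omega), T2 _ r s r (by omega) (by omega) (by
        rw [Tc _ _ _ (by omega) (by omega), C8.R.rc_neg]; abel), h]
      simp
    rcases r2 s r with h' | h'
    · rw [h', Ts s (ng s), Tn, T0 _ _ _ (by omega), two, add_zero]
    rw [T0 _ r s (by omega), add_zero]
    obtain h' | h' : pr s r = 0 ∨ pr s r = 1 := by omega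
    · rw [T0 _ _ _ (by omega), h']
      simp
    · rw [T2 s _ r r (by omega) (by omega) (by
        rw [Tc _ _ _ (by omega) (by omega), C8.R.rc_neg]; abel), h']
      simpa using two _
  have m2 : ∀ r s t, pr r s = -1 → pr t r = -1 → pr s t = 0 →
      T r s t + T s t r + T t r s = 0 := fun r s t h1 h2 h3 => by
    have e1 := sy r s
    have e2 := sy r t
    have e3 := sy s t
    rw [T0 r s t (by omega), T2 t r s _ h1 (by omega) rfl,
      T2 s t r (C8.R.τ t (C8.R.τ r s)) h2 (by omega) (by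
        rw [Tc s t r h2 (by omega), Tc t r s h1 (by omega)]; abel), zero_add, two]
  have J : ∀ r s t, T r s t + T s t r + T t r s = 0 := fun r s t => by
    by_cases h1 : t = ng s
    · rw [h1, op]
    by_cases h2 : r = ng t
    · rw [h2, ← op s t]; abel
    by_cases h3 : s = ng r
    · rw [h3, ← op t r]; abel
    have a1 := (r1 s t).resolve_left h1
    have a2 := (r1 t r).resolve_left h2
    have a3 := (r1 r s).resolve_left h3
    have e1 := sy r s
    have e2 := sy r t
    have e3 := sy s t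
    have z : ∀ r s t, pr s t = -1 ∨ 0 ≤ pr s t → -1 ≤ pr r s + pr r t + pr s t → T r s t = 0 :=
      fun r s t h h' => h.elim (fun h => T1 r s t h (by omega)) (T0 r s t)
    obtain h | ⟨x, y, w⟩ | ⟨x, y, w⟩ | ⟨x, y, w⟩ | ⟨x, y, w⟩ :
        -1 ≤ pr r s + pr t r + pr s t ∨ (pr r s = -1 ∧ pr t r = -1 ∧ pr s t = 0) ∨
        (pr s t = -1 ∧ pr r s = -1 ∧ pr t r = 0) ∨ (pr t r = -1 ∧ pr s t = -1 ∧ pr r s = 0) ∨
        (pr r s = -1 ∧ pr t r = -1 ∧ pr s t = -1) := by omega
    · rw [z r s t a1 (by omega), z s t r a2 (by omega), z t r s a3 (by omega)]; simp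
    · exact m2 r s t x y w
    · rw [← m2 s t r x y w]; abel
    · rw [← m2 t r s x y w]; abel
    · rw [(T3 r s t w (by omega)).1, (T3 s t r y (by omega)).1, (T3 t r s x (by omega)).1,
        add_assoc, ← (T3 r s t w (by omega)).2, two]
  intro r s t
  have := J r s t
  rw [Ts s t r, add_assoc, add_comm (T s r t), add_eq_zero_iff_eq_neg,
    neg_eq_of_add_eq_zero_left (two _)] at this
  rw [cm (br (ee r) (ee s))]
  exact this

end Cfsg.Agent.H88.E82Jac1
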