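import Mathlib
import Cfsg.Agent.H11.ElDefs

/-!
# Involutions and elements of order three of `L₂(11)`
-/

set_option autoImplicit false

namespace Cfsg.Agent.H88.ElLb

open Subgroup Cfsg.Agent.H11.EL Matrix

universe u

/-- Matrices as tuples. -/
abbrev T : Type := ZMod 11 × ZMod 11 × ZMod 11 × ZMod 11

def mu (x y : T) : T := (x.1 * y.1 + x.2.1 * y.2.2.1, x.1 * y.2.1 + x.2.1 * y.2.2.2,
  x.2.2.1 * y.1 + x.2.2.2 * y.2.2.1, x.2.2.1 * y.2.1 + x.2.2.2 * y.2.2.2)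
def dt (x : T) : Prop := x.1 * x.2.2.2 - x.2.1 * x.2.2.1 = 1
def pm (x y : T) : Prop := x = y ∨ x = -y
def cp (x : T) (p q : ZMod 11) : T := (p, x.1 * p + x.2.1 * q, q, x.2.2.1 * p + x.2.2.2 * q)
def on : T := (1, 0, 0, 1)
def s0 : T := (0, 10, 1, 0)
def x0 : T := (0, 10, 1, 10)
def x1 : T := (5, 3, 8, 5)
def w1 : T := (1, 3, 3, 10)
def cs : Fin 12 → T := ![(0, 1, 10, 0), (1, 0, 0, 1), (1, 3, 3, 10), (1, 8, 8, 10), (3, 1, 1, 8),
  (3, 5, 6, 3), (3, 6, 5, 3), (3, 10, 10, 8), (4, 4, 4, 7), (4, 7, 7, 7), (5, 3, 8, 5), (5, 8, 3, 5)]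
def cx : Fin 6 → T := ![(0, 1, 10, 1), (1, 0, 0, 1), (1, 10, 1, 0), (2, 2, 9, 4), (2, 7, 4, 9),
  (4, 9, 2, 2)]

instance (x : T) : Decidable (dt x) := inferInstanceAs (Decidable (_ = _))
instance (x y : T) : Decidable (pm x y) := inferInstanceAs (Decidable (_ ∨ _))

theorem k2 : ∀ a b c d, dt (a, b, c, d) → pm (mu (a, b, c, d) (a, b, c, d)) on →
    pm (a, b, c, d) on ∨ ∃ p q, dt (cp (a, b, c, d) p q) ∧
      pm (mu (a, b, c, d) (cp (a, b, c, d) p q)) (mu (cp (a, b, c, d) p q) s0) := by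
  decide +kernel

theorem k3 : ∀ a b c d, dt (a, b, c, d) →
    pm (mu (mu (a, b, c, d) (a, b, c, d)) (a, b, c, d)) on →
    pm (a, b, c, d) on ∨ ∃ p q, (dt (cp (a, b, c, d) p q) ∧
      pm (mu (a, b, c, d) (cp (a, b, c, d) p q)) (mu (cp (a, b, c, d) p q) x0)) ∨
      (dt (cp (-(a, b, c, d)) p q) ∧
        pm (mu (a, b, c, d) (cp (-(a, b, c, d)) p q)) (mu (cp (-(a, b, c, d)) p q) x0)) := by
  decide +kernel

theorem k4 : ∀ a b c d, dt (a, b, c, d) →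
    pm (mu (mu (a, b, c, d) (a, b, c, d)) (mu (a, b, c, d) (a, b, c, d))) on →
    pm (mu (a, b, c, d) (a, b, c, d)) on := by decide +kernel

theorem k5 : ∀ a b c d, dt (a, b, c, d) → pm (mu (a, b, c, d) s0) (mu s0 (a, b, c, d)) →
    ∃ k, pm (cs k) (a, b, c, d) := by decide +kernel

theorem k6 : ∀ a b c d, dt (a, b, c, d) → pm (mu (a, b, c, d) x0) (mu x0 (a, b, c, d)) →
    ∃ k, pm (cx k) (a, b, c, d) := by decide +kernel

theorem k7 : (∀ k, dt (cs k) ∧ pm (mu (cs k) s0) (mu s0 (cs k))) ∧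
    (∀ k l, pm (cs k) (cs l) → k = l) ∧ (∀ k, dt (cx k) ∧ pm (mu (cx k) x0) (mu x0 (cx k))) ∧
    ∀ k l, pm (cx k) (cx l) → k = l := by decide +kernel

theorem k8 : dt on ∧ dt s0 ∧ dt x0 ∧ dt x1 ∧ dt w1 ∧ pm (mu (mu x1 x1) x1) on ∧ ¬ pm x1 on ∧
    pm (mu w1 w1) on ∧ ¬ pm w1 on ∧ pm (mu s0 x1) (mu x1 s0) ∧ pm (mu s0 w1) (mu w1 s0) ∧
    pm (mu (mu x1 w1) x1) w1 ∧ pm (mu s0 s0) on ∧ ¬ pm s0 on := by decide +kernel

theorem k9 : ∀ r : ZMod 11, r ^ 2 = 1 → r = 1 ∨ r = -1 := by decide +kernel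

/-- The matrix of a tuple. -/
def sl (x : T) (h : dt x) : SpecialLinearGroup (Fin 2) (ZMod 11) :=
  ⟨!![x.1, x.2.1; x.2.2.1, x.2.2.2], by rw [det_fin_two_of]; exact h⟩

/-- The element of a tuple. -/
def el (x : T) : L11 := if h : dt x then QuotientGroup.mk (sl x h) else 1

theorem dt.mul {x y : T} (hx : dt x) (hy : dt y) : dt (mu x y) := by
  unfold dt mu at *
  linear_combination (y.1 * y.2.2.2 - y.2.1 * y.2.2.1) * hx + hy

theorem el_mul {x y : T} (hx : dt x) (hy : dt y) : el (mu x y) = el x * el y := by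
  rw [el, el, el, dif_pos hx, dif_pos hy, dif_pos (hx.mul hy), ← QuotientGroup.mk_mul]
  refine congrArg _ (Subtype.ext ?_)
  rw [Matrix.SpecialLinearGroup.coe_mul]
  exact (Matrix.mul_fin_two _ _ _ _ _ _ _ _).symm

theorem el_eq {x y : T} (hx : dt x) (hy : dt y) : el x = el y ↔ pm x y := by
  rw [el, el, dif_pos hx, dif_pos hy, eq_comm, QuotientGroup.eq,
    Matrix.SpecialLinearGroup.mem_center_iff]
  obtain ⟨a, b, c, d⟩ := x
  obtain ⟨a', b', c', d'⟩ := y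
  have key : ∀ r : ZMod 11, scalar (Fin 2) r = ((sl _ hy)⁻¹ * sl _ hx).1 ↔
      (sl _ hx).1 = r • (sl _ hy).1 := fun r => by
    have h1 : (sl _ hy).1 * ((sl _ hy)⁻¹ * sl _ hx).1 = (sl _ hx).1 :=
      congrArg Subtype.val (mul_inv_cancel_left (sl _ hy) (sl _ hx))
    have h2 : ((sl _ hy)⁻¹).1 * (sl _ hy).1 = 1 := congrArg Subtype.val (inv_mul_cancel (sl _ hy))
    constructor
    · intro h
      rw [← h1, ← h, scalar_apply, ← smul_eq_mul_diagonal]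
    · intro h
      rw [Matrix.SpecialLinearGroup.coe_mul, h, Matrix.mul_smul, h2, scalar_apply, smul_one_eq_diagonal]
  simp only [key, Fintype.card_fin]
  constructor
  · rintro ⟨r, hr, h⟩
    have h0 := congrFun₂ h
    have h1 := h0 0 0
    have h2 := h0 0 1
    have h3 := h0 1 0
    have h4 := h0 1 1
    rcases k9 r hr with rfl | rfl <;> simp [sl] at h1 h2 h3 h4 <;> simp [pm, h1, h2, h3, h4]
  · rintro (h | h)
    · exact ⟨1, by simp, by cases h; simp⟩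
    · refine ⟨-1, by simp, ?_⟩
      cases h
      simp [sl]

theorem el_surj (g : L11) : ∃ a b c d, dt (a, b, c, d) ∧ el (a, b, c, d) = g := by
  obtain ⟨A, rfl⟩ := QuotientGroup.mk_surjective g
  have h : dt (A.1 0 0, A.1 0 1, A.1 1 0, A.1 1 1) := (det_fin_two A.1).symm.trans A.2
  refine ⟨_, _, _, _, h, ?_⟩
  rw [el, dif_pos h]
  exact congrArg _ (Subtype.ext (eta_fin_two A.1).symm)

theorem el_on : el on = 1 := left_eq_mul.1 ((el_mul k8.1 k8.1).symm.trans rfl).symm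

theorem el_one {x : T} (hx : dt x) : el x = 1 ↔ pm x on := by rw [← el_on, el_eq hx k8.1]

theorem el_comm {x y : T} (hx : dt x) (hy : dt y) :
    el x * el y = el y * el x ↔ pm (mu x y) (mu y x) := by
  rw [← el_mul hx hy, ← el_mul hy hx, el_eq (hx.mul hy) (hy.mul hx)]

theorem conj_of {x y z : T} (hx : dt x) (hy : dt y) (hz : dt z) (h : pm (mu x y) (mu y z)) :
    IsConj (el x) (el z) := by
  rw [← el_eq (hx.mul hy) (hy.mul hz), el_mul hx hy, el_mul hy hz] at h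
  exact isConj_iff.2 ⟨(el y)⁻¹, by rw [mul_assoc, inv_inv, h, inv_mul_cancel_left]⟩

theorem c2 {s : L11} (h : orderOf s = 2) : IsConj s (el s0) := by
  obtain ⟨a, b, c, d, hd, rfl⟩ := el_surj s
  have h1 := pow_orderOf_eq_one (el (a, b, c, d))
  rw [h, sq, ← el_mul hd hd, el_one (hd.mul hd)] at h1
  rcases k2 a b c d hd h1 with h2 | ⟨p, q, h2, h3⟩
  · rw [(el_one hd).2 h2, orderOf_one] at h; omega
  · exact conj_of hd h2 k8.2.1 h3

theorem c3 {s : L11} (h : orderOf s = 3) : IsConj s (el x0) := by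
  obtain ⟨a, b, c, d, hd, rfl⟩ := el_surj s
  have h1 := pow_orderOf_eq_one (el (a, b, c, d))
  rw [h, pow_succ, sq, ← el_mul hd hd, ← el_mul (hd.mul hd) hd, el_one ((hd.mul hd).mul hd)] at h1
  rcases k3 a b c d hd h1 with h2 | ⟨p, q, ⟨h2, h3⟩ | ⟨h2, h3⟩⟩
  · rw [(el_one hd).2 h2, orderOf_one] at h; omega
  · exact conj_of hd h2 k8.2.2.1 h3
  · exact conj_of hd h2 k8.2.2.1 h3

theorem c4 (u : L11) (h : u ^ 4 = 1) : u ^ 2 = 1 := by
  obtain ⟨a, b, c, d, hd, rfl⟩ := el_surj u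
  rw [show (4 : ℕ) = 2 + 2 from rfl, pow_add, sq, ← el_mul hd hd, ← el_mul (hd.mul hd) (hd.mul hd),
    el_one ((hd.mul hd).mul (hd.mul hd))] at h
  rw [sq, ← el_mul hd hd, el_one (hd.mul hd)]
  exact k4 a b c d hd h

theorem card_c1 {n : ℕ} {s : T} (hs : dt s) (f : Fin n → T)
    (h1 : ∀ k, dt (f k) ∧ pm (mu (f k) s) (mu s (f k))) (h2 : ∀ k l, pm (f k) (f l) → k = l)
    (h3 : ∀ a b c d, dt (a, b, c, d) → pm (mu (a, b, c, d) s) (mu s (a, b, c, d)) →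
      ∃ k, pm (f k) (a, b, c, d)) {t : L11} (ht : IsConj t (el s)) : Nat.card (C1 t) = n := by
  obtain ⟨g, hg⟩ := isConj_iff.1 ht.symm
  subst hg
  refine (Nat.card_eq_of_bijective (fun k : Fin n => (⟨g * el (f k) * g⁻¹, by
    rw [mem_centralizer_singleton_iff, conj_mul, conj_mul, (el_comm (h1 k).1 hs).2 (h1 k).2]⟩ :
      C1 (g * el s * g⁻¹))) ⟨fun k l h => h2 k l ((el_eq (h1 k).1 (h1 l).1).1
        (by simpa using h)), fun ⟨c, hc⟩ => ?_⟩).symm.trans (Nat.card_fin n)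
  obtain ⟨a, b, c', d, hd, he⟩ := el_surj (g⁻¹ * c * g)
  obtain rfl : c = g * el (a, b, c', d) * g⁻¹ := by rw [he]; group
  rw [mem_centralizer_singleton_iff, conj_mul, conj_mul, mul_left_inj, mul_right_inj,
    el_comm hd hs] at hc
  obtain ⟨k, hk⟩ := h3 a b c' d hd hc
  exact ⟨k, Subtype.ext (by simp only [(el_eq (h1 k).1 hd).2 hk])⟩

/-- The dihedral configuration. -/
def Dh {Γ : Type*} [Group Γ] (s x w : Γ) : Prop := orderOf s = 2 ∧ orderOf x = 3 ∧ orderOf w = 2 ∧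
  Commute s x ∧ Commute s w ∧ w * x * w⁻¹ = x⁻¹

theorem Dh.map {Γ Δ : Type*} [Group Γ] [Group Δ] {s x w : Γ} (h : Dh s x w) (f : Γ →* Δ)
    (hf : Function.Injective f) : Dh (f s) (f x) (f w) :=
  ⟨(orderOf_injective f hf s).trans h.1, (orderOf_injective f hf x).trans h.2.1,
    (orderOf_injective f hf w).trans h.2.2.1, h.2.2.2.1.map f, h.2.2.2.2.1.map f,
    by rw [← map_inv, ← map_inv, ← map_mul, ← map_mul, h.2.2.2.2.2]⟩

theorem dh0 : Dh (el s0) (el x1) (el w1) := by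
  obtain ⟨-, a2, -, a4, a5, a6, a7, a8, a9, a10, a11, a12, a13, a14⟩ := k8
  have : Fact (Nat.Prime 2) := ⟨Nat.prime_two⟩
  have : Fact (Nat.Prime 3) := ⟨Nat.prime_three⟩
  refine ⟨orderOf_eq_prime ?_ fun h => a14 ((el_one a2).1 h),
    orderOf_eq_prime ?_ fun h => a7 ((el_one a4).1 h),
    orderOf_eq_prime ?_ fun h => a9 ((el_one a5).1 h), (el_comm a2 a4).2 a10,
    (el_comm a2 a5).2 a11, ?_⟩
  · rwa [sq, ← el_mul a2 a2, el_one (a2.mul a2)]
  · rwa [pow_succ, sq, ← el_mul a4 a4, ← el_mul (a4.mul a4) a4, el_one ((a4.mul a4).mul a4)]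
  · rwa [sq, ← el_mul a5 a5, el_one (a5.mul a5)]
  · rw [← el_eq ((a4.mul a5).mul a4) a5, el_mul (a4.mul a5) a4, el_mul a4 a5] at a12
    rw [mul_inv_eq_iff_eq_mul, eq_inv_mul_iff_mul_eq, ← mul_assoc, a12]

theorem lb : LBStmt.{u} := by
  intro G _ _ L ⟨e⟩
  let j : L11 →* G := L.subtype.comp e.symm.toMonoidHom
  have hj : Function.Injective j := L.subtype_injective.comp e.symm.injective
  have hm : ∀ a, j a ∈ L := fun a => (e.symm a).2
  have hs : ∀ g ∈ L, ∃ a, j a = g := fun g hg => ⟨e ⟨g, hg⟩, by simp [j]⟩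
  have ho := orderOf_injective j hj
  have hc : ∀ a, Nat.card (L ⊓ C1 (j a) : Subgroup G) = Nat.card (C1 a) := fun a => by
    rw [← card_map_of_injective (K := C1 a) hj]
    congr 2
    ext g
    simp only [mem_inf, mem_map, mem_centralizer_singleton_iff]
    constructor
    · rintro ⟨h1, h2⟩
      obtain ⟨b, rfl⟩ := hs g h1
      exact ⟨b, hj (by rw [map_mul, map_mul, h2]), rfl⟩
    · rintro ⟨b, h1, rfl⟩
      exact ⟨hm b, by rw [← map_mul, h1, map_mul]⟩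
  have hd : ∀ g : L11, Dh (j (g * el s0 * g⁻¹)) (j (g * el x1 * g⁻¹)) (j (g * el w1 * g⁻¹)) :=
    fun g => (dh0.map (MulAut.conj g).toMonoidHom (MulAut.conj g).injective).map j hj
  refine ⟨fun s h1 t h2 h3 h4 => ?_, fun s h1 h2 => ?_, fun s h1 h2 => ?_, fun s h1 h2 => ?_,
    fun s h1 h2 => ?_, fun s h1 h2 => ?_⟩ <;> obtain ⟨a, rfl⟩ := hs s h1
  · obtain ⟨b, rfl⟩ := hs t h2
    obtain ⟨g, rfl⟩ := isConj_iff.1 ((c2 (ho a ▸ h3)).trans (c2 (ho b ▸ h4)).symm)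
    exact ⟨j g, hm g, by simp⟩
  · exact (hc a).trans (card_c1 k8.2.1 cs k7.1 k7.2.1 k5 (c2 (ho a ▸ h2)))
  · obtain ⟨g, rfl⟩ := isConj_iff.1 (c2 (ho a ▸ h2)).symm
    exact ⟨_, hm _, _, hm _, (hd g).2⟩
  · obtain ⟨g, rfl⟩ := isConj_iff.1 ((c3 dh0.2.1).trans (c3 (ho a ▸ h2)).symm)
    exact ⟨_, hm _, _, hm _, (hd g).1, (hd g).2.2⟩
  · exact (hc a).trans (card_c1 k8.2.2.1 cx k7.2.2.1 k7.2.2.2 k6 (c3 (ho a ▸ h2)))
  · rw [← map_pow, c4 a (hj (by rw [map_pow, h2, map_one])), map_one]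

end Cfsg.Agent.H88.ElLb
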