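/-
Iterated commutators `[g, a, ..., a]` generate `[G, a]` when `G = [G, a]` (Guralnick--Tracey).
-/
import Mathlib
import Cfsg.Agent.S3947
import Cfsg.Agent.H7.PBasic

set_option autoImplicit false
open Pointwise Subgroup
open scoped commutatorElement

namespace Cfsg.Agent.H88

universe u

theorem engel_gen_aux (k n : ℕ) : ∀ (G : Type u) [Group G] [Finite G], Nat.card G = n →
    ∀ a : G, normalClosure (zpowers a : Set G) = ⊤ →
      closure (Set.range (fun c : G => ⁅c, a⁆)^[k]) ⊔ zpowers a = ⊤ := by
  induction n using Nat.strong_induction_on with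
  | _ n ih =>
  intro G _ _ hn a ha
  by_cases hA : zpowers a = ⊤
  · rw [hA, sup_top_eq]
  rcases S3947.result (zpowers a) ha hA with h | ⟨M, ⟨hM, haM⟩, huniq⟩
  · rw [eq_top_iff, ← h]
    refine sSup_le ?_
    rintro H ⟨haH, hH, hcl⟩
    have ha' : a ∈ H := haH (mem_zpowers a)
    have he : (zpowers a).subgroupOf H = zpowers (⟨a, ha'⟩ : H) := by
      apply map_injective H.subtype_injective
      rw [subgroupOf_map_subtype, inf_eq_left.mpr haH, MonoidHom.map_zpowers]
      rfl
    rw [he] at hcl
    have := ih _ (hn ▸ H7.card_lt_of_ne_top hH) H rfl ⟨a, ha'⟩ hcl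
    have h2 := congrArg (map H.subtype) this
    rw [← MonoidHom.range_eq_map, range_subtype, Subgroup.map_sup, MonoidHom.map_zpowers,
      MonoidHom.map_closure] at h2
    rw [← h2]
    refine sup_le_sup (closure_mono ?_) le_rfl
    rintro _ ⟨_, ⟨c, rfl⟩, rfl⟩
    refine ⟨c, ?_⟩
    have hs : Function.Semiconj H.subtype (fun c : H => ⁅c, (⟨a, ha'⟩ : H)⁆)
        (fun c : G => ⁅c, a⁆) := fun x => rfl
    exact (hs.iterate_right k c).symm
  · by_contra hne
    obtain ⟨M', hM', hle⟩ := (eq_top_or_exists_le_coatom _).resolve_left hne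
    obtain rfl : M' = M := huniq M' ⟨hM', le_sup_right.trans hle⟩
    have key : ∀ x, x ∉ M' → ⁅x, a⁆ ∉ M' := by
      intro x hx hxa
      have h1 : x * a * x⁻¹ ∈ M' := by
        have := M'.mul_mem hxa (haM (mem_zpowers a))
        simpa [commutatorElement_def] using this
      have h2 : M'.comap (MulAut.conj x).toMonoidHom = M' := by
        refine huniq _ ⟨isCoatom_comap_of_surjective (MulAut.conj x).surjective hM', ?_⟩
        rw [zpowers_le]
        exact h1
      have h3 : x ∈ normalizer (M' : Set G) := by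
        rw [mem_normalizer_iff]
        intro y
        conv_lhs => rw [← h2]
        rfl
      have h4 : normalizer (M' : Set G) = ⊤ :=
        hM'.2 _ (lt_of_le_of_ne le_normalizer fun he => hx (he ▸ h3))
      have h5 : M'.Normal := normalizer_eq_top_iff.mp h4
      exact hM'.1 (top_le_iff.mp (ha ▸ normalClosure_le_normal haM))
    obtain ⟨x, hx⟩ : ∃ x, x ∉ M' := by
      by_contra h
      push Not at h
      exact hM'.1 ((eq_top_iff' _).mpr h)
    have : ∀ j, (fun c : G => ⁅c, a⁆)^[j] x ∉ M' := by
      intro j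
      induction j with
      | zero => exact hx
      | succ j ihj => rw [Function.iterate_succ_apply']; exact key _ ihj
    exact this k (hle (mem_sup_left (subset_closure ⟨x, rfl⟩)))

theorem engel_gen {G : Type*} [Group G] [Finite G] (α : MulAut G)
    (hG : closure (Set.range (fun c : G => c * (α c)⁻¹)) = ⊤) (k : ℕ) :
    closure (Set.range ((fun c : G => c * (α c)⁻¹)^[k])) = ⊤ := by
  obtain _ | k := k
  · simp
  let φ : zpowers α →* MulAut G := (zpowers α).subtype
  let Γ := G ⋊[φ] zpowers α
  have : Finite Γ := Finite.of_equiv _ SemidirectProduct.equivProd.symm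
  let a : Γ := SemidirectProduct.inr ⟨α, mem_zpowers α⟩
  have hs : Function.Semiconj (SemidirectProduct.inl : G →* Γ) (fun c : G => c * (α c)⁻¹)
      (fun c : Γ => ⁅c, a⁆) := by
    intro c
    have h1 : (SemidirectProduct.inl (α c⁻¹) : Γ) = a * SemidirectProduct.inl c⁻¹ * a⁻¹ := by
      have := SemidirectProduct.inl_aut (φ := φ) ⟨α, mem_zpowers α⟩ c⁻¹
      rw [map_inv SemidirectProduct.inr] at this
      exact this
    change SemidirectProduct.inl (c * (α c)⁻¹) = ⁅(SemidirectProduct.inl c : Γ), a⁆
    rw [map_mul, ← map_inv α, h1, commutatorElement_def, map_inv]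
    simp only [mul_assoc]
  have hr : ∀ x : zpowers α, (SemidirectProduct.inr x : Γ) ∈ zpowers a := by
    rintro ⟨_, i, rfl⟩
    exact ⟨i, by simp only [a]; rw [← map_zpow]; rfl⟩
  have hN : normalClosure (zpowers a : Set Γ) = ⊤ := by
    rw [eq_top_iff']
    intro g
    rw [← SemidirectProduct.inl_left_mul_inr_right g]
    refine mul_mem ?_ (subset_normalClosure (hr _))
    have : (⊤ : Subgroup G) ≤ (normalClosure (zpowers a : Set Γ)).comap SemidirectProduct.inl := by
      rw [← hG, closure_le]
      rintro _ ⟨c, rfl⟩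
      change SemidirectProduct.inl (c * (α c)⁻¹) ∈ normalClosure (zpowers a : Set Γ)
      rw [hs c]
      simp only [commutatorElement_def]
      have h1 : a ∈ normalClosure (zpowers a : Set Γ) := subset_normalClosure (mem_zpowers a)
      exact mul_mem (Subgroup.Normal.conj_mem inferInstance _ h1 _) (inv_mem h1)
    exact this (mem_top _)
  have h := engel_gen_aux (k + 1) _ Γ rfl a hN
  set E := closure (Set.range ((fun c : G => c * (α c)⁻¹)^[k + 1])) with hE
  have hαE : ∀ x ∈ E, α x ∈ E := by
    have : E ≤ E.comap α.toMonoidHom := by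
      rw [hE, closure_le]
      rintro _ ⟨c, rfl⟩
      have hs' : Function.Semiconj α (fun c : G => c * (α c)⁻¹) (fun c : G => c * (α c)⁻¹) :=
        fun x => by simp
      refine subset_closure ⟨α c, ?_⟩
      exact (hs'.iterate_right (k + 1) c).symm
    exact fun x hx => this hx
  have hαE' : ∀ β : zpowers α, ∀ x ∈ E, φ β x ∈ E := by
    rintro ⟨β, hβ⟩ x hx
    obtain ⟨i, rfl⟩ := mem_powers_iff_mem_zpowers.mpr hβ
    change (α ^ i) x ∈ E
    clear hβ
    induction i with
    | zero => simpa using hx
    | succ i ihi => rw [pow_succ']; exact hαE _ ihi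
  let K : Subgroup Γ :=
    { carrier := {g | g.left ∈ E}
      mul_mem' := fun {x y} hx hy => E.mul_mem hx (hαE' _ _ hy)
      one_mem' := E.one_mem
      inv_mem' := fun {x} hx => hαE' _ _ (E.inv_mem hx) }
  have hK : (⊤ : Subgroup Γ) ≤ K := by
    rw [← h]
    refine sup_le ?_ ?_
    · rw [closure_le]
      rintro _ ⟨g, rfl⟩
      have h1 : ⁅g, a⁆ = ⁅(SemidirectProduct.inl g.left : Γ), a⁆ := by
        conv_lhs => rw [← SemidirectProduct.inl_left_mul_inr_right g]
        obtain ⟨i, hi⟩ := hr g.right
        rw [← hi]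
        simp only [commutatorElement_def]
        group
      have h2 : (fun c : Γ => ⁅c, a⁆)^[k + 1] g =
          SemidirectProduct.inl ((fun c : G => c * (α c)⁻¹)^[k + 1] g.left) := by
        rw [hs.iterate_right (k + 1) g.left, Function.iterate_succ_apply,
          Function.iterate_succ_apply, h1]
      rw [h2]
      exact subset_closure (k := Set.range ((fun c : G => c * (α c)⁻¹)^[k + 1])) ⟨g.left, rfl⟩
    · rw [zpowers_le]
      exact E.one_mem
  rw [eq_top_iff']
  intro x
  exact hK (mem_top (SemidirectProduct.inl x))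

end Cfsg.Agent.H88
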