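import Mathlib
import Cfsg.Agent.H90.LieAut

/-! Kreknin's theorem when the zero component acts nilpotently, and nilpotent actions of soluble
Lie rings spanned by finitely many nilpotently acting submodules. -/

set_option autoImplicit false

namespace Cfsg.Agent.H88

open Cfsg.Agent.H90 Submodule TensorProduct

section General

variable {R L : Type*} [CommRing R] [LieRing L] [LieAlgebra R L]

theorem br_sup_left (U U' V : Submodule R L) : br (U ⊔ U') V = br U V ⊔ br U' V :=
  map₂_sup_left _ _ _ _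

theorem br_sup_right (U V V' : Submodule R L) : br U (V ⊔ V') = br U V ⊔ br U V' :=
  map₂_sup_right _ _ _ _

theorem brIter_sup_eq_bot {W V : Submodule R L} {n c : ℕ} (hW : brIter ⊤ W n = ⊥)
    (hV : brIter ⊤ V c = ⊥) (hWV : br W V ≤ W) : brIter ⊤ (W ⊔ V) (n * c) = ⊥ := by
  have h1 : ∀ j, br (brIter ⊤ W j) V ≤ brIter ⊤ W j := fun j => br_brIter_le le_top hWV j
  have h2 : ∀ j, br (brIter ⊤ W j) W ≤ brIter ⊤ W j := fun j => by
    induction j with
    | zero => exact le_top
    | succ j ih => exact br_mono ih le_rfl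
  have h3 : ∀ j s, brIter (brIter ⊤ W j) (W ⊔ V) s ≤
      brIter ⊤ W (j + 1) ⊔ brIter (brIter ⊤ W j) V s := by
    intro j s
    induction s with
    | zero => exact le_sup_right
    | succ s ih =>
      refine (br_mono ih le_rfl).trans ?_
      rw [br_sup_left, br_sup_right, br_sup_right]
      refine sup_le (sup_le ((h2 _).trans le_sup_left) ((h1 _).trans le_sup_left))
        (sup_le ((br_mono (brIter_le_self (h1 j) s) le_rfl).trans le_sup_left) le_sup_right)
  have h4 : ∀ j, brIter ⊤ (W ⊔ V) (j * c) ≤ brIter ⊤ W j := by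
    intro j
    induction j with
    | zero => rw [zero_mul]; exact le_rfl
    | succ j ih =>
      rw [add_mul, one_mul, brIter_add]
      refine (brIter_mono ih le_rfl c).trans ((h3 j c).trans (sup_le le_rfl ?_))
      exact ((brIter_mono le_top le_rfl c).trans hV.le).trans bot_le
  exact le_bot_iff.1 ((h4 n).trans hW.le)

theorem brIter_biSup_eq_bot {ι : Type*} (s : Finset ι) (V : ι → Submodule R L) {c : ℕ}
    (hV : ∀ i ∈ s, brIter ⊤ (V i) c = ⊥) {W U : Submodule R L} {n : ℕ} (hW : brIter ⊤ W n = ⊥)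
    (hWU : W ≤ U) (hU : br U U ≤ W) :
    brIter ⊤ (W ⊔ ⨆ i ∈ s, U ⊓ V i) (n * c ^ s.card) = ⊥ := by
  classical
  induction s using Finset.induction_on with
  | empty => simpa using hW
  | insert a s ha ih =>
    have h1 := ih fun i hi => hV i (Finset.mem_insert_of_mem hi)
    rw [Finset.iSup_insert, sup_comm (U ⊓ V a), ← sup_assoc, Finset.card_insert_of_notMem ha,
      pow_succ, ← mul_assoc]
    refine brIter_sup_eq_bot h1 (le_bot_iff.1 ((brIter_mono le_rfl inf_le_right c).trans
      (hV a (Finset.mem_insert_self _ _)).le)) ?_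
    exact ((br_mono (sup_le hWU (iSup₂_le fun _ _ => inf_le_left)) inf_le_left).trans hU).trans
      le_sup_left

/-- The derived subring. -/
def brD (U : Submodule R L) : Submodule R L := br U U

theorem brD_iterate_mono {U V : Submodule R L} (h : U ≤ V) (r : ℕ) : brD^[r] U ≤ brD^[r] V := by
  induction r with
  | zero => exact h
  | succ r ih =>
    rw [Function.iterate_succ_apply', Function.iterate_succ_apply']
    exact br_mono ih ih

/-- A soluble subring all of whose derived terms are spanned by their intersections with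
finitely many nilpotently acting submodules acts nilpotently. -/
theorem brIter_eq_bot_of_solvable {ι : Type*} (s : Finset ι) (V : ι → Submodule R L) {c : ℕ}
    (hV : ∀ i ∈ s, brIter ⊤ (V i) c = ⊥) (e : ℕ) : ∀ {U : Submodule R L}, br U U ≤ U →
    (∀ r, brD^[r] U ≤ ⨆ i ∈ s, brD^[r] U ⊓ V i) → brD^[e] U = ⊥ →
    brIter ⊤ U (c ^ (s.card * e)) = ⊥ := by
  induction e with
  | zero =>
    intro U _ _ h
    rw [show U = ⊥ from h, mul_zero, pow_zero]
    exact br_bot_right _
  | succ e ih =>
    intro U hU hs h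
    have h1 := ih (U := br U U) (br_mono hU hU) (fun r => hs (r + 1)) h
    have h2 := brIter_biSup_eq_bot s V hV h1 hU le_rfl
    rw [← pow_add, ← mul_add_one] at h2
    exact le_bot_iff.1 ((brIter_mono le_rfl ((hs 0).trans le_sup_right) _).trans h2.le)

theorem iSup_derF_iterate {D : Type*} [AddCommGroup D] (A : D → Submodule R L) (r : ℕ) :
    ⨆ k, derF^[r] A k = brD^[r] (⨆ i, A i) := by
  induction r with
  | zero => rfl
  | succ r ih => rw [Function.iterate_succ_apply', Function.iterate_succ_apply', iSup_derF, ih]; rfl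

theorem br_krek_zero {D : Type*} [AddCommGroup D] {A : D → Submodule R L} (h : IsGr A) (J : Set D)
    (j : D) : br (krek A J j) (A 0) ≤ krek A J j := by
  have h0 : ∀ i, br (A i) (A 0) ≤ A i := fun i => (h i 0).trans (by rw [add_zero])
  rw [br_le]
  intro t ht z hz
  rw [mem_krek] at ht ⊢
  refine ⟨h0 j (lie_mem_br ht.1 hz), fun v a ha => ?_⟩
  have h1 := ht.2 _ _ (h0 v (lie_mem_br ha hz))
  have h2 : ⁅⁅a, t⁆, z⁆ ∈ ⨆ i : J, br (A (v + j - i)) (A i) := by
    refine (?_ : br (⨆ i : J, br (A (v + j - i)) (A i)) (A 0) ≤ _) (lie_mem_br (ht.2 v a ha) hz)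
    rw [br_iSup_left]
    exact iSup_mono fun i => br_br_le_br (h0 _) (h0 _)
  have := sub_mem h2 h1
  rwa [lie_lie_right a t z, add_sub_cancel_left] at this

/-- The bound in the generalised Kreknin theorem. -/
def krekB (m : ℕ) : ℕ → ℕ
  | 0 => 0
  | k + 1 => krekB m k + m * (krekB m k + 1)

theorem kreknin_gen_aux {n : ℕ} [NeZero n] (m k : ℕ) (hk : k ≤ n) :
    ∀ {A S : ZMod n → Submodule R L}, IsGr A → brIter ⊤ (A 0) m = ⊥ → IsGr S →
      (∀ j, br (S j) (A 0) ≤ S j) → (∀ j : ZMod n, k ≤ j.val → A j ≤ S j) →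
      ∀ u, derF^[krekB m k] A u ≤ S u := by
  induction k with
  | zero => exact fun _ _ _ _ h u => h u (Nat.zero_le _)
  | succ k ih =>
    intro A S hA h0 hS hS0 hAS u
    have hkv : (k : ZMod n).val = k := ZMod.val_cast_of_lt (by omega)
    have key : ∀ r, derF^[r * (krekB m k + 1)] A k ≤ S k ⊔ brIter (A k) (A 0) r := by
      intro r
      induction r with
      | zero => rw [zero_mul]; exact le_sup_right
      | succ r ihr =>
        obtain ⟨hB, hBA⟩ := hA.iterate (r * (krekB m k + 1))
        rw [add_mul, one_mul, add_comm (r * _), Function.iterate_add_apply,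
          Function.iterate_succ_apply']
        generalize derF^[r * (krekB m k + 1)] A = B at hB hBA ihr
        have hC := ih (by omega) hB
          (le_bot_iff.1 ((brIter_mono le_rfl (hBA 0) m).trans h0.le)) (hB.krek {j | k ≤ j.val})
          (br_krek_zero hB _) fun j hj => le_krek B hj
        refine iSup_le fun i => br_le.2 fun a ha t ht => ?_
        have h2 := (mem_krek.1 (hC _ ht)).2 i a ((hB.iterate _).2 i ha)
        rw [add_sub_cancel] at h2
        refine (iSup_le ?_ : _ ≤ S k ⊔ brIter (A k) (A 0) (r + 1)) h2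
        rintro ⟨j, hj⟩
        by_cases hj' : j = k
        · simp only [hj', sub_self]
          rw [br_comm]
          refine (br_mono ihr (hBA 0)).trans ?_
          rw [br_sup_left]
          exact sup_le_sup (hS0 _) le_rfl
        have h3 : j.val ≠ k := fun h => hj' (ZMod.val_injective n (h.trans hkv.symm))
        have h4 : k ≤ j.val := hj
        have h6 := ZMod.val_lt j
        have h5 : ((k : ZMod n) - j).val = n + k - j.val := by
          rw [sub_eq_add_neg, ZMod.val_add, ZMod.neg_val, if_neg (by rintro rfl; simp at h3 h4; omega),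
            hkv, Nat.mod_eq_of_lt (by omega)]
          omega
        exact ((br_mono ((hBA _).trans (hAS (k - j) (by omega))) ((hBA _).trans (hAS j (by omega)))).trans
          ((hS _ _).trans (by rw [sub_add_cancel]))).trans le_sup_left
    obtain ⟨hB, hBA⟩ := hA.iterate (m * (krekB m k + 1))
    rw [krekB, Function.iterate_add_apply]
    refine ih (by omega) hB (le_bot_iff.1 ((brIter_mono le_rfl (hBA 0) m).trans h0.le)) hS
      (fun j => (br_mono le_rfl (hBA 0)).trans (hS0 j)) (fun j hj => ?_) u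
    rcases hj.eq_or_lt with hj | hj
    · obtain rfl : j = k := ZMod.val_injective n (hj.symm.trans hkv.symm)
      exact (key m).trans (sup_le le_rfl (((brIter_mono le_top le_rfl m).trans h0.le).trans bot_le))
    · exact (hBA j).trans (hAS j hj)

/-- **Kreknin's theorem** when the zero component acts nilpotently. -/
theorem kreknin_gen {n : ℕ} [NeZero n] {m : ℕ} {A : ZMod n → Submodule R L} (h : IsGr A)
    (h0 : brIter ⊤ (A 0) m = ⊥) : brD^[krekB m n] (⨆ i, A i) = ⊥ := by
  rw [← iSup_derF_iterate, iSup_eq_bot]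
  exact fun u => le_bot_iff.1 (kreknin_gen_aux (S := fun _ => ⊥) m n le_rfl h h0
    (fun _ _ => (br_bot_left _).le) (fun _ => (br_bot_left _).le)
    (fun j hj => absurd (ZMod.val_lt j) (by omega)) u)

theorem mem_of_coprime_smul {M : Type*} [AddCommGroup M] [Module R M] {p e : ℕ} (h : p.Coprime e)
    {x : M} (he : e • x = 0) {U : Submodule R M} (hx : p • x ∈ U) : x ∈ U := by
  obtain ⟨a, b, hab⟩ := Nat.isCoprime_iff_coprime.2 h
  have : x = a • p • x + b • e • x := by
    rw [← natCast_zsmul, ← natCast_zsmul, smul_smul, smul_smul, ← add_smul, hab, one_smul]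
  rw [this, he, smul_zero, add_zero]
  exact zsmul_mem hx a

end General

/-- Kreknin's theorem for a Lie ring with an automorphism of prime order whose fixed points act
nilpotently. -/
theorem kreknin_aut {p m e : ℕ} (hp : p.Prime) {L : Type*} [LieRing L]
    (φ : Module.End ℤ L) (hφ : ∀ x y, φ ⁅x, y⁆ = ⁅φ x, φ y⁆) (hφp : φ ^ p = 1) (hpe : p.Coprime e)
    (he : ∀ x : L, e • x = 0) {T : Submodule ℤ L}
    (hT : ∀ x, (∑ k ∈ Finset.range p, φ ^ k) x ∈ T) (hm : brIter ⊤ T m = ⊥) :
    brD^[krekB m p] (⊤ : Submodule ℤ L) = ⊥ := by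
  have : NeZero p := ⟨hp.ne_zero⟩
  obtain ⟨R, _, _, _, ω, hω⟩ := exists_cyclotomic_ring hp.ne_zero
  let Φ : Module.End R (R ⊗[ℤ] L) := Module.End.baseChangeHom ℤ R L φ
  have hΦ : ∀ x y, Φ ⁅x, y⁆ = ⁅Φ x, Φ y⁆ := baseChange_lie φ hφ
  have hΦp : Φ ^ p = 1 := by rw [← map_pow, hφp, map_one]
  have he' : ∀ x : R ⊗[ℤ] L, e • x = 0 := fun x => by
    induction x with
    | zero => simp
    | add x y h1 h2 => rw [smul_add, h1, h2, add_zero]
    | tmul a x => rw [← tmul_smul, he, tmul_zero]
  let E : Submodule ℤ L → Submodule R (R ⊗[ℤ] L) := fun U =>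
    span R ((fun x => (1 : R) ⊗ₜ[ℤ] x) '' U)
  have hE : ∀ {U : Submodule ℤ L} (a : R) {x : L}, x ∈ U → a ⊗ₜ[ℤ] x ∈ E U := fun a x hx => by
    have := smul_mem (E _) a (subset_span ⟨x, hx, rfl⟩)
    rwa [smul_tmul', smul_eq_mul, mul_one] at this
  have hbr : ∀ U V, br (E U) (E V) ≤ E (br U V) := fun U V => by
    rw [br, map₂_span_span, span_le]
    rintro _ ⟨_, ⟨x, hx, rfl⟩, _, ⟨y, hy, rfl⟩, rfl⟩
    change ⁅(1 : R) ⊗ₜ[ℤ] x, (1 : R) ⊗ₜ[ℤ] y⁆ ∈ _
    rw [LieAlgebra.ExtendScalars.bracket_tmul]
    exact hE _ (lie_mem_br hx hy)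
  have hEt : ⊤ ≤ E ⊤ := fun x _ => by
    induction x with
    | zero => exact zero_mem _
    | add x y h1 h2 => exact add_mem (h1 trivial) (h2 trivial)
    | tmul a x => exact hE a trivial
  have hit : ∀ k, brIter ⊤ (E T) k ≤ E (brIter ⊤ T k) := fun k => by
    induction k with
    | zero => exact hEt
    | succ k ih => exact (br_mono ih le_rfl).trans (hbr _ _)
  have hA0 : Φ.eigenspace (ω ^ (0 : ZMod p).val) ≤ E T := fun x hx => by
    rw [ZMod.val_zero, pow_zero, Module.End.mem_eigenspace_iff, one_smul] at hx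
    refine mem_of_coprime_smul hpe (he' x) ?_
    have h2 : (∑ k ∈ Finset.range p, Φ ^ k) x = p • x := by
      rw [LinearMap.sum_apply, Finset.sum_congr rfl fun k _ =>
        Module.End.pow_apply Φ k x ▸ Function.iterate_fixed hx k, Finset.sum_const,
        Finset.card_range]
    rw [← h2]
    simp only [Φ, ← map_pow, ← map_sum]
    generalize x = y
    induction y with
    | zero => rw [map_zero]; exact zero_mem _
    | add x y h1 h2 => rw [map_add]; exact add_mem h1 h2
    | tmul a x => exact hE a (hT x)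
  have h1 := kreknin_gen (m := m) (isGr_eigenspace hω.pow_eq_one Φ hΦ) (le_bot_iff.1
    (((brIter_mono le_rfl hA0 m).trans (hit m)).trans (by
      rw [hm, span_le]
      rintro _ ⟨x, hx, rfl⟩
      rw [(mem_bot ℤ).1 hx]
      exact tmul_zero _ _)))
  have h2 : (⨆ j : ZMod p, Φ.eigenspace (ω ^ j.val)) = ⊤ := eq_top_iff.2 fun x _ =>
    mem_of_coprime_smul hpe (he' x) (smul_mem_iSup_eigenspace hp hω Φ hΦp x)
  rw [h2] at h1
  have h3 : ∀ r, ∀ y ∈ brD^[r] (⊤ : Submodule ℤ L),
      (1 : R) ⊗ₜ[ℤ] y ∈ brD^[r] (⊤ : Submodule R (R ⊗[ℤ] L)) := by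
    intro r
    induction r with
    | zero => exact fun _ _ => trivial
    | succ r ih =>
      rw [Function.iterate_succ_apply', Function.iterate_succ_apply']
      have : brD (brD^[r] (⊤ : Submodule ℤ L)) ≤ ((brD (brD^[r]
          (⊤ : Submodule R (R ⊗[ℤ] L)))).restrictScalars ℤ).comap (TensorProduct.mk ℤ R L 1) :=
        br_le.2 fun u hu v hv => by
          have h1 := lie_mem_br (ih u hu) (ih v hv)
          rwa [LieAlgebra.ExtendScalars.bracket_tmul, mul_one] at h1
      exact fun y hy => this hy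
  refine eq_bot_iff.2 fun y hy => ?_
  have h4 := h3 _ y hy
  rw [h1, mem_bot] at h4
  exact Module.FaithfullyFlat.tensorProduct_mk_injective (A := ℤ) (B := R) L
    (h4.trans (map_zero _).symm)

end Cfsg.Agent.H88
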