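import Mathlib
import Cfsg.Agent.H89.L27Defs

/-!
# Sign vectors among the fixed points of a subgroup of index at most two
-/

set_option autoImplicit false

namespace Cfsg.Agent.H88.L27Eig

open Module Cfsg.Agent.H89.L27

theorem gen {W Γ : Type} [AddCommGroup W] [Module (ZMod 3) W] [FiniteDimensional (ZMod 3) W]
    [Group Γ] [Finite Γ] (ρ : Γ →* Module.End (ZMod 3) W) (S : Subgroup Γ) (hN : S.Normal)
    (hc : Nat.card Γ ≤ 2 * Nat.card S) (Z : Submodule (ZMod 3) W)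
    (hZ : ∀ v, v ∈ Z ↔ ∀ s ∈ S, ρ s v = v) : ∃ Z' : Submodule (ZMod 3) W,
    finrank (ZMod 3) Z ≤ 2 * finrank (ZMod 3) Z' ∧ Z' ≤ Z ∧
      ∀ v ∈ Z', ∀ g, ρ g v = v ∨ ρ g v = -v := by
  by_cases hS : ∀ g, g ∈ S
  · exact ⟨Z, by omega, le_rfl, fun v hv g => Or.inl ((hZ v).1 hv g (hS g))⟩
  push Not at hS
  obtain ⟨t, ht⟩ := hS
  have h2 : S.index = 2 := by
    have h0 : S.index ≠ 0 := Subgroup.index_ne_zero_of_finite
    have h1 : S.index ≠ 1 := fun h => ht (by rw [Subgroup.index_eq_one.1 h]; trivial)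
    rw [← S.index_mul_card] at hc
    have := Nat.le_of_mul_le_mul_right hc Nat.card_pos
    omega
  have hm : ∀ a b : Γ, ∀ v, ρ a (ρ b v) = ρ (a * b) v := fun a b v => by
    rw [map_mul, Module.End.mul_apply]
  have hg : ∀ v ∈ Z, ∀ g, ρ g v = v ∨ ρ g v = ρ t v := fun v hv g => by
    by_cases h : g ∈ S
    · exact Or.inl ((hZ v).1 hv g h)
    · have : t⁻¹ * g ∈ S := (Subgroup.mul_mem_iff_of_index_two h2).2 (by simp [ht, h])
      have h' := congrArg (ρ t) ((hZ v).1 hv _ this)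
      rw [hm, mul_inv_cancel_left] at h'
      exact Or.inr h'
  have htZ : ∀ v ∈ Z, ρ t v ∈ Z := fun v hv => (hZ _).2 fun s hs => by
    have : t⁻¹ * s * t⁻¹⁻¹ ∈ S := hN.conj_mem s hs _
    have h' := congrArg (ρ t) ((hZ v).1 hv _ this)
    rw [hm, show t * (t⁻¹ * s * t⁻¹⁻¹) = s * t by group, ← hm] at h'
    exact h'
  have htt : ∀ v ∈ Z, ρ t (ρ t v) = v := fun v hv => by
    rw [hm, (hZ v).1 hv _ ((Subgroup.mul_mem_iff_of_index_two h2).2 Iff.rfl)]
  have hle : Z ≤ (Z ⊓ LinearMap.ker (ρ t - 1)) ⊔ (Z ⊓ LinearMap.ker (ρ t + 1)) := fun v hv => by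
    have h3 : ∀ w : W, w + w + w = 0 := fun w => by
      have : (3 : ZMod 3) • w = 0 := by rw [show (3 : ZMod 3) = 0 from rfl, zero_smul]
      rw [← this]; module
    refine Submodule.mem_sup.2 ⟨-(v + ρ t v), ⟨Z.neg_mem (Z.add_mem hv (htZ v hv)), ?_⟩,
      -(v - ρ t v), ⟨Z.neg_mem (Z.sub_mem hv (htZ v hv)), ?_⟩, ?_⟩
    · simp [htt v hv, add_comm]
    · simp [htt v hv]
    · rw [← sub_eq_zero, ← neg_eq_zero, ← h3 v]; abel
  have hd := (Submodule.finrank_mono hle).trans (Submodule.finrank_add_le_finrank_add_finrank _ _)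
  rcases le_total (finrank (ZMod 3) (Z ⊓ LinearMap.ker (ρ t - 1) : Submodule _ W))
    (finrank (ZMod 3) (Z ⊓ LinearMap.ker (ρ t + 1) : Submodule _ W)) with h | h
  · refine ⟨Z ⊓ LinearMap.ker (ρ t + 1), by omega, inf_le_left, fun v hv g => ?_⟩
    have : ρ t v = -v := by simpa [add_eq_zero_iff_eq_neg] using hv.2
    exact (hg v hv.1 g).imp id fun h => h.trans this
  · refine ⟨Z ⊓ LinearMap.ker (ρ t - 1), by omega, inf_le_left, fun v hv g => ?_⟩
    have : ρ t v = v := by simpa [sub_eq_zero] using hv.2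
    exact Or.inl ((hg v hv.1 g).elim id fun h => h.trans this)

theorem eigS : EigStmt := fun _ _ _ ρ S hN hc Z hZ => gen ρ S hN hc Z hZ

end Cfsg.Agent.H88.L27Eig
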