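import Mathlib
import Cfsg.Agent.H50.L81Defs

/-! Vectors fixed by the Borel subgroup of `SL₂(81)`. -/

set_option autoImplicit false

namespace Cfsg.Agent.H88.L81Bfix

open Cfsg.Agent.H50.L81 H82 H50.SL2S H50.E83 Finset
open scoped MatrixGroups

theorem bru (g : SL) : g ∈ BB F ∨ ∃ t, ∃ b ∈ BB F, g = uu t * ww F * b := by
  by_cases hg : g ∈ BB F
  · exact Or.inl hg
  · refine Or.inr ⟨g 0 0 * (g 1 0)⁻¹, (uu (g 0 0 * (g 1 0)⁻¹) * ww F)⁻¹ * g, ?_, ?_⟩
    · rw [mem_BB] at hg ⊢
      simp only [ent, ent2]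
      field_simp
      ring
    · rw [mul_inv_cancel_left]

theorem six {W : Type} [AddCommGroup W] [Module K W] (ρ : SL →* Module.End K W) (q : W)
    (hq : q ∈ Fx ρ (BB F)) : q + ∑ t : F, ρ (uu t * ww F) q ∈ Fx ρ Set.univ := by
  replace hq : ∀ g ∈ BB F, ρ g q = q := hq
  have app : ∀ (g h : SL) (v : W), ρ g (ρ h v) = ρ (g * h) v := fun g h v => by
    rw [map_mul, Module.End.mul_apply]
  set v := q + ∑ t : F, ρ (uu t * ww F) q with hv
  have hu : ∀ s, ρ (uu s) v = v := fun s => by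
    rw [hv, map_add, map_sum, hq _ (UU_le_BB (uu_mem s))]
    congr 1
    refine Fintype.sum_equiv (Equiv.addLeft s) _ _ fun t => ?_
    rw [app, ← mul_assoc, ← uu_add]
    rfl
  have hw : ρ (ww F) v = v := by
    have h0 : ρ (ww F * (uu 0 * ww F)) q = q := hq _ (by rw [mem_BB]; simp only [ent, ent2])
    have h1 : ∀ t : F, t ≠ 0 → ρ (ww F * (uu t * ww F)) q = ρ (uu (-t⁻¹) * ww F) q := by
      intro t ht
      have hb : (uu (-t⁻¹) * ww F)⁻¹ * (ww F * (uu t * ww F)) ∈ BB F := by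
        rw [mem_BB]
        simp only [ent, ent2]
        field_simp
        ring
      conv_rhs => rw [← hq _ hb, app, mul_inv_cancel_left]
    have h2 : ∑ t : F, ρ (uu (-t⁻¹) * ww F) q = ∑ t : F, ρ (uu t * ww F) q :=
      Fintype.sum_equiv ((Equiv.inv F).trans (Equiv.neg F)) _ _ fun t => rfl
    rw [hv, map_add, map_sum]
    conv_rhs => rw [← h2]
    simp only [app]
    rw [← add_sum_erase _ _ (mem_univ (0 : F)), ← add_sum_erase _ _ (mem_univ (0 : F)), h0,
      sum_congr rfl fun t ht => h1 t (ne_of_mem_erase ht), inv_zero, neg_zero, uu_zero, one_mul,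
      add_left_comm]
  intro g _
  refine SL2_ind (fun g => ρ g v = v) hu (fun t => ?_) (fun a b ha hb => ?_) g
  · have e : ll t * ww F = ww F * uu (-t) := by apply SL2_ext <;> simp only [ent, ent2] <;> ring
    show ρ (ll t) v = v
    conv_lhs => rw [← hw, app, e, ← app, hu, hw]
  · show ρ (a * b) v = v
    rw [← app, hb, ha]

theorem aop_fix (p : Par) {W : Type} [AddCommGroup W] [Module K W] (ρ : SL →* Module.End K W)
    {v : W} (hv : ∀ t, ρ (uu t) v = v) {c : ℕ} (hc : c ≠ 0) : Aop ρ p c v = 0 := by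
  have : ∑ t : F, p.κ t ^ (80 - c) = 0 := by
    simp only [← map_pow, ← map_sum]
    rw [FiniteField.sum_pow_lt_card_sub_one _ _ (by rw [card_F]; omega), map_zero]
  simp only [Aop, if_neg hc, LinearMap.neg_apply, LinearMap.sum_apply, LinearMap.smul_apply, hv,
    ← sum_smul, this, zero_smul, neg_zero]

theorem choose_ne {k : ℕ} (hk : k ≤ 80) : ((Nat.choose 80 k : ℕ) : K) ≠ 0 := by
  have : ∀ k ≤ 80, ¬ 3 ∣ Nat.descFactorial 80 k / k.factorial := by decide +kernel
  rw [Ne, CharP.cast_eq_zero_iff K 3, Nat.choose_eq_descFactorial_div_factorial]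
  exact this k hk

theorem bfix (hP : ParStmt) (hM : MonoStmt) (hA : MonaStmt) (hS : SerStmt) (hO : AopStmt) :
    BfixStmt := by
  intro p W _ _ _ ρ hρ h0 h80
  obtain ⟨s1, -, s3⟩ := hS p W ρ hρ
  obtain ⟨o1, o2, -, -, -, -, -, -, o9, -⟩ := hO p W ρ hρ
  obtain ⟨⟨cf, hcf⟩, m2⟩ := hM p
  refine (Submodule.eq_bot_iff _).2 fun q hq => by_contra fun hq0 => ?_
  have app : ∀ (g h : SL) (v : W), ρ g (ρ h v) = ρ (g * h) v := fun g h v => by
    rw [map_mul, Module.End.mul_apply]
  have e80 : Aop ρ p 80 (ρ (ww F) q) = q := by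
    have := six ρ q hq
    rw [h0, Submodule.mem_bot, add_eq_zero_iff_eq_neg] at this
    conv_rhs => rw [this]
    simp only [Aop, if_neg (show 80 ≠ 0 by decide), Nat.sub_self, pow_zero, one_smul,
      LinearMap.neg_apply, LinearMap.sum_apply, app]
  let P := Submodule.span K (Set.range fun g => ρ g q)
  have hI : Inv ρ P := fun g v hv => by
    refine (Submodule.span_le (p := P.comap (ρ g))).2 ?_ hv
    rintro _ ⟨h, rfl⟩
    exact Submodule.subset_span ⟨g * h, (app g h q).symm⟩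
  have key : ∀ v ∈ P, (∀ t, ρ (uu t) v = v) → ∃ a : K, v = a • q := fun v hv hu => by
    obtain ⟨α, rfl⟩ : v ∈ LinearMap.range (∑ c ∈ range 81,
        (LinearMap.proj c : (ℕ → K) →ₗ[K] K).smulRight (Aop ρ p c (ρ (ww F) q))) := by
      refine Submodule.span_le.2 ?_ hv
      rintro _ ⟨g, rfl⟩
      rcases bru g with h | ⟨t, b, hb, rfl⟩
      · exact ⟨Pi.single 80 1, by simp [Pi.single_apply, e80, hq g h]⟩
      · exact ⟨fun c => p.κ t ^ c, by simp [hq b hb, o1, LinearMap.sum_apply]⟩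
    simp only [LinearMap.sum_apply, LinearMap.smulRight_apply, LinearMap.proj_apply] at hu ⊢
    have z : ∀ c, c < 80 → α c = 0 := fun c => c.strong_induction_on fun c ih hc => by
      have := aop_fix p ρ hu (c := 80 - c) (by omega)
      rw [map_sum, sum_eq_single c (fun d hd hne => ?_) (by simp; omega), map_smul,
        ← Module.End.mul_apply, o2 _ (by omega) _ hc.le, Nat.sub_add_cancel hc.le, if_pos le_rfl,
        LinearMap.smul_apply, e80] at this
      · simpa [hq0, choose_ne (Nat.sub_le 80 c)] using this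
      · rcases lt_or_gt_of_ne hne with h | h
        · rw [ih d h (by omega), zero_smul, map_zero]
        · rw [map_smul, ← Module.End.mul_apply, o2 _ (by omega) _ (by simp at hd; omega),
            if_neg (by omega), LinearMap.zero_apply, smul_zero]
    exact ⟨α 80, by
      rw [sum_range_succ, e80, sum_eq_zero fun c hc => by rw [z c (mem_range.1 hc), zero_smul],
        zero_add]⟩
  obtain ⟨U, r, st, hU⟩ := s1 ⊥ P (fun g v hv => by simp [(Submodule.mem_bot K).1 hv]) hI
    (bot_lt_iff_ne_bot.2 fun e => hq0 ((Submodule.eq_bot_iff _).1 e q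
      (Submodule.subset_span ⟨1, by simp⟩)))
  obtain ⟨hr, ev, -, iU, Φ, f1, f2, f3⟩ := id st
  have : mono p r 0 ∈ U.map Φ := f2 ▸ ((m2 r hr).1 _).2 ⟨Pi.single 0 1, by
    simp [Pi.single_apply, JJ]⟩
  obtain ⟨v, hv, e⟩ := this
  have fx : ∀ g, reg g (mono p r 0) = mono p r 0 → ρ g v = v := fun g h => sub_eq_zero.1
    ((f3 _ (sub_mem (iU g v hv) hv)).1 (by rw [map_sub, f1 g v hv, e, h, sub_self]))
  have m0 : mono p r 0 ≠ 0 := fun h => by simpa [h] using hcf r hr 0 r.zero_le 0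
  obtain ⟨a1, -, -, -, a5⟩ := hA p r hr 0 r.zero_le
  obtain ⟨a, ha⟩ := key v (hU hv) fun t => fx _ (by simp [a1])
  have h1 : reg (t0 p) (mono p r 0) = mono p r 0 := by
    have := Module.End.mem_eigenspace_iff.1 ((o9 q).1 hq).2
    rw [← e, ← f1 _ v hv, ha, map_smul, this, pow_zero, one_smul]
  have h2 := Module.End.mem_eigenspace_iff.1 (a5 ev)
  rw [h1, eq_comm, ← sub_eq_zero, ← one_smul K (mono p r 0), smul_smul, mul_one, ← sub_smul,
    smul_eq_zero, sub_eq_zero, ← Units.val_pow_eq_pow_val, Units.val_eq_one,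
    (hP.2.2.2 p).2.2.2.2.2.2.1.pow_eq_one_iff_dvd] at h2
  obtain rfl | rfl : r = 0 ∨ r = 80 := by
    have := h2.resolve_right m0
    obtain ⟨k, rfl⟩ := ev
    omega
  · have : v ∈ Fx ρ Set.univ := fun g _ => fx g (by simp [mono, reg_apply])
    rw [h0, Submodule.mem_bot] at this
    exact m0 (by rw [← e, this, map_zero])
  · obtain ⟨L, hL⟩ := s3 U [80] ⊤ (Ser.cons Ser.nil st) le_top fun _ _ _ => trivial
    exact h80 _ hL (by simp)

end Cfsg.Agent.H88.L81Bfix
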