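import Mathlib
import Cfsg.Agent.H88.Kreknin
import Cfsg.Agent.H88.Tower
import Cfsg.Agent.H90.LieGroup

/-! The Lie ring of the lower central series of a subgroup of an ambient group. -/

set_option autoImplicit false

namespace Cfsg.Agent.H88

open Cfsg.Agent.H63 Cfsg.Agent.H67 Cfsg.Agent.H69 Cfsg.Agent.H90 Subgroup
open scoped commutatorElement

variable {Γ : Type*} [Group Γ] {N : Subgroup Γ}

/-- The Lie ring of the subgroup `N`. -/
abbrev LieN (N : Subgroup Γ) := (lcsSeries N).Lie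

open Classical in
/-- The class of an element of the `i`-th term of the lower central series. -/
noncomputable def cl (N : Subgroup Γ) (i : ℕ) (x : Γ) : LieN N :=
  if h : x ∈ N then (lcsSeries N).cls i ⟨x, h⟩ else 0

theorem lcs_le_self (N : Subgroup Γ) (i : ℕ) : N.lowerCentralSeries i ≤ N :=
  N.lowerCentralSeries_antitone (Nat.zero_le i)

theorem mem_lcs_coe {i : ℕ} {x : N} :
    x ∈ (lcsSeries N).N i ↔ (x : Γ) ∈ N.lowerCentralSeries i := by
  rw [← top_subtype_lowerCentralSeries]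
  exact (mem_map_iff_mem N.subtype_injective).symm

theorem cl_coe (i : ℕ) (x : N) : cl N i x = (lcsSeries N).cls i x := dif_pos x.2

theorem cl_mul {i : ℕ} {x y : Γ} (hx : x ∈ N.lowerCentralSeries i)
    (hy : y ∈ N.lowerCentralSeries i) : cl N i (x * y) = cl N i x + cl N i y := by
  lift x to N using lcs_le_self N i hx
  lift y to N using lcs_le_self N i hy
  rw [← coe_mul, cl_coe, cl_coe, cl_coe, NSeries.cls_mul (mem_lcs_coe.2 hx) (mem_lcs_coe.2 hy)]

theorem cl_eq_zero_iff {i : ℕ} {x : Γ} (hx : x ∈ N.lowerCentralSeries i) :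
    cl N i x = 0 ↔ x ∈ N.lowerCentralSeries (i + 1) := by
  lift x to N using lcs_le_self N i hx
  rw [cl_coe, NSeries.cls_eq_zero_iff (mem_lcs_coe.2 hx), mem_lcs_coe]

theorem cl_one (i : ℕ) : cl N i 1 = 0 := (cl_eq_zero_iff (one_mem _)).2 (one_mem _)

theorem cl_inv {i : ℕ} {x : Γ} (hx : x ∈ N.lowerCentralSeries i) : cl N i x⁻¹ = -cl N i x := by
  rw [eq_neg_iff_add_eq_zero, ← cl_mul (inv_mem hx) hx, inv_mul_cancel, cl_one]

theorem comm_mem_lcs {i j : ℕ} {x y : Γ} (hx : x ∈ N.lowerCentralSeries i)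
    (hy : y ∈ N.lowerCentralSeries j) : ⁅x, y⁆ ∈ N.lowerCentralSeries (i + j + 1) :=
  commutator_lcs_lcs_le N i j (commutator_mem_commutator hx hy)

theorem lie_cl {i j : ℕ} {x y : Γ} (hx : x ∈ N.lowerCentralSeries i)
    (hy : y ∈ N.lowerCentralSeries j) : ⁅cl N i x, cl N j y⁆ = cl N (i + j + 1) ⁅x, y⁆ := by
  lift x to N using lcs_le_self N i hx
  lift y to N using lcs_le_self N j hy
  rw [cl_coe, cl_coe, NSeries.lie_cls (mem_lcs_coe.2 hx) (mem_lcs_coe.2 hy), ← cl_coe]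
  rfl

theorem cl_mem_brIter {i : ℕ} {x : Γ} (hx : x ∈ N.lowerCentralSeries i) :
    cl N i x ∈ brIter (⊤ : Submodule ℤ (LieN N)) ⊤ i := by
  lift x to N using lcs_le_self N i hx
  rw [cl_coe]
  exact cls_mem_brIter i (mem_lcs_coe.2 hx)

theorem top_le_of_cl {T : Submodule ℤ (LieN N)}
    (h : ∀ i, ∀ x ∈ N.lowerCentralSeries i, cl N i x ∈ T) : ⊤ ≤ T := fun v _ =>
  NSeries.induction_on (P := fun v => v ∈ T) v
    (fun i x hx => cl_coe i x ▸ h i x (mem_lcs_coe.1 hx)) fun _ _ => add_mem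

theorem card_smul_lieN (v : LieN N) : Nat.card N • v = 0 :=
  NSeries.induction_on (P := fun v => Nat.card N • v = 0) v
    (fun i x hx => by rw [← NSeries.cls_pow hx, pow_card_eq_one', NSeries.cls_one])
    fun _ _ h1 h2 => by rw [smul_add, h1, h2, add_zero]

theorem lcs_eq_bot_of_brIter (hN : Group.IsNilpotent N) {g : ℕ}
    (h : brIter (⊤ : Submodule ℤ (LieN N)) ⊤ g = ⊥) : N.lowerCentralSeries g = ⊥ := by
  obtain ⟨n, hn⟩ := (isNilpotent_iff_lowerCentralSeries N).1 hN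
  have h1 : N.lowerCentralSeries g ≤ N.lowerCentralSeries (g + 1) := fun x hx =>
    (cl_eq_zero_iff hx).1 (h.le (cl_mem_brIter hx))
  have h2 : ∀ j, N.lowerCentralSeries (g + j) ≤ N.lowerCentralSeries (g + j + 1) := fun j => by
    induction j with
    | zero => exact h1
    | succ j ih => exact commutator_mono ih le_rfl
  have h3 : ∀ j, N.lowerCentralSeries g ≤ N.lowerCentralSeries (g + j) := fun j => by
    induction j with
    | zero => exact le_rfl
    | succ j ih => exact ih.trans (h2 j)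
  exact le_bot_iff.1 ((h3 n).trans ((N.lowerCentralSeries_antitone (by omega)).trans hn.le))

/-- The elements of the `i`-th term whose class lies in `T`. -/
def clPre (N : Subgroup Γ) (i : ℕ) (T : Submodule ℤ (LieN N)) : Subgroup Γ where
  carrier := {x | x ∈ N.lowerCentralSeries i ∧ cl N i x ∈ T}
  one_mem' := ⟨one_mem _, by rw [cl_one]; exact zero_mem _⟩
  mul_mem' := fun h1 h2 => ⟨mul_mem h1.1 h2.1, by rw [cl_mul h1.1 h2.1]; exact add_mem h1.2 h2.2⟩
  inv_mem' := fun h => ⟨inv_mem h.1, by rw [cl_inv h.1]; exact neg_mem h.2⟩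

/-- The image of `P` in the `i`-th homogeneous component. -/
noncomputable def gr (N : Subgroup Γ) (i : ℕ) (P : Subgroup Γ) : Submodule ℤ (LieN N) :=
  Submodule.span ℤ (cl N i '' (P ⊓ N.lowerCentralSeries i : Subgroup Γ))

theorem cl_mem_gr {i : ℕ} {P : Subgroup Γ} {x : Γ} (hx : x ∈ P) (hx' : x ∈ N.lowerCentralSeries i) :
    cl N i x ∈ gr N i P := Submodule.subset_span ⟨x, ⟨hx, hx'⟩, rfl⟩

theorem gr_le {i : ℕ} {P : Subgroup Γ} {T : Submodule ℤ (LieN N)} :
    gr N i P ≤ T ↔ ∀ x ∈ P, x ∈ N.lowerCentralSeries i → cl N i x ∈ T := by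
  rw [gr, Submodule.span_le]
  exact ⟨fun h x h1 h2 => h ⟨x, ⟨h1, h2⟩, rfl⟩, by rintro h _ ⟨x, hx, rfl⟩; exact h x hx.1 hx.2⟩

theorem gr_le_of_le_clPre {i : ℕ} {P : Subgroup Γ} {T : Submodule ℤ (LieN N)}
    (h : P ≤ clPre N i T) : gr N i P ≤ T := gr_le.2 fun _ hx _ => (h hx).2

theorem le_clPre {i : ℕ} {P : Subgroup Γ} {T : Submodule ℤ (LieN N)}
    (hP : P ≤ N.lowerCentralSeries i) (h : gr N i P ≤ T) : P ≤ clPre N i T :=
  fun _ hx => ⟨hP hx, h (cl_mem_gr hx (hP hx))⟩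

theorem gr_mono {i : ℕ} {P Q : Subgroup Γ} (h : P ≤ Q) : gr N i P ≤ gr N i Q :=
  gr_le.2 fun _ hx hx' => cl_mem_gr (h hx) hx'

theorem gr_bot (i : ℕ) : gr N i ⊥ = ⊥ :=
  le_bot_iff.1 (gr_le.2 fun x hx _ => by rw [mem_bot.1 hx, cl_one]; exact zero_mem _)

theorem br_gr_le (i j : ℕ) (P Q : Subgroup Γ) :
    br (gr N i P) (gr N j Q) ≤ gr N (i + j + 1) ⁅P, Q⁆ := by
  rw [br, gr, gr, Submodule.map₂_span_span, Submodule.span_le]
  rintro _ ⟨_, ⟨x, hx, rfl⟩, _, ⟨y, hy, rfl⟩, rfl⟩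
  change ⁅cl N i x, cl N j y⁆ ∈ _
  rw [lie_cl hx.2 hy.2]
  exact cl_mem_gr (commutator_mem_commutator hx.1 hy.1) (comm_mem_lcs hx.2 hy.2)

theorem gr_commutator_le {i j : ℕ} {P Q : Subgroup Γ} (hP : P ≤ N.lowerCentralSeries i)
    (hQ : Q ≤ N.lowerCentralSeries j) :
    gr N (i + j + 1) ⁅P, Q⁆ ≤ br (gr N i P) (gr N j Q) :=
  gr_le_of_le_clPre (commutator_le.2 fun x hx y hy => ⟨comm_mem_lcs (hP hx) (hQ hy), by
    rw [← lie_cl (hP hx) (hQ hy)]
    exact lie_mem_br (cl_mem_gr hx (hP hx)) (cl_mem_gr hy (hQ hy))⟩)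

/-- The subring corresponding to a subgroup. -/
noncomputable def grAll (N P : Subgroup Γ) : Submodule ℤ (LieN N) := ⨆ i, gr N i P

theorem br_grAll_le (P Q : Subgroup Γ) : br (grAll N P) (grAll N Q) ≤ grAll N ⁅P, Q⁆ := by
  rw [grAll, grAll, br_iSup_left]
  refine iSup_le fun i => ?_
  rw [br_iSup_right]
  exact iSup_le fun j => le_iSup_of_le _ (br_gr_le i j P Q)

/-- `[P, K, …, K]` with `s` copies of `K`. -/
def cIter (P K : Subgroup Γ) : ℕ → Subgroup Γ
  | 0 => P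
  | s + 1 => ⁅cIter P K s, K⁆

theorem cIter_mono {P P' K K' : Subgroup Γ} (h : P ≤ P') (h' : K ≤ K') (s : ℕ) :
    cIter P K s ≤ cIter P' K' s := by
  induction s with
  | zero => exact h
  | succ s ih => exact commutator_mono ih h'

theorem cIter_succ_le {P K : Subgroup Γ} (h : P ≤ N[K]) (s : ℕ) :
    cIter P K (s + 1) ≤ K.lowerCentralSeries s := by
  induction s with
  | zero => exact le_normalizer_iff_commutator_le_right.1 h
  | succ s ih => exact commutator_mono ih le_rfl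

theorem brIter_grAll_eq_bot {P K : Subgroup Γ} {c : ℕ} (h : cIter P K c = ⊥) :
    brIter (grAll N P) (grAll N K) c = ⊥ := by
  have : ∀ s, brIter (grAll N P) (grAll N K) s ≤ grAll N (cIter P K s) := fun s => by
    induction s with
    | zero => exact le_rfl
    | succ s ih => exact (br_mono ih le_rfl).trans (br_grAll_le _ _)
  refine le_bot_iff.1 ((this c).trans ?_)
  rw [h]
  exact iSup_le fun i => (gr_bot i).le

theorem brIter_iSup_left {R L : Type*} [CommRing R] [LieRing L] [LieAlgebra R L] {ι : Sort*}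
    (U : ι → Submodule R L) (V : Submodule R L) (s : ℕ) :
    brIter (⨆ i, U i) V s = ⨆ i, brIter (U i) V s := by
  induction s with
  | zero => rfl
  | succ s ih => rw [brIter, ih, br_iSup_left]; rfl

theorem le_normalizer_lcs {A : Subgroup Γ} (h : A ≤ N[N]) (i : ℕ) :
    A ≤ N[N.lowerCentralSeries i] := by
  induction i with
  | zero => exact h
  | succ i ih => exact le_normalizer_commutator ih h

/-- Conjugation by an element of the normaliser. -/
def conjN {a : Γ} (ha : a ∈ N[N]) : N →* N :=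
  ((MulAut.conj a).toMonoidHom.comp N.subtype).codRestrict N
    fun x => (mem_normalizer_iff.1 ha x).1 x.2

/-- The automorphism of the Lie ring induced by conjugation. -/
noncomputable def conjEnd {a : Γ} (ha : a ∈ N[N]) : Module.End ℤ (LieN N) :=
  NSeries.mapEnd (s := lcsSeries N) (conjN ha) (map_mem_lcs _)

theorem conjEnd_lie {a : Γ} (ha : a ∈ N[N]) (u v : LieN N) :
    conjEnd ha ⁅u, v⁆ = ⁅conjEnd ha u, conjEnd ha v⁆ := NSeries.mapEnd_lie _ _ u v

theorem conjEnd_cl {a : Γ} (ha : a ∈ N[N]) {i : ℕ} {x : Γ} (hx : x ∈ N.lowerCentralSeries i) :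
    conjEnd ha (cl N i x) = cl N i (a * x * a⁻¹) := by
  lift x to N using lcs_le_self N i hx
  rw [cl_coe]
  exact (NSeries.mapEnd_cls (s := lcsSeries N) (conjN ha) (map_mem_lcs _) (mem_lcs_coe.2 hx)).trans
    (cl_coe i _).symm

theorem conj_mem_lcs {a : Γ} (ha : a ∈ N[N]) {i : ℕ} {x : Γ} (hx : x ∈ N.lowerCentralSeries i) :
    a * x * a⁻¹ ∈ N.lowerCentralSeries i :=
  (mem_normalizer_iff.1 (le_normalizer_lcs le_rfl i ha) x).1 hx

theorem conjEnd_pow_cl {a : Γ} (ha : a ∈ N[N]) (k : ℕ) {i : ℕ} {x : Γ}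
    (hx : x ∈ N.lowerCentralSeries i) :
    (conjEnd ha ^ k) (cl N i x) = cl N i (a ^ k * x * (a ^ k)⁻¹) := by
  induction k with
  | zero => simp
  | succ k ih =>
    rw [pow_succ', Module.End.mul_apply, ih, conjEnd_cl ha (conj_mem_lcs (pow_mem ha k) hx)]
    congr 1
    group

theorem conjEnd_pow_eq_one {a : Γ} (ha : a ∈ N[N]) {p : ℕ} (hp : a ^ p = 1) :
    conjEnd ha ^ p = 1 := NSeries.end_ext fun i x hx => by
  rw [← cl_coe, conjEnd_pow_cl ha p (mem_lcs_coe.1 hx), hp]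
  simp

theorem gr_le_comap_trace [Finite Γ] {a : Γ} (ha : a ∈ N[N]) {p : ℕ} (hp : a ^ p = 1) {i : ℕ}
    {P : Subgroup Γ} (hP : P ≤ N.lowerCentralSeries i) (haP : a ∈ N[P])
    (hc : (orderOf a).Coprime (Nat.card P)) :
    gr N i P ≤ (gr N i (P ⊓ C1[a])).comap (∑ k ∈ Finset.range p, conjEnd ha ^ k) := by
  have h1 : (∑ k ∈ Finset.range p, conjEnd ha ^ k) * conjEnd ha =
      ∑ k ∈ Finset.range p, conjEnd ha ^ k := by
    have := geom_sum_mul (conjEnd ha) p
    rwa [conjEnd_pow_eq_one ha hp, sub_self, mul_sub, mul_one, sub_eq_zero] at this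
  have h2 : ∀ j, (∑ k ∈ Finset.range p, conjEnd ha ^ k) * conjEnd ha ^ j =
      ∑ k ∈ Finset.range p, conjEnd ha ^ k := fun j => by
    induction j with
    | zero => rw [pow_zero, mul_one]
    | succ j ih => rw [pow_succ, ← mul_assoc, ih, h1]
  have h3 := (coprime_cent_prod (A := zpowers a) (K := P) (zpowers_le.2 haP)
    (by rwa [Nat.card_zpowers]) (Or.inl inferInstance)).sup_eq
  refine gr_le_of_le_clPre (h3.ge.trans (sup_le (commutator_le.2 fun x hx b hb => ?_)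
    fun x hx => ⟨hP hx.1, ?_⟩))
  · obtain ⟨j, rfl⟩ := mem_powers_iff_mem_zpowers.2 hb
    have h4 := conj_mem_lcs (pow_mem ha j) (inv_mem (hP hx))
    have h5 : ⁅x, a ^ j⁆ = x * (a ^ j * x⁻¹ * (a ^ j)⁻¹) := by
      simp only [commutatorElement_def, mul_assoc]
    refine ⟨h5 ▸ mul_mem (hP hx) h4, ?_⟩
    rw [h5, cl_mul (hP hx) h4, ← conjEnd_pow_cl ha j (inv_mem (hP hx)), Submodule.mem_comap, map_add,
      ← Module.End.mul_apply, h2, ← map_add, cl_inv (hP hx), add_neg_cancel, map_zero]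
    exact zero_mem _
  · have h4 : x * a = a * x := (mem_centralizer_iff.1 hx.2 a (mem_zpowers a)).symm
    rw [Submodule.mem_comap, LinearMap.sum_apply]
    refine sum_mem fun k _ => ?_
    rw [conjEnd_pow_cl ha k (hP hx.1), ((Commute.pow_right h4 k).symm).eq, mul_inv_cancel_right]
    exact cl_mem_gr ⟨hx.1, mem_centralizer_singleton_iff.2 h4⟩ (hP hx.1)

end Cfsg.Agent.H88
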