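import Mathlib
import Cfsg.Agent.H54.O84Defs

/-!
# The transversal covers the stabiliser of `D₄ D₄`
-/

set_option autoImplicit false

namespace Cfsg.Agent.H88.O84Cover

open Cfsg.Agent.H54.O84 Equiv Cfsg.Lie H37 H40 H34 H29

theorem wj_le : C8.S.WJ J ≤ WS Δ0 := Subgroup.closure_mono (by
  rintro _ ⟨j, hj, rfl⟩
  exact ⟨_, C8.S.α_mem_Phi hj, C8.R.τ_simple j⟩)

theorem fix1 {y : Perm Rt} (hy : y ∈ WS Δ0) {s : Rt} (hs : s ∈ Δ1) : y s = s := by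
  have : WS Δ0 ≤ MulAction.stabilizer (Perm Rt) s := (Subgroup.closure_le _).2 (by
    rintro _ ⟨r, hr, rfl⟩
    exact C8.R.rc_inj ((C8.R.rc_τ r s).trans (by rw [hs r hr, zero_smul, sub_zero])))
  exact this hy

theorem half (hρ : RhoStmt) (hR : RedStmt) (hP : PermStmt) (i : Fin 2) {u : Perm Rt}
    (hu : u ∈ CW (π i)) (h : u '' Δ0 = Δ0) : ∃ k, (cT i (false, k))⁻¹ * u ∈ WS Ψ0 := by
  obtain ⟨y, hy, h1⟩ := hR u hu.1 h
  have hyW := C8.S.WJ_le_W J hy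
  have hy0 := wj_le hy
  have hπ := π_mem i
  have f0 : ∀ r ∈ Δ0, (π i * y * (π i)⁻¹) r = r := fun r hr => by
    have : (π i)⁻¹ r ∈ Δ1 := (π_mem_Δ0 i).1 (by simpa using hr)
    simp only [Perm.mul_apply, fix1 hy0 this]
    simp
  have hW' : π i * y * (π i)⁻¹ ∈ C8.S.W := mul_mem (mul_mem hπ hyW) (inv_mem hπ)
  have hc : y * (π i * y * (π i)⁻¹) = π i * y * (π i)⁻¹ * y := by
    have : WS Δ0 ≤ Subgroup.centralizer {π i * y * (π i)⁻¹} := (Subgroup.closure_le _).2 (by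
      rintro _ ⟨r, hr, rfl⟩
      have := hρ.2.2.1 _ hW' r
      rw [f0 r hr, mul_inv_eq_iff_eq_mul] at this
      exact Subgroup.mem_centralizer_singleton_iff.2 this.symm)
    exact Subgroup.mem_centralizer_singleton_iff.1 (this hy0)
  have h2 : y * (π i * π i) = π i * π i * y := Perm.ext fun r => by
    simp only [Perm.mul_apply, π_π]
    exact C8.R.W_neg hyW r
  have hz : y * (π i * y * (π i)⁻¹) ∈ CW (π i) := mem_CW.2 ⟨mul_mem hyW hW', by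
    calc y * (π i * y * (π i)⁻¹) * π i = π i * y * (π i)⁻¹ * y * π i := by rw [hc]
      _ = π i * y * (π i)⁻¹ * (y * (π i * π i)) * (π i)⁻¹ := by group
      _ = _ := by rw [h2]; group⟩
  have hm : π i * y * (π i)⁻¹ ∈ WS Ψ0 := by
    have : π i * y * (π i)⁻¹ ∈ WS (π i '' Δ0) :=
      hρ.2.2.2.2.2.2.2.2.2 _ hπ Δ0 ▸ Subgroup.mem_map_of_mem (MulAut.conj (π i)).toMonoidHom hy0
    refine Subgroup.closure_mono (Set.image_mono ?_) this
    rintro _ ⟨r, hr, rfl⟩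
    exact Or.inr ((π_mem_Δ1 i).2 hr)
  obtain ⟨k, hk⟩ := hP i _ (mul_mem hu hz) fun j hj => by
    obtain ⟨j', hj', e⟩ := h1 j hj
    refine ⟨j', hj', ?_⟩
    rw [← mul_assoc, Perm.mul_apply, f0 _ (C8.S.α_mem_Phi hj), e]
  refine ⟨k, ?_⟩
  rw [← hk, mul_inv_rev, inv_mul_cancel_right]
  exact inv_mem (mul_mem (Subgroup.closure_mono (Set.image_mono Set.subset_union_left) hy0) hm)

theorem cover (hρ : RhoStmt) (hH : HalfStmt) (hR : RedStmt) (hP : PermStmt) : CoverStmt := by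
  intro i u hu
  rcases hH u hu.1.1 hu.2 with h | h
  · obtain ⟨k, hk⟩ := half hρ hR hP i hu.1 h
    exact ⟨_, hk⟩
  have hπ : π i ∈ CW (π i) := mem_CW.2 ⟨π_mem i, rfl⟩
  have e : (π i)⁻¹ * u = u * (π i)⁻¹ := by
    rw [inv_mul_eq_iff_eq_mul, ← mul_assoc, ← (mem_CW.1 hu.1).2, mul_inv_cancel_right]
  obtain ⟨k, hk⟩ := half hρ hR hP i (mul_mem (inv_mem hπ) hu.1) (by
    rw [e, Perm.coe_mul, Set.image_comp]
    refine (congrArg _ ?_).trans h
    ext r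
    rw [← π_mem_Δ0 i]
    exact ⟨by rintro ⟨s, hs, rfl⟩; simpa using hs, fun h => ⟨_, h, by simp⟩⟩)
  exact ⟨(true, k), by simpa [cT, mul_assoc] using hk⟩

end Cfsg.Agent.H88.O84Cover
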