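import Mathlib
import Cfsg.Agent.H54.O84Defs

/-!
# The index of the reflection group of `D₄ D₄` in its stabiliser
-/

set_option autoImplicit false

namespace Cfsg.Agent.H88.O84Stab

open Cfsg.Agent.H54.O84 Equiv Cfsg.Lie H37 H40 H34 H29

theorem frame (hT : CtStmt) (hC : CoverStmt) (hS : SepStmt) (i : Fin 2) :
    (WS Ψ0).relIndex (CW (π i) ⊓ St Ψ0) = nI i := by
  have : Nat.card (Bool × Fin (cL i).length) = nI i := by fin_cases i <;> simp [cL, nI]
  rw [← this]
  refine (Nat.card_eq_of_bijective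
    (fun x => QuotientGroup.mk (⟨cT i x, hT i x⟩ : (CW (π i) ⊓ St Ψ0 : Subgroup _))) ⟨?_, ?_⟩).symm
  · exact fun x y h => hS i x y (Subgroup.mem_subgroupOf.1 (QuotientGroup.eq.1 h))
  · intro q
    obtain ⟨u, rfl⟩ := QuotientGroup.mk_surjective q
    obtain ⟨x, hx⟩ := hC i u u.2
    exact ⟨x, QuotientGroup.eq.2 hx⟩

theorem stab (hρ : RhoStmt) (hT : CtStmt) (hC : CoverStmt) (hS : SepStmt) : StabStmt := by
  intro i
  rw [← frame hT hC hS i, ← Subgroup.relIndex_map_map_of_injective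
    (f := (MulAut.conj (v i)).toMonoidHom) (WS Ψ0) _ (MulAut.conj (v i)).injective,
    hρ.2.2.2.2.2.2.2.2.2 _ (v_mem i)]
  congr 1
  ext u
  rw [Subgroup.mem_map_equiv, MulAut.conj_symm_apply]
  simp only [Subgroup.mem_inf, mem_CW, mem_St]
  refine and_congr (and_congr ?_ ?_) ?_
  · rw [Subgroup.mul_mem_cancel_right _ (v_mem i), Subgroup.mul_mem_cancel_left _ (inv_mem (v_mem i))]
  · simp only [π, mul_assoc, mul_inv_cancel_left, mul_right_inj]
    rw [← mul_assoc, ← mul_assoc, mul_left_inj]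
  · rw [Ψ, Perm.coe_mul, Perm.coe_mul, Set.image_comp, Set.image_comp,
      ← (Set.image_injective.2 (v i).injective).eq_iff (b := Ψ0), Set.image_image (v i)]
    simp

end Cfsg.Agent.H88.O84Stab
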