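import Mathlib
import Cfsg.Agent.H59.PermMod

/-! Generators of unipotent linear groups: a `p`-group of `m × m` unitriangular matrices is generated,
modulo its derived subgroup and the kernel, by at most `m² / 4` elements (leading positions form a
triangle-free graph). -/

set_option autoImplicit false

namespace Cfsg.Agent.H88

open Module
open scoped commutatorElement

universe u

theorem exists_tri_basis {P : Type*} [Group P] [Finite P] {p : ℕ} [Fact p.Prime] (hP : IsPGroup p P)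
    {K : Type*} [Field K] [CharP K p] : ∀ (m : ℕ) (V : Type u) [AddCommGroup V] [Module K V]
    [FiniteDimensional K V] (ρ : Representation K P V), finrank K V = m →
    ∃ b : Basis (Fin m) K V, ∀ g i j, b.repr (ρ g (b j) - b j) i ≠ 0 → j < i := by
  intro m
  induction m with
  | zero =>
    intro V _ _ _ ρ h
    exact ⟨(Module.finBasisOfFinrankEq K V h), fun g i => i.elim0⟩
  | succ n ih =>
    intro V _ _ _ ρ h
    have : Nontrivial V := Module.nontrivial_of_finrank_eq_succ h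
    obtain ⟨φ, -, hφ0, hφ⟩ := H59.exists_ne_zero_fixed_of_isPGroup hP ρ.dual ⊤
      (fun _ _ _ => Submodule.mem_top) top_ne_bot
    have hφ' : ∀ g v, φ (ρ g v) = φ v := by
      intro g v
      have := congrArg (fun ψ => ψ v) (hφ g⁻¹)
      simpa [Representation.dual_apply, Module.Dual.transpose_apply] using this
    set N := LinearMap.ker φ with hN
    have hfin : finrank K N = n := by
      have := Module.Dual.finrank_ker_add_one_of_ne_zero hφ0
      rw [h] at this
      exact Nat.succ_injective this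
    have hinv : ∀ g, N ≤ N.comap (ρ g) := fun g v hv => by
      rw [Submodule.mem_comap, hN, LinearMap.mem_ker, hφ']
      exact hv
    obtain ⟨b', hb'⟩ := ih N (ρ.subrepresentation N hinv) hfin
    obtain ⟨y, hy⟩ : ∃ y, φ y = 1 := by
      obtain ⟨v, hv⟩ : ∃ v, φ v ≠ 0 := by
        by_contra hc
        push Not at hc
        exact hφ0 (LinearMap.ext hc)
      exact ⟨(φ v)⁻¹ • v, by rw [map_smul, smul_eq_mul, inv_mul_cancel₀ hv]⟩
    have hli : ∀ (c : K), ∀ x ∈ N, c • y + x = 0 → c = 0 := by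
      intro c x hx hc
      have := congrArg φ hc
      rw [map_add, map_smul, hy, LinearMap.mem_ker.1 hx, map_zero] at this
      simpa using this
    have hsp : ∀ z : V, ∃ c : K, z + c • y ∈ N := fun z => ⟨-φ z, by
      rw [hN, LinearMap.mem_ker, map_add, map_smul, hy]; simp⟩
    let b := Basis.mkFinCons y b' hli hsp
    have hb0 : b 0 = y := by simp [b]
    have hbs : ∀ i, b (Fin.succ i) = b' i := fun i => by simp [b]
    have key : ∀ x : N, b.repr (x : V) = Finsupp.cons 0 (b'.repr x) := by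
      intro x
      have e : (x : V) = ∑ i, (Fin.cons 0 (b'.repr x) : Fin (n + 1) → K) i • b i := by
        rw [Fin.sum_univ_succ]
        simp only [Fin.cons_zero, zero_smul, zero_add, Fin.cons_succ, hbs]
        conv_lhs => rw [← b'.sum_repr x]
        rw [Submodule.coe_sum]
        rfl
      ext i
      rw [e, b.repr_sum_self]
      rfl
    refine ⟨b, fun g i j => ?_⟩
    have hmem : ρ g (b j) - b j ∈ N := by
      rw [hN, LinearMap.mem_ker, map_sub, hφ', sub_self]
    have e := key ⟨_, hmem⟩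
    simp only at e
    rw [e]
    intro hne
    refine Fin.cases (fun h0 => ?_) (fun i' h0 => ?_) i hne
    · simp at h0
    · rw [Finsupp.cons_succ] at h0
      clear hne e
      revert hmem h0
      refine Fin.cases ?_ (fun j' => ?_) j
      · intro _ _
        exact Fin.succ_pos _
      · intro hmem h0
        rw [Fin.succ_lt_succ_iff]
        apply hb' g i' j'
        convert h0 using 3
        apply Subtype.ext
        simp [hbs]

section Wt

variable {K : Type*} [Field K] {m : ℕ}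

/-- weight filtration on lower triangular matrices -/
def Wt (n : ℕ) (M : Matrix (Fin m) (Fin m) K) : Prop :=
  ∀ i j, M i j ≠ 0 → n + 2 ^ (j : ℕ) ≤ 2 ^ (i : ℕ)

theorem Wt.mono {a b : ℕ} {M : Matrix (Fin m) (Fin m) K} (h : Wt a M) (hab : b ≤ a) : Wt b M :=
  fun i j hij => (Nat.add_le_add_right hab _).trans (h i j hij)

theorem Wt.add {a : ℕ} {M N : Matrix (Fin m) (Fin m) K} (h : Wt a M) (h' : Wt a N) :
    Wt a (M + N) := by
  intro i j hij
  by_cases h0 : M i j = 0
  · apply h' i j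
    intro h1
    exact hij (by rw [Matrix.add_apply, h0, h1, add_zero])
  · exact h i j h0

theorem Wt.neg {a : ℕ} {M : Matrix (Fin m) (Fin m) K} (h : Wt a M) : Wt a (-M) :=
  fun i j hij => h i j (fun h0 => hij (by rw [Matrix.neg_apply, h0, neg_zero]))

theorem Wt.sub {a : ℕ} {M N : Matrix (Fin m) (Fin m) K} (h : Wt a M) (h' : Wt a N) :
    Wt a (M - N) := by
  rw [sub_eq_add_neg]; exact h.add h'.neg

theorem Wt.mul {a b : ℕ} {M N : Matrix (Fin m) (Fin m) K} (h : Wt a M) (h' : Wt b N) :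
    Wt (a + b) (M * N) := by
  intro i k hik
  rw [Matrix.mul_apply] at hik
  obtain ⟨j, -, hj⟩ := Finset.exists_ne_zero_of_sum_ne_zero hik
  have h1 := h i j (left_ne_zero_of_mul hj)
  have h2 := h' j k (right_ne_zero_of_mul hj)
  omega

theorem Wt.eq_zero {M : Matrix (Fin m) (Fin m) K} (h : Wt (2 ^ m) M) : M = 0 := by
  ext i j
  by_contra hne
  have h1 := h i j hne
  have h2 : 2 ^ (i : ℕ) < 2 ^ m := Nat.pow_lt_pow_right one_lt_two i.2
  have h3 := Nat.two_pow_pos (j : ℕ)
  omega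

theorem Wt.apply_eq_zero {a : ℕ} {M : Matrix (Fin m) (Fin m) K} (h : Wt a M) {i j : Fin m}
    (hlt : 2 ^ (i : ℕ) < a + 2 ^ (j : ℕ)) : M i j = 0 := by
  by_contra hne
  exact absurd (h i j hne) (by omega)

theorem two_pow_diff {n i j k l : ℕ} (hn : 0 < n) (h1 : n + 2 ^ j = 2 ^ i) (h2 : n + 2 ^ l = 2 ^ k) :
    i = k ∧ j = l := by
  have aux : ∀ {i j : ℕ}, n + 2 ^ j = 2 ^ i → 2 ^ i ≤ 2 * n ∧ n < 2 ^ i := by
    intro i j h
    have hj : 0 < 2 ^ j := Nat.two_pow_pos j
    have hji : j < i := (Nat.pow_lt_pow_iff_right one_lt_two).1 (by omega)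
    have : 2 ^ (j + 1) ≤ 2 ^ i := Nat.pow_le_pow_right two_pos hji
    rw [pow_succ] at this
    omega
  obtain ⟨a1, a2⟩ := aux h1
  obtain ⟨b1, b2⟩ := aux h2
  have hik : i = k := by
    rcases lt_trichotomy i k with h | h | h
    · have : 2 ^ (i + 1) ≤ 2 ^ k := Nat.pow_le_pow_right two_pos h
      rw [pow_succ] at this
      omega
    · exact h
    · have : 2 ^ (k + 1) ≤ 2 ^ i := Nat.pow_le_pow_right two_pos h
      rw [pow_succ] at this
      omega
  subst hik
  exact ⟨rfl, Nat.pow_right_injective le_rfl (by simp only; omega)⟩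

variable {G : Type*} [Group G] (ρ : G →* Matrix (Fin m) (Fin m) K)

/-- `g` has leading position `(i, j)` -/
def Lead (g : G) (i j : Fin m) : Prop :=
  ∃ n, 0 < n ∧ n + 2 ^ (j : ℕ) = 2 ^ (i : ℕ) ∧ Wt n (ρ g - 1) ∧ (ρ g - 1) i j ≠ 0

variable {ρ}

theorem rho_mul_sub (x y : G) :
    ρ (x * y) - 1 = (ρ x - 1) * (ρ y - 1) + (ρ x - 1) + (ρ y - 1) := by
  rw [map_mul]; noncomm_ring

theorem wt_mul {n : ℕ} {x y : G} (hx : Wt n (ρ x - 1)) (hy : Wt n (ρ y - 1)) :
    Wt n (ρ (x * y) - 1) := by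
  rw [rho_mul_sub]
  exact (((hx.mul hy).mono (Nat.le_add_right _ _)).add hx).add hy

theorem wt_mul_apply {n : ℕ} (hn : 0 < n) {x y : G} (hx : Wt n (ρ x - 1)) (hy : Wt n (ρ y - 1))
    {i j : Fin m} (h : n + 2 ^ (j : ℕ) = 2 ^ (i : ℕ)) :
    (ρ (x * y) - 1) i j = (ρ x - 1) i j + (ρ y - 1) i j := by
  rw [rho_mul_sub, Matrix.add_apply, Matrix.add_apply, (hx.mul hy).apply_eq_zero (by omega), zero_add]

theorem wt_pow {n : ℕ} (hn : 0 < n) {x : G} (hx : Wt n (ρ x - 1)) {i j : Fin m}
    (h : n + 2 ^ (j : ℕ) = 2 ^ (i : ℕ)) (c : ℕ) :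
    Wt n (ρ (x ^ c) - 1) ∧ (ρ (x ^ c) - 1) i j = c * (ρ x - 1) i j := by
  induction c with
  | zero => exact ⟨fun i j hij => absurd (by simp) hij, by simp⟩
  | succ c ih =>
    rw [pow_succ]
    refine ⟨wt_mul ih.1 hx, ?_⟩
    rw [wt_mul_apply hn ih.1 hx h, ih.2]
    push_cast
    ring

theorem Lead.commutator (h1 : ∀ g, Wt 1 (ρ g - 1)) {x y : G} {i j k : Fin m} (hx : Lead ρ x i j)
    (hy : Lead ρ y j k) : Lead ρ ⁅x, y⁆ i k := by
  obtain ⟨a, ha, hij, hM, hM0⟩ := hx
  obtain ⟨b, hb, hjk, hN, hN0⟩ := hy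
  set M := ρ x - 1 with hMd
  set N := ρ y - 1 with hNd
  have e : ρ ⁅x, y⁆ - 1 = (M * N - N * M) + (M * N - N * M) * (ρ (x⁻¹ * y⁻¹) - 1) := by
    have e1 : ρ ⁅x, y⁆ = ρ x * ρ y * ρ (x⁻¹ * y⁻¹) := by
      rw [← map_mul, ← map_mul, commutatorElement_def]; congr 1; group
    have e2 : (1 : Matrix (Fin m) (Fin m) K) = ρ y * ρ x * ρ (x⁻¹ * y⁻¹) := by
      rw [← map_mul, ← map_mul, ← map_one ρ]; congr 1; group
    have e3 : M * N - N * M = ρ x * ρ y - ρ y * ρ x := by
      rw [hMd, hNd]; noncomm_ring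
    rw [e3, e1]
    conv_lhs => rw [e2]
    noncomm_ring
  have hW : Wt (a + b) (M * N - N * M) := (hM.mul hN).sub (add_comm a b ▸ hN.mul hM)
  have hW' := hW.mul (h1 (x⁻¹ * y⁻¹))
  refine ⟨a + b, by omega, by omega, ?_, ?_⟩
  · rw [e]
    exact hW.add (hW'.mono (Nat.le_add_right _ _))
  · rw [e, Matrix.add_apply, hW'.apply_eq_zero (by omega), add_zero, Matrix.sub_apply]
    have f1 : (M * N) i k = M i j * N j k := by
      rw [Matrix.mul_apply]
      apply Finset.sum_eq_single j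
      · intro l _ hl
        by_contra hne
        have g1 := hM i l (left_ne_zero_of_mul hne)
        have g2 := hN l k (right_ne_zero_of_mul hne)
        apply hl
        exact Fin.ext (Nat.pow_right_injective le_rfl (by simp only; omega))
      · intro h; exact absurd (Finset.mem_univ j) h
    have f2 : (N * M) i k = 0 := by
      rw [Matrix.mul_apply]
      apply Finset.sum_eq_zero
      intro l _
      by_contra hne
      have g1 := hN i l (left_ne_zero_of_mul hne)
      have g2 := hM l k (right_ne_zero_of_mul hne)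
      have g3 := (two_pow_diff hb (i := i) (j := l) (by omega) hjk).1
      rw [g3] at hij
      omega
    rw [f1, f2, sub_zero]
    exact mul_ne_zero hM0 hN0

end Wt

theorem le_sup_ker_of_lead {p : ℕ} [Fact p.Prime] {m : ℕ} {G : Type*} [Group G]
    (ρ : G →* Matrix (Fin m) (Fin m) (ZMod p)) (h1 : ∀ g, Wt 1 (ρ g - 1)) (L : Subgroup G)
    (hker : ∀ g, ρ g = 1 → g ∈ L) (hL : ∀ g i j, Lead ρ g i j → ∃ s ∈ L, Lead ρ s i j) :
    L = ⊤ := by
  have key : ∀ d n, 0 < n → n + d = 2 ^ m → ∀ g, Wt n (ρ g - 1) → g ∈ L := by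
    intro d
    induction d with
    | zero =>
      intro n _ hn g hg
      rw [add_zero] at hn
      exact hker g (sub_eq_zero.1 (hn ▸ hg).eq_zero)
    | succ d ih =>
      intro n hn0 hn g hg
      by_cases hw : Wt (n + 1) (ρ g - 1)
      · exact ih (n + 1) (by omega) (by omega) g hw
      simp only [Wt, not_forall] at hw
      obtain ⟨i, j, hij, hlt⟩ := hw
      have he : n + 2 ^ (j : ℕ) = 2 ^ (i : ℕ) := by
        have := hg i j hij
        omega
      obtain ⟨s, hs, n', hn', he', hsw, hs0⟩ := hL g i j ⟨n, hn0, he, hg, hij⟩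
      obtain rfl : n' = n := by omega
      set c : ZMod p := -((ρ g - 1) i j) * ((ρ s - 1) i j)⁻¹ with hc
      obtain ⟨h3, h4⟩ := wt_pow hn0 hsw he c.val
      have h5 : g * s ^ c.val ∈ L := by
        apply ih (n' + 1) (by omega) (by omega)
        intro k l hkl
        have h6 := wt_mul hg h3 k l hkl
        rcases h6.eq_or_lt with h7 | h7
        · exfalso
          obtain ⟨e1, e2⟩ := two_pow_diff hn0 h7 he
          obtain rfl : k = i := Fin.ext e1
          obtain rfl : l = j := Fin.ext e2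
          apply hkl
          rw [wt_mul_apply hn0 hg h3 he, h4, ZMod.natCast_zmod_val, hc, mul_assoc,
            inv_mul_cancel₀ hs0]
          ring
        · omega
      have := L.mul_mem h5 (L.inv_mem (L.pow_mem hs c.val))
      simpa using this
  rw [eq_top_iff]
  intro g _
  exact key (2 ^ m - 1) 1 one_pos (by have := Nat.two_pow_pos m; omega) g (h1 g)

theorem card_le_of_triangle_free {m : ℕ} (Q : Finset (Fin m × Fin m)) (hQ : ∀ x ∈ Q, x.2 < x.1)
    (h : ∀ i j k, (i, j) ∈ Q → (j, k) ∈ Q → (i, k) ∉ Q) : Q.card ≤ m ^ 2 / 4 := by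
  classical
  let Γ : SimpleGraph (Fin m) :=
    { Adj := fun a b => (a, b) ∈ Q ∨ (b, a) ∈ Q
      symm := ⟨fun a b hab => hab.symm⟩
      loopless := ⟨fun a ha => by
        rcases ha with ha | ha <;> exact lt_irrefl _ (hQ _ ha)⟩ }
  have hcf : Γ.CliqueFree (2 + 1) := by
    intro t ht
    obtain ⟨a, b, c, hab, hac, hbc, -⟩ := SimpleGraph.is3Clique_iff.1 ht
    rcases hab with h1 | h1 <;> rcases hac with h2 | h2 <;> rcases hbc with h3 | h3
    · exact h _ _ _ h1 h3 h2
    · exact h _ _ _ h2 h3 h1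
    · exact absurd ((hQ _ h1).trans ((hQ _ h2).trans (hQ _ h3))) (lt_irrefl _)
    · exact h _ _ _ h2 h1 h3
    · exact h _ _ _ h1 h2 h3
    · exact absurd ((hQ _ h3).trans ((hQ _ h2).trans (hQ _ h1))) (lt_irrefl _)
    · exact h _ _ _ h3 h2 h1
    · exact h _ _ _ h3 h1 h2
  have h1 := hcf.card_edgeFinset_le
  simp only [Fintype.card_fin] at h1
  have h2 : Q.card ≤ Γ.edgeFinset.card := by
    apply Finset.card_le_card_of_injOn (fun x => s(x.1, x.2))
    · intro x hx
      simp only [SimpleGraph.coe_edgeFinset, SimpleGraph.mem_edgeSet]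
      exact Or.inl hx
    · intro x hx y hy hxy
      rcases Sym2.eq_iff.1 hxy with ⟨e1, e2⟩ | ⟨e1, e2⟩
      · exact Prod.ext e1 e2
      · have a1 := hQ x hx
        have a2 := hQ y hy
        rw [e1, e2] at a1
        exact absurd (a1.trans a2) (lt_irrefl _)
  have h3 : (m % 2).choose 2 = 0 := Nat.choose_eq_zero_of_lt (Nat.mod_lt _ two_pos)
  rw [h3] at h1
  refine h2.trans (h1.trans ?_)
  simp only [add_zero, Nat.add_one_sub_one, mul_one]
  exact Nat.div_le_div_right (Nat.sub_le _ _)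

theorem exists_gens_unitri {p : ℕ} [Fact p.Prime] {m : ℕ} {G : Type*} [Group G]
    (ρ : G →* Matrix (Fin m) (Fin m) (ZMod p)) (h1 : ∀ g, Wt 1 (ρ g - 1)) :
    ∃ S : Finset G, S.card ≤ m ^ 2 / 4 ∧
      Subgroup.closure (S : Set G) ⊔ commutator G ⊔ ρ.ker = ⊤ := by
  classical
  let Q : Finset (Fin m × Fin m) := Finset.univ.filter fun x =>
    (∃ g, Lead ρ g x.1 x.2) ∧ ¬ ∃ g ∈ commutator G, Lead ρ g x.1 x.2
  have hQ : Q.card ≤ m ^ 2 / 4 := by
    apply card_le_of_triangle_free
    · intro x hx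
      obtain ⟨⟨g, n, hn, he, -⟩, -⟩ := (Finset.mem_filter.1 hx).2
      exact (Nat.pow_lt_pow_iff_right one_lt_two).1 (by omega)
    · intro i j k hij hjk hik
      obtain ⟨⟨x, hx⟩, -⟩ := (Finset.mem_filter.1 hij).2
      obtain ⟨⟨y, hy⟩, -⟩ := (Finset.mem_filter.1 hjk).2
      exact (Finset.mem_filter.1 hik).2.2 ⟨⁅x, y⁆,
        Subgroup.commutator_mem_commutator (Subgroup.mem_top x) (Subgroup.mem_top y),
        Lead.commutator h1 hx hy⟩
  have hch : ∀ x : Q, ∃ g, Lead ρ g x.1.1 x.1.2 := fun x => (Finset.mem_filter.1 x.2).2.1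
  choose f hf using hch
  refine ⟨Finset.univ.image f, Finset.card_image_le.trans (by simpa using hQ), ?_⟩
  apply le_sup_ker_of_lead ρ h1
  · intro g hg
    exact Subgroup.mem_sup_right hg
  · intro g i j hg
    by_cases hc : ∃ g ∈ commutator G, Lead ρ g i j
    · obtain ⟨s, hs, hs'⟩ := hc
      exact ⟨s, Subgroup.mem_sup_left (Subgroup.mem_sup_right hs), hs'⟩
    · have hm : (i, j) ∈ Q := Finset.mem_filter.2 ⟨Finset.mem_univ _, ⟨g, hg⟩, hc⟩
      exact ⟨f ⟨_, hm⟩, Subgroup.mem_sup_left (Subgroup.mem_sup_left (Subgroup.subset_closure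
        (by simp))), hf ⟨_, hm⟩⟩

end Cfsg.Agent.H88
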