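import Cfsg.Agent.H88.ZMin
import Cfsg.Agent.H66.Util
import Cfsg.Agent.H88.ZBG9
import Cfsg.Agent.H71.BG5

/-! Bender-Glauberman section 10: generic core theory and Theorem 10.1. -/

set_option autoImplicit false
set_option linter.unusedSectionVars false
set_option linter.unusedVariables false

namespace Cfsg.Agent.H88.SZ.H66

open Cfsg.Agent.H66

variable [Om]

open Cfsg Cfsg.Agent.H63 Cfsg.Agent.H67 Cfsg.Agent.H66.Aux Subgroup
open Cfsg.Agent.H88.SZ.H63 Cfsg.Agent.H88.SZ.H67 Cfsg.Agent.H88.SZ.H66.Aux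

universe u

variable {G : Type u} [Group G] [Finite G]

/-! ### Generic core theory -/

/-- `σ(M)` in relative form. -/
theorem mem_sigma_iff {M : Subgroup G} {p : ℕ} :
    p ∈ sigma M ↔
      p.Prime ∧ p ∣ Nat.card M ∧ ∃ P : Subgroup G, IsSyl p P M ∧ N[P] ≤ M ∧ p ∈ ϖ := by
  constructor
  · rintro ⟨hp, hd, ⟨P, hP⟩, hw⟩
    have : Fact p.Prime := ⟨hp⟩
    exact ⟨hp, hd, _, syl_map_sylow P, hP, hw⟩
  · rintro ⟨hp, hd, P, hP, hN, hw⟩
    have : Fact p.Prime := ⟨hp⟩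
    obtain ⟨S, rfl⟩ := exists_sylow_map hP
    exact ⟨hp, hd, ⟨S, hN⟩, hw⟩

/-- For a proper `M` the divisibility condition in `σ(M)` is automatic. -/
theorem mem_sigma_of_Sylow {M P : Subgroup G} {p : ℕ} (hp : p.Prime) (hM : Pr M)
    (sylP : IsSyl p P M) (h : N[P] ≤ M) (hw : p ∈ ϖ := by w_tac)
    (hG : IsMinSimpleOddOrder G := by assumption) : p ∈ sigma M := by
  have : Fact p.Prime := ⟨hp⟩
  refine mem_sigma_iff.2 ⟨hp, dvd_card_of_syl_ne_bot sylP ?_, P, sylP, h, hw⟩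
  rintro rfl
  exact pr_ne_top hG hM (top_le_iff.1 ((le_normalizer_bot ⊤).trans h))

theorem mem_alpha_iff {M : Subgroup G} {p : ℕ} : p ∈ alpha M ↔ p.Prime ∧ 2 < rankP p M :=
  and_congr_right fun hp => by
    have : Fact p.Prime := ⟨hp⟩
    rw [pRankLE_iff, not_le]

/-- `IsIdealPrime p G` (mathcomp `p \in \beta(G)`): Sylow `p`-subgroups are not narrow. -/
theorem ideal_iff {p : ℕ} :
    IsIdealPrime p G ↔ p.Prime ∧ ∀ P : Subgroup G, IsSyl p P ⊤ → ¬ NarrowOf p P := by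
  refine and_congr_right fun hp => ?_
  have : Fact p.Prime := ⟨hp⟩
  rw [pRankLE_top_iff, not_le]
  constructor
  · rintro ⟨h3, h⟩ P sylP hn
    obtain ⟨S, rfl⟩ := exists_sylow_top sylP
    obtain ⟨A, hA, hmax⟩ := hn (by rwa [rank_pgroup S.2, rankP_syl sylP])
    obtain ⟨B, hB, hBe, hlt⟩ := h S A hA.1 hA.2.1 hA.2.2
    exact hlt.ne' (hmax.2.2 B hB hBe hlt.le)
  · intro h
    constructor
    · obtain ⟨P, sylP⟩ := exists_syl p (⊤ : Subgroup G)
      by_contra h3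
      refine h P sylP fun h' => absurd ?_ h3
      rwa [rank_pgroup (syl_isPGroup sylP), rankP_syl sylP] at h'
    · intro S A hAS hAe hA
      by_contra hc
      push Not at hc
      refine h S (syl_top S) fun _ => ⟨A, ⟨hAS, hAe, hA⟩, hAS, hAe, fun B hB hBe hAB => ?_⟩
      by_contra hne
      exact hc B hB hBe (lt_of_le_of_ne hAB (Ne.symm hne))

omit [Finite G] in
theorem sigma_prime {M : Subgroup G} {p : ℕ} (h : p ∈ sigma M) : p.Prime := h.1
omit [Finite G] in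
theorem alpha_prime {M : Subgroup G} {p : ℕ} (h : p ∈ alpha M) : p.Prime := h.1
omit [Finite G] in
theorem beta_prime {M : Subgroup G} {p : ℕ} (h : p ∈ beta M) : p.Prime := h.1.1
omit [Finite G] in
theorem sigma_sub_pi {M : Subgroup G} {p : ℕ} (h : p ∈ sigma M) : p ∣ Nat.card M := h.2.1
theorem alpha_sub_pi {M : Subgroup G} {p : ℕ} (h : p ∈ alpha M) : p ∣ Nat.card M := by
  have : Fact p.Prime := ⟨h.1⟩
  exact rankP_pos_iff.1 (lt_trans (by norm_num) (mem_alpha_iff.1 h).2)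
omit [Finite G] in
theorem beta_sub_alpha {M : Subgroup G} {p : ℕ} (h : p ∈ beta M) : p ∈ alpha M := h.1
theorem beta_sub_pi {M : Subgroup G} {p : ℕ} (h : p ∈ beta M) : p ∣ Nat.card M :=
  alpha_sub_pi h.1
omit [Finite G] in
theorem beta_sub_betaG {M : Subgroup G} {p : ℕ} (h : p ∈ beta M) : IsIdealPrime p G := h.2
theorem Mbeta_sub_Malpha (M : Subgroup G) : betaCore M ≤ alphaCore M :=
  piCoreOf_mono_pi (fun _ h => beta_sub_alpha h) M

theorem alphaJ (g : G) (M : Subgroup G) : alpha (cj g M) = alpha M := by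
  ext p; rw [mem_alpha_iff, mem_alpha_iff]
  refine and_congr_right fun hp => ?_
  have : Fact p.Prime := ⟨hp⟩
  rw [rankP_cj]
theorem MalphaJ (g : G) (M : Subgroup G) : alphaCore (cj g M) = cj g (alphaCore M) := by
  rw [alphaCore_def, alphaCore_def, alphaJ, cj_piCoreOf]
theorem betaJ (g : G) (M : Subgroup G) : beta (cj g M) = beta M := by
  ext p; simp only [beta, alphaJ]
theorem MbetaJ (g : G) (M : Subgroup G) : betaCore (cj g M) = cj g (betaCore M) := by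
  rw [betaCore_def, betaCore_def, betaJ, cj_piCoreOf]

theorem sigmaJ (g : G) (M : Subgroup G) : sigma (cj g M) = sigma M := by
  have key : ∀ (g : G) (M : Subgroup G) (p : ℕ), p ∈ sigma M → p ∈ sigma (cj g M) := by
    intro g M p h
    obtain ⟨hp, hd, P, hP, hN, hw⟩ := mem_sigma_iff.1 h
    refine mem_sigma_iff.2 ⟨hp, by rwa [card_cj], cj g P, hall_cj hP g, ?_, hw⟩
    rw [← cj_normalizer]; exact cj_mono hN
  ext p
  refine ⟨fun h => ?_, key g M p⟩
  have := key g⁻¹ _ p h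
  rwa [cj_inv_cj] at this

theorem MsigmaJ (g : G) (M : Subgroup G) : sigmaCore (cj g M) = cj g (sigmaCore M) := by
  rw [sigmaCore_def, sigmaCore_def, sigmaJ, cj_piCoreOf]

omit [Finite G] in
theorem Malpha_normal (M : Subgroup G) : alphaCore M ⊴ M := piCoreOf_normalIn _ M
omit [Finite G] in
theorem Mbeta_normal (M : Subgroup G) : betaCore M ⊴ M := piCoreOf_normalIn _ M
omit [Finite G] in
theorem Msigma_normal (M : Subgroup G) : sigmaCore M ⊴ M := piCoreOf_normalIn _ M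
theorem Malpha_pi (M : Subgroup G) : IsPiSubgroup (alpha M) (alphaCore M) := isPi_piCoreOf _ M
theorem Mbeta_pi (M : Subgroup G) : IsPiSubgroup (beta M) (betaCore M) := isPi_piCoreOf _ M
theorem Msigma_pi (M : Subgroup G) : IsPiSubgroup (sigma M) (sigmaCore M) := isPi_piCoreOf _ M

theorem not_narrow_ideal {p : ℕ} [Fact p.Prime] {P : Subgroup G} (sylP : IsSyl p P ⊤)
    (h : ¬ NarrowOf p P) : IsIdealPrime p G := by
  refine ideal_iff.2 ⟨Fact.out, fun Q sylQ hQ => h ?_⟩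
  obtain ⟨g, -, rfl⟩ := syl_conj sylP sylQ
  exact (H71.narrow_cj g).1 hQ

theorem norm_sigma_Sylow {M P : Subgroup G} {p : ℕ} (sp : p ∈ sigma M) (sylP : IsSyl p P M) :
    N[P] ≤ M := by
  obtain ⟨hp, -, Q, sylQ, hN, -⟩ := mem_sigma_iff.1 sp
  have : Fact p.Prime := ⟨hp⟩
  obtain ⟨g, hg, rfl⟩ := syl_conj sylQ sylP
  rw [← cj_normalizer]
  exact cj_le_of_mem hg hN

theorem sigma_Sylow_G {M P : Subgroup G} {p : ℕ} (sp : p ∈ sigma M) (sylP : IsSyl p P M) :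
    IsSyl p P ⊤ := by
  have : Fact p.Prime := ⟨sp.1⟩
  exact syl_top_of_normalizer_le sylP (norm_sigma_Sylow sp sylP)

omit [Finite G] in
theorem sigma_Sylow_neq1 {M P : Subgroup G} {p : ℕ} (sp : p ∈ sigma M) (sylP : IsSyl p P M) :
    P ≠ ⊥ := by
  have : Fact p.Prime := ⟨sp.1⟩
  exact syl_ne_bot sylP (sigma_sub_pi sp)

/-- mathcomp `sigma'_Sylow_contra`. -/
theorem sigma'_Sylow_contra {M P : Subgroup G} {p : ℕ} [Fact p.Prime] (hM : Pr M)
    (s'p : p ∉ sigma M) (sylP : IsSyl p P M) (h : N[P] ≤ M) (hw : p ∈ ϖ := by w_tac)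
    (hG : IsMinSimpleOddOrder G := by assumption) : False :=
  s'p (mem_sigma_of_Sylow Fact.out hM sylP h)

/-- B & G Theorem 10.1(d). -/
theorem sigma_Sylow_trans {M X : Subgroup G} {p : ℕ} {g : G} (sp : p ∈ sigma M)
    (sylX : IsSyl p X M) (h : cj g X ≤ M) : g ∈ M := by
  have : Fact p.Prime := ⟨sp.1⟩
  have sylXg : IsSyl p (cj g X) M := hall_of_card_eq sylX h (card_cj g X)
  obtain ⟨m, hm, he⟩ := syl_conj sylX sylXg
  have := norm_sigma_Sylow sp sylX (cj_eq_cj_iff.1 he)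
  exact (mul_mem_cancel_left (inv_mem hm)).1 this

section Max

variable (hG : IsMinSimpleOddOrder G) {M : Subgroup G} (maxM : IsCoatom M)
include hG maxM

theorem alpha_sub_sigma {p : ℕ} (h : p ∈ alpha M) : p ∈ sigma M := by
  obtain ⟨hp, h3⟩ := mem_alpha_iff.1 h
  have : Fact p.Prime := ⟨hp⟩
  obtain ⟨P, sylP⟩ := exists_syl p M
  have pP := syl_isPGroup sylP
  have prP := mFT_pgroup_proper hG hp pP
  have uP := rank3_Uniqueness hG prP (by rwa [rank_pgroup pP, rankP_syl sylP])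
  refine mem_sigma_of_Sylow hp maxM.1 sylP ?_
  exact (def_uniq_mmax uP maxM sylP.1).sub le_normalizer
    (mFT_norm_proper hG (syl_ne_bot sylP (alpha_sub_pi h)) prP)

theorem beta_sub_sigma {p : ℕ} (h : p ∈ beta M) : p ∈ sigma M := alpha_sub_sigma hG maxM h.1

theorem Malpha_sub_Msigma : alphaCore M ≤ sigmaCore M :=
  piCoreOf_mono_pi (fun _ h => alpha_sub_sigma hG maxM h) M

theorem Mbeta_sub_Msigma : betaCore M ≤ sigmaCore M :=
  (Mbeta_sub_Malpha M).trans (Malpha_sub_Msigma hG maxM)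

/-- mathcomp's definition of `β(M)` for a maximal `M`. -/
theorem mem_beta_iff {p : ℕ} :
    p ∈ beta M ↔ p.Prime ∧ ∀ P : Subgroup G, IsSyl p P M → ¬ NarrowOf p P := by
  constructor
  · intro h
    exact ⟨beta_prime h, fun P sylP =>
      (ideal_iff.1 h.2).2 P (sigma_Sylow_G (beta_sub_sigma hG maxM h) sylP)⟩
  · rintro ⟨hp, h⟩
    have : Fact p.Prime := ⟨hp⟩
    obtain ⟨P, sylP⟩ := exists_syl p M
    have ap : p ∈ alpha M := by
      refine mem_alpha_iff.2 ⟨hp, ?_⟩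
      by_contra h3
      refine h P sylP fun h' => absurd ?_ h3
      rwa [rank_pgroup (syl_isPGroup sylP), rankP_syl sylP] at h'
    exact ⟨ap, not_narrow_ideal (sigma_Sylow_G (alpha_sub_sigma hG maxM ap) sylP) (h P sylP)⟩

theorem beta'_narrow {p : ℕ} [Fact p.Prime] (b'p : p ∉ beta M) {P : Subgroup G}
    (sylP : IsSyl p P M) : NarrowOf p P := by
  by_contra h
  refine b'p ((mem_beta_iff hG maxM).2 ⟨Fact.out, fun Q sylQ hQ => h ?_⟩)
  obtain ⟨g, -, rfl⟩ := syl_conj sylP sylQ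
  exact (H71.narrow_cj g).1 hQ

/-- B & G Theorem 10.1(b), for a nontrivial `X`, by downward induction on `X`. -/
theorem sigma_group_trans_aux {p : ℕ} (sp : p ∈ sigma M) (X : Subgroup G) :
    IsPGroup p X → X ≠ ⊥ → ∀ g h : G, X ≤ cj g M → X ≤ cj h M →
      ∃ c ∈ C[X], cj h M = cj c (cj g M) := by
  have hp : Fact p.Prime := ⟨sp.1⟩
  induction X using WellFoundedGT.induction with
  | ind X IH =>
  intro pX ntX
  have spJ : ∀ g : G, p ∈ sigma (cj g M) := fun g => by rwa [sigmaJ]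
  have hSyl : ∀ g h : G, X ≤ cj g M → X ≤ cj h M → IsSyl p X (cj g M) → cj h M = cj g M := by
    intro g h _ hh hs
    have : g * h⁻¹ ∈ cj g M := by
      refine sigma_Sylow_trans (spJ g) hs ?_
      rw [cj_mul]
      exact cj_mono (le_cj_iff_cj_inv_le.1 hh)
    have h2 := cj_eq_self_of_mem (inv_mem this)
    rw [cj_cj, mul_inv_rev, inv_inv, inv_mul_cancel_right] at h2
    exact h2
  intro g h sXg sXh
  by_cases s1 : IsSyl p X (cj g M)
  · exact ⟨1, one_mem _, by rw [cj_one]; exact hSyl g h sXg sXh s1⟩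
  by_cases s2 : IsSyl p X (cj h M)
  · exact ⟨1, one_mem _, by rw [cj_one]; exact (hSyl h g sXh sXg s2).symm⟩
  obtain ⟨X₁, lt1, sX₁, pX₁⟩ := exists_lt_pgroup_normalizer sXg pX s1
  obtain ⟨X₂, lt2, sX₂, pX₂⟩ := exists_lt_pgroup_normalizer sXh pX s2
  obtain ⟨P, sylP, sX₁P⟩ := exists_syl_ge (sX₁.trans inf_le_right) pX₁
  have pP := syl_isPGroup sylP
  obtain ⟨t, ht, sX₂P⟩ := exists_le_cj_syl sylP (sX₂.trans inf_le_right) pX₂
  obtain ⟨S, sylS⟩ := exists_syl p M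
  obtain ⟨k, -, sPk⟩ := exists_le_cj_syl (sigma_Sylow_G sp sylS) le_top pP
  have sPM : P ≤ cj k M := sPk.trans (cj_mono sylS.1)
  have ltXP : X < P := lt1.trans_le sX₁P
  have IH' : ∀ Y, X < Y → IsPGroup p Y → ∀ g h : G, Y ≤ cj g M → Y ≤ cj h M →
      ∃ c ∈ C[X], cj h M = cj c (cj g M) := by
    intro Y lt pY g h h1 h2
    obtain ⟨c, hc, he⟩ := IH Y lt pY (ne_bot_mono ntX lt.le) g h h1 h2
    exact ⟨c, centralizer_anti lt.le hc, he⟩
  obtain ⟨c₁, hc₁, e₁⟩ := IH' X₁ lt1 pX₁ g k (sX₁.trans inf_le_left) (sX₁P.trans sPM)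
  obtain ⟨c₂, hc₂, e₂⟩ := IH' X₂ lt2 pX₂ (t * k) h
    (by rw [cj_mul]; exact sX₂P.trans (cj_mono sPM)) (sX₂.trans inf_le_left)
  suffices h3 : ∃ c ∈ C[X], cj (t * k) M = cj c (cj k M) by
    obtain ⟨c₃, hc₃, e₃⟩ := h3
    refine ⟨c₂ * c₃ * c₁, mul_mem (mul_mem hc₂ hc₃) hc₁, ?_⟩
    rw [e₂, e₃, e₁, cj_mul, cj_mul]
  have prX := mFT_pgroup_proper hG sp.1 pX
  have prL : Pr N[X] := mFT_norm_proper hG ntX prX
  by_cases r3 : 2 < rank P
  · have uP := rank3_Uniqueness hG (mFT_pgroup_proper hG sp.1 pP) r3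
    have sLM := (def_uniq_mmax uP (isCoatom_cj maxM) sPM).sub sylP.1 prL
    exact ⟨1, one_mem _, by rw [cj_one, cj_mul, cj_eq_self_of_mem (sLM ht)]⟩
  have rL : rankP p N[X] ≤ 2 := by
    rw [← rankP_syl sylP, ← rank_pgroup pP]; exact not_lt.1 r3
  have pl : PLen1 p N[X] :=
    (plen1_iff sp.1).2 (H71.rank2_der1_complement (mFT_sol hG prL) (mFT_odd hG _) rL).2.2
  obtain ⟨u, hu, v, hv, rfl⟩ := (plen1_frattini pl sylP).2.2 t ht
  have cu : u ∈ C[X] := by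
    refine le_centralizer_of_normalIn_of_coprime (piCoreOf_normalIn _ _) (normalIn_normalizer X) ?_ hu
    exact isPi_coprime' (isPi_piCoreOf _ _) (isPi_of_isPGroup sp.1 pX)
  obtain ⟨c, hc, e⟩ := IH' P ltXP pP k (v * k) sPM
    (by rw [cj_mul, ← cj_eq_self hv.2]; exact cj_mono sPM)
  refine ⟨u * c, mul_mem cu hc, ?_⟩
  rw [mul_assoc, cj_mul, e, cj_mul]

/-- B & G Theorem 10.1(b). -/
theorem sigma_group_trans_b {p : ℕ} (sp : p ∈ sigma M) {X : Subgroup G} (pX : IsPGroup p X)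
    {M₁ M₂ : Subgroup G} (h₁ : Conj M M₁) (h₂ : Conj M M₂) (sX₁ : X ≤ M₁) (sX₂ : X ≤ M₂) :
    ∃ c ∈ C[X], M₂ = cj c M₁ := by
  obtain ⟨g, rfl⟩ := h₁
  obtain ⟨h, rfl⟩ := h₂
  by_cases ntX : X = ⊥
  · subst ntX
    exact ⟨h * g⁻¹, by rw [centralizer_bot]; trivial, by rw [cj_cj, inv_mul_cancel_right]⟩
  exact sigma_group_trans_aux hG maxM sp X pX ntX g h sX₁ sX₂

/-- B & G Theorem 10.1(a). -/
theorem sigma_group_trans_a {p : ℕ} (sp : p ∈ sigma M) {X : Subgroup G} (pX : IsPGroup p X)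
    {g : G} (sXM : X ≤ M) (sXgM : cj g X ≤ M) : ∃ m ∈ M, ∃ c ∈ C[X], g = m * c := by
  obtain ⟨c, hc, e⟩ := sigma_group_trans_b hG maxM sp pX (conj_refl M) (conj_cj g⁻¹ M) sXM
    (cj_le_iff_le_cj_inv.1 sXgM)
  have : g * c ∈ N[M] := by
    rw [← cj_eq_self_iff, cj_mul, ← e, cj_cj_inv]
  rw [norm_mmax hG maxM] at this
  exact ⟨g * c, this, c⁻¹, inv_mem hc, by group⟩

/-- B & G Theorem 10.1(c). -/
theorem sigma_group_trans_c {p : ℕ} (sp : p ∈ sigma M) {X : Subgroup G} (pX : IsPGroup p X)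
    (sXM : X ≤ M) : IsMul C[X] (M ⊓ N[X]) N[X] := by
  refine IsMul.symm ⟨inf_le_right, centralizer_le_normalizer _, fun g hg => ?_⟩
  obtain ⟨m, hm, c, hc, rfl⟩ := sigma_group_trans_a hG maxM sp pX sXM (g := g)
    (by rw [cj_eq_self hg]; exact sXM)
  exact ⟨m, ⟨hm, (mul_mem_cancel_right (centralizer_le_normalizer _ hc)).1 hg⟩, c, hc, rfl⟩

end Max

end Cfsg.Agent.H88.SZ.H66
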