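import Cfsg.Agent.H88.ZMin
import Cfsg.Agent.H88.ZBG10b

/-! Bender-Glauberman section 10: results 10.7 to 10.9. -/

set_option autoImplicit false
set_option linter.unusedSectionVars false
set_option linter.unusedVariables false

namespace Cfsg.Agent.H88.SZ.H66

open Cfsg.Agent.H66

variable [Om]

open Cfsg Cfsg.Agent.H63 Cfsg.Agent.H67 Cfsg.Agent.H66.Aux Subgroup
open Cfsg.Agent.H88.SZ.H63 Cfsg.Agent.H88.SZ.H67 Cfsg.Agent.H88.SZ.H66.Aux
open scoped commutatorElement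

universe u

variable {G : Type u} [Group G] [Finite G]

section OneSylow

variable (hG : IsMinSimpleOddOrder G) {p : ℕ} [Fact p.Prime] {P : Subgroup G} (sylP : IsSyl p P ⊤)
  (hw : p ∈ ϖ)
include hG sylP hw

/-- B & G Corollary 10.7(c), mathcomp's stronger form. -/
theorem mFT_sub_Sylow_trans {Q : Subgroup G} {x : G} (sQP : Q ≤ P) (sQxP : cj x Q ≤ P) :
    ∃ y ∈ N[P], ∃ c ∈ C[Q], x = y * c := by
  have hp : p.Prime := Fact.out
  by_cases ntP : P = ⊥
  · subst ntP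
    exact ⟨x, le_normalizer_bot ⊤ trivial, 1, one_mem _, (mul_one x).symm⟩
  have pP := syl_isPGroup sylP
  obtain ⟨M, maxM, sNM⟩ := mmax_exists_norm hG ntP (mFT_pgroup_proper hG hp pP)
  have sPM : P ≤ M := le_normalizer.trans sNM
  have sylPM : IsSyl p P M := hall_of_le sylP sPM le_top
  have sp := mem_sigma_of_Sylow hp maxM.1 sylPM sNM
  obtain ⟨m, hm, c, hc, rfl⟩ := sigma_group_trans_a hG maxM sp (pP.to_le sQP) (sQP.trans sPM)
    (sQxP.trans sPM)
  obtain ⟨y, hy, k, hk, rfl⟩ :=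
    (plen1_frattini (mFT_proper_plength1 hG p maxM.1) sylPM).symm.exists_mul hm
  refine ⟨y, hy.2, k * c, mul_mem ?_ hc, by rw [mul_assoc]⟩
  rw [cj_mul, cj_eq_self_of_mem_centralizer hc, cj_mul, cj_le_iff_le_cj_inv,
    cj_eq_self (inv_mem hy.2)] at sQxP
  refine mem_centralizer_iff.2 fun q hq => ?_
  have h1 : k * q * k⁻¹ * q⁻¹ ∈ P := mul_mem (sQxP (conj_mem_cj hq)) (inv_mem (sQP hq))
  have h2 : k * q * k⁻¹ * q⁻¹ ∈ O[{p}ᶜ](M) := by
    have := mul_mem hk ((piCoreOf_normalIn {p}ᶜ M).conj_mem (sPM (sQP hq)) (inv_mem hk))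
    simpa only [mul_assoc] using this
  have h3 : k * q * k⁻¹ * q⁻¹ = 1 := by
    have : k * q * k⁻¹ * q⁻¹ ∈ P ⊓ O[{p}ᶜ](M) := ⟨h1, h2⟩
    rwa [isPi_inf_eq_bot (hall_isPi sylP) (isPi_piCoreOf _ _), mem_bot] at this
  rw [mul_inv_eq_one, mul_inv_eq_iff_eq_mul] at h3
  exact h3.symm

/-- B & G Corollary 10.7(a), second part. -/
theorem mFT_Sylow_der1 : P ≤ ⁅N[P], N[P]⁆ := by
  refine syl_le_of_focal sylP (mFT_derived_top hG) fun x hx u hu => ?_
  obtain ⟨y, hy, c, hc, rfl⟩ := mFT_sub_Sylow_trans hG sylP (by w_tac) (zpowers_le.2 hx) (x := u)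
    (by rw [cj_zpowers]; exact zpowers_le.2 hu)
  have hc' : c * x⁻¹ * c⁻¹ = x⁻¹ := conj_eq_of_mem_centralizer hc (inv_mem (mem_zpowers x))
  have : ⁅x, y * c⁆ = ⁅x, y⁆ := by
    rw [commutatorElement_def, commutatorElement_def]
    calc x * (y * c) * x⁻¹ * (y * c)⁻¹ = x * y * (c * x⁻¹ * c⁻¹) * y⁻¹ := by group
      _ = x * y * x⁻¹ * y⁻¹ := by rw [hc']
  rw [this]
  exact commutator_mem_commutator (le_normalizer hx) hy

/-- B & G Corollary 10.7(a), first part. -/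
theorem mFT_Sylow_sdprod_commg {V : Subgroup G} (h : IsSdp P V N[P]) : ⁅P, V⁆ = P :=
  commutator_eq_of_isSdp_le_derived h (isSolvable_of_isPGroup Fact.out (syl_isPGroup sylP))
    (mFT_Sylow_der1 hG sylP (by w_tac))

/-- B & G Corollary 10.7(b). -/
theorem mFT_rank2_Sylow_cprod (rP : rank P ≤ 2) (ncPP : ¬ IsMulCommutative P) :
    ∃ S C : Subgroup G, ¬ IsMulCommutative S ∧ Nat.card S = p ^ 3 ∧ Monoid.exponent S = p ∧
      IsCyclic C ∧ IsCp S C P ∧ omegaOne p C = Z[S] := by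
  have hp : p.Prime := Fact.out
  have pP := syl_isPGroup sylP
  have sylPN : IsSyl p P N[P] := hall_of_le sylP le_normalizer le_top
  obtain ⟨V, hallV⟩ := exists_hall_compl_of_normal_hall sylPN (normalIn_normalizer P)
  have defN := isSdp_of_normal_hall sylPN (normalIn_normalizer P) hallV
  have ntP : P ≠ ⊥ := by
    rintro rfl
    exact ncPP inferInstance
  obtain ⟨-, h | ⟨S, C, ncS, oS, eS, defP, cycC, hO⟩⟩ := H71.rank2_coprime_comm_cprod pP
    (w_odd hG (w_of_syl sylP hw)) ntP (by rwa [← rank_pgroup pP]) (mFT_Sylow_sdprod_commg hG sylP (by w_tac) defN)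
    (hall_isPi hallV) (pr_odd hG (pr_of_norm ntP (w_of_syl sylP hw) hallV.1))
  · exact absurd h ncPP
  have ntS' : ⁅S, S⁆ ≠ ⊥ := fun h => ncS (derived_eq_bot_iff.1 h)
  refine ⟨S, C, ncS, oS, ?_, cycC, defP, ?_⟩
  · have : Nontrivial S := by
      rw [Subgroup.nontrivial_iff_ne_bot]
      exact ne_bot_mono ntS' (commutator_le_of_le le_rfl le_rfl)
    refine (Nat.dvd_prime hp).1 (Monoid.exponent_dvd_of_forall_pow_eq_one fun x =>
      Subtype.ext (eS x x.2)) |>.resolve_left ?_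
    exact Monoid.one_lt_exponent.ne'
  · have h1 : omegaOne p C ≤ Z[S] :=
      le_inf (hO ▸ commutator_le_of_le le_rfl le_rfl) ((omegaOne_le _ _).trans defP.cent)
    refine eq_of_le_of_card_le h1 ((card_center_le_of_card_cube oS ncS).trans ?_)
    exact Nat.le_of_dvd Nat.card_pos (dvd_card_of_isPGroup hp
      (pP.to_le ((omegaOne_le _ _).trans defP.le_right)) (hO ▸ ntS'))

/-- B & G Corollary 10.7(d). -/
theorem mFT_subnorm_Sylow {Q : Subgroup G} (sQP : Q ≤ P) : IsSyl p (P ⊓ N[Q]) N[Q] := by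
  have pP := syl_isPGroup sylP
  obtain ⟨S, sylS, sQS⟩ := exists_syl_ge (le_normalizer : Q ≤ N[Q]) (pP.to_le sQP)
  obtain ⟨x, -, sSP⟩ := exists_cj_le_syl sylP le_top (syl_isPGroup sylS)
  obtain ⟨y, hy, c, hc, rfl⟩ := mFT_sub_Sylow_trans hG sylP (by w_tac) sQP ((cj_mono sQS).trans sSP)
  rw [cj_mul, cj_le_iff_le_cj_inv, cj_eq_self (inv_mem hy)] at sSP
  have sylSc := hall_cj_of_mem sylS (centralizer_le_normalizer _ hc)
  rwa [syl_eq_of_le sylSc (pP.to_le inf_le_left) (le_inf sSP sylSc.1) inf_le_right]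

/-- B & G Corollary 10.7(e). -/
theorem mFT_Sylow_normalS {Q R : Subgroup G} (pR : IsPGroup p R) (sQ : Q ≤ P ⊓ R)
    (nsQ : N[P] ≤ N[Q]) : N[R] ≤ N[Q] := by
  have key : ∀ x : G, cj x Q ≤ P → x ∈ N[Q] := by
    intro x hx
    obtain ⟨y, hy, c, hc, rfl⟩ := mFT_sub_Sylow_trans hG sylP (by w_tac) (sQ.trans inf_le_left) hx
    exact mul_mem (nsQ hy) (centralizer_le_normalizer _ hc)
  obtain ⟨x, -, sRP⟩ := exists_cj_le_syl sylP le_top pR
  have sQR : Q ≤ R := sQ.trans inf_le_right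
  intro y hy
  refine (mul_mem_cancel_left (key x ((cj_mono sQR).trans sRP))).1 (key _ ?_)
  rw [cj_mul]
  exact (cj_mono (cj_le_of_mem_normalizer hy sQR)).trans sRP

end OneSylow

section Max2

variable (hG : IsMinSimpleOddOrder G) {M : Subgroup G} (maxM : IsCoatom M)
include hG maxM

/-- B & G Lemma 10.8(c). -/
theorem beta_max_pdiv {p : ℕ} [Fact p.Prime] (b'p : p ∉ beta M) :
    NormalPCompl p ⁅M, M⁆ ∧ NormalPCompl p (sigmaCore M) ∧
      ∀ q : ℕ, q.Prime → q ∣ (O[{p}ᶜ](M)).relIndex M → q ≤ p := by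
  obtain ⟨P, sylP⟩ := exists_syl p M
  obtain ⟨h1, h2⟩ := H71.narrow_der1_complement_max_pdiv (mFT_odd hG M) (mmax_sol hG maxM) sylP
    (beta'_narrow hG maxM b'p sylP) fun _ => mFT_proper_plength1 hG p maxM.1
  exact ⟨h1, h1.mono (Msigma_der1 hG maxM), h2⟩

/-- B & G Lemma 10.8(a). -/
theorem Mbeta_Hall : IsPiHallOf (beta M) (betaCore M) M := by
  have hs : beta M ⊆ sigma M := fun _ h => beta_sub_sigma hG maxM h
  have h := hall_piCoreOf_of_normalPCompl (π := beta M) (X := sigmaCore M) fun p hp b'p =>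
    have : Fact p.Prime := ⟨hp⟩
    (beta_max_pdiv hG maxM b'p).2.1
  have h1 := hall_trans (Msigma_Hall hG maxM) hs h
  rwa [sigmaCore_def, piCoreOf_piCoreOf_of_subset hs] at h1

theorem Mbeta_Hall_G : IsPiHallOf (beta M) (betaCore M) ⊤ :=
  hall_G_of_sub_sigma (fun _ h => beta_sub_sigma hG maxM h) (Mbeta_Hall hG maxM)

theorem pi_Mbeta {p : ℕ} : p ∈ beta M ↔ p.Prime ∧ p ∣ Nat.card (betaCore M) :=
  ⟨fun h => ⟨beta_prime h, prime_dvd_card_hall (Mbeta_Hall hG maxM) (beta_prime h) h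
    (beta_sub_pi h)⟩, fun h => Mbeta_pi M p h.1 h.2⟩

theorem Mbeta_der1 : betaCore M ≤ ⁅M, M⁆ := (Mbeta_sub_Msigma hG maxM).trans (Msigma_der1 hG maxM)

/-- B & G Lemma 10.8(b). -/
theorem Mbeta_quo_nil : Group.IsNilpotent ↥(⁅M, M⁆ /ᵍ betaCore M) := by
  have sM' : ⁅M, M⁆ ≤ M := commutator_le_of_le le_rfl le_rfl
  have nMb := sM'.trans (Mbeta_normal M).norm
  refine isNilpotent_of_normalPCompl fun p hp => ?_
  have : Fact p.Prime := ⟨hp⟩
  by_cases bp : p ∈ beta M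
  · refine normalPCompl_of_isPi_compl ((isPi_quo_iff nMb).2 ?_)
    exact (hall_relIndex (hall_of_le (Mbeta_Hall hG maxM) (Mbeta_der1 hG maxM) sM')).mono
      fun q hq he => hq (he ▸ bp)
  · exact (beta_max_pdiv hG maxM bp).1.quo nMb

theorem beta'_der1_nil {H : Subgroup G} (b'H : IsPiSubgroup (beta M)ᶜ H) (sHM' : H ≤ ⁅M, M⁆) :
    Group.IsNilpotent H := by
  refine isNilpotent_of_normalPCompl fun p hp => ?_
  have : Fact p.Prime := ⟨hp⟩
  by_cases bp : p ∈ beta M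
  · exact normalPCompl_of_isPi_compl (isPi_mono b'H fun q hq he => hq (he ▸ bp))
  · exact (beta_max_pdiv hG maxM bp).1.mono sHM'

/-- The Frattini argument for a Sylow subgroup of `M'`, modulo `M_β`. -/
theorem Mbeta_Frattini_der1 {q : ℕ} [Fact q.Prime] {X : Subgroup G} (sylX : IsSyl q X ⁅M, M⁆) :
    IsMul (betaCore M) (M ⊓ N[X]) M := by
  have sM' : ⁅M, M⁆ ≤ M := commutator_le_of_le le_rfl le_rfl
  have nMb := Mbeta_normal M
  have sXM : X ≤ M := sylX.1.trans sM'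
  have h1 : X /ᵍ betaCore M ⊴ M /ᵍ betaCore M := by
    rw [eq_piCoreOf_of_isNilpotent (Mbeta_quo_nil hG maxM) (quo_isPiHallOf (sM'.trans nMb.norm) sylX)]
    exact (quo_normal _ (derived_normalIn M)).piCoreOf _
  have h2 : betaCore M ⊔ X ⊴ M :=
    ⟨sup_le nMb.le sXM, le_norm_sup_of_quo nMb.norm (sXM.trans nMb.norm) h1.norm⟩
  have h3 := frattini_isMul h2 (hall_of_le sylX le_sup_right (sup_le (Mbeta_der1 hG maxM) sylX.1))
  refine isMul_of_normal_left nMb (le_antisymm (sup_le nMb.le inf_le_left) ?_)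
  exact h3.le_of_le (sup_le_sup_left (le_inf sXM le_normalizer) _) le_sup_right

/-- B & G Corollary 10.9(a). -/
theorem beta'_cent_Sylow {p q : ℕ} [Fact p.Prime] [Fact q.Prime] (b'p : p ∉ beta M)
    (b'q : q ∉ beta M) {X : Subgroup G} (qX : IsPGroup q X)
    (h : (p ≠ q ∧ X ≤ ⁅M, M⁆) ∨ (p < q ∧ X ≤ M)) :
    (∃ P : Subgroup G, IsSyl p P (sigmaCore M) ∧ X ≤ C[P]) ∧
      (p ∈ alpha M → InUniqueMaximal (M ⊓ C[X])) ∧
      (IsSyl q X ⁅M, M⁆ → ∃ P : Subgroup G, IsSyl p P ⁅M, M⁆ ∧ P ≤ ⁅M ⊓ N[X], M ⊓ N[X]⁆) := by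
  have hp : p.Prime := Fact.out
  have hq : q.Prime := Fact.out
  have sM' : ⁅M, M⁆ ≤ M := commutator_le_of_le le_rfl le_rfl
  have nM' := derived_normalIn M
  have hpq : p ≠ q := h.elim And.left fun h => h.1.ne
  have sXM : X ≤ M := h.elim (fun h => h.2.trans sM') And.right
  have sXM'M : X ⊔ ⁅M, M⁆ ≤ M := sup_le sXM sM'
  obtain ⟨W, hallW, sXW⟩ := exists_hall_ge (π := {p, q}) (mmax_sub_sol hG maxM sXM'M) le_sup_left
    (isPi_of_isPGroup_of_mem hq qX (by simp))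
  have sWM : W ≤ M := hallW.1.trans sXM'M
  have pqW := hall_isPi hallW
  have nilM'W : Group.IsNilpotent ↥(⁅M, M⁆ ⊓ W) := by
    refine beta'_der1_nil hG maxM (isPi_mono (isPi_of_le pqW inf_le_right) ?_) inf_le_left
    rintro r (rfl | rfl)
    exacts [b'p, b'q]
  have qi : PiNat {q} ((⁅M, M⁆ : Subgroup G).relIndex (X ⊔ ⁅M, M⁆)) := by
    rw [relIndex_sup_of_le_normalizer (sXM.trans nM'.norm)]
    exact isPi_relIndex (isPi_of_isPGroup hq qX) _
  have p'i : PiNat {p}ᶜ ((⁅M, M⁆ : Subgroup G).relIndex (X ⊔ ⁅M, M⁆)) :=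
    qi.mono fun r hr he => hpq (he.symm.trans hr)
  have nsM'W : ⁅M, M⁆ ⊓ W ⊴ W := nM'.inf_right sWM
  have sylP₀ : IsSyl p O[{p}](⁅M, M⁆ ⊓ W) W := by
    refine hall_of_relIndex (hall_piCoreOf_of_isNilpotent _ nilM'W) inf_le_right ?_
    rw [inf_relIndex_right]
    exact p'i.of_dvd (relIndex_dvd_of_le_of_norm hallW.1 (sXM'M.trans nM'.norm))
  have nP₀ : O[{p}](⁅M, M⁆ ⊓ W) ⊴ W := nsM'W.piCoreOf _
  set P₀ := O[{p}](⁅M, M⁆ ⊓ W) with hP₀
  have sP₀M' : P₀ ≤ ⁅M, M⁆ := (piCoreOf_le _ _).trans inf_le_left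
  have cXP₀ : X ≤ C[P₀] := by
    have cop : (Nat.card X).Coprime (Nat.card P₀) :=
      isPi_coprime' (isPi_compl_of_isPGroup hq qX hpq.symm) (hall_isPi sylP₀)
    rcases h with h | h
    · exact le_centralizer_of_isNilpotent_of_coprime nilM'W (le_inf h.2 sXW) (piCoreOf_le _ _) cop
    have sXO : X ≤ O[{p}ᶜ](M) := by
      refine le_of_isPi_of_normal_relIndex sXM (le_normalizer_piCoreOf_self _ _)
        (isPi_of_isPGroup hq qX) ((piNat_compl_singleton_iff hq).2 fun hd => ?_)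
      exact ((beta_max_pdiv hG maxM b'p).2.2 q hq hd).not_gt h.1
    refine (le_inf sXO sXW).trans (le_centralizer_of_normalIn_of_coprime
      ((piCoreOf_normalIn _ _).inf_right sWM) nP₀ ?_)
    exact isPi_coprime' (isPi_of_le (isPi_piCoreOf _ _) inf_le_left) (hall_isPi sylP₀)
  have sylP₀M' : IsSyl p P₀ ⁅M, M⁆ :=
    hall_of_le (syl_of_hall hallW (by simp) sylP₀) sP₀M' le_sup_right
  have sylP : IsSyl p (P₀ ⊓ sigmaCore M) (sigmaCore M) :=
    hall_inf_normal sylP₀M' ((Msigma_normal M).of_le (Msigma_der1 hG maxM) sM')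
  have cXP : X ≤ C[P₀ ⊓ sigmaCore M] := cXP₀.trans (centralizer_anti inf_le_left)
  refine ⟨⟨_, sylP, cXP⟩, fun ap => ?_, fun sylX => ⟨P₀, sylP₀M', ?_⟩⟩
  · have sylPM := syl_of_hall (Msigma_Hall hG maxM) (alpha_sub_sigma hG maxM ap) sylP
    refine uniq_mmaxS (le_inf sylPM.1 (cent_symm cXP)) (ne_top_mono maxM.1 inf_le_left) ?_
    refine rank3_Uniqueness hG (ne_top_mono maxM.1 sylPM.1) ?_
    rw [rank_syl sylPM]
    exact (mem_alpha_iff.1 ap).2
  · refine le_derived_of_isMul (Mbeta_Frattini_der1 hG maxM sylX) (Mbeta_normal M).norm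
      (le_inf (sP₀M'.trans sM') (le_normalizer_of_le_centralizer (cent_symm cXP₀))) sP₀M' ?_
    exact isPi_coprime' (isPi_of_isPGroup_of_mem hp (syl_isPGroup sylP₀) b'p) (Mbeta_pi M)

/-- B & G Corollary 10.9(b). -/
theorem nonuniq_norm_Sylow_pprod {p : ℕ} [Fact p.Prime] {H S : Subgroup G} (maxH : IsCoatom H)
    (neHM : H ≠ M) (sylS : IsSyl p S ⊤) (sN : N[S] ≤ H ⊓ M) (hw : p ∈ ϖ := by w_tac) :
    IsMul (betaCore M) (H ⊓ M) M ∧ alpha M = beta M := by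
  have hp : p.Prime := Fact.out
  have sSM : S ≤ M := (le_normalizer.trans sN).trans inf_le_right
  have sSH : S ≤ H := (le_normalizer.trans sN).trans inf_le_left
  have sylSM : IsSyl p S M := hall_of_le sylS sSM le_top
  have sp := mem_sigma_of_Sylow hp maxM.1 sylSM (sN.trans inf_le_right)
  have a'p : p ∉ alpha M := by
    intro ap
    refine neHM (eq_of_inU (rank3_Uniqueness hG (ne_top_mono maxM.1 sSM) ?_) maxH sSH maxM sSM)
    rw [rank_syl sylSM]
    exact (mem_alpha_iff.1 ap).2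
  have sSM' := sigma_Sylow_sub_der1 hG maxM sp sylSM
  have sylSM' : IsSyl p S ⁅M, M⁆ := hall_of_le sylSM sSM' (commutator_le_of_le le_rfl le_rfl)
  refine ⟨(Mbeta_Frattini_der1 hG maxM sylSM').mono_right (inf_le_right.trans sN) inf_le_right, ?_⟩
  refine Set.Subset.antisymm (fun q aq => ?_) fun _ h => beta_sub_alpha h
  have : Fact q.Prime := ⟨aq.1⟩
  by_contra b'q
  have hu := (beta'_cent_Sylow hG maxM b'q (fun h => a'p (beta_sub_alpha h)) (syl_isPGroup sylS)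
    (Or.inl ⟨fun he => a'p (he ▸ aq), sSM'⟩)).2.1 aq
  exact neHM (eq_of_inU hu maxH
    (inf_le_right.trans ((centralizer_le_normalizer _).trans (sN.trans inf_le_left))) maxM inf_le_left)

end Max2

end Cfsg.Agent.H88.SZ.H66
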