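import Cfsg.Agent.H88.ZMin
import Cfsg.Agent.H88.ZBG12a2
import Cfsg.Agent.H67.Fit
import Cfsg.Agent.H67.Rank
import Cfsg.Agent.H63.QuoCore
import Cfsg.Agent.H2.Gaschutz
import Cfsg.Agent.H4.Schmidt
import Cfsg.Agent.H71.BG4

/-! Bender-Glauberman 12.7 and 12.8. -/

set_option autoImplicit false
set_option linter.unusedSectionVars false
set_option linter.unusedVariables false
set_option linter.unusedSectionVars false

namespace Cfsg.Agent.H88.SZ.H64

open Cfsg.Agent.H64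

variable [Om]

open Cfsg Cfsg.Agent.H63 Cfsg.Agent.H66 Cfsg.Agent.H67 Subgroup
open Cfsg.Agent.H88.SZ.H63 Cfsg.Agent.H88.SZ.H66 Cfsg.Agent.H88.SZ.H67

universe u

variable {G : Type u} [Group G] [Finite G]

/-- Gaschütz' splitting theorem, relative form. -/
theorem gaschutz_split {K U A E : Subgroup G} (hK : K ⊴ E) (cK : IsMulCommutative K) (hUE : U ≤ E)
    (hc : (Nat.card K).Coprime (U.relIndex E)) (h : IsSdp K A U) : ∃ H, IsSdp K H E := by
  have := hK.normal_subgroupOf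
  have := isMulCommutative_subgroupOf cK E
  have h' := h.subgroupOf hUE
  obtain ⟨H, hH⟩ := H2.gaschutz_exists (K.subgroupOf E) (U.subgroupOf E) h'.le_left
    (by rw [card_subgroupOf hK.1]; exact hc) (A.subgroupOf E) h'.le_right h'.inf' h'.sup
  exact ⟨_, isSdp_of_isComplement'_subgroupOf hK hH⟩

/-- An abelian Hall subgroup of a nilpotent group is central. -/
theorem nil_le_cent_hall {π : Set ℕ} {F K : Subgroup G} (nilF : Group.IsNilpotent F)
    (hK : IsPiHallOf π K F) (cK : IsMulCommutative K) : F ≤ C[K] := by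
  have h := isDp_piCoreOf_of_isNilpotent π nilF
  rw [← eq_piCoreOf_of_isNilpotent nilF hK] at h
  exact h.isMul.le_of_le (le_cent_of_comm cK le_rfl le_rfl) h.cent

omit [Finite G] in
/-- If `N'` centralizes the `N`-invariant subgroup `K`, then `C_K(X)` and `[K, X]` are `N`-invariant
for every `X ≤ N`. -/
theorem norm_cent_comm_of_der_cent {N K X : Subgroup G} (nK : N ≤ N[K]) (cK : ⁅N, N⁆ ≤ C[K])
    (sX : X ≤ N) : N ≤ N[K ⊓ C[X]] ∧ N ≤ N[⁅K, X⁆] := by
  have hn : (X ⊔ ⁅N, N⁆) ⊴ N :=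
    normalIn_of_derived_le le_sup_right (sup_le sX (derived_normalIn N).1)
  constructor
  · have : K ⊓ C[X] = K ⊓ C[X ⊔ ⁅N, N⁆] := by
      rw [H67.centralizer_sup, ← inf_assoc]
      exact (inf_eq_left.2 (inf_le_left.trans (cent_symm cK))).symm
    rw [this]
    exact le_normalizer_inf nK (le_normalizer_centralizer hn.2)
  · rw [← (isMul_sup (Or.inl (sX.trans (le_normalizer_derived N)))).commutator_right_of_cent cK]
    exact le_normalizer_commutator nK hn.2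

theorem pgroup_abelian_of_syl {p : ℕ} [Fact p.Prime] {S M P : Subgroup G} (sylS : IsSyl p S M)
    (cS : IsMulCommutative S) (sPM : P ≤ M) (pP : IsPGroup p P) : IsMulCommutative P := by
  obtain ⟨g, -, hg⟩ := exists_cj_le_syl sylS sPM pP
  exact isMulCommutative_cj_iff.1 (H67.isMulCommutative_of_le cS hg)

section Main

variable (hG : IsMinSimpleOddOrder G) {M : Subgroup G} (maxM : IsCoatom M)
include hG maxM

/-- B & G Theorem 12.7. -/
theorem nonabelian_tau2 {E : Subgroup G} (hallE : IsPiHallOf (sigma M)ᶜ E M) {p : ℕ}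
    [hp : Fact p.Prime] (t2p : p ∈ tau2 M) {A P : Subgroup G} (hA : ElemOf p 2 A E)
    (pP : IsPGroup p P) (ncPP : ¬ IsMulCommutative P) :
    tau2 M = {p} ∧
      (Nat.card ↥(A ⊓ C[sigmaCore M]) = p ∧ IsDp (sigmaCore M) (A ⊓ C[sigmaCore M]) (fittingOf M)) ∧
      (∀ X : Subgroup G, ElemOf p 1 X E → X ≠ A ⊓ C[sigmaCore M] →
        sigmaCore M ⊓ C[X] = ⊥ ∧ ¬ C[X] ≤ M) ∧
      ∃ E₀ : Subgroup G, IsSdp (A ⊓ C[sigmaCore M]) E₀ E ∧
        ∀ x ∈ sigmaCore M, x ≠ 1 → IsPiSubgroup (tau1 M) (E₀ ⊓ C1[x]) := by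
  have s'p := tau2_not_sigma t2p
  have sEM := hall_le hallE
  have pA := el_pgroup hA
  have hAM := el_mono hA sEM
  have nilMs := tau2_Msigma_nil hG maxM t2p
  have ntMs := Msigma_neq1 hG maxM
  have nsMs := Msigma_normal M
  have nMsA : A ≤ N[sigmaCore M] := hAM.1.trans nsMs.2
  have coMsA := coprime_of_pgroup hp.out (Msigma_pi M) pA s'p
  obtain ⟨⟨nsAE, EpA⟩, ⟨sCAE, -, -⟩, uniqC, -⟩ := tau2_compl_context hG maxM hallE t2p hA
  have regA := (tau2_context hG maxM t2p hAM).2.2.1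
  have maxA := (tau2_not_beta hG maxM t2p).2 A hAM
  have ncSyl : ∀ S, IsSyl p S ⊤ → ¬ IsMulCommutative S := fun S hS cS =>
    ncPP (pgroup_abelian_of_syl hS cS le_top pP)
  have notM : ∀ S, IsSyl p S ⊤ → ¬ S ≤ M := fun S hS h =>
    ncSyl S hS (tau2_pgroup_abelian hG maxM t2p h (syl_isPGroup hS))
  obtain ⟨T, sylT, sAT⟩ := exists_syl_ge hA.1 pA
  have sylTM := syl_of_hall hallE s'p sylT
  have cT := tau2_pgroup_abelian hG maxM t2p (hall_le sylTM) (syl_isPGroup sylT)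
  obtain ⟨S, sylS, sTS⟩ := exists_syl_ge le_top (syl_isPGroup sylT)
  have pS := syl_isPGroup sylS
  have sAS := sAT.trans sTS
  have defT : S ⊓ C[A] = T :=
    syl_eq_of_le sylT (pS.to_le inf_le_left) (le_inf sTS (le_cent_of_comm cT le_rfl sAT))
      (inf_le_right.trans sCAE)
  obtain ⟨EpZ, ⟨Y, cycY, sZY, defY⟩, transA⟩ :=
    basic_p2maxElem_structure hG (el_top hA) maxA pS sAS (ncSyl S sylS)
  rw [defT] at defY
  set Z := omegaOne p Z[S] with hZ
  have nCZ : ¬ C[Z] ≤ M := fun h =>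
    notM S sylS ((cent_symm (omegaOne_center_le_centralizer p S)).trans h)
  have regOf : ∀ X, ElemOf p 1 X A → ¬ C[X] ≤ M → sigmaCore M ⊓ C[X] = ⊥ := by
    intro X hX h
    by_contra hne
    exact h (uniqC X ((EpA X).2 hX) hne).le
  have regZ := regOf Z EpZ nCZ
  obtain ⟨A₀, hA₀, ntC₀⟩ : ∃ A₀, ElemOf p 1 A₀ A ∧ sigmaCore M ⊓ C[A₀] ≠ ⊥ := by
    by_contra h
    push Not at h
    exact ntMs (le_bot_iff.1 (le_of_cent_el1 hA nMsA coMsA fun X hX => (h X hX).le))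
  have uA₀ := uniqC A₀ ((EpA A₀).2 hA₀) ntC₀
  have neZ : A₀ ≠ Z := fun e => ntC₀ (e ▸ regZ)
  have nCX : ∀ X, ElemOf p 1 X A → X ≠ A₀ → ¬ C[X] ≤ M := by
    intro X hX ne h
    by_cases eZ : X = Z
    · exact nCZ (eZ ▸ h)
    obtain ⟨x, ⟨hxS, -⟩, rfl⟩ := transA A₀ X hA₀ neZ hX eZ
    have xM : x ∈ M := mem_of_cj_le_uniq_mmax hG uA₀ (by rw [cj_centralizer]; exact h)
    have xT : x ∈ T := by
      rw [← syl_eq_of_le sylTM (pS.to_le (inf_le_left : S ⊓ M ≤ S)) (le_inf sTS (hall_le sylTM))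
        inf_le_right]
      exact ⟨hxS, xM⟩
    exact ne (cj_eq_self_of_mem_centralizer (le_cent_of_comm cT le_rfl (hA₀.1.trans sAT) xT))
  have cMsA₀ : sigmaCore M ≤ C[A₀] := by
    refine le_of_cent_el1 hA nMsA coMsA fun X hX => ?_
    by_cases e : X = A₀
    · rw [e]; exact inf_le_right
    · rw [regOf X hX (nCX X hX e)]; exact bot_le
  have defA₀ : A ⊓ C[sigmaCore M] = A₀ := by
    have h1 : A₀ ≤ A ⊓ C[sigmaCore M] := le_inf hA₀.1 (cent_symm cMsA₀)
    refine (el_eq_of_le hA₀ (el1_of_lt_el2 hp.out hA inf_le_left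
      (ne_bot_mono (el1_ne_bot hp.out hA₀) h1) fun e => ntMs ?_) h1).symm
    rw [← regA]
    exact (inf_eq_left.2 (cent_symm (inf_eq_left.1 e))).symm
  have nsA₀E : A₀ ⊴ E := by
    rw [← defA₀]
    exact ⟨inf_le_left.trans hA.1, le_normalizer_inf nsAE.2
      (le_normalizer_centralizer (sEM.trans nsMs.2))⟩
  have defM := sdprod_sigma hG maxM hallE
  have nsA₀ : A₀ ⊴ M := ⟨nsA₀E.1.trans sEM,
    defM.isMul.le_normalizer (le_normalizer_of_le_centralizer cMsA₀) nsA₀E.2⟩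
  have t2M : tau2 M = {p} := by
    ext q
    refine ⟨fun t2q => ?_, fun h => by rw [Set.mem_singleton_iff.1 h]; exact t2p⟩
    by_contra ne
    have ne : q ≠ p := ne
    have hq := tau2_prime t2q
    have := Fact.mk hq
    obtain ⟨B, hB⟩ := ex_tau2Elem_of_mem hG maxM hallE t2q
    obtain ⟨⟨nsBE, -⟩, ⟨sCBE, -, -⟩, -⟩ := tau2_compl_context hG maxM hallE t2q hB
    have maxB := (tau2_not_beta hG maxM t2q).2 B (el_mono hB sEM)
    have cAB : A ≤ C[B] := le_centralizer_of_normalIn_of_coprime nsAE nsBE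
      (coprime_of_pgroup hq (isPi_of_isPGroup hp.out pA) (el_pgroup hB) ne)
    obtain ⟨Q, maxQ, sBQ⟩ := max_normed_exists hq (el_pgroup hB) (le_normalizer_of_le_centralizer cAB)
    obtain ⟨S', sylS', -, -, -, h⟩ := max_normed_2Elem_signaliser hG ne.symm (el_top hA) maxA maxQ
      ((hB.dvd_card (by omega)).trans (card_dvd_of_le (cent_symm cAB)))
    refine notM S' sylS' ((h fun _ => ⟨B, el_of_le hB sBQ, maxElem_of_le maxB sBQ le_top⟩).trans ?_)
    exact (H67.centralizer_anti sBQ).trans (sCBE.trans sEM)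
  rw [defA₀]
  have dpT := defY A₀ hA₀ neZ
  refine ⟨t2M, ⟨el_card1 hA₀, ?_⟩, fun X hX ne => ?_, ?_⟩
  · have nilF := fittingOf_nil M
    have dF := isDp_piCoreOf_of_isNilpotent (sigma M) nilF
    have eMs : O[sigma M](fittingOf M) = sigmaCore M := by
      rw [piCoreOf_fittingOf]; exact fittingOf_eq_self nilMs
    rw [eMs] at dF
    set F' := O[(sigma M)ᶜ](fittingOf M) with hF'
    have nsF' : F' ⊴ M := piCoreOf_fittingOf_normalIn _ M
    have nilF' : Group.IsNilpotent F' := H67.isNilpotent_of_le nilF (piCoreOf_le _ _)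
    have pF' : IsPGroup p F' := by
      refine isPGroup_of_isPi hp.out fun q hq hd => ?_
      have := Fact.mk hq
      have nt : O[{q}](F') ≠ ⊥ := syl_ne_bot (hall_piCoreOf_of_isNilpotent {q} nilF') hd
      rcases prime_class_mmax_norm hG maxM (isPGroup_pCoreOf hq F')
        (mmax_normal hG maxM (nsF'.piCoreOf _) nt).le
        (w_of_normal_nil hG maxM nsF' nilF' q hq hd) with h | h
      · exact absurd h (isPi_piCoreOf _ _ q hq hd)
      · rwa [t2M] at h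
    have sF'T : F' ≤ T := le_syl_of_normalIn sylTM nsF' pF'
    have sA₀F' : A₀ ≤ F' := le_piCoreOf_of_isNilpotent nilF
      (le_fittingOf nsA₀ (isNilpotent_of_isPGroup hp.out (el_pgroup hA₀)))
      (isPi_of_isPGroup_of_mem hp.out (el_pgroup hA₀) s'p)
    have ti : Y ⊓ F' = ⊥ := by
      by_contra hne
      obtain ⟨X, hX⟩ := exists_el1_of_pgroup hp.out (pF'.to_le (inf_le_right : Y ⊓ F' ≤ F')) hne
      have e : X = Z := (om1_eq_of_cyclic hp.out cycY (el_mono hX inf_le_left)).symm.trans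
        (om1_eq_of_cyclic hp.out cycY (el_of_le EpZ sZY))
      apply ntMs
      rw [← regZ, ← e]
      exact (inf_eq_left.2 (cent_symm ((hX.1.trans inf_le_right).trans dF.cent))).symm
    have h := (dpT.of_le_left sA₀F' sF'T).sup
    rw [ti, sup_bot_eq] at h
    rw [h]; exact dF
  · have := nCX X ((EpA X).1 hX) ne
    exact ⟨regOf X ((EpA X).1 hX) this, this⟩
  · obtain ⟨E₀, defE⟩ := gaschutz_split nsA₀E (el_comm hA₀) (hall_le sylT)
      (PiNat.coprime (isPi_of_isPGroup hp.out (el_pgroup hA₀)) (hall_relIndex sylT)) dpT.isSdp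
    refine ⟨E₀, defE, fun x hx ntx q hq hd => ?_⟩
    obtain ⟨X, hX⟩ := exists_el1 hq hd
    have sXE : X ≤ E := (hX.1.trans inf_le_left).trans defE.le_right
    have ntC : sigmaCore M ⊓ C[X] ≠ ⊥ :=
      ne_bot_of_mem ⟨hx, mem_centralizer_iff_le.2 (hX.1.trans inf_le_right)⟩ ntx
    rcases (partition_pi_sigma_compl hG maxM hallE hq).1
      (hd.trans (card_dvd_of_le (inf_le_left.trans defE.le_right))) with h | h | h
    · exact h
    · rw [t2M] at h
      obtain rfl : q = p := h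
      have hXA := (EpA X).1 (el_of_le hX sXE)
      have ne : X ≠ A₀ := by
        rintro rfl
        exact el1_ne_bot hq hX (le_bot_iff.1 (defE.inf ▸ le_inf le_rfl (hX.1.trans inf_le_left)))
      exact absurd (regOf X hXA (nCX X hXA ne)) ntC
    · obtain ⟨E₁, E₂, E₃, hE⟩ := ex_sigmaCompl hG maxM hallE
      have sXE3 : X ≤ E₃ := le_of_normal_hall hE.hallE₃ (sigma_compl_context hG maxM hE).1.2 sXE
        (isPi_of_isPGroup_of_mem hq (el_pgroup hX) h)
      exact absurd ((tau2_regular hG maxM hE t2p hA).1.inf_cent sXE3 (el1_ne_bot hq hX)) ntC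

/-- B & G Lemma 12.8(c). -/
theorem abelian_tau2_sub_Fitting {E : Subgroup G} (hallE : IsPiHallOf (sigma M)ᶜ E M) {p : ℕ}
    [hp : Fact p.Prime] (t2p : p ∈ tau2 M) {A S : Subgroup G} (hA : ElemOf p 2 A E)
    (sylS : IsSyl p S ⊤) (sAS : A ≤ S) (cSS : IsMulCommutative S) :
    S ≤ ⁅N[S], N[S]⁆ ∧ ⁅N[S], N[S]⁆ ≤ fittingOf E ∧ fittingOf E ≤ C[S] ∧ C[S] ≤ E := by
  have sEM := hall_le hallE
  have pA := el_pgroup hA
  obtain ⟨⟨nsAE, -⟩, ⟨sCAE, -, -⟩, -⟩ := tau2_compl_context hG maxM hallE t2p hA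
  have maxA := (tau2_not_beta hG maxM t2p).2 A (el_mono hA sEM)
  have cAS : S ≤ C[A] := le_cent_of_comm cSS le_rfl sAS
  have defA : omegaOne p S = A := om1_eq_of_maxElem cSS (maxElem_of_le maxA sAS le_top)
  have sNS : N[S] ≤ N[A] := by rw [← defA]; exact normalizer_le_normalizer_omegaOne p S
  have solN : Group.IsSolvable N[A] :=
    mFT_sol hG (mFT_norm_proper hG (el2_ne_bot hp.out hA) (mFT_pgroup_proper hG hp.out pA))
  have sFC : fittingOf N[A] ≤ C[A] := by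
    have sylO := syl_pCoreOf_fittingOf hp.out N[A]
    refine (nil_le_cent_hall (fittingOf_nil _) sylO (pgroup_abelian_of_syl sylS cSS le_top
      (syl_isPGroup sylO))).trans (H67.centralizer_anti ?_)
    exact le_pCoreOf hp.out (normalIn_normalizer A) pA
  have rF : rank (fittingOf N[A]) ≤ 2 :=
    alpha'_rank2 hG maxM ((sFC.trans sCAE).trans sEM)
      (isPi_mono (isPi_of_le (hall_isPi hallE) (sFC.trans sCAE))
        fun q h h' => h (alpha_sub_sigma hG maxM h'))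
  have h1 := H71.rank2_der1_sub_Fitting (mFT_odd hG _) solN rF
  have nsCE : C[A] ⊴ E := ⟨sCAE, le_normalizer_centralizer nsAE.2⟩
  have h2 : ⁅N[S], N[S]⁆ ≤ fittingOf E :=
    (commutator_mono sNS sNS).trans (h1.trans
      ((fittingOf_le_of_le (centralizer_le_normalizer _) sFC).trans (fittingOf_le_of_normalIn nsCE)))
  have h3 := mFT_Sylow_der1 hG sylS (by w_tac)
  exact ⟨h3, h2, nil_le_cent_hall (fittingOf_nil E) (hall_of_le sylS (h3.trans h2) le_top) cSS,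
    (H67.centralizer_anti sAS).trans sCAE⟩

/-- When the Sylow `p`-subgroups of `G` are abelian for one `p ∈ τ₂(M)`, they are abelian for all
primes of `τ₂(M)`, and such a Sylow subgroup lies in `F(E)`. -/
theorem abelian_tau2_syl {E : Subgroup G} (hallE : IsPiHallOf (sigma M)ᶜ E M) {p : ℕ}
    [hp : Fact p.Prime] (t2p : p ∈ tau2 M) {S : Subgroup G} (sylS : IsSyl p S ⊤)
    (cSS : IsMulCommutative S) {q : ℕ} (t2q : q ∈ tau2 M) :
    ∃ B Q : Subgroup G, ElemOf q 2 B E ∧ IsSyl q Q ⊤ ∧ B ≤ Q ∧ IsMulCommutative Q ∧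
      Q ≤ fittingOf E := by
  have hq := tau2_prime t2q
  have := Fact.mk hq
  obtain ⟨B, hB⟩ := ex_tau2Elem_of_mem hG maxM hallE t2q
  obtain ⟨Q, sylQ, sBQ⟩ := exists_syl_ge le_top (el_pgroup hB)
  have cQ : IsMulCommutative Q := by
    by_contra ncQ
    have h := (nonabelian_tau2 hG maxM hallE t2q hB (syl_isPGroup sylQ) ncQ).1
    rw [h] at t2p
    obtain rfl : p = q := t2p
    exact ncQ (pgroup_abelian_of_syl sylS cSS le_top (syl_isPGroup sylQ))
  obtain ⟨h1, h2, -⟩ := abelian_tau2_sub_Fitting hG maxM hallE t2q hB sylQ sBQ cQ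
  exact ⟨B, Q, hB, sylQ, sBQ, cQ, h1.trans h2⟩

/-- B & G Lemma 12.8(a, b, d, e). -/
theorem abelian_tau2 {E E₁ E₂ E₃ : Subgroup G} (hE : SigmaCompl M E E₁ E₂ E₃) {p : ℕ}
    [hp : Fact p.Prime] (t2p : p ∈ tau2 M) {A S : Subgroup G} (hA : ElemOf p 2 A E)
    (sylS : IsSyl p S ⊤) (sAS : A ≤ S) (cSS : IsMulCommutative S) :
    (E₂ ⊴ E ∧ IsMulCommutative E₂) ∧ IsPiHallOf (tau2 M) E₂ ⊤ ∧
      (N[A] = N[S] ∧ N[S] = N[E₂] ∧ N[E₂] = N[E₃ ⊔ E₂] ∧ N[E₃ ⊔ E₂] = N[fittingOf E]) ∧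
      ∀ X : Subgroup G, X ≤ E₁ → (Nat.card X).Prime → sigmaCore M ⊓ C[X] = ⊥ → X ≤ C[E] := by
  have hallE := hE.hallE
  have hall2 := hE.hallE₂
  have sEM := hall_le hallE
  have sE2 := hall_le hall2
  have nilF := fittingOf_nil E
  obtain ⟨⟨-, nsE3⟩, -, ⟨cycE1, cycE3⟩, ⟨-, -, defE⟩, -⟩ := sigma_compl_context hG maxM hE
  obtain ⟨⟨nsAE, -⟩, ⟨sCAE, -, nNAM⟩, -⟩ := tau2_compl_context hG maxM hallE t2p hA
  obtain ⟨sSN', sN'F, cFS, -⟩ := abelian_tau2_sub_Fitting hG maxM hallE t2p hA sylS sAS cSS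
  have maxA := (tau2_not_beta hG maxM t2p).2 A (el_mono hA sEM)
  have sylE2 : ∀ q ∈ tau2 M, ∃ Q, IsSyl q Q ⊤ ∧ IsMulCommutative Q ∧ Q ≤ fittingOf E ∧ Q ≤ E₂ := by
    intro q t2q
    have := Fact.mk (tau2_prime t2q)
    obtain ⟨B, Q, -, sylQ, -, cQ, sQF⟩ := abelian_tau2_syl hG maxM hallE t2p sylS cSS t2q
    refine ⟨Q, sylQ, cQ, sQF, (le_piCoreOf_of_le_fittingOf sQF
      (isPi_of_isPGroup_of_mem (tau2_prime t2q) (syl_isPGroup sylQ) t2q)).trans ?_⟩
    exact piCoreOf_le_hall hall2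
  have sE2F : E₂ ≤ fittingOf E := le_of_forall_syl_le fun q hq hd => by
    obtain ⟨Q, sylQ, -, h1, h2⟩ := sylE2 q (hall_isPi hall2 q hq hd)
    exact ⟨Q, hall_of_le sylQ h2 le_top, h1⟩
  have nsE2 : E₂ ⊴ E := by
    rw [eq_piCoreOf_of_isNilpotent nilF (hall_of_le hall2 sE2F (fittingOf_le E))]
    exact piCoreOf_fittingOf_normalIn _ E
  have nilE2 := H67.isNilpotent_of_le nilF sE2F
  have cE2 : IsMulCommutative E₂ := by
    refine H4.isMulCommutative_of_isNilpotent nilE2 fun q _ P sP pP => ?_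
    by_cases h1 : P = ⊥
    · rw [h1]; infer_instance
    exact tau2_pgroup_abelian hG maxM (mem_of_isPi_of_isPGroup Fact.out pP h1
      (isPi_of_le (hall_isPi hall2) sP)) ((sP.trans sE2).trans sEM) pP
  have hallG : IsPiHallOf (tau2 M) E₂ ⊤ := by
    refine hall_mk le_top (hall_isPi hall2) fun q hq hd t2q => ?_
    have := Fact.mk hq
    obtain ⟨Q, sylQ, -, -, h2⟩ := sylE2 q t2q
    exact syl_not_dvd sylQ (hd.trans (relIndex_dvd_of_le_left _ h2))
  have sE3F : E₃ ≤ fittingOf E := le_fittingOf_of_comm nsE3 (isMulCommutative_of_isCyclic cycE3)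
  have sKF : E₃ ⊔ E₂ ≤ fittingOf E := sup_le sE3F sE2F
  have hallK : IsPiHallOf (tau3 M ∪ tau2 M) (E₃ ⊔ E₂) E :=
    hall_sup hE.hallE₃ hall2 (Or.inr (sE2.trans nsE3.2))
  have hallKF := hall_of_le hallK sKF (fittingOf_le E)
  have nilK := H67.isNilpotent_of_le nilF sKF
  have sSE2 : S ≤ E₂ := le_of_normal_hall hall2 nsE2 ((sSN'.trans sN'F).trans (fittingOf_le E))
    (isPi_of_isPGroup_of_mem hp.out (syl_isPGroup sylS) t2p)
  have n1 : N[fittingOf E] ≤ N[E₃ ⊔ E₂] :=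
    normalizer_le_normalizer_of_normal_hall hallKF (hall_normalIn_of_isNilpotent nilF hallKF)
  have hall2K := hall_of_le hall2 (le_sup_right : E₂ ≤ E₃ ⊔ E₂) (hall_le hallK)
  have n2 : N[E₃ ⊔ E₂] ≤ N[E₂] :=
    normalizer_le_normalizer_of_normal_hall hall2K (hall_normalIn_of_isNilpotent nilK hall2K)
  have sylSE2 := hall_of_le sylS sSE2 le_top
  have n3 : N[E₂] ≤ N[S] :=
    normalizer_le_normalizer_of_normal_hall sylSE2 (hall_normalIn_of_isNilpotent nilE2 sylSE2)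
  have n4 : N[S] ≤ N[A] := by
    rw [← om1_eq_of_maxElem cSS (maxElem_of_le maxA sAS le_top)]
    exact normalizer_le_normalizer_omegaOne p S
  have n5 : N[A] ≤ N[fittingOf E] := by
    have : fittingOf E = fittingOf C[A] := le_antisymm
      (fittingOf_le_of_le sCAE (cFS.trans (H67.centralizer_anti sAS)))
      (fittingOf_le_of_normalIn ⟨sCAE, le_normalizer_centralizer nsAE.2⟩)
    rw [this]
    exact le_normalizer_fittingOf (H67.normalizer_le_normalizer_centralizer A)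
  refine ⟨⟨nsE2, cE2⟩, hallG, ⟨le_antisymm (n5.trans (n1.trans (n2.trans n3))) n4,
    le_antisymm (n4.trans (n5.trans (n1.trans n2))) n3,
    le_antisymm (n3.trans (n4.trans (n5.trans n1))) n2,
    le_antisymm (n2.trans (n3.trans (n4.trans n5))) n1⟩, fun X sXE1 hX regX => ?_⟩
  have := Fact.mk hX
  have sXE := sXE1.trans (hall_le hE.hallE₁)
  have t1q := hall_isPi hE.hallE₁ _ hX (card_dvd_of_le sXE1)
  have cK : IsMulCommutative ↥(E₃ ⊔ E₂) :=
    H67.isMulCommutative_sup (isMulCommutative_of_isCyclic cycE3) cE2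
      (le_centralizer_of_normalIn_of_coprime nsE3 nsE2 (isPi_coprime (hall_isPi hE.hallE₃)
        (isPi_mono (hall_isPi hall2) fun _ => tau3'2)))
  have nKE : E ≤ N[E₃ ⊔ E₂] := defE.le_norm
  obtain ⟨-, -, nsY⟩ := commG_sigma'_1Elem_cyclic hG maxM ((hall_le hallK).trans sEM)
    (isPi_of_le (hall_isPi hallE) (hall_le hallK)) (tau1_not_sigma t1q)
    (el1_mk hX (le_inf (sXE.trans sEM) (sXE.trans nKE)) rfl) regX
    (isPi_mono (hall_isPi hallK) (by
      rintro r (h | h) rfl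
      exacts [tau3'1 t1q h, tau2'1 t1q h])) cK
  have nY := (norm_cent_comm_of_der_cent (n4.trans (n5.trans n1))
    (sN'F.trans (nil_le_cent_hall nilF hallKF cK)) (sXE.trans (nKE.trans (n2.trans n3)))).2
  have Y1 : ⁅E₃ ⊔ E₂, X⁆ = ⊥ := by
    by_contra hne
    rw [mmax_normal hG maxM nsY hne] at nY
    exact nNAM ((n5.trans (n1.trans (n2.trans n3))).trans nY)
  exact cent_symm (defE.le_of_le (le_cent_of_commutator_eq_bot Y1)
    (le_cent_of_comm (isMulCommutative_of_isCyclic cycE1) le_rfl sXE1))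

/-- B & G Lemma 12.8(f). -/
theorem abelian_tau2_norm_Sylow {E : Subgroup G} (hallE : IsPiHallOf (sigma M)ᶜ E M) {p : ℕ}
    [Fact p.Prime] (t2p : p ∈ tau2 M) {A S : Subgroup G} (hA : ElemOf p 2 A E)
    (sylS : IsSyl p S ⊤) (sAS : A ≤ S) (cSS : IsMulCommutative S) {X : Subgroup G}
    (nSX : X ≤ N[S]) : (S ⊓ C[X]) ⊴ N[S] ∧ ⁅S, X⁆ ⊴ N[S] := by
  obtain ⟨-, sN'F, cFS, -⟩ := abelian_tau2_sub_Fitting hG maxM hallE t2p hA sylS sAS cSS
  obtain ⟨h1, h2⟩ := norm_cent_comm_of_der_cent le_rfl (sN'F.trans cFS) nSX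
  exact ⟨⟨inf_le_left.trans le_normalizer, h1⟩,
    ⟨(commutator_le_of_norm_left nSX).trans le_normalizer, h2⟩⟩

end Main

end Cfsg.Agent.H88.SZ.H64
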