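import Cfsg.Agent.H88.ZMin
import Cfsg.Agent.H88.ZBG12b1

/-! Bender-Glauberman 12.9 and 12.10. -/

set_option autoImplicit false
set_option linter.unusedSectionVars false
set_option linter.unusedVariables false
set_option linter.unusedSectionVars false

namespace Cfsg.Agent.H88.SZ.H64

open Cfsg.Agent.H64

variable [Om]

open Cfsg Cfsg.Agent.H63 Cfsg.Agent.H66 Cfsg.Agent.H67 Subgroup
open Cfsg.Agent.H88.SZ.H63 Cfsg.Agent.H88.SZ.H66 Cfsg.Agent.H88.SZ.H67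

universe u

variable {G : Type u} [Group G] [Finite G]

/-- `V = [V, A] × C_V(A)` for a coprime action on an abelian group. -/
theorem coprime_abelian_isDp {A V : Subgroup G} (cV : IsMulCommutative V) (nVA : A ≤ N[V])
    (hc : (Nat.card A).Coprime (Nat.card V)) : IsDp ⁅V, A⁆ (V ⊓ C[A]) V := by
  have sR : ⁅V, A⁆ ≤ V := commutator_le_of_norm_left nVA
  refine ⟨le_cent_of_comm cV inf_le_left sR, ?_,
    H4.commutator_sup_centralizer nVA hc (Or.inr (H67.isSolvable_of_isMulCommutative cV))⟩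
  rw [eq_bot_iff, ← H4.centralizer_inf_commutator_eq_bot nVA hc]
  exact le_inf (inf_le_right.trans inf_le_right) inf_le_left

omit [Finite G] in
/-- A subgroup of prime order normalized by `Q` is centralized by `Q` or equals `[Z, Q]`. -/
theorem prime_cent_or_comm {Z Q : Subgroup G} (hZ : (Nat.card Z).Prime) (nZQ : Q ≤ N[Z]) :
    Z ≤ C[Q] ∨ ⁅Z, Q⁆ = Z := by
  rcases eq_bot_or_eq_of_prime_card hZ (commutator_le_of_norm_left nZQ) with h | h
  exacts [Or.inl (le_cent_of_commutator_eq_bot h), Or.inr h]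

section Main

variable (hG : IsMinSimpleOddOrder G) {M : Subgroup G} (maxM : IsCoatom M)
include hG maxM

/-- B & G Corollary 12.9. -/
theorem tau1_act_tau2 {E : Subgroup G} (hallE : IsPiHallOf (sigma M)ᶜ E M) {p q : ℕ}
    [hp : Fact p.Prime] [hq : Fact q.Prime] (t2p : p ∈ tau2 M) {A Q : Subgroup G}
    (hA : ElemOf p 2 A E)
    (t1q : q ∈ tau1 M) (hQ : ElemOf q 1 Q E) (regQ : sigmaCore M ⊓ C[Q] = ⊥)
    (ntAQ : ⁅A, Q⁆ ≠ ⊥) :
    (ElemOf p 1 ⁅A, Q⁆ A ∧ A ⊓ C[sigmaCore M] = ⁅A, Q⁆ ∧ ⁅A, Q⁆ ⊴ M) ∧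
      ¬ Conj (A ⊓ C[Q]) ⁅A, Q⁆ ∧ (ElemOf p 1 (A ⊓ C[Q]) A ∧ ¬ C[A ⊓ C[Q]] ≤ M) := by
  have s'p := tau2_not_sigma t2p
  have sEM := hall_le hallE
  have pA := el_pgroup hA
  have hAM := el_mono hA sEM
  have ne : p ≠ q := fun e => tau2'1 t1q (e ▸ t2p)
  obtain ⟨⟨nsAE, EpA⟩, -⟩ := tau2_compl_context hG maxM hallE t2p hA
  have nAQ : Q ≤ N[A] := hQ.1.trans nsAE.2
  have q'A : IsPiSubgroup {q}ᶜ A := isPi_compl_of_isPGroup hp.out pA ne
  have coQA : (Nat.card Q).Coprime (Nat.card A) :=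
    isPi_coprime (isPi_of_isPGroup hq.out (el_pgroup hQ)) q'A
  have defA := coprime_abelian_isDp (el_comm hA) nAQ coQA
  obtain ⟨cA₀, cycA₀, nsA₀⟩ := commG_sigma'_1Elem_cyclic hG maxM hAM.1
    (isPi_of_isPGroup_of_mem hp.out pA s'p) (tau1_not_sigma t1q)
    (el_of_le hQ (le_inf (hQ.1.trans sEM) nAQ)) regQ q'A (el_comm hA)
  have neA₀ : ⁅A, Q⁆ ≠ A := fun e => el2_not_cyclic hA (e ▸ cycA₀)
  have hA₀ := el1_of_lt_el2 hp.out hA defA.le_left ntAQ neA₀
  have hA₁ : ElemOf p 1 (A ⊓ C[Q]) A := by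
    refine el1_of_lt_el2 hp.out hA inf_le_left (fun e => neA₀ ?_) fun e => ntAQ ?_
    · have := defA.sup; rwa [e, sup_bot_eq] at this
    · exact commutator_eq_bot_of_cent (inf_eq_left.1 e)
  have ne01 : A ⊓ C[Q] ≠ ⁅A, Q⁆ := fun e => ntAQ (by have := defA.inf; rwa [e, inf_idem] at this)
  have defA₀ : A ⊓ C[sigmaCore M] = ⁅A, Q⁆ := by
    have h1 : ⁅A, Q⁆ ≤ A ⊓ C[sigmaCore M] := le_inf hA₀.1 cA₀
    refine (el_eq_of_le hA₀ (el1_of_lt_el2 hp.out hA inf_le_left (ne_bot_mono ntAQ h1)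
      fun e => Msigma_neq1 hG maxM ?_) h1).symm
    rw [← (tau2_context hG maxM t2p hAM).2.2.1]
    exact (inf_eq_left.2 (cent_symm (inf_eq_left.1 e))).symm
  obtain ⟨S, sylS, sAS⟩ := exists_syl_ge le_top pA
  have pS := syl_isPGroup sylS
  have ncS : ¬ IsMulCommutative S := by
    intro cS
    obtain ⟨E₁, hall1, sQE1⟩ := exists_hall_ge (π := tau1 M) (sigma_compl_sol hG maxM hallE) hQ.1
      (isPi_of_isPGroup_of_mem hq.out (el_pgroup hQ) t1q)
    obtain ⟨E₃, hall3⟩ := (ex_tau13_compl hG maxM hallE).2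
    obtain ⟨E₂, hE⟩ := ex_tau2_compl hG maxM hallE hall1 hall3
    have := (abelian_tau2 hG maxM hE t2p hA sylS sAS cS).2.2.2 Q sQE1 (el_prime hq.out hQ) regQ
    exact ntAQ (commutator_eq_bot_of_cent' (this.trans (H67.centralizer_anti hA.1)))
  have regEp := (nonabelian_tau2 hG maxM hallE t2p hA pS ncS).2.2.1
  rw [defA₀] at regEp
  refine ⟨⟨hA₀, defA₀, nsA₀⟩, ?_, hA₁, (regEp _ (el_mono hA₁ hA.1) ne01).2⟩
  obtain ⟨EpZ, -, transA⟩ := basic_p2maxElem_structure hG (el_top hA)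
    ((tau2_not_beta hG maxM t2p).2 A hAM) pS sAS ncS
  set Z := omegaOne p Z[S] with hZ
  have key : ∀ g, ⁅A, Q⁆ ≠ cj g Z := by
    intro g e
    have h1 : cj g S ≤ M := by
      refine le_trans ?_ (mmax_cent_le hG maxM nsA₀ ntAQ)
      rw [e, ← cj_centralizer]
      exact cj_mono (cent_symm (omegaOne_center_le_centralizer p S))
    exact ncS (isMulCommutative_cj_iff.1 (tau2_pgroup_abelian hG maxM t2p h1 (isPGroup_cj pS g)))
  have neZ : ⁅A, Q⁆ ≠ Z := by simpa [cj_one] using key 1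
  have nZQ : Q ≤ N[Z] := by
    refine le_normalizer_of_cj fun g hg => ?_
    by_contra h
    obtain ⟨x, -, e⟩ := transA _ _ (el_cj_of_mem EpZ (nAQ hg)) h hA₀ neZ
    rw [cj_cj] at e
    exact key _ e
  rcases prime_cent_or_comm (el_prime hp.out EpZ) nZQ with h | h
  · rw [← el_eq_of_le EpZ hA₁ (le_inf EpZ.1 h)]
    rintro ⟨g, e⟩
    exact key g e
  · refine absurd (el_eq_of_le EpZ hA₀ ?_).symm neZ
    rw [← h]; exact commutator_mono EpZ.1 le_rfl

/-- A `p`-subgroup of `M` is abelian when `p ∉ σ(M)`. -/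
theorem sigma'_pgroup_abelian {p : ℕ} (hp : p.Prime) (s'p : p ∉ sigma M) {P : Subgroup G}
    (sPM : P ≤ M) (pP : IsPGroup p P) : IsMulCommutative P := by
  by_cases h1 : P = ⊥
  · rw [h1]; infer_instance
  rcases (partition_pi_mmax hG maxM hp).1
    ((dvd_card_of_isPGroup hp pP h1).trans (card_dvd_of_le sPM)) with h | h | h | h
  · exact isMulCommutative_of_isCyclic (cyclic_of_rk1 hG maxM hp (tau1_rk h) sPM pP)
  · exact tau2_pgroup_abelian hG maxM h sPM pP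
  · exact isMulCommutative_of_isCyclic (cyclic_of_rk1 hG maxM hp (tau3_rk h) sPM pP)
  · exact absurd h s'p

/-- B & G Corollary 12.10(a). -/
theorem sigma'_nil_abelian {N : Subgroup G} (sNM : N ≤ M) (s'N : IsPiSubgroup (sigma M)ᶜ N)
    (nilN : Group.IsNilpotent N) : IsMulCommutative N := by
  refine H4.isMulCommutative_of_isNilpotent nilN fun q hq P sP pP => ?_
  by_cases h1 : P = ⊥
  · rw [h1]; infer_instance
  exact sigma'_pgroup_abelian hG maxM hq.out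
    (mem_of_isPi_of_isPGroup hq.out pP h1 (isPi_of_le s'N sP)) (sP.trans sNM) pP

/-- B & G Corollary 12.10(b), first assertion. -/
theorem der_mmax_compl_abelian {E : Subgroup G} (hallE : IsPiHallOf (sigma M)ᶜ E M) :
    IsMulCommutative ↥⁅E, E⁆ :=
  sigma'_nil_abelian hG maxM ((derived_normalIn E).1.trans (hall_le hallE))
    (isPi_of_le (hall_isPi hallE) (derived_normalIn E).1) (der1_sigma_compl_nil hG maxM hallE)

/-- B & G Corollary 12.10(b), second assertion. -/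
theorem tau2_compl_abelian {E E₂ : Subgroup G} (hallE : IsPiHallOf (sigma M)ᶜ E M)
    (hall2 : IsPiHallOf (tau2 M) E₂ E) : IsMulCommutative E₂ := by
  by_cases h1 : E₂ = ⊥
  · rw [h1]; infer_instance
  obtain ⟨p, t2p, A, hA, -⟩ := ex_tau2Elem hG maxM hallE hall2 h1
  have hp := tau2_prime t2p
  have := Fact.mk hp
  obtain ⟨S, sylS, sAS⟩ := exists_syl_ge le_top (el_pgroup hA)
  by_cases cS : IsMulCommutative S
  · obtain ⟨E₁, E₃, hE⟩ := ex_tau1_compl hG maxM hallE hall2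
    exact (abelian_tau2 hG maxM hE t2p hA sylS sAS cS).1.2
  · have h := (nonabelian_tau2 hG maxM hallE t2p hA (syl_isPGroup sylS) cS).1
    have h2 := hall_isPi hall2
    rw [h] at h2
    exact tau2_pgroup_abelian hG maxM t2p ((hall_le hall2).trans (hall_le hallE))
      (isPGroup_of_isPi hp h2)

/-- B & G Corollary 12.10(c). -/
theorem tau1_cent_tau2Elem_factor {E : Subgroup G} (hallE : IsPiHallOf (sigma M)ᶜ E M) {p : ℕ}
    [hp : Fact p.Prime] (t2p : p ∈ tau2 M) {A : Subgroup G} (hA : ElemOf p 2 A E) :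
    (∀ E₁ E₂ E₃ : Subgroup G, SigmaCompl M E E₁ E₂ E₃ → E₃ ⊔ E₂ ≤ E ⊓ C[A]) ∧
      (E ⊓ C[A]) ⊴ E ∧ PiNat (tau1 M) ((E ⊓ C[A]).relIndex E) := by
  have nsAE := (tau2_compl_context hG maxM hallE t2p hA).1.1
  have h : ∀ E₁ E₂ E₃ : Subgroup G, SigmaCompl M E E₁ E₂ E₃ → E₃ ⊔ E₂ ≤ E ⊓ C[A] := by
    intro E₁ E₂ E₃ hE
    refine le_inf (sup_le (hall_le hE.hallE₃) (hall_le hE.hallE₂)) (sup_le ?_ ?_)
    · exact le_centralizer_of_normalIn_of_coprime (sigma_compl_context hG maxM hE).1.2 nsAE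
        (coprime_of_pgroup hp.out (hall_isPi hE.hallE₃) (el_pgroup hA) (tau3'2 t2p))
    · exact le_cent_of_comm (tau2_compl_abelian hG maxM hallE hE.hallE₂) le_rfl
        (tau2_regular hG maxM hE t2p hA).2.2
  refine ⟨h, inf_centralizer_normalIn nsAE.2, ?_⟩
  obtain ⟨E₁, E₂, E₃, hE⟩ := ex_sigmaCompl hG maxM hallE
  refine PiNat.of_dvd ?_ (relIndex_dvd_of_le_left E (h _ _ _ hE))
  rw [(sigma_compl_context hG maxM hE).2.2.2.1.2.2.relIndex_left]
  exact hall_isPi hE.hallE₁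

/-- B & G Corollary 12.10(d). -/
theorem norm_noncyclic_sigma {p : ℕ} (sp : p ∈ sigma M) {P : Subgroup G} (pP : IsPGroup p P)
    (sPM : P ≤ M) (ncycP : ¬ IsCyclic P) : N[P] ≤ M := by
  have hp := sigma_prime sp
  have := Fact.mk hp
  obtain ⟨A, hA, -⟩ := exists_normal_el2 hp pP (mFT_odd hG P) ncycP
  exact (sigma_group_trans_c hG maxM sp pP sPM).le_of_le
    ((H67.centralizer_anti hA.1).trans (p2Elem_mmax hG maxM (el_mono hA sPM)).1) inf_le_left

/-- B & G Corollary 12.10(e). -/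
theorem cent1_nreg_sigma_uniq {x : G} (xM : x ∈ M) (ntx : x ≠ 1) (t2x : PiElt (tau2 M) x)
    (nt : sigmaCore M ⊓ C1[x] ≠ ⊥) : UniqMax C1[x] M := by
  have t2X := isPi_zpowers_iff.2 t2x
  obtain ⟨E, hallE, sXE⟩ := ex_sigma_compl_ge hG maxM (zpowers_le.2 xM)
    (isPi_mono t2X fun _ => tau2_not_sigma)
  obtain ⟨E₂, hall2, sXE2⟩ := exists_hall_ge (sigma_compl_sol hG maxM hallE) sXE t2X
  obtain ⟨p, t2p, A, hA, sAE2⟩ := ex_tau2Elem hG maxM hallE hall2
    (ne_bot_of_mem (sXE2 (mem_zpowers x)) ntx)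
  have := Fact.mk (tau2_prime t2p)
  have cA : A ≤ C1[x] := by
    rw [← centralizer_zpowers]
    exact le_cent_of_comm (tau2_compl_abelian hG maxM hallE hall2) sAE2 sXE2
  have key : ∀ L, IsCoatom L → C1[x] ≤ L → L = M := by
    intro L maxL sCL
    by_contra ne
    apply nt
    rw [eq_bot_iff, ← (tau2_context hG maxM t2p (el_mono hA (hall_le hallE))).2.2.2.1 L maxL
      (cA.trans sCL) ne]
    exact inf_le_inf_left _ sCL
  obtain ⟨L, maxL, sCL⟩ := mmax_exists_cent1 hG ntx (we_of_inf_cent1 hG (w_sigmaCore M) nt)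
  exact ⟨maxM, key L maxL sCL ▸ sCL, key⟩

end Main

end Cfsg.Agent.H88.SZ.H64
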