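import Cfsg.Agent.H88.ZMin
import Cfsg.Agent.H88.ZBG12b2
import Cfsg.Agent.H88.ZBG9
import Cfsg.Agent.H71.BG5
import Cfsg.Agent.H71.Crit
import Cfsg.Agent.H69.BG3
import Cfsg.Agent.H2.OddAux

/-! Bender-Glauberman 12.13 - 12.19 (mathcomp names). -/

set_option autoImplicit false
set_option linter.unusedSectionVars false
set_option linter.unusedVariables false
set_option linter.unusedVariables false

namespace Cfsg.Agent.H88.SZ.H2

open Cfsg.Agent.H2

variable [Om]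

open Cfsg Cfsg.Agent.H63 Cfsg.Agent.H67 Cfsg.Agent.H66 Cfsg.Agent.H64 Subgroup
open Cfsg.Agent.H88.SZ.H63 Cfsg.Agent.H88.SZ.H67 Cfsg.Agent.H88.SZ.H66 Cfsg.Agent.H88.SZ.H64

universe u

variable {G : Type u} [Group G] [Finite G]

theorem nonabelian_Uniqueness_aux (hG : IsMinSimpleOddOrder G) {p : ℕ} [hp : Fact p.Prime]
    {M L P S A : Subgroup G} (maxM : IsCoatom M) (maxL : IsCoatom L) (neLM : L ≠ M)
    (sylP : IsSyl p P ⊤) (sN : N[P] ≤ L ⊓ M) (rP : rank P ≤ 2) (sSP : S ≤ P)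
    (ncS : ¬ IsMulCommutative S) (oS : Nat.card S = p ^ 3) (eS : ∀ x ∈ S, x ^ p = 1)
    (hZ : ElemOf p 1 Z[S] S) (hA : ElemOf p 2 A P) :
    ∃ A₀, ElemOf p 1 A₀ A ∧ A₀ ≠ Z[S] ∧ UniqMax N[A₀] M := by
  have sPLM : P ≤ L ⊓ M := le_normalizer.trans sN
  have sPM : P ≤ M := sPLM.trans inf_le_right
  have sPL : P ≤ L := sPLM.trans inf_le_left
  obtain ⟨defM, eab⟩ := nonuniq_norm_Sylow_pprod hG maxM maxL neLM sylP sN
  have eMab : betaCore M = alphaCore M := by rw [betaCore_def, alphaCore_def, eab]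
  rw [eMab] at defM
  have ntMa : alphaCore M ≠ ⊥ := by
    intro h
    exact neLM (eq_mmax maxM maxL (defM.le_of_le (h ▸ bot_le) inf_le_left)).symm
  obtain ⟨A₀, hA₀, uA₀⟩ : ∃ A₀, ElemOf p 1 A₀ A ∧ UniqMax N[A₀] M := by
    by_contra! h
    exact ntMa ((p2Elem_mmax hG maxM (hA.mono sPM)).2 h).2.1
  refine ⟨A₀, hA₀, ?_, uA₀⟩
  rintro rfl
  have a'p : p ∉ alpha M := by
    intro h
    have h1 := (mem_alpha_iff.1 h).2
    rw [← rank_syl (hall_of_le sylP sPM le_top)] at h1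
    omega
  have pP := syl_isPGroup sylP
  have co : ∀ X ≤ P, (Nat.card X).Coprime (Nat.card (alphaCore M)) := fun X hX =>
    isPi_coprime' (isPi_of_isPGroup_of_mem hp.out (pP.to_le hX) a'p) (Malpha_pi M)
  have nZS : S ≤ N[Z[S]] := le_normalizer.trans (normalizer_le_normalizer_center S)
  have sKL : alphaCore M ⊓ C[Z[S]] ≤ L := by
    refine le_of_cent1_le_of_quo (S := S) (Z := Z[S]) (derived_le_center_of_card_cube oS)
      (fun h => ncS (isMulCommutative_of_quo_cyclic inf_le_right nZS h))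
      (le_normalizer_inf ((sSP.trans sPM).trans (Malpha_normal M).norm)
        (le_normalizer_centralizer nZS)) inf_le_right ?_ ?_ ?_
    · exact le_bot_iff.1 ((inf_eq_bot_of_coprime' (co _ (inf_le_left.trans sSP)).symm) ▸
        inf_le_inf_right _ inf_le_left)
    · exact Nat.Coprime.coprime_dvd_right (card_dvd_of_le' inf_le_left) (co S sSP)
    · intro a ha haZ
      have hB : ElemOf p 2 (Z[S] ⊔ zpowers a) S :=
        hZ.sup_zpowers ha (cent_symm inf_le_right ha) (eS a ha) haZ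
      refine le_trans ?_ (p2Elem_mmax hG maxL (hB.mono (sSP.trans sPL))).1
      rw [centralizer_sup, centralizer_zpowers]
      exact inf_le_inf_right _ inf_le_right
  have hmul := coprime_isMul_norm (H := Z[S]) defM (Malpha_normal M) (inf_le_left.trans (sSP.trans sPLM))
    (co _ (inf_le_left.trans sSP)) (Or.inr (mmax_sub_sol hG maxM (Malpha_normal M).le))
  refine neLM (uA₀.eq maxL ?_)
  rw [← inf_eq_right.2 uA₀.le]
  exact hmul.le_of_le sKL (inf_le_left.trans inf_le_left)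

/-- B & G Theorem 12.13. -/
theorem nonabelian_Uniqueness (hG : IsMinSimpleOddOrder G) {p : ℕ} [hp : Fact p.Prime]
    {P : Subgroup G} (pP : IsPGroup p P) (ncPP : ¬ IsMulCommutative P)
    (hw : p ∈ ϖ := by w_tac) : InUniqueMaximal P := by
  by_contra nuP
  obtain ⟨M, maxM, sPM⟩ := mmax_exists (mFT_pgroup_proper hG hp.out pP)
  obtain ⟨L, maxL, sPL, neLM⟩ := exists_ne_of_not_inU maxM sPM nuP
  obtain ⟨T, sylT, sPT⟩ := exists_syl_ge (le_inf sPL sPM) pP
  have pT := syl_isPGroup sylT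
  have ncT : ¬ IsMulCommutative T := fun h => ncPP (isMulCommutative_of_le h sPT)
  have ncycT : ¬ IsCyclic T := fun h => ncT h.isMulCommutative
  have sTL : T ≤ L := (hall_le sylT).trans inf_le_left
  have sTM : T ≤ M := (hall_le sylT).trans inf_le_right
  have hN : ∀ H, IsCoatom H → T ≤ H → N[T] ≤ H := fun H maxH sTH => by
    have sp : p ∈ sigma H := by
      by_contra h
      exact ncT (sigma'_nil_abelian hG maxH sTH (isPi_of_isPGroup_of_mem hp.out pT h)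
        (isNilpotent_of_isPGroup hp.out pT))
    exact norm_noncyclic_sigma hG maxH sp pT sTH ncycT
  have sN : N[T] ≤ L ⊓ M := le_inf (hN L maxL sTL) (hN M maxM sTM)
  have sylTG : IsSyl p T ⊤ := syl_top_of_normalizer_le sylT sN
  have prT : Pr T := sub_mmax_proper maxM sTM
  have nuT : ¬ InUniqueMaximal T := fun h => neLM (eq_of_inU h maxL sTL maxM sTM)
  have rT : rank T ≤ 2 := by
    by_contra h
    exact nuT (rank3_Uniqueness hG prT (by omega))
  obtain ⟨S, C, ncS, oS, eS, cycC, defT, defZ⟩ := mFT_rank2_Sylow_cprod hG sylTG (by w_tac) rT ncT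
  have eS' : ∀ x ∈ S, x ^ p = 1 := fun x hx => by
    have := Monoid.pow_exponent_eq_one (⟨x, hx⟩ : S)
    rw [eS] at this
    exact congrArg Subtype.val this
  have pS : IsPGroup p S := isPGroup_of_card_eq_pow oS
  have ntS : S ≠ ⊥ := fun h => ncS (h ▸ (elemAb_bot p).1)
  have ntZ : Z[S] ≠ ⊥ := center_ne_bot_of_isPGroup hp.out pS ntS
  have hZ : ElemOf p 1 Z[S] S := by
    have hd : p ∣ Nat.card C := by
      by_contra h
      exact ntZ (defZ ▸ (omegaOne_eq_bot_iff hp.out).2 h)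
    exact (defZ ▸ elemOf_one_omegaOne_of_isCyclic cycC hd).of_le inf_le_left
  obtain ⟨a, ha, haZ⟩ : ∃ a ∈ S, a ∉ Z[S] := by
    by_contra! h
    exact ncS (isMulCommutative_of_le (isMulCommutative_center S) h)
  have hA : ElemOf p 2 (Z[S] ⊔ zpowers a) T :=
    (hZ.sup_zpowers ha (cent_symm inf_le_right ha) (eS' a ha) haZ).mono defT.le_left
  set A := Z[S] ⊔ zpowers a
  have maxA : MaxElemOf p A ⊤ := by
    by_contra h
    exact nuT (uniq_mmaxS hA.le prT (nonmaxElem2_Uniqueness hG hA.top h))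
  obtain ⟨hZ₀, -, trans⟩ := basic_p2maxElem_structure hG hA.top maxA pT hA.le ncT
  have defZ₀ : Z[S] = omegaOne p Z[T] := by
    refine hZ.eq_of_le hZ₀ (elemAb_le_omegaOne hZ.elemAb (le_inf (inf_le_left.trans defT.le_left) ?_))
    rw [← defT.sup, centralizer_sup]
    exact le_inf inf_le_right (inf_le_left.trans defT.cent')
  obtain ⟨A₀, h₀, n₀, u₀⟩ := nonabelian_Uniqueness_aux hG maxM maxL neLM sylTG sN rT defT.le_left
    ncS oS eS' hZ hA
  obtain ⟨A₁, h₁, n₁, u₁⟩ := nonabelian_Uniqueness_aux hG maxL maxM neLM.symm sylTG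
    (sN.trans (inf_comm _ _).le) rT defT.le_left ncS oS eS' hZ hA
  obtain ⟨x, hx, rfl⟩ := trans A₀ A₁ h₀ (defZ₀ ▸ n₀) h₁ (defZ₀ ▸ n₁)
  have u₂ := u₀.cj x
  rw [cj_normalizer, cj_eq_self_of_mem (sTM hx.1)] at u₂
  exact neLM (u₁.unique u₂)

section Main2

variable (hG : IsMinSimpleOddOrder G) {M : Subgroup G} (maxM : IsCoatom M)
include hG maxM

/-- B & G Corollary 12.14. -/
theorem cent_der_sigma_uniq {p : ℕ} [hp : Fact p.Prime] {X : Subgroup G} (hX : ElemOf p 1 X M)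
    (h : p ∈ beta M ∨ X ≤ ⁅sigmaCore M, sigmaCore M⁆) :
    UniqMax C[X] M ∧ ∀ P : Subgroup G, IsSyl p P (sigmaCore M) → UniqMax P M := by
  have ntX : X ≠ ⊥ := hX.ne_bot one_ne_zero
  have nsMs := Msigma_normal M
  have sp : p ∈ sigma M := h.elim (beta_sub_sigma hG maxM) fun h =>
    mem_of_isPi_of_isPGroup hp.out hX.isPGroup ntX
      (isPi_of_le (Msigma_pi M) (h.trans (derived_normalIn _).le))
  have sXMs : X ≤ sigmaCore M := le_of_normal_hall (Msigma_Hall hG maxM) nsMs hX.le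
    (isPi_of_isPGroup_of_mem hp.out hX.isPGroup sp)
  obtain ⟨P, sylP, sXP⟩ := exists_syl_ge sXMs hX.isPGroup
  have pP := syl_isPGroup sylP
  have sylPM : IsSyl p P M := syl_of_hall (Msigma_Hall hG maxM) sp sylP
  have sPM := hall_le sylPM
  suffices hs : UniqMax C[X] M ∧ UniqMax P M by
    refine ⟨hs.1, fun Q sylQ => ?_⟩
    obtain ⟨g, hg, rfl⟩ := syl_conj sylP sylQ
    have := hs.2.cj g
    rwa [cj_eq_self_of_mem (nsMs.le hg)] at this
  by_cases rC : rank (P ⊓ C[X]) ≤ 2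
  swap
  · have u : UniqMax (P ⊓ C[X]) M := def_uniq_mmax (rank3_Uniqueness hG
      (sub_mmax_proper maxM (inf_le_left.trans sPM)) (by omega)) maxM (inf_le_left.trans sPM)
    exact ⟨def_uniq_mmaxS inf_le_right (mFT_cent_proper hG ntX) u, u.of_le inf_le_left sPM⟩
  have rC' : rankP p (P ⊓ C[X]) ≤ 2 := (rankP_le_rank _).trans rC
  have nnP : NarrowOf p P := fun hr =>
    (H71.narrow_centP pP (mFT_odd hG P) hr).2 ⟨X, sXP, hX.card_one, rC'⟩ hr
  have b'p : p ∉ beta M := fun hb => ((mem_beta_iff hG maxM).1 hb).2 P sylPM nnP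
  have sXMs' := h.resolve_left b'p
  have defMs := ((beta_max_pdiv hG maxM b'p).2.1).isSdp sylP
  have sXP' : X ≤ ⁅P, P⁆ := defMs.derived_inf_right ▸ le_inf sXMs' sXP
  by_cases rP : 2 < rank P
  · have := (H71.narrow_cent_dprod pP (mFT_odd hG P) rP hX.card_one sXP rC').2.1
    exact absurd ((inf_eq_left.2 sXP').symm.trans this) ntX
  have ncP : ¬ IsMulCommutative P := fun h =>
    ntX (le_bot_iff.1 (derived_eq_bot_iff.2 h ▸ sXP'))
  have uP : UniqMax P M := def_uniq_mmax (nonabelian_Uniqueness hG pP ncP) maxM sPM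
  refine ⟨def_uniq_mmaxS ?_ (mFT_cent_proper hG ntX) uP, uP⟩
  obtain ⟨S, C, -, oS, -, cycC, defP, -⟩ :=
    mFT_rank2_Sylow_cprod hG (sigma_Sylow_G sp sylPM) (wp_of_sigma sp) (not_lt.1 rP) ncP
  refine cent_symm (sXP'.trans ?_)
  rw [defP.derived, derived_eq_bot_iff.2 cycC.isMulCommutative, sup_bot_eq]
  refine (derived_le_center_of_card_cube oS).trans ?_
  rw [← defP.sup, centralizer_sup]
  exact le_inf inf_le_right (inf_le_left.trans defP.cent')

theorem sigma_subgroup_embedding_bc {q : ℕ} [Fact q.Prime] (sq : q ∈ sigma M)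
    {X Mstar : Subgroup G} (sN : N[X] ≤ Mstar) {S : Subgroup G} (sylS : IsSyl q S (M ⊓ Mstar))
    (sXS : X ≤ S) : N[S] ≤ M ∧ IsSyl q S Mstar := by
  have sSM : S ≤ M := (hall_le sylS).trans inf_le_left
  have h1 : N[S] ≤ M := by
    by_cases cyc : IsCyclic S
    · exact norm_sigma_Sylow sq (syl_of_normalizer_le sylS inf_le_left
        (inf_le_inf_left _ ((norm_le_norm_of_isCyclic cyc sXS).trans sN)))
    · exact norm_noncyclic_sigma hG maxM sq (syl_isPGroup sylS) sSM cyc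
  exact ⟨h1, syl_of_normalizer_le sylS inf_le_right (le_inf (inf_le_right.trans h1) inf_le_left)⟩

/-- B & G Proposition 12.15. -/
theorem sigma_subgroup_embedding {q : ℕ} [hq : Fact q.Prime] (sq : q ∈ sigma M)
    {X Mstar : Subgroup G}
    (sXM : X ≤ M) (qX : IsPGroup q X) (ntX : X ≠ ⊥) (maxMstar : IsCoatom Mstar)
    (sN : N[X] ≤ Mstar) (neM : Mstar ≠ M) :
    ¬ Conj M Mstar ∧
      (∀ S : Subgroup G, IsSyl q S (M ⊓ Mstar) → X ≤ S → N[S] ≤ M ∧ IsSyl q S Mstar) ∧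
      (q ∈ sigma Mstar → IsMul (betaCore Mstar) (M ⊓ Mstar) Mstar ∧
        tau1 Mstar ⊆ tau1 M ∪ alpha M ∧ betaCore M = alphaCore M ∧ alphaCore M ≠ ⊥) ∧
      (q ∉ sigma Mstar → q ∈ tau2 Mstar ∧
        (∀ r : ℕ, r ∣ Nat.card M → r ∈ sigma Mstar → r ∈ beta Mstar) ∧
        IsPiHallOf (sigma Mstar)ᶜ (M ⊓ Mstar) Mstar) := by
  rename' Mstar => L, maxMstar => maxL
  have nc : ¬ Conj M L := fun hc => mmax_norm_notJ hG maxM maxL qX sXM sN (Or.inl ⟨sq, neM.symm⟩) hc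
  obtain ⟨S, sylS, sXS⟩ := exists_syl_ge (le_inf sXM (le_normalizer.trans sN)) qX
  obtain ⟨sNS, sylSL⟩ := sigma_subgroup_embedding_bc hG maxM sq sN sylS sXS
  have qS := syl_isPGroup sylS
  refine ⟨nc, fun S h₁ h₂ => sigma_subgroup_embedding_bc hG maxM sq sN h₁ h₂, fun sLq => ?_,
    fun s'Lq => ?_⟩
  · have sylSG := sigma_Sylow_G sLq sylSL
    have sNL := norm_sigma_Sylow sLq sylSL
    obtain ⟨defL, -⟩ := nonuniq_norm_Sylow_pprod hG maxL maxM neM.symm sylSG (le_inf sNS sNL)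
    obtain ⟨defM, eab⟩ := nonuniq_norm_Sylow_pprod hG maxM maxL neM sylSG (le_inf sNL sNS)
    have eMab : betaCore M = alphaCore M := by rw [betaCore_def, alphaCore_def, eab]
    refine ⟨defL, fun r t1r => ?_, eMab, fun h => ?_⟩
    · have hr := tau1_prime t1r
      have := Fact.mk hr
      by_contra hn
      have a'r : r ∉ alpha M := fun h => hn (Or.inr h)
      have b'L : ¬ r ∣ Nat.card (betaCore L) := fun h =>
        tau1_not_sigma t1r (beta_sub_sigma hG maxL (Mbeta_pi L r hr h))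
      have b'M : ¬ r ∣ Nat.card (betaCore M) := fun h => a'r (eab ▸ Mbeta_pi M r hr h)
      obtain ⟨-, -, r1, d1⟩ := mem_tau1_iff.1 t1r
      have d2 : ¬ r ∣ Nat.card ↥⁅M, M⁆ := not_dvd_derived_of_isMul hr defM (Mbeta_normal M) b'M
        fun h => d1 (h.trans (card_dvd_of_le' (commutator_mono inf_le_left inf_le_left)))
      refine hn (Or.inl (mem_tau1_iff.2 ⟨hr, fun h => d2 ?_, ?_, d2⟩))
      · exact ((pi_Msigma hG maxM).1 h).2.trans (card_dvd_of_le' (Msigma_der1 hG maxM))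
      · rw [← rankP_eq_of_isMul defM b'M, inf_comm, rankP_eq_of_isMul defL b'L, r1]
    · exact neM (eq_mmax maxM maxL (defM.le_of_le (eMab ▸ h ▸ bot_le) inf_le_left)).symm
  · have t2q : q ∈ tau2 L := (prime_class_mmax_norm hG maxL qX sN).resolve_left s'Lq
    obtain ⟨F, hallF, sSF⟩ := ex_sigma_compl_ge hG maxL (hall_le sylSL)
      (isPi_of_isPGroup_of_mem hq.out qS s'Lq)
    obtain ⟨A, hA⟩ : ∃ A, ElemOf q 2 A S :=
      exists_elemOf_of_le_rankP (by rw [rankP_syl sylSL, (mem_tau2_iff.1 t2q).2.2])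
    have sAM : A ≤ M := hA.le.trans ((hall_le sylS).trans inf_le_left)
    have hAL := hA.mono (hall_le sylSL)
    obtain ⟨⟨nsAF, -⟩, ⟨sCF, -, -⟩, -, ti⟩ := tau2_compl_context hG maxL hallF t2q (hA.mono sSF)
    obtain ⟨-, -, regA, tiL, -⟩ := tau2_context hG maxL t2q hAL
    have sFM : F ≤ M := nsAF.norm.trans
      (norm_noncyclic_sigma hG maxM sq hA.isPGroup sAM (hA.not_isCyclic le_rfl))
    have defF : F = M ⊓ L := (sdprod_sigma hG maxL hallF).eq_of_le_right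
      (le_inf sFM (hall_le hallF)) inf_le_right
      (le_bot_iff.1 (tiL M maxM sAM neM.symm ▸ inf_le_inf_left _ inf_le_left))
    refine ⟨t2q, fun r hrM sLr => ?_, defF ▸ hallF⟩
    by_contra b'r
    have hr := sigma_prime sLr
    have := Fact.mk hr
    have s'r : r ∉ sigma M := Set.disjoint_left.1 (ti M maxM fun h => nc h.symm).2 sLr
    rcases lt_trichotomy r q with hlt | heq | hlt
    · obtain ⟨P, sylP, cP⟩ := (beta'_cent_Sylow hG maxL b'r
        (fun h => s'Lq (beta_sub_sigma hG maxL h)) hA.isPGroup (Or.inr ⟨hlt, hAL.le⟩)).1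
      exact syl_ne_bot sylP ((pi_Msigma hG maxL).1 sLr).2
        (le_bot_iff.1 (regA ▸ le_inf (hall_le sylP) (cent_symm cP)))
    · exact s'r (heq ▸ sq)
    · obtain ⟨R, hR⟩ := exists_elemOf_one hr hrM
      obtain ⟨P, sylP, cP⟩ := (beta'_cent_Sylow hG maxM
        (fun h => (tau2_not_beta hG maxL t2q).1 (beta_sub_betaG h))
        (fun h => s'r (beta_sub_sigma hG maxM h)) hR.isPGroup (Or.inr ⟨hlt, hR.le⟩)).1
      have sAMs : A ≤ sigmaCore M := le_of_normal_hall (Msigma_Hall hG maxM) (Msigma_normal M) sAM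
        (isPi_of_isPGroup_of_mem hq.out hA.isPGroup sq)
      obtain ⟨g, -, hg⟩ := exists_le_cj_syl sylP sAMs hA.isPGroup
      have h1 : cj g R ≤ F := by
        refine le_trans ?_ sCF
        refine (cj_mono cP).trans ?_
        rw [cj_centralizer]
        exact centralizer_anti hg
      refine hall_isPi hallF r hr (Dvd.dvd.trans ?_ (card_dvd_of_le' h1)) sLr
      rw [card_cj, hR.card_one]

theorem sigma_Jsub_aux {Y : Subgroup G} (sY : IsPiSubgroup (sigma M) Y) {q : ℕ} [hq : Fact q.Prime]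
    (ntX : O[{q}](Y) ≠ ⊥) (sXMs : O[{q}](Y) ≤ sigmaCore M) :
    (∃ x : G, cj x Y ≤ sigmaCore M) ∧
      ∀ (E H : Subgroup G) (p : ℕ), IsPiHallOf (sigma M)ᶜ E M → p.Prime → p ∣ Nat.card E →
        ¬ IsIdealPrime p G → IsCoatom H → Y ≤ H → ¬ Conj M H →
        rankP p (H ⊓ N[Y]) ≤ 1 ∧ (p ∈ tau1 M → ¬ p ∣ Nat.card ↥⁅H ⊓ N[Y], H ⊓ N[Y]⁆) := by
  set X := O[{q}](Y)
  have qX : IsPGroup q X := isPGroup_pCoreOf hq.out Y
  have sXY : X ≤ Y := piCoreOf_le _ _
  have sN : N[Y] ≤ N[X] := normalizer_le_normalizer_piCoreOf _ _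
  have sq : q ∈ sigma M := mem_of_isPi_of_isPGroup hq.out qX ntX (isPi_of_le sY sXY)
  have nsMs := Msigma_normal M
  have hallMs := Msigma_Hall hG maxM
  have pre : ∀ (E H : Subgroup G) (p : ℕ) [Fact p.Prime], IsPiHallOf (sigma M)ᶜ E M →
      p ∣ Nat.card E → IsCoatom H → Y ≤ H → ¬ Conj M H → rankP p (M ⊓ H) ≤ 1 := by
    intro E H p hp hallE pE maxH sYH nc
    by_contra hr
    obtain ⟨A, hA⟩ : ∃ A, ElemOf p 2 A (M ⊓ H) := exists_elemOf_of_le_rankP (by omega)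
    have s'p : p ∉ sigma M := hall_isPi hallE p hp.out pE
    have hAM := hA.mono inf_le_left
    have t2p : p ∈ tau2 M := by
      refine mem_tau2_iff.2 ⟨hp.out, s'p, le_antisymm ?_ hAM.le_rankP⟩
      by_contra h
      exact s'p (alpha_sub_sigma hG maxM (mem_alpha_iff.2 ⟨hp.out, not_le.1 h⟩))
    have := (tau2_context hG maxM t2p hAM).2.2.2.1 H maxH (hA.le.trans inf_le_right)
      fun h => nc (h ▸ conj_refl _)
    exact ntX (le_bot_iff.1 (this ▸ le_inf sXMs (sXY.trans sYH)))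
  by_cases sNX : N[X] ≤ M
  · have sNY := sN.trans sNX
    refine ⟨⟨1, ?_⟩, fun E H p hallE hp pE _ maxH sYH nc => ?_⟩
    · rw [cj_one]
      exact le_of_normal_hall hallMs nsMs (le_normalizer.trans sNY) sY
    · have := Fact.mk hp
      refine ⟨(rankP_mono (le_inf (inf_le_right.trans sNY) inf_le_left)).trans
        (pre E H p hallE pE maxH sYH nc), fun t1 hd => (mem_tau1_iff.1 t1).2.2.2 ?_⟩
      exact hd.trans (card_dvd_of_le'
        (commutator_mono (inf_le_right.trans sNY) (inf_le_right.trans sNY)))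
  obtain ⟨L, maxL, sNL⟩ := mmax_exists_norm hG ntX (mFT_pgroup_proper hG hq.out qX)
  have neLM : L ≠ M := fun h => sNX (h ▸ sNL)
  obtain ⟨nc, -, hd, he⟩ := sigma_subgroup_embedding hG maxM sq (sXMs.trans nsMs.le) qX ntX maxL
    sNL neLM
  have nc' : ¬ Conj L M := fun h => nc h.symm
  obtain ⟨K, nsK, s'K, defL, hK⟩ : ∃ K, K ⊴ L ∧ IsPiSubgroup (sigma M)ᶜ K ∧ IsMul K (M ⊓ L) L ∧
      ∀ p : ℕ, p.Prime → p ∣ Nat.card M → p ∣ Nat.card K → IsIdealPrime p G := by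
    by_cases sLq : q ∈ sigma L
    · refine ⟨betaCore L, Mbeta_normal L, isPi_mono (Mbeta_pi L) fun r hr => ?_, (hd sLq).1,
        fun p hp _ h => beta_sub_betaG (Mbeta_pi L p hp h)⟩
      exact Set.disjoint_left.1 (sigma_disjoint hG maxL maxM nc').2.1 (beta_sub_alpha hr)
    · obtain ⟨t2, hb, hall⟩ := he sLq
      refine ⟨sigmaCore L, Msigma_normal L, isPi_mono (Msigma_pi L) fun r hr => ?_,
        isMul_hall_compl (Msigma_Hall hG maxL) hall,
        fun p hp h' h => beta_sub_betaG (hb p h' (Msigma_pi L p hp h))⟩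
      exact Set.disjoint_left.1
        ((sigma_disjoint hG maxL maxM nc').2.2 (tau2_Msigma_nil hG maxL t2)).2 hr
  have sNYL : N[Y] ≤ L := sN.trans sNL
  have sYL : Y ≤ L := le_normalizer.trans sNYL
  refine ⟨?_, fun E H p hallE hp pE b'p maxH sYH ncH => ?_⟩
  · obtain ⟨H, hallH⟩ := exists_hall (sigma M) (mmax_sub_sol hG maxM (inf_le_left : M ⊓ L ≤ M))
    have hallHL : IsPiHallOf (sigma M) H L := hall_of_relIndex hallH inf_le_right
      ((isPi_piNat s'K).of_dvd (relIndex_dvd_card_of_isMul defL))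
    obtain ⟨g, -, hg⟩ := exists_cj_le_hall (mmax_sol hG maxL) hallHL sYL sY
    exact ⟨g, hg.trans (le_of_normal_hall hallMs nsMs ((hall_le hallH).trans inf_le_left)
      (hall_isPi hallH))⟩
  · have := Fact.mk hp
    have p'K : ¬ p ∣ Nat.card K := fun h =>
      b'p (hK p hp (pE.trans (card_dvd_of_le' (hall_le hallE))) h)
    have s₁ : H ⊓ N[Y] ≤ L := inf_le_right.trans sNYL
    refine ⟨(rankP_mono s₁).trans ?_, fun t1 hd => ?_⟩
    · rw [← rankP_eq_of_isMul defL p'K]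
      exact pre E L p hallE pE maxL sYL nc
    · refine not_dvd_derived_of_isMul hp defL nsK p'K (fun h => (mem_tau1_iff.1 t1).2.2.2 ?_)
        (hd.trans (card_dvd_of_le' (commutator_mono s₁ s₁)))
      exact h.trans (card_dvd_of_le' (commutator_mono inf_le_left inf_le_left))

/-- B & G Corollary 12.16. -/
theorem sigma_Jsub {Y : Subgroup G} (sY : IsPiSubgroup (sigma M) Y) (ntY : Y ≠ ⊥) :
    (∃ x : G, cj x Y ≤ sigmaCore M) ∧
      ∀ (E H : Subgroup G) (p : ℕ), IsPiHallOf (sigma M)ᶜ E M → p.Prime → p ∣ Nat.card E →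
        ¬ IsIdealPrime p G → IsCoatom H → Y ≤ H → ¬ Conj M H →
        rankP p (H ⊓ N[Y]) ≤ 1 ∧ (p ∈ tau1 M → ¬ p ∣ Nat.card ↥⁅H ⊓ N[Y], H ⊓ N[Y]⁆) := by
  have prY : Pr Y := pr_of_w hG (w_of_sigma sY)
  obtain ⟨q, hq, ntX⟩ := exists_pCoreOf_ne_bot (mFT_sol hG prY) ntY
  have := Fact.mk hq
  have qX : IsPGroup q O[{q}](Y) := isPGroup_pCoreOf hq Y
  have sq : q ∈ sigma M := mem_of_isPi_of_isPGroup hq qX ntX (isPi_of_le sY (piCoreOf_le _ _))
  obtain ⟨Q, sylQ⟩ := exists_syl q (sigmaCore M)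
  obtain ⟨g, -, hg⟩ := exists_cj_le_syl (syl_of_hall (Msigma_Hall_G hG maxM) sq sylQ) le_top qX
  rw [cj_piCoreOf] at hg
  obtain ⟨⟨x, hx⟩, h⟩ := sigma_Jsub_aux hG maxM (isPi_cj sY g) (q := q)
    (by rwa [← cj_piCoreOf, Ne, cj_eq_bot_iff]) (hg.trans (hall_le sylQ))
  refine ⟨⟨x * g, by rwa [cj_mul]⟩, fun E H p hallE hp pE b'p maxH sYH nc => ?_⟩
  have := Fact.mk hp
  have := h E (cj g H) p hallE hp pE b'p (isCoatom_cj maxH) (cj_mono sYH)
    fun hc => nc (hc.trans (conj_cj g H).symm)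
  rwa [← cj_normalizer, ← cj_inf, rankP_cj, ← cj_commutator, card_cj] at this

/-- B & G Lemma 12.17. -/
theorem sigma_compl_embedding {E : Subgroup G} (hallE : IsPiHallOf (sigma M)ᶜ E M) :
    sigmaCore M ⊓ C[E] ≤ ⁅sigmaCore M, sigmaCore M⁆ ∧ ⁅sigmaCore M, E⁆ = sigmaCore M ∧
      ∀ g : G, g ∉ M → IsCyclic ↥(sigmaCore M ⊓ cj g M) ∧
        IsPiSubgroup (beta M)ᶜ (sigmaCore M ⊓ cj g M) ∧
        sigmaCore M ⊓ cj g M ⊓ ⁅sigmaCore M, sigmaCore M⁆ = ⊥ := by
  have nsMs := Msigma_normal M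
  obtain ⟨h₁, h₂⟩ := coprime_der1_sdp (sdprod_sigma hG maxM hallE)
    (coprime_sigma_compl hG maxM hallE).symm (mmax_sub_sol hG maxM nsMs.le) (Msigma_der1 hG maxM)
  refine ⟨h₂, h₁, fun g notMg => ?_⟩
  set D := sigmaCore M ⊓ cj g M
  have sDM : D ≤ M := inf_le_left.trans nsMs.le
  have key : ∀ (p n : ℕ) [Fact p.Prime] (X : Subgroup G), ElemOf p (n + 1) X D → ¬ C[X] ≤ M := by
    intro p n hp X hX sCM
    have sp : p ∈ sigma M := mem_of_isPi_of_isPGroup hp.out hX.isPGroup (hX.ne_bot n.succ_ne_zero)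
      (isPi_of_le (Msigma_pi M) (hX.le.trans inf_le_left))
    obtain ⟨m, hm, c, hc, e⟩ := sigma_group_trans_a hG maxM sp hX.isPGroup (g := g⁻¹)
      (hX.le.trans sDM) (le_cj_iff_cj_inv_le.1 (hX.le.trans inf_le_right))
    exact notMg (inv_mem_iff.1 (e ▸ mul_mem hm (sCM hc)))
  have ti : D ⊓ ⁅sigmaCore M, sigmaCore M⁆ = ⊥ := by
    by_contra h
    obtain ⟨p, hp, hd⟩ := exists_prime_dvd_card h
    have := Fact.mk hp
    obtain ⟨X, hX⟩ := exists_elemOf_one hp hd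
    exact key p 0 X (hX.mono inf_le_left) (cent_der_sigma_uniq hG maxM
      (hX.mono (inf_le_left.trans sDM)) (Or.inr (hX.le.trans inf_le_right))).1.le
  refine ⟨?_, fun p hp hd hb => ?_, ti⟩
  · have cD : IsMulCommutative D := derived_eq_bot_iff.1 (le_bot_iff.1 (ti ▸
      le_inf (derived_normalIn D).le (commutator_mono inf_le_left inf_le_left)))
    rw [isCyclic_iff_rank_le_one_of_comm cD]
    by_contra hr
    obtain ⟨p, hp, A, hA⟩ := exists_elemOf_of_le_rank (n := 2) (X := D) (by omega)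
    have := Fact.mk hp
    exact key p 1 A hA (p2Elem_mmax hG maxM (hA.mono sDM)).1
  · have := Fact.mk hp
    obtain ⟨X, hX⟩ := exists_elemOf_one hp hd
    exact key p 0 X hX (cent_der_sigma_uniq hG maxM (hX.mono sDM) (Or.inl hb)).1.le

theorem cent_Malpha_reg_tau1_a {p q : ℕ} [hp : Fact p.Prime] [hq : Fact q.Prime] (t1p : p ∈ tau1 M)
    {P Q : Subgroup G} (hP : ElemOf p 1 P M) (ntQ : Q ≠ ⊥) (nQP : P ≤ N[Q])
    (regQ : Q ⊓ C[P] = ⊥) (notU : ¬ UniqMax N[Q] M) (ntMa : alphaCore M ≠ ⊥) (a'q : q ∉ alpha M)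
    (qQ : IsPGroup q Q) (sQM : Q ≤ M) :
    alphaCore M ⊓ C[P] ≠ ⊥ ∧ alphaCore M ⊓ C[P ⊔ Q] = ⊥ := by
  have ntP : P ≠ ⊥ := hP.ne_bot one_ne_zero
  have a'p : p ∉ alpha M := fun h => tau1_not_sigma t1p (alpha_sub_sigma hG maxM h)
  have a'P : IsPiSubgroup (alpha M)ᶜ P := isPi_of_isPGroup_of_mem hp.out hP.isPGroup a'p
  have a'Q : IsPiSubgroup (alpha M)ᶜ Q := isPi_of_isPGroup_of_mem hq.out qQ a'q
  have nsMa := Malpha_normal M
  have solMa := mmax_sub_sol hG maxM nsMa.le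
  have wX : ∀ X : Subgroup G, ¬ rank (alphaCore M ⊓ C[X]) ≤ 1 → IsPiSubgroup ϖ X := fun X hr =>
    w_of_inf_cent hG (w_alphaCore hG maxM.1) (ne_bot_of_le_rank (not_le.1 hr).le one_pos)
  have uN : ∀ X ≤ M, X ≠ ⊥ → IsPiSubgroup (alpha M)ᶜ X → ¬ rank (alphaCore M ⊓ C[X]) ≤ 1 →
      UniqMax N[X] M := fun X sXM ntX a'X hr =>
    def_uniq_mmaxS (inf_le_right.trans (centralizer_le_normalizer _))
      (pr_norm ntX (wX X hr))
      (def_uniq_mmax (cent_alpha'_uniq hG maxM sXM a'X (by omega)) maxM inf_le_left)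
  have rP : rank (alphaCore M ⊓ C[P]) ≤ 1 := by
    by_contra h
    rcases prime_class_mmax_norm hG maxM hP.isPGroup (uN P hP.le ntP a'P h).le
      (wp_of_pgroup hp.out hP.isPGroup ntP (wX P h)) with h | h
    · exact tau1_not_sigma t1p h
    · exact tau2'1 t1p h
  have rQ : rank (alphaCore M ⊓ C[Q]) ≤ 1 := by
    by_contra h
    exact notU (uN Q sQM ntQ a'Q h)
  have frob : IsFrobenius (Q ⊔ P) Q P :=
    isFrobenius_sup nQP ntQ ntP (semiregular_of_prime_card hP.card_prime regQ)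
  have sQPM : Q ⊔ P ≤ M := sup_le sQM hP.le
  have a'QP : IsPiSubgroup (alpha M)ᶜ (Q ⊔ P) := isPi_sup a'Q a'P (Or.inr nQP)
  have coMa : (Nat.card (alphaCore M)).Coprime (Nat.card ↥(Q ⊔ P)) :=
    isPi_coprime (Malpha_pi M) a'QP
  have rk3 : ∀ (r : ℕ) [Fact r.Prime] (R : Subgroup G), r ∣ Nat.card (alphaCore M) →
      IsSyl r R (alphaCore M) → ¬ R ≤ C[Q] := by
    intro r hr R hd sylR cR
    have ar : r ∈ alpha M := Malpha_pi M r hr.out hd
    have h1 := (mem_alpha_iff.1 ar).2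
    rw [← rank_syl (syl_of_hall (Malpha_Hall hG maxM) ar sylR)] at h1
    have h2 := (rank_mono (le_inf (hall_le sylR) cR)).trans rQ
    omega
  refine ⟨fun h => ?_, ?_⟩
  · have h1 := (H69.Frobenius_Wielandt_fixpoint frob (sQPM.trans nsMa.norm) coMa solMa).2.1 h
    obtain ⟨r, hr, hd⟩ := exists_prime_dvd_card ntMa
    have := Fact.mk hr
    obtain ⟨R, sylR⟩ := exists_syl r (alphaCore M)
    exact rk3 r R hd sylR ((hall_le sylR).trans (cent_symm h1))
  by_contra ntD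
  rw [sup_comm] at ntD
  obtain ⟨r, hr, hd⟩ := exists_prime_dvd_card ntD
  have := Fact.mk hr
  obtain ⟨D, hD⟩ := exists_elemOf_one hr hd
  have cD : D ≤ C[Q ⊔ P] := hD.le.trans inf_le_right
  obtain ⟨R, sylR, nR, sDR⟩ := coprime_syl_subset (sQPM.trans nsMa.norm) coMa.symm (Or.inr solMa)
    (hD.le.trans inf_le_left) hD.isPGroup (le_normalizer_of_le_centralizer' cD)
  have rR := syl_isPGroup sylR
  have sRMa := hall_le sylR
  have hdMa : r ∣ Nat.card (alphaCore M) := hd.trans (card_dvd_of_le' inf_le_left)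
  obtain ⟨V, chV, nV, -, -, eV, fV⟩ := H71.critical_rel rR (mFT_prime_ne_two hG hdMa)
    (ne_bot_mono (hD.ne_bot one_ne_zero) sDR)
  have sVR : V ≤ R := chV.1
  have cyc : IsCyclic ↥(R ⊓ C[P]) :=
    (H71.odd_pgroup_rank1_cyclic (rR.to_le inf_le_left) (mFT_odd hG _)).2
      ((rankP_le_rank _).trans ((rank_mono (inf_le_inf_right _ sRMa)).trans rP))
  have defD : D = omegaOne r (R ⊓ C[P]) :=
    (hD.of_le (le_inf sDR (cD.trans (centralizer_anti le_sup_right)))).eq_omegaOne_of_isCyclic cyc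
  have e : V ⊓ C[Q ⊔ P] = V ⊓ C[P] := by
    refine le_antisymm (inf_le_inf_left _ (centralizer_anti le_sup_right)) (le_inf inf_le_left ?_)
    refine le_trans ?_ cD
    rw [defD]
    exact le_omegaOne (inf_le_inf_right _ sVR) fun a ha => eV a ha.1
  have h1 := (H69.Frobenius_Wielandt_fixpoint frob (nR.trans nV)
    (Nat.Coprime.coprime_dvd_left (card_dvd_of_le' (sVR.trans sRMa)) coMa)
    (H67.isSolvable_of_le solMa (sVR.trans sRMa))).1
  rw [e] at h1
  have h2 : V ⊓ C[Q] = V := H67.eq_of_le_of_card_le inf_le_left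
    (Nat.eq_of_mul_eq_mul_left (pow_pos Nat.card_pos _) h1).le
  refine rk3 r R hdMa sylR (cent_symm fun a ha => ?_)
  obtain ⟨k, hk⟩ := fV a (nR (mem_sup_left ha)) (cent_symm (inf_eq_left.1 h2) ha)
  refine H71.mem_of_pow_of_coprime ?_ hk
  exact PiNat.coprime' (piElt_of_mem a'Q ha)
    (piNat_prime_pow hr (Malpha_pi M r hr hdMa) k)

/-- B & G Lemma 12.18. -/
theorem cent_Malpha_reg_tau1 {p q : ℕ} [Fact p.Prime] [hq : Fact q.Prime] (t1p : p ∈ tau1 M)
    (neqp : q ≠ p) {P Q : Subgroup G} (hP : ElemOf p 1 P M) (ntQ : Q ≠ ⊥) (nQP : P ≤ N[Q])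
    (regQ : Q ⊓ C[P] = ⊥) (notU : ¬ UniqMax N[Q] M) :
    (alphaCore M ≠ ⊥ → q ∉ alpha M → IsPGroup q Q → Q ≤ M →
        alphaCore M ⊓ C[P] ≠ ⊥ ∧ alphaCore M ⊓ C[P ⊔ Q] = ⊥) ∧
      (IsSyl q Q M → alpha M = beta M ∧ alphaCore M ≠ ⊥ ∧ q ∉ alpha M ∧
        alphaCore M ⊓ C[P] ≠ ⊥ ∧ alphaCore M ⊓ C[P ⊔ Q] = ⊥) := by
  refine ⟨cent_Malpha_reg_tau1_a hG maxM t1p hP ntQ nQP regQ notU, fun sylQ => ?_⟩
  have qQ := syl_isPGroup sylQ
  have sQM := hall_le sylQ

  have sQM' : Q ≤ ⁅M, M⁆ := by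
    rw [← (semiregular_of_prime_card hP.card_prime regQ).commutator_eq nQP (hP.ne_bot one_ne_zero)]
    exact commutator_mono sQM hP.le
  have a'q : q ∉ alpha M := fun h => by
    have h1 := (mem_alpha_iff.1 h).2
    rw [← rank_syl sylQ] at h1
    exact notU (def_uniq_mmaxS le_normalizer (by pr_tac)
      (def_uniq_mmax (rank3_Uniqueness hG (sub_mmax_proper maxM sQM) h1) maxM sQM))
  have b'q : q ∉ beta M := fun h => a'q (beta_sub_alpha h)
  have ntMa : alphaCore M ≠ ⊥ := fun h => by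
    have h1 : IsPiSubgroup (alpha M)ᶜ M := isPi_compl_of_hall_bot (h ▸ Malpha_Hall hG maxM)
    have nil : Group.IsNilpotent ↥⁅M, M⁆ := beta'_der1_nil hG maxM
      (isPi_mono (isPi_of_le h1 (derived_normalIn M).le) fun r hr hb => hr (beta_sub_alpha hb))
      le_rfl
    have syl' : IsSyl q Q ⁅M, M⁆ := hall_of_le sylQ sQM' (derived_normalIn M).le
    have nsQ : Q ⊴ M :=
      normalIn_of_normal_hall syl' (hall_normalIn_of_isNilpotent nil syl') (derived_normalIn M)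
    exact notU (by rw [mmax_normal hG maxM nsQ ntQ]; exact mmax_sup_id maxM)
  refine ⟨Set.Subset.antisymm (fun r ar => ?_) fun r => beta_sub_alpha, ntMa, a'q,
    cent_Malpha_reg_tau1_a hG maxM t1p hP ntQ nQP regQ notU ntMa a'q qQ sQM⟩
  by_contra b'r
  have := Fact.mk (alpha_prime ar)
  obtain ⟨⟨R, sylR, cR⟩, u, -⟩ := beta'_cent_Sylow hG maxM b'r b'q qQ
    (Or.inl ⟨fun h => a'q (h ▸ ar), sQM'⟩)
  replace u := u ar
  have prN : Pr N[Q] := pr_norm ntQ (w_of_cent hG cR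
    (syl_ne_bot sylR ((pi_Msigma hG maxM).1 (alpha_sub_sigma hG maxM ar)).2) (by w_tac))
  exact notU (def_uniq_mmaxS (inf_le_right.trans (centralizer_le_normalizer _)) prN
    (def_uniq_mmax u maxM inf_le_left))

/-- B & G Lemma 12.19. -/
theorem der_compl_cent_beta' {E : Subgroup G} (hallE : IsPiHallOf (sigma M)ᶜ E M) :
    ∃ H : Subgroup G, IsPiHallOf (beta M)ᶜ H (sigmaCore M) ∧ ⁅E, E⁆ ≤ C[H] := by
  have s'E' : IsPiSubgroup (sigma M)ᶜ ⁅E, E⁆ := isPi_of_le (hall_isPi hallE) (derived_normalIn E).le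
  obtain ⟨H, hallH, sH⟩ := exists_hall_ge (mmax_sub_sol hG maxM (derived_normalIn M).le)
    (commutator_mono (hall_le hallE) (hall_le hallE))
    (isPi_mono s'E' fun r hr hb => hr (beta_sub_sigma hG maxM hb))
  refine ⟨H ⊓ sigmaCore M, hall_inf_normal hallH
    ((Msigma_normal M).of_le (Msigma_der1 hG maxM) (derived_normalIn M).le), ?_⟩
  exact le_centralizer_of_isNilpotent_of_coprime
    (beta'_der1_nil hG maxM (hall_isPi hallH) (hall_le hallH)) sH inf_le_left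
    (isPi_coprime' s'E' (isPi_of_le (Msigma_pi M) inf_le_right))

end Main2

end Cfsg.Agent.H88.SZ.H2

namespace Cfsg.Agent.H88.SZ.H64

export Cfsg.Agent.H88.SZ.H2 (nonabelian_Uniqueness cent_der_sigma_uniq sigma_subgroup_embedding sigma_Jsub
  sigma_compl_embedding cent_Malpha_reg_tau1 der_compl_cent_beta')

end Cfsg.Agent.H88.SZ.H64
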