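import Cfsg.Agent.H88.ZMin
import Cfsg.Agent.H88.ZBG12b2
import Cfsg.Agent.H63.BG1

/-! Bender-Glauberman 12.11. -/

set_option autoImplicit false
set_option linter.unusedSectionVars false
set_option linter.unusedVariables false
set_option linter.unusedSectionVars false

namespace Cfsg.Agent.H88.SZ.H64

open Cfsg.Agent.H64

variable [Om]

open Cfsg Cfsg.Agent.H63 Cfsg.Agent.H66 Cfsg.Agent.H67 Subgroup
open Cfsg.Agent.H88.SZ.H63 Cfsg.Agent.H88.SZ.H66 Cfsg.Agent.H88.SZ.H67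

universe u

variable {G : Type u} [Group G] [Finite G]

/-- A prime dividing the index of `K` in `X` has no Sylow subgroup of `X` inside `K`. -/
theorem syl_not_le_of_dvd_relIndex {q : ℕ} [Fact q.Prime] {Q K X : Subgroup G}
    (sylQ : IsSyl q Q X) (sKX : K ≤ X) (h : q ∣ K.relIndex X) : ¬ Q ≤ K := fun sQK =>
  syl_not_dvd sylQ (h.trans (Dvd.intro_left _ (relIndex_mul_relIndex Q K X sQK sKX)))

section Main

variable (hG : IsMinSimpleOddOrder G) {M : Subgroup G} (maxM : IsCoatom M)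
include hG maxM

theorem tau2_sigma_of_norm {E : Subgroup G} {q : ℕ} [hq : Fact q.Prime] (t2q : q ∈ tau2 M)
    {B H : Subgroup G} (hB : ElemOf q 2 B E) (maxH : IsCoatom H) (sN : N[B] ≤ H) :
    q ∈ sigma H ∧ q ∉ beta H := by
  refine ⟨?_, fun b => (tau2_not_beta hG maxM t2q).1 (beta_sub_betaG b)⟩
  by_contra s'q
  have t2Hq := (prime_class_mmax_norm hG maxH (el_pgroup hB) sN).resolve_left s'q
  have sBH : B ≤ H := le_normalizer.trans sN
  obtain ⟨F, hallF, sBF⟩ := ex_sigma_compl_ge hG maxH sBH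
    (isPi_of_isPGroup_of_mem hq.out (el_pgroup hB) s'q)
  exact (tau2_compl_context hG maxH hallF t2Hq (el_of_le hB sBF)).2.1.2.2 sN

/-- B & G Lemma 12.11. -/
theorem primes_norm_tau2Elem {E : Subgroup G} (hallE : IsPiHallOf (sigma M)ᶜ E M) {p : ℕ}
    [hp : Fact p.Prime] (t2p : p ∈ tau2 M) {A Mstar : Subgroup G} (hA : ElemOf p 2 A E)
    (maxMstar : IsCoatom Mstar) (sN : N[A] ≤ Mstar) :
    (∀ q ∈ tau2 M, q ∈ sigma Mstar ∧ q ∉ beta Mstar) ∧
      PiNat (tau1 Mstar ∪ tau2 Mstar) ((E ⊓ C[A]).relIndex E) ∧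
      ∀ q : ℕ, q.Prime → q ∣ (E ⊓ C[A]).relIndex E → q ∣ Nat.card ↥(E ⊓ C[A]) →
        q ∈ tau2 Mstar ∧ (∃ P : Subgroup G, IsSyl p P ⊤ ∧ P ⊴ Mstar) ∧
          ∃ Q : Subgroup G, IsSyl q Q ⊤ ∧ Q ≤ Mstar ∧ IsMulCommutative Q := by
  have pA := el_pgroup hA
  have pA' := isPi_of_isPGroup hp.out pA
  have ntA := el2_ne_bot hp.out hA
  obtain ⟨sp, b'p⟩ := tau2_sigma_of_norm hG maxM t2p hA maxMstar sN
  obtain ⟨⟨nsAE, -⟩, -⟩ := tau2_compl_context hG maxM hallE t2p hA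
  obtain ⟨-, nsCE, t1CE⟩ := tau1_cent_tau2Elem_factor hG maxM hallE t2p hA
  have sEH : E ≤ Mstar := nsAE.2.trans sN
  have sAH : A ≤ Mstar := hA.1.trans sEH
  have sAHs : A ≤ sigmaCore Mstar := pgroup_le_Msigma hG maxMstar sp sAH pA
  have nidp : ¬ IsIdealPrime p G := (tau2_not_beta hG maxM t2p).1
  -- a Sylow subgroup for a prime dividing the index does not centralize `A`
  have ncQ : ∀ q : ℕ, ∀ _ : Fact q.Prime, q ∣ (E ⊓ C[A]).relIndex E → ∀ Q, IsSyl q Q E →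
      ¬ Q ≤ C[A] ∧ q ≠ p ∧ q ∈ tau1 M := by
    intro q hq qd Q sylQ
    have t1q : q ∈ tau1 M := t1CE q hq.out qd
    exact ⟨fun h => syl_not_le_of_dvd_relIndex sylQ inf_le_left qd (le_inf (hall_le sylQ) h),
      fun e => tau2'1 t1q (e ▸ t2p), t1q⟩
  refine ⟨fun q t2q => ?_, fun q hq qd => ?_, fun q hq qd qC => ?_⟩
  · haveI hq : Fact q.Prime := ⟨tau2_prime t2q⟩
    obtain ⟨S, sylS, sAS⟩ := exists_syl_ge (M := ⊤) le_top pA
    by_cases cS : IsMulCommutative S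
    · obtain ⟨E₁, E₂, E₃, hE⟩ := ex_sigmaCompl hG maxM hallE
      obtain ⟨B, Q, hB, sylQ, sBQ, cQ, -⟩ := abelian_tau2_syl hG maxM hallE t2p sylS cS t2q
      obtain ⟨-, -, ⟨h1, h2, -⟩, -⟩ := abelian_tau2 hG maxM hE t2p hA sylS sAS cS
      obtain ⟨-, -, ⟨h3, h4, -⟩, -⟩ := abelian_tau2 hG maxM hE t2q hB sylQ sBQ cQ
      exact tau2_sigma_of_norm hG maxM t2q hB maxMstar (by rw [h3, h4, ← h2, ← h1]; exact sN)
    · have := (nonabelian_tau2 hG maxM hallE t2p hA (syl_isPGroup sylS) cS).1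
      rw [this] at t2q
      obtain rfl : q = p := t2q
      exact ⟨sp, b'p⟩
  · haveI : Fact q.Prime := ⟨hq⟩
    obtain ⟨Q, sylQ⟩ := exists_syl q E
    obtain ⟨ncQA, neqp, -⟩ := ncQ q this qd Q sylQ
    have sQH : Q ≤ Mstar := (hall_le sylQ).trans sEH
    have qQ := syl_isPGroup sylQ
    have key : ¬ Q ≤ ⁅Mstar, Mstar⁆ := fun h => ncQA
      ((beta_max_pdiv hG maxMstar b'p).1.le_cent (sAHs.trans (Msigma_der1 hG maxMstar)) pA' h
        (isPi_compl_of_isPGroup hq qQ neqp) ((hall_le sylQ).trans nsAE.2))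
    have qH : q ∣ Nat.card Mstar :=
      qd.trans ((Dvd.intro_left _ (card_inf_mul_relIndex _ _)).trans (card_dvd_of_le' sEH))
    rcases (partition_pi_mmax hG maxMstar hq).1 qH with h | h | h | h
    · exact Or.inl h
    · exact Or.inr h
    · obtain ⟨R, sylR, sQR⟩ := exists_syl_ge sQH qQ
      exact absurd (sQR.trans (cyclic_syl_le_der sylR (cyclic_of_rk1 hG maxMstar hq (tau3_rk h)
        (hall_le sylR) (syl_isPGroup sylR)) (tau3_dvd_der h))) key
    · exact absurd ((pgroup_le_Msigma hG maxMstar h sQH qQ).trans (Msigma_der1 hG maxMstar)) key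
  · haveI : Fact q.Prime := ⟨hq⟩
    obtain ⟨Q, sylQ⟩ := exists_syl q E
    obtain ⟨ncQA, neqp, t1q⟩ := ncQ q this qd Q sylQ
    have sQE := hall_le sylQ
    have qQ := syl_isPGroup sylQ
    have nAQ : Q ≤ N[A] := sQE.trans nsAE.2
    have p'Q : IsPiSubgroup {p}ᶜ Q := isPi_compl_of_isPGroup hq qQ neqp
    have cycQ : IsCyclic Q :=
      cyclic_of_rk1 hG maxM hq (tau1_rk t1q) (sQE.trans (hall_le hallE)) qQ
    have cQ := isMulCommutative_of_isCyclic cycQ
    have ntQ₀ : Q ⊓ (E ⊓ C[A]) ≠ ⊥ := syl_ne_bot (hall_inf_normal sylQ nsCE) qC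
    set Q₀ := Q ⊓ (E ⊓ C[A]) with hQ₀
    have sQ₀Q : Q₀ ≤ Q := inf_le_left
    have cAQ₀ : Q₀ ≤ C[A] := inf_le_right.trans inf_le_right
    have qQ₀ : IsPGroup q Q₀ := qQ.to_le sQ₀Q
    have qw : q ∈ ϖ := wp_of_pgroup hq qQ₀ ntQ₀ (w_of_cent hG cAQ₀ ntA (by w_tac))
    obtain ⟨L, maxL, sNL⟩ := ex_mmax_norm_pgroup hG hq qQ₀ ntQ₀
    have sAL : A ≤ L := (le_normalizer_of_le_centralizer' cAQ₀).trans sNL
    have sQL : Q ≤ L := (le_normalizer_of_le_centralizer (le_cent_of_comm cQ le_rfl sQ₀Q)).trans sNL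
    have hqL := prime_class_mmax_norm hG maxL qQ₀ sNL
    have spL : p ∈ sigma L := by
      by_contra s'p
      have s'A : IsPiSubgroup (sigma L)ᶜ A := isPi_of_isPGroup_of_mem hp.out pA s'p
      rcases hqL with h | h
      · refine ncQA (cent_symm (le_cent_of_commutator_eq_bot ?_))
        rw [eq_bot_iff, ← isPi_inf_eq_bot' s'A (Msigma_pi L)]
        refine le_inf (commutator_le_of_norm_left nAQ) ?_
        exact (commutator_mono le_rfl (pgroup_le_Msigma hG maxL h sQL qQ)).trans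
          (commutator_le_of_norm_right (sAL.trans (Msigma_normal L).2))
      · obtain ⟨F, hallF, sF⟩ := ex_sigma_compl_ge hG maxL (sup_le sAL sQL)
          (isPi_sup s'A (isPi_of_isPGroup_of_mem hq qQ (tau2_not_sigma h)) (Or.inr nAQ))
        have hAF := el_of_le hA (le_sup_left.trans sF)
        obtain ⟨-, nsC, t1C⟩ := tau1_cent_tau2Elem_factor hG maxL hallF
          (sigma'2Elem_tau2 hG maxL hallF hAF) hAF
        refine ncQA ((le_of_isPi_of_normal_relIndex (π := (tau1 L)ᶜ) (le_sup_right.trans sF)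
          nsC.2 (isPi_of_isPGroup_of_mem hq qQ fun t => tau2'1 t h)
          (piNat_compl_compl.2 t1C)).trans inf_le_right)
    have t2q : q ∈ tau2 L := by
      refine hqL.resolve_left fun h => ncQA ?_
      exact (beta_max_pdiv hG maxL fun b => nidp (beta_sub_betaG b)).2.1.le_cent
        (pgroup_le_Msigma hG maxL spL sAL pA) pA' (pgroup_le_Msigma hG maxL h sQL qQ) p'Q nAQ
    have nilL := tau2_Msigma_nil hG maxL t2q
    obtain rfl : L = Mstar := by
      by_contra ne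
      have notJ := fun hc => mmax_norm_notJ hG maxL maxMstar pA sAL sN (Or.inl ⟨spL, ne⟩) hc
      exact Set.disjoint_left.1 ((sigma_disjoint hG maxL maxMstar notJ).2.2 nilL).2 spL sp
    refine ⟨t2q, ⟨O[{p}](sigmaCore L), ?_, (Msigma_normal L).piCoreOf _⟩, ?_⟩
    · exact syl_of_hall (Msigma_Hall_G hG maxL) sp (hall_piCoreOf_of_isNilpotent _ nilL)
    obtain ⟨F, hallF, sQF⟩ := ex_sigma_compl_ge hG maxL sQL
      (isPi_of_isPGroup_of_mem hq qQ (tau2_not_sigma t2q))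
    obtain ⟨B, hB⟩ := ex_tau2Elem_of_mem hG maxL hallF t2q
    obtain ⟨S, sylS, sBS⟩ := exists_syl_ge (M := ⊤) le_top (el_pgroup hB)
    by_cases cS : IsMulCommutative S
    · refine ⟨S, sylS, ?_, cS⟩
      exact (le_cent_of_comm cS le_rfl le_rfl).trans
        ((abelian_tau2_sub_Fitting hG maxL hallF t2q hB sylS sBS cS).2.2.2.trans (hall_le hallF))
    · exfalso
      obtain ⟨-, -, regX, E₀, defF, -⟩ :=
        nonabelian_tau2 hG maxL hallF t2q hB (syl_isPGroup sylS) cS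
      obtain ⟨X, hX⟩ := exists_el1_of_pgroup hq qQ₀ ntQ₀
      have sXQ : X ≤ Q := hX.1.trans sQ₀Q
      have eX : X = B ⊓ C[sigmaCore L] := by
        by_contra ne
        refine ntA (eq_bot_iff.2 ?_)
        rw [← (regX X (el_of_le hX (sXQ.trans sQF)) ne).1]
        exact le_inf sAHs (cent_symm (hX.1.trans cAQ₀))
      rw [← eX] at defF
      have defQ := defF.of_le_left sXQ sQF
      have h0 : E₀ ⊓ Q = ⊥ := by
        by_contra ne
        exact inf_ne_bot_of_isCyclic_of_isPGroup hq cycQ qQ sXQ inf_le_right (el1_ne_bot hq hX) ne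
          defQ.inf
      rw [h0] at defQ
      exact ncQA (defQ.eq_of_bot_right ▸ hX.1.trans cAQ₀)

end Main

end Cfsg.Agent.H88.SZ.H64
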