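import Cfsg.Agent.H88.ZMin
import Cfsg.Agent.H88.ZBG13A
import Cfsg.Agent.H67.Fit

/-! Bender-Glauberman section 13, part B: 13.7 - 13.13.
The numbered results are declared under the names of the team interface `H66.BG13`. -/

set_option autoImplicit false
set_option linter.unusedSectionVars false
set_option linter.unusedVariables false
set_option linter.unusedSectionVars false

namespace Cfsg.Agent.H88.SZ.H66

open Cfsg.Agent.H66

variable [Om]

open Cfsg Subgroup Cfsg.Agent.H63 Cfsg.Agent.H67 Cfsg.Agent.H64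
open Cfsg.Agent.H88.SZ.H63 Cfsg.Agent.H88.SZ.H67 Cfsg.Agent.H88.SZ.H64

universe u

variable {G : Type u} [Group G] [Finite G]

section

variable (hG : IsMinSimpleOddOrder G) {M : Subgroup G} (maxM : IsCoatom M)
include hG maxM

/-- B & G Lemma 13.7. -/
theorem tau13_primact_Msigma {E E₁ E₂ E₃ : Subgroup G} (complE : SigmaCompl M E E₁ E₂ E₃)
    (h : ¬ Semiregular E₃ E₁) : Semiprime (sigmaCore M) (E₃ ⊔ E₁) := by
  have hallE := complE.hallE
  have sEM := hall_le hallE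
  have sE₁E := hall_le complE.hallE₁
  obtain ⟨⟨-, nsE₃E⟩, -, ⟨-, cycE₃⟩, ⟨⟨-, defE⟩, -⟩, regE₃⟩ := sigma_compl_context hG maxM complE
  have primE₁ := tau1_primact_Msigma hG maxM hallE complE.hallE₁
  have primE₃ := tau3_primact_Msigma hG maxM hallE complE.hallE₃
  obtain ⟨P, sPE₁, prP, ntC⟩ : ∃ P ≤ E₁, (Nat.card P).Prime ∧ E₃ ⊓ C[P] ≠ ⊥ := by
    by_contra hcon
    push Not at hcon
    exact h (semiregular_of_prime_subgroups hcon)
  obtain ⟨R, sR, prR⟩ := exists_prime_card_le_of_ne_bot ntC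
  haveI := Fact.mk prP
  haveI := Fact.mk prR
  have sRE₃ : R ≤ E₃ := sR.trans inf_le_left
  have ntP := ne_bot_of_prime_card prP
  have ntR := ne_bot_of_prime_card prR
  have t1p : Nat.card P ∈ tau1 M := hall_isPi complE.hallE₁ _ prP (card_dvd_of_le' sPE₁)
  have t3r : Nat.card R ∈ tau3 M := hall_isPi complE.hallE₃ _ prR (card_dvd_of_le' sRE₃)
  have pR : IsPGroup (Nat.card R) R := isPGroup_of_card_eq_prime rfl
  have sCPR := cent_tau1Elem_Msigma hG maxM hallE t1p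
    ((H67.elemOf_one_iff prP).2 ⟨sPE₁.trans sE₁E, rfl⟩)
    ((H67.elemOf_one_iff prR).2 ⟨sR.trans (inf_le_inf_right _ nsE₃E.le), rfl⟩)
  have eP := primE₁.inf_cent sPE₁ ntP
  have eR := primE₃.inf_cent sRE₃ ntR
  by_cases hc : sigmaCore M ⊓ C[R] ≤ C[P]
  · have h1 : sigmaCore M ⊓ C[E₁] ≤ C[E₃ ⊔ E₁] := by
      rw [centralizer_sup]
      exact le_inf (eP.ge.trans (sCPR.trans (eR.le.trans inf_le_right))) inf_le_right
    have h3 : sigmaCore M ⊓ C[E₃] ≤ C[E₃ ⊔ E₁] :=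
      (eR.ge.trans (le_inf inf_le_left hc)).trans (eP.le.trans h1)
    have sE31E : E₃ ⊔ E₁ ≤ E := sup_le nsE₃E.le sE₁E
    refine semiprime_of_prime_subgroups fun X sX prX => ?_
    have ntX := ne_bot_of_prime_card prX
    have pX : IsPGroup (Nat.card X) X := isPGroup_of_card_eq_prime rfl
    rcases prX.dvd_mul.1 ((card_dvd_of_le' sX).trans
      (H67.card_sup_dvd (Or.inr (sE₁E.trans nsE₃E.norm)))) with hd | hd
    · have h4 : X ≤ E₃ := le_of_normal_hall complE.hallE₃ nsE₃E (sX.trans sE31E)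
        (isPi_of_isPGroup_of_mem prX pX (hall_isPi complE.hallE₃ _ prX hd))
      exact (primE₃.inf_cent h4 ntX).le.trans h3
    · obtain ⟨g, hg, h4⟩ := exists_cj_le_hall (mmax_sub_sol hG maxM (sE31E.trans sEM))
        (hall_of_le complE.hallE₁ le_sup_right sE31E) sX
        (isPi_of_isPGroup_of_mem prX pX (hall_isPi complE.hallE₁ _ prX hd))
      have h5 := (primE₁.inf_cent h4 (mt cj_eq_bot_iff.1 ntX)).le.trans h1
      rw [← cj_eq_self ((Msigma_normal M).norm (sEM (sE31E hg))), ← cj_eq_self_of_mem hg,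
        ← cj_centralizer, ← cj_centralizer, ← cj_inf, cj_le_cj_iff] at h5
      exact h5
  · exfalso
    have nregE₃ : ¬ Semiregular (sigmaCore M) E₃ := fun h' =>
      hc ((h'.inf_cent sRE₃ ntR).le.trans bot_le)
    obtain rfl := H3.tau2_eq_bot_of_nonregular hG maxM complE nregE₃
    have wR : IsPiSubgroup ϖ R := w_of_inf_cent hG (w_sigmaCore M) fun e => hc (e.le.trans bot_le)
    have hw : Nat.card R ∈ ϖ := wp_of_pgroup prR pR ntR wR
    obtain ⟨L, maxL, sNRL⟩ := mmax_exists_norm hG ntR (mFT_pgroup_proper hG prR pR)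
    have sEL : E ≤ L := (normalIn_of_isCyclic cycE₃ sRE₃ nsE₃E).norm.trans sNRL
    have sCL : sigmaCore M ⊓ C[R] ≤ sigmaCore M ⊓ L :=
      inf_le_inf_left _ ((centralizer_le_normalizer _).trans sNRL)
    obtain ⟨-, h2, h3⟩ := cent_norm_tau13_mmax hG maxM hallE (Or.inr t3r)
      ((sRE₃.trans nsE₃E.le).trans sEM) pR maxL sNRL
    have t1LE₁ : IsPiSubgroup (tau1 L) E₁ := by
      intro s hs sE₁
      by_contra t1's
      obtain ⟨P', sP', hP'⟩ := exists_prime_card_le hs sE₁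
      have h4 := cent_symm (h2 P' (le_inf (sP'.trans sE₁E) ((sP'.trans sE₁E).trans sEL))
        (isPi_of_isPGroup_of_mem hs (isPGroup_of_card_eq_prime hP') t1's))
      have h5 := primE₁.inf_cent sP' (ne_bot_of_prime_card (hP' ▸ hs))
      exact hc ((le_inf inf_le_left (sCL.trans h4)).trans (h5.le.trans (eP.ge.trans inf_le_right)))
    have sLr : Nat.card R ∈ sigma L := by
      refine (h3 fun h4 => hc (sCL.trans ((le_cent_of_commutator_eq_bot h4).trans
        (centralizer_anti ?_)))).1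
      exact le_inf ((sPE₁.trans sE₁E).trans sEM) ((sPE₁.trans sE₁E).trans sEL)
    have sRLs : R ≤ sigmaCore L := H3.pgroup_le_Msigma hG maxL sLr (le_normalizer.trans sNRL) pR
    obtain ⟨F, F₁, F₂, F₃, hF, sE₁F₁⟩ := H3.ex_sigmaCompl_ge_tau1' hG maxL (sE₁E.trans sEL) t1LE₁
    have h4 := (tau1_primact_Msigma hG maxL hF.hallE hF.hallE₁).inf_cent (sPE₁.trans sE₁F₁) ntP
    have cRE₁ : R ≤ C[E₁] := (le_inf sRLs (sR.trans inf_le_right)).trans
      (h4.le.trans (inf_le_right.trans (centralizer_anti sE₁F₁)))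
    refine ntR (eq_bot_iff.2 (regE₃ ▸ le_inf sRE₃ ?_))
    rw [← defE.sup, bot_sup_eq, centralizer_sup]
    exact le_inf (le_cent_of_comm (isMulCommutative_of_isCyclic cycE₃) sRE₃ le_rfl) cRE₁

/-- The first step of the proof of 13.8 and of 13.10. -/
theorem _root_.Cfsg.Agent.H88.SZ.H3.tau1_reg_syl_context {L P Q : Subgroup G} {p q : ℕ} [Fact p.Prime]
    [Fact q.Prime] (maxL : IsCoatom L) (neML : M ≠ L) (t1Mp : p ∈ tau1 M) (hP : ElemOf p 1 P M)
    (sylQ : IsSyl q Q M) (nQP : P ≤ N[Q]) (regQ : Q ⊓ C[P] = ⊥) (sNQL : N[Q] ≤ L) :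
    alpha M = beta M ∧ q ∉ alpha M ∧ alphaCore M ⊓ C[P] ≠ ⊥ ∧ alphaCore M ⊓ C[P ⊔ Q] = ⊥ ∧
      Q ≤ ⁅P ⊔ Q, P ⊔ Q⁆ := by
  have ntQ : Q ≠ ⊥ := by
    rintro rfl
    exact pr_ne_top hG maxL.1 (top_le_iff.1 ((le_normalizer_bot ⊤).trans sNQL))
  have neqp : q ≠ p := H3.prime_ne_of_regular Fact.out hP.isPGroup (syl_isPGroup sylQ) nQP ntQ regQ
  obtain ⟨h1, -, h2, h3, h4⟩ := (cent_Malpha_reg_tau1 hG maxM t1Mp neqp hP ntQ nQP regQ
    fun h => neML (h.eq maxL sNQL).symm).2 sylQ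
  refine ⟨h1, h2, h3, h4, ?_⟩
  conv_lhs => rw [← H3.commutator_eq_of_regular nQP
    (H3.coprime_of_isPGroup_of_ne Fact.out Fact.out hP.isPGroup (syl_isPGroup sylQ) neqp)
    (Or.inl (isSolvable_of_isMulCommutative hP.comm)) regQ]
  exact commutator_mono le_sup_right le_sup_left

/-- The asymmetric core of 13.8. -/
theorem _root_.Cfsg.Agent.H88.SZ.H3.tau1_mmaxI_asymmetry_core {L P Q H : Subgroup G} {p q s : ℕ}
    [Fact p.Prime] [Fact q.Prime] (maxL : IsCoatom L) (notjML : ¬ Conj M L) (t1Mp : p ∈ tau1 M)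
    (hP : ElemOf p 1 P (M ⊓ L)) (sylQ : IsSyl q Q (M ⊓ L)) (nQP : P ≤ N[Q]) (regQ : Q ⊓ C[P] = ⊥)
    (sNQL : N[Q] ≤ L) (ntLb : betaCore L ⊓ C[P] ≠ ⊥)
    (hallH : IsPiHallOf (beta M ∪ beta L) H C[P]) (bMs : s ∈ beta M) (ntHs : O[{s}](H) ≠ ⊥) :
    False := by
  have hp : p.Prime := Fact.out
  have hq : q.Prime := Fact.out
  have hs := beta_prime bMs
  haveI := Fact.mk hs
  have neML : M ≠ L := fun h => notjML (h ▸ conj_refl M)
  have sPM : P ≤ M := hP.le.trans inf_le_left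
  have ntP := hP.ne_bot one_ne_zero
  have sylQM : IsSyl q Q M := syl_of_normalizer_le sylQ inf_le_left (inf_le_inf_left _ sNQL)
  have qQ := syl_isPGroup sylQ
  obtain ⟨eab, a'q, ntMa, regMa, sQ'⟩ :=
    H3.tau1_reg_syl_context hG maxM maxL neML t1Mp (hP.mono inf_le_left) sylQM nQP regQ sNQL
  have sPQ : P ⊔ Q ≤ M ⊓ L := sup_le hP.le (hall_le sylQ)
  have sQM' : Q ≤ ⁅M, M⁆ :=
    sQ'.trans (commutator_mono (sPQ.trans inf_le_left) (sPQ.trans inf_le_left))
  have sQL' : Q ≤ ⁅L, L⁆ :=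
    sQ'.trans (commutator_mono (sPQ.trans inf_le_right) (sPQ.trans inf_le_right))
  have nsMa := Malpha_normal M
  have defM : IsMul (alphaCore M) (M ⊓ N[Q]) M :=
    H3.isMul_norm_syl_of_quo_nil nsMa (derived_normalIn M) (Malpha_der1 hG maxM) (Malpha_quo_nil hG maxM)
      (hall_of_le sylQM sQM' (derived_normalIn M).le)
  have bMa : IsPiSubgroup (beta M) (alphaCore M) := eab ▸ Malpha_pi M
  have wP : IsPiSubgroup ϖ P := w_of_inf_cent hG (w_betaCore hG maxL.1) ntLb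
  have solCP : Group.IsSolvable C[P] := mFT_sol hG (mFT_cent_proper hG ntP)
  -- a Hall subgroup `H₁` of `C(P)` containing `C_{M_α}(P)` lies in `M`
  obtain ⟨H₁, hallH₁, sCH₁⟩ := exists_hall_ge (π := beta M ∪ beta L) solCP
    (inf_le_right : alphaCore M ⊓ C[P] ≤ C[P])
    (isPi_mono (isPi_of_le bMa inf_le_left) Set.subset_union_left)
  have ntX : O[{s}](H₁) ≠ ⊥ := by
    obtain ⟨c, -, rfl⟩ := hall_conj solCP hallH hallH₁
    rw [← cj_piCoreOf]
    exact mt cj_eq_bot_iff.1 ntHs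
  have sH₁M : H₁ ≤ M := by
    obtain ⟨S, sylS⟩ := exists_syl s M
    obtain ⟨g, -, hg⟩ := exists_le_cj_syl (sigma_Sylow_G (beta_sub_sigma hG maxM bMs) sylS) le_top
      (isPGroup_pCoreOf hs H₁)
    have h1 : N[O[{s}](H₁)] ≤ cj g M :=
      beta_norm_sub_mmax hG (isCoatom_cj maxM) (hg.trans (cj_mono (hall_le sylS)))
        (isPi_of_isPGroup_of_mem hs (isPGroup_pCoreOf hs H₁) (by rwa [betaJ])) ntX
    have h2 : H₁ ≤ cj g M := (le_normalizer_piCoreOf_self _ H₁).trans h1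
    obtain ⟨Y, sY, prY⟩ := exists_prime_card_le_of_ne_bot ntMa
    have sYM : Y ≤ M := (sY.trans inf_le_left).trans nsMa.le
    have bY : IsPiSubgroup (beta M) Y := isPi_of_le bMa (sY.trans inf_le_left)
    obtain ⟨c, hc, h3⟩ := sigma_group_trans_b hG maxM (beta_sub_sigma hG maxM (bY _ prY dvd_rfl))
      (isPGroup_of_card_eq_prime (P := Y) rfl) (conj_refl M) (conj_cj g M) sYM
      ((sY.trans sCH₁).trans h2)
    rwa [h3, cj_eq_self_of_mem (beta_norm_sub_mmax hG maxM sYM bY (ne_bot_of_prime_card prY)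
      (centralizer_le_normalizer _ hc))] at h2
  obtain ⟨r, hr, rC⟩ := exists_prime_dvd_card ntLb
  haveI := Fact.mk hr
  have bLr : r ∈ beta L := Mbeta_pi L r hr (rC.trans (card_dvd_of_le' inf_le_left))
  have s'r : r ∉ sigma M := Set.disjoint_left.1
    (sigma_disjoint hG maxL maxM fun h => notjML h.symm).2.1 (beta_sub_alpha bLr)
  have rH₁ : r ∣ Nat.card H₁ :=
    prime_dvd_card_hall hallH₁ hr (Or.inr bLr) (rC.trans (card_dvd_of_le' inf_le_right))
  have s'P : IsPiSubgroup (sigma M)ᶜ P := isPi_of_isPGroup_of_mem hp hP.isPGroup (tau1_not_sigma t1Mp)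
  have rN : r ∣ Nat.card ↥(M ⊓ N[Q] ⊓ C[P]) :=
    H3.dvd_card_cent_of_isMul hr defM nsMa (le_inf sPM nQP)
      (isPi_coprime' s'P (isPi_of_le (Msigma_pi M) (Malpha_sub_Msigma hG maxM)))
      (Or.inl (isSolvable_of_isMulCommutative hP.comm))
      (rH₁.trans (card_dvd_of_le' (le_inf sH₁M (hall_le hallH₁))))
      fun h => s'r (alpha_sub_sigma hG maxM (Malpha_pi M r hr h))
  obtain ⟨R, hR⟩ := exists_elemOf_one hr rN
  have sRM : R ≤ M := hR.le.trans (inf_le_left.trans inf_le_left)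
  have sRL : R ≤ L := hR.le.trans (inf_le_left.trans (inf_le_right.trans sNQL))
  have cRP : R ≤ C[P] := hR.le.trans inf_le_right
  have sNRL : N[R] ≤ L := beta_norm_sub_mmax hG maxL sRL (isPi_of_isPGroup_of_mem hr hR.isPGroup bLr)
    (hR.ne_bot one_ne_zero)
  obtain ⟨E, hallE, sPRE⟩ := ex_sigma_compl_ge hG maxM (sup_le sPM sRM)
    (isPi_sup s'P (isPi_of_isPGroup_of_mem hr hR.isPGroup s'r)
      (Or.inr (le_normalizer_of_le_centralizer cRP)))
  have h1 := cent_tau1Elem_Msigma hG maxM hallE t1Mp (hP.of_le (le_sup_left.trans sPRE))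
    (hR.of_le (le_inf (le_sup_right.trans sPRE) cRP))
  have h2 : alphaCore M ⊓ C[P] ≤ alphaCore M ⊓ L := le_inf inf_le_left
    ((inf_le_inf_right _ (Malpha_sub_Msigma hG maxM)).trans (h1.trans (inf_le_right.trans
      ((centralizer_le_normalizer _).trans sNRL))))
  have h3 : Q ≤ C[alphaCore M ⊓ L] := by
    refine H3.cent_of_le_der1 hG maxL (π := alpha M) sQL' qQ inf_le_right
      (le_normalizer_inf ((hall_le sylQM).trans nsMa.norm)
        (le_normalizer_of_le ((hall_le sylQ).trans inf_le_right)))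
      (isPi_of_le (Malpha_pi M) inf_le_left) ?_ a'q
    exact Set.disjoint_left.2 fun t h h' => Set.disjoint_left.1
      (sigma_disjoint hG maxM maxL notjML).2.1 h' (alpha_sub_sigma hG maxL h)
  refine ntMa (eq_bot_iff.2 (regMa ▸ le_inf inf_le_left ?_))
  rw [centralizer_sup]
  exact le_inf inf_le_right (h2.trans (cent_symm h3))

/-- B & G Lemma 13.8. -/
theorem tau1_mmaxI_asymmetry {L P Q U : Subgroup G} {p q r : ℕ} [Fact p.Prime] [Fact q.Prime]
    [Fact r.Prime] (maxL : IsCoatom L) (notjML : ¬ Conj M L) (t1Mp : p ∈ tau1 M)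
    (t1Lp : p ∈ tau1 L) (hP : ElemOf p 1 P (M ⊓ L)) (sylQ : IsSyl q Q (M ⊓ L))
    (sylU : IsSyl r U (M ⊓ L)) (nQP : P ≤ N[Q]) (nUP : P ≤ N[U]) (regQ : Q ⊓ C[P] = ⊥)
    (regU : U ⊓ C[P] = ⊥) (sNQL : N[Q] ≤ L) (sNUM : N[U] ≤ M) : False := by
  have neML : M ≠ L := fun h => notjML (h ▸ conj_refl M)
  have ntP := hP.ne_bot one_ne_zero
  have ntMb : betaCore M ⊓ C[P] ≠ ⊥ := by
    obtain ⟨h1, -, h2, -⟩ := H3.tau1_reg_syl_context hG maxM maxL neML t1Mp (hP.mono inf_le_left)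
      (syl_of_normalizer_le sylQ inf_le_left (inf_le_inf_left _ sNQL)) nQP regQ sNQL
    rwa [betaCore_def, ← h1]
  have ntLb : betaCore L ⊓ C[P] ≠ ⊥ := by
    obtain ⟨h1, -, h2, -⟩ := H3.tau1_reg_syl_context hG maxL maxM neML.symm t1Lp (hP.mono inf_le_right)
      (syl_of_normalizer_le sylU inf_le_right (le_inf (inf_le_right.trans sNUM) inf_le_left))
      nUP regU sNUM
    rwa [betaCore_def, ← h1]
  have wP : IsPiSubgroup ϖ P := w_of_inf_cent hG (w_betaCore hG maxL.1) ntLb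
  have solCP : Group.IsSolvable C[P] := mFT_sol hG (mFT_cent_proper hG ntP)
  obtain ⟨H, hallH, sCH⟩ := exists_hall_ge (π := beta M ∪ beta L) solCP
    (inf_le_right : betaCore M ⊓ C[P] ≤ C[P])
    (isPi_mono (isPi_of_le (Mbeta_pi M) inf_le_left) Set.subset_union_left)
  obtain ⟨s, hs, ntHs⟩ := exists_pCoreOf_ne_bot (isSolvable_of_le solCP (hall_le hallH))
    (ne_bot_mono ntMb sCH)
  rcases mem_of_isPi_of_isPGroup hs (isPGroup_pCoreOf hs H) ntHs
    (isPi_of_le (hall_isPi hallH) (piCoreOf_le _ H)) with h | h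
  · exact H3.tau1_mmaxI_asymmetry_core hG maxM maxL notjML t1Mp hP sylQ nQP regQ sNQL ntLb hallH h ntHs
  · rw [inf_comm] at hP sylU
    rw [Set.union_comm] at hallH
    exact H3.tau1_mmaxI_asymmetry_core hG maxL maxM (fun h => notjML h.symm) t1Lp hP sylU nUP regU sNUM
      ntMb hallH h ntHs

/-- The case of 13.9 where `M` and `L` share a Sylow subgroup. -/
theorem _root_.Cfsg.Agent.H88.SZ.H3.sigma_partition_aux {L E S : Subgroup G} {q : ℕ} [Fact q.Prime]
    (maxL : IsCoatom L) (notjML : ¬ Conj M L) (hallE : IsPiHallOf (sigma M)ᶜ E M) (sMq : q ∈ sigma M)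
    (sLq : q ∈ sigma L) (sylS : IsSyl q S (sigmaCore M)) (nSE : E ≤ N[S]) (sSL : S ≤ L) : False := by
  have hq : q.Prime := Fact.out
  have neML : M ≠ L := fun h => notjML (h ▸ conj_refl M)
  have sEM := hall_le hallE
  have sylSM : IsSyl q S M := syl_of_hall (Msigma_Hall hG maxM) sMq sylS
  have sylSG := sigma_Sylow_G sMq sylSM
  have sNSM : N[S] ≤ M := norm_sigma_Sylow sMq sylSM
  have sNSL : N[S] ≤ L := norm_sigma_Sylow sLq (hall_of_le sylSG sSL le_top)
  have ntS : S ≠ ⊥ := sigma_Sylow_neq1 sMq sylSM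
  have qS := syl_isPGroup sylS
  obtain ⟨E₁, E₂, E₃, hE⟩ := ex_sigmaCompl hG maxM hallE
  have ntE₁ : E₁ ≠ ⊥ := by
    refine (sigma_compl_context hG maxM hE).2.1 ?_
    by_contra ntE₂
    obtain ⟨p, t2p, A, hA, -⟩ := ex_tau2Elem hG maxM hallE hE.hallE₂ ntE₂
    haveI := Fact.mk (tau2_prime t2p)
    exact Set.disjoint_left.1 ((tau2_compl_context hG maxM hallE t2p hA).2.2.2 L maxL notjML).2 sMq sLq
  obtain ⟨P, sPE₁, prP⟩ := exists_prime_card_le_of_ne_bot ntE₁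
  haveI := Fact.mk prP
  have sPE : P ≤ E := sPE₁.trans (hall_le hE.hallE₁)
  have ntP := ne_bot_of_prime_card prP
  have t1p : Nat.card P ∈ tau1 M := hall_isPi hE.hallE₁ _ prP (card_dvd_of_le' sPE₁)
  have sPML : P ≤ M ⊓ L := le_inf (sPE.trans sEM) ((sPE.trans nSE).trans sNSL)
  have hP : ElemOf (Nat.card P) 1 P (M ⊓ L) := (H67.elemOf_one_iff prP).2 ⟨sPML, rfl⟩
  have regS : S ⊓ C[P] = ⊥ := by
    by_contra h
    obtain ⟨X, hX⟩ := exists_elemOf_one hq (dvd_card_of_isPGroup hq (qS.to_le inf_le_left) h)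
    exact neML (((cent_cent_Msigma_tau1_uniq hG maxM hallE hE.hallE₁ sPE₁ ntP
      (hX.mono (inf_le_inf_right _ (hall_le sylS)))).2 S sylS).eq maxL sSL).symm
  have sSML : S ≤ sigmaCore M ⊓ L := le_inf (hall_le sylS) sSL
  have ncSP : ¬ P ≤ C[sigmaCore M ⊓ L] := fun h =>
    ntS (eq_bot_iff.2 (regS ▸ le_inf le_rfl (sSML.trans (cent_symm h))))
  have t1Lp : Nat.card P ∈ tau1 L := by
    by_contra h
    refine ncSP ((Msigma_setI_mmax_central hG maxM hallE maxL (card_dvd_of_le' sPE)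
      (card_dvd_of_le' (sPML.trans inf_le_right)) h (fun h1 => ncSP ?_) notjML).1 P sPML hP.isPGroup)
    exact sPML.trans (cent_symm (le_cent_of_commutator_eq_bot h1))
  have sylSML : IsSyl q S (M ⊓ L) := hall_of_le sylSG (le_inf (hall_le sylSM) sSL) le_top
  exact tau1_mmaxI_asymmetry hG maxM maxL notjML t1p t1Lp hP sylSML sylSML (sPE.trans nSE)
    (sPE.trans nSE) regS regS sNSL sNSM

/-- B & G Theorem 13.9. -/
theorem sigma_partition {L : Subgroup G} (maxL : IsCoatom L) (notjML : ¬ Conj M L) :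
    Disjoint (sigma M) (sigma L) := by
  refine Set.disjoint_left.2 fun q sMq sLq => ?_
  haveI := Fact.mk (sigma_prime sMq)
  obtain ⟨E, hallE⟩ := ex_sigma_compl hG maxM
  obtain ⟨S, sylS, nSE⟩ := coprime_syl_exists q ((hall_le hallE).trans (Msigma_normal M).norm)
    (coprime_sigma_compl hG maxM hallE).symm (Or.inl (sigma_compl_sol hG maxM hallE))
  obtain ⟨T, sylT⟩ := exists_syl q L
  obtain ⟨g, -, hg⟩ := exists_le_cj_syl (sigma_Sylow_G sLq sylT) le_top (syl_isPGroup sylS)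
  exact H3.sigma_partition_aux hG maxM (isCoatom_cj (g := g) maxL)
    (fun h => notjML (h.trans (conj_cj g L).symm)) hallE sMq (by rwa [sigmaJ]) sylS nSE
    (hg.trans (cj_mono (hall_le sylT)))

/-- B & G Theorem 13.10. -/
theorem tau13_regular {E E₁ E₂ E₃ P : Subgroup G} (complE : SigmaCompl M E E₁ E₂ E₃)
    (sPE₁ : P ≤ E₁) (prP : (Nat.card P).Prime) (ncPE₃ : ¬ P ≤ C[E₃])
    (wE₃ : IsPiSubgroup ϖ E₃) :
    Semiregular E₃ E₁ ∧ Semiregular (sigmaCore M) E₃ ∧ sigmaCore M ⊓ C[P] ≠ ⊥ := by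
  haveI := Fact.mk prP
  have hallE := complE.hallE
  have sEM := hall_le hallE
  have nsMs := Msigma_normal M
  have sMa := Malpha_sub_Msigma hG maxM
  have sPE : P ≤ E := sPE₁.trans (hall_le complE.hallE₁)
  have sPM := sPE.trans sEM
  have ntP := ne_bot_of_prime_card prP
  obtain ⟨⟨sE₃E', nsE₃E⟩, -, ⟨-, cycE₃⟩, -⟩ := sigma_compl_context hG maxM complE
  have t1p : Nat.card P ∈ tau1 M := hall_isPi complE.hallE₁ _ prP (card_dvd_of_le' sPE₁)
  have hP : ElemOf (Nat.card P) 1 P M := (H67.elemOf_one_iff prP).2 ⟨sPM, rfl⟩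
  have solP := isSolvable_of_isMulCommutative hP.comm
  have coPE₃ : (Nat.card P).Coprime (Nat.card E₃) :=
    (isPi_piNat (isPi_of_isPGroup_of_mem prP hP.isPGroup t1p)).coprime_of_disjoint
      (hall_isPi complE.hallE₃) fun _ _ h => tau3'1 h
  obtain ⟨q, hq, qE₃, Q, sylQ, nQP, ncQP⟩ := H3.exists_inv_syl_not_cent (sPE.trans nsE₃E.norm) coPE₃
    (Or.inl solP) fun h => ncPE₃ (cent_symm h)
  haveI := Fact.mk hq
  have sQE₃ := hall_le sylQ
  have qQ := syl_isPGroup sylQ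
  have ntQ : Q ≠ ⊥ := syl_ne_bot sylQ qE₃
  have t3q : q ∈ tau3 M := hall_isPi complE.hallE₃ q hq qE₃
  have hw : q ∈ ϖ := wE₃ q hq qE₃
  have regQ : Q ⊓ C[P] = ⊥ := H3.cent_eq_bot_of_cyclic_pgroup hq (isCyclic_of_le' cycE₃ sQE₃) qQ nQP
    (H4.coprime_of_le_right coPE₃ sQE₃) ncQP
  have sylQM : IsSyl q Q M :=
    syl_of_hall hallE (tau3_not_sigma t3q) (syl_of_hall complE.hallE₃ t3q sylQ)
  obtain ⟨L, maxL, sNQL⟩ := mmax_exists_norm hG ntQ (mFT_pgroup_proper hG hq qQ)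
  have notjML : ¬ Conj M L :=
    fun hc => mmax_norm_notJ hG maxM maxL qQ (hall_le sylQM) sNQL (Or.inr (Or.inr t3q)) hc
  have neML : M ≠ L := fun h => notjML (h ▸ conj_refl M)
  obtain ⟨eab, -, ntMa, regMa, -⟩ :=
    H3.tau1_reg_syl_context hG maxM maxL neML t1p hP sylQM nQP regQ sNQL
  refine ⟨?_, ?_, ne_bot_mono ntMa (inf_le_inf_right _ sMa)⟩
  · by_contra h
    have h1 := (tau13_primact_Msigma hG maxM complE h).inf_cent (sPE₁.trans le_sup_right) ntP
    refine ntMa (eq_bot_iff.2 (regMa ▸ le_inf inf_le_left ?_))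
    exact (inf_le_inf_right _ sMa).trans (h1.le.trans (inf_le_right.trans (centralizer_anti
      (sup_le (sPE₁.trans le_sup_right) (sQE₃.trans le_sup_left)))))
  · have primE₃ := tau3_primact_Msigma hG maxM hallE complE.hallE₃
    refine primE₃.semiregular ?_
    rw [← primE₃.inf_cent sQE₃ ntQ]
    by_contra ntC
    have sPL : P ≤ L := nQP.trans sNQL
    have sQL : Q ≤ L := le_normalizer.trans sNQL
    obtain ⟨h1, h2, -⟩ := cent_norm_tau13_mmax hG maxM hallE (Or.inr t3q) (hall_le sylQM) qQ maxL sNQL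
    have defC : sigmaCore M ⊓ C[Q] = sigmaCore M ⊓ L :=
      le_antisymm (inf_le_inf_left _ ((centralizer_le_normalizer _).trans sNQL))
        (le_inf inf_le_left (cent_symm (h1 Q (le_inf (hall_le sylQM) sQL) qQ)))
    obtain ⟨u, hu, uC⟩ := exists_prime_dvd_card ntC
    haveI := Fact.mk hu
    have sMu : u ∈ sigma M := Msigma_pi M u hu (uC.trans (card_dvd_of_le' inf_le_left))
    obtain ⟨U, sylU, nUP⟩ := coprime_syl_exists u (K := sigmaCore M ⊓ C[Q])
      (le_normalizer_inf (sPM.trans nsMs.norm) (le_normalizer_centralizer nQP))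
      (isPi_coprime' (isPi_of_le (hall_isPi hallE) sPE) (isPi_of_le (Msigma_pi M) inf_le_left))
      (Or.inl solP)
    have uU := syl_isPGroup sylU
    have ntU : U ≠ ⊥ := syl_ne_bot sylU uC
    have sUMs : U ≤ sigmaCore M := (hall_le sylU).trans inf_le_left
    have sUML : U ≤ sigmaCore M ⊓ L := defC ▸ hall_le sylU
    have sylUML : IsSyl u U (M ⊓ L) := by
      refine syl_of_hall (normal_hall_inf (Msigma_Hall hG maxM) nsMs inf_le_left) sMu ?_
      rwa [← inf_assoc, inf_eq_left.2 nsMs.le, ← defC]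
    have h3 : U ⊓ C[P] = ⊥ ∧ N[U] ≤ M := by
      by_cases bu : u ∈ beta M
      · refine ⟨eq_bot_iff.2 (regMa ▸ le_inf (inf_le_left.trans ?_) ?_),
          beta_norm_sub_mmax hG maxM (sUMs.trans nsMs.le) (isPi_of_isPGroup_of_mem hu uU bu) ntU⟩
        · exact H3.pgroup_le_Malpha hG maxM (beta_sub_alpha bu) (sUMs.trans nsMs.le) uU
        · rw [centralizer_sup]
          exact le_inf inf_le_right (inf_le_left.trans ((hall_le sylU).trans inf_le_right))
      · obtain ⟨H, hallH, cE'H⟩ := der_compl_cent_beta' hG maxM hallE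
        have sylUMs : IsSyl u U (sigmaCore M) := by
          refine hall_of_relIndex sylU inf_le_left ?_
          refine ((hall_relIndex hallH).of_dvd (relIndex_dvd_of_le_left _
            (le_inf (hall_le hallH) (cent_symm ((sQE₃.trans sE₃E').trans cE'H))))).mono ?_
          rintro r hr rfl
          exact hr bu
        refine ⟨?_, norm_sigma_Sylow sMu (syl_of_hall (Msigma_Hall hG maxM) sMu sylUMs)⟩
        by_contra h
        obtain ⟨X, hX⟩ := exists_elemOf_one hu (dvd_card_of_isPGroup hu (uU.to_le inf_le_left) h)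
        exact neML (((cent_cent_Msigma_tau1_uniq hG maxM hallE complE.hallE₁ sPE₁ ntP
          (hX.mono (inf_le_inf_right _ sUMs))).2 U sylUMs).eq maxL (sUML.trans inf_le_right)).symm
    have t1Lp : Nat.card P ∈ tau1 L := by
      by_contra h
      exact ntU (eq_bot_iff.2 (h3.1 ▸ le_inf le_rfl (sUML.trans (cent_symm
        (h2 P (le_inf sPE sPL) (isPi_of_isPGroup_of_mem prP hP.isPGroup h))))))
    exact tau1_mmaxI_asymmetry hG maxM maxL notjML t1p t1Lp (hP.of_le (le_inf sPM sPL))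
      (hall_of_le sylQM (le_inf (hall_le sylQM) sQL) inf_le_left) sylUML nQP nUP regQ h3.1 sNQL h3.2

/-- B & G Corollary 13.11. -/
theorem tau13_nonregular {E E₁ E₂ E₃ : Subgroup G} (complE : SigmaCompl M E E₁ E₂ E₃)
    (h : ¬ Semiregular (sigmaCore M) E₃) :
    E₁ ≠ ⊥ ∧ IsSdp E₃ E₁ E ∧ Semiprime (sigmaCore M) E ∧
      ∀ X : Subgroup G, X ≤ E → (Nat.card X).Prime → X ⊴ E := by
  obtain rfl := H3.tau2_eq_bot_of_nonregular hG maxM complE h
  obtain ⟨⟨-, nsE₃E⟩, ntE₁, ⟨cycE₁, cycE₃⟩, ⟨⟨-, defE⟩, -⟩, -⟩ := sigma_compl_context hG maxM complE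
  rw [bot_sup_eq] at defE
  have ntE₃ : E₃ ≠ ⊥ := by
    rintro rfl
    exact h (semiregular_bot_right _)
  have cE₃ : ∀ P : Subgroup G, P ≤ E₁ → (Nat.card P).Prime → P ≤ C[E₃] := fun P sP prP => by
    by_contra h1
    exact h (tau13_regular hG maxM complE sP prP h1 (w_of_inf_cent hG (w_sigmaCore M) fun e =>
      h ((tau3_primact_Msigma hG maxM complE.hallE complE.hallE₃).semiregular e))).2.1
  refine ⟨ntE₁ rfl, defE, ?_, fun X sXE prX => ?_⟩
  · rw [← defE.sup]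
    refine tau13_primact_Msigma hG maxM complE fun h1 => ntE₃ ?_
    obtain ⟨P, sP, prP⟩ := exists_prime_card_le_of_ne_bot (ntE₁ rfl)
    rw [← h1.inf_cent sP (ne_bot_of_prime_card prP), inf_eq_left.2 (cent_symm (cE₃ P sP prP))]
  · have pX : IsPGroup (Nat.card X) X := isPGroup_of_card_eq_prime rfl
    rcases prX.dvd_mul.1 (defE.card ▸ card_dvd_of_le' sXE) with hd | hd
    · exact normalIn_of_isCyclic cycE₃ (le_of_normal_hall complE.hallE₃ nsE₃E sXE
        (isPi_of_isPGroup_of_mem prX pX (hall_isPi complE.hallE₃ _ prX hd))) nsE₃E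
    · obtain ⟨g, hg, h4⟩ := exists_cj_le_hall (sigma_compl_sol hG maxM complE.hallE) complE.hallE₁ sXE
        (isPi_of_isPGroup_of_mem prX pX (hall_isPi complE.hallE₁ _ prX hd))
      have h5 : cj g X ⊴ cj g E := by
        rw [cj_eq_self_of_mem hg]
        refine ⟨h4.trans defE.le_right, defE.le_of_le ?_ ?_⟩
        · exact le_normalizer_of_le_centralizer' (cE₃ _ h4 (by rwa [card_cj]))
        · exact le_norm_of_isCyclic cycE₁ h4 le_normalizer
      exact normalIn_cj_iff.1 h5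

/-- B & G Lemma 13.12. -/
theorem tau12_regular {E P A : Subgroup G} {p q : ℕ} [Fact p.Prime] [Fact q.Prime]
    (hallE : IsPiHallOf (sigma M)ᶜ E M) (t1p : p ∈ tau1 M) (t2q : q ∈ tau2 M)
    (hP : ElemOf p 1 P E) (hA : ElemOf q 2 A E) (ntC : A ⊓ C[P] ≠ ⊥) :
    sigmaCore M ⊓ C[P] = ⊥ := by
  have hp : p.Prime := Fact.out
  have hq : q.Prime := Fact.out
  by_contra ntMsP
  have ntP := hP.ne_bot one_ne_zero
  obtain ⟨⟨nsAE, -⟩, ⟨-, -, nsNAM⟩, huniq, -⟩ := tau2_compl_context hG maxM hallE t2q hA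
  have ncAP : ¬ P ≤ C[A] := fun h => by
    obtain ⟨E₁, E₂, E₃, hE, sPE₁⟩ := H3.ex_sigmaCompl_ge_tau1 hG maxM hallE hP.le
      (isPi_of_isPGroup_of_mem hp hP.isPGroup t1p)
    exact ntMsP ((tau2_regular hG maxM hE t2q hA).2.1.inf_cent (le_inf sPE₁ h) ntP)
  obtain ⟨Y, hY⟩ := exists_elemOf_one hq (dvd_card_of_isPGroup hq (hA.isPGroup.to_le inf_le_left) ntC)
  have sYA : Y ≤ A := hY.le.trans inf_le_left
  have cYP : Y ≤ C[P] := hY.le.trans inf_le_right
  have h1 := cent_tau1Elem_Msigma hG maxM hallE t1p hP (hY.mono (inf_le_inf_right _ hA.le))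
  have uCY : UniqMax C[Y] M := huniq Y (hY.of_le (sYA.trans hA.le)) (ne_bot_mono ntMsP h1)
  obtain ⟨L, maxL, sNAL⟩ :=
    mmax_exists_norm hG (hA.ne_bot two_ne_zero) (mFT_pgroup_proper hG hq hA.isPGroup)
  have neLM : L ≠ M := fun h => nsNAM (h ▸ sNAL)
  have sAL : A ≤ L := le_normalizer.trans sNAL
  have sPL : P ≤ L := (hP.le.trans nsAE.norm).trans sNAL
  obtain ⟨h2, h3, -⟩ := primes_norm_tau2Elem hG maxM hallE t2q hA maxL sNAL
  have sYLs : Y ≤ sigmaCore L := H3.pgroup_le_Msigma hG maxL (h2 q t2q).1 (sYA.trans sAL) hY.isPGroup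
  rcases h3 p hp (hP.card_one ▸ H3.card_dvd_relIndex_of_not_le (inf_centralizer_normalIn nsAE.norm) hP.le
    hP.card_prime fun h => ncAP (h.trans inf_le_right)) with t1Lp | t2Lp
  · obtain ⟨F, F₁, F₂, F₃, hF, sPF₁⟩ := H3.ex_sigmaCompl_ge_tau1' hG maxL sPL
      (isPi_of_isPGroup_of_mem hp hP.isPGroup t1Lp)
    exact neLM ((cent_cent_Msigma_tau1_uniq hG maxL hF.hallE hF.hallE₁ sPF₁ ntP
      (hY.of_le (le_inf sYLs cYP))).1.unique uCY)
  · obtain ⟨F, hallF, sPF⟩ := ex_sigma_compl_ge hG maxL sPL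
      (isPi_of_isPGroup_of_mem hp hP.isPGroup (tau2_not_sigma t2Lp))
    obtain ⟨B, hB⟩ := ex_tau2Elem_of_mem hG maxL hallF t2Lp
    have uCP : UniqMax C[P] L := (tau2_compl_context hG maxL hallF t2Lp hB).2.2.1 P (hP.of_le sPF)
      (ne_bot_mono (hY.ne_bot one_ne_zero) (le_inf sYLs cYP))
    have h4 := (tau2_context hG maxM t2q (hA.mono (hall_le hallE))).2.2.2.1 L maxL sAL neLM
    exact ntMsP (eq_bot_iff.2 (h4 ▸ inf_le_inf_left _ uCP.le))

/-- B & G Lemma 13.13. -/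
theorem tau13_nonregular_sigma {H P : Subgroup G} {p : ℕ} [Fact p.Prime] (hP : ElemOf p 1 P M)
    (t13p : p ∈ tau1 M ∨ p ∈ tau3 M) (ntC : sigmaCore M ⊓ C[P] ≠ ⊥) (maxH : IsCoatom H)
    (sNPH : N[P] ≤ H) : p ∈ sigma H := by
  have hp : p.Prime := Fact.out
  by_contra s'Hp
  have ntP := hP.ne_bot one_ne_zero
  have hw : p ∈ ϖ := wp_of_pgroup hp hP.isPGroup ntP (w_of_inf_cent hG (w_sigmaCore M) ntC)
  have t2Hp : p ∈ tau2 H := (prime_class_mmax_norm hG maxH hP.isPGroup sNPH).resolve_left s'Hp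
  have notjMH : ¬ Conj M H := fun hc => mmax_norm_notJ hG maxM maxH hP.isPGroup hP.le sNPH (Or.inr t13p) hc
  obtain ⟨Q, sQ, prQ⟩ := exists_prime_card_le_of_ne_bot ntC
  haveI := Fact.mk prQ
  have hQ : ElemOf (Nat.card Q) 1 Q (sigmaCore M ⊓ C[P]) := (H67.elemOf_one_iff prQ).2 ⟨sQ, rfl⟩
  have cQP : Q ≤ C[P] := sQ.trans inf_le_right
  have sCPH : C[P] ≤ H := (centralizer_le_normalizer _).trans sNPH
  have sMq : Nat.card Q ∈ sigma M := Msigma_pi M _ prQ (card_dvd_of_le' (sQ.trans inf_le_left))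
  have s'Hq : Nat.card Q ∉ sigma H := Set.disjoint_left.1 (sigma_partition hG maxM maxH notjMH) sMq
  have uCQ : UniqMax C[Q] M := by
    rcases t13p with t1p | t3p
    · obtain ⟨E, E₁, E₂, E₃, hE, sPE₁⟩ := H3.ex_sigmaCompl_ge_tau1' hG maxM hP.le
        (isPi_of_isPGroup_of_mem hp hP.isPGroup t1p)
      exact (cent_cent_Msigma_tau1_uniq hG maxM hE.hallE hE.hallE₁ sPE₁ ntP hQ).1
    · obtain ⟨E, hallE, sPE⟩ := ex_sigma_compl_ge hG maxM hP.le
        (isPi_of_isPGroup_of_mem hp hP.isPGroup (tau3_not_sigma t3p))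
      obtain ⟨E₁, E₂, E₃, hE⟩ := ex_sigmaCompl hG maxM hallE
      have sPE₃ : P ≤ E₃ := le_of_normal_hall hE.hallE₃ (sigma_compl_context hG maxM hE).1.2 sPE
        (isPi_of_isPGroup_of_mem hp hP.isPGroup t3p)
      obtain ⟨ntE₁, -, primE, -⟩ := tau13_nonregular hG maxM hE fun h => ntC (h.inf_cent sPE₃ ntP)
      rw [primE.inf_cent sPE ntP, ← primE.inf_cent (hall_le hE.hallE₁) ntE₁] at hQ
      exact (cent_cent_Msigma_tau1_uniq hG maxM hallE hE.hallE₁ le_rfl ntE₁ hQ).1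
  obtain ⟨F, hallF, sPQF⟩ := ex_sigma_compl_ge hG maxH
    (sup_le (le_normalizer.trans sNPH) (cQP.trans sCPH))
    (isPi_sup (isPi_of_isPGroup_of_mem hp hP.isPGroup s'Hp)
      (isPi_of_isPGroup_of_mem prQ hQ.isPGroup s'Hq) (Or.inr (le_normalizer_of_le_centralizer cQP)))
  have hQF : ElemOf (Nat.card Q) 1 Q F := hQ.of_le (le_sup_right.trans sPQF)
  obtain ⟨A, hA⟩ := ex_tau2Elem_of_mem hG maxH hallF t2Hp
  obtain ⟨⟨nsAF, hEp⟩, -⟩ := tau2_compl_context hG maxH hallF t2Hp hA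
  have sPA : P ≤ A := ((hEp P).1 (hP.of_le (le_sup_left.trans sPQF))).le
  have ncAQ : ¬ A ≤ C[Q] := fun h => H3.tau13_not_elem2 hG maxM t13p (hA.of_le (h.trans uCQ.le))
  have t1Hq : Nat.card Q ∈ tau1 H := (tau1_cent_tau2Elem_factor hG maxH hallF t2Hp hA).2.2 _ prQ
    (H3.card_dvd_relIndex_of_not_le (inf_centralizer_normalIn nsAF.norm) hQF.le prQ
      fun h => ncAQ (cent_symm (h.trans inf_le_right)))
  have sPC : P ≤ A ⊓ C[Q] := le_inf sPA (cent_symm cQP)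
  have regQ := tau12_regular hG maxH hallF t1Hq t2Hp hQF hA (ne_bot_mono ntP sPC)
  obtain ⟨-, -, h1, h2⟩ := tau1_act_tau2 hG maxH hallF t2Hp hA t1Hq hQF regQ
    fun h => ncAQ (le_cent_of_commutator_eq_bot h)
  exact h2 ((centralizer_anti sPC).trans sCPH)

end

end Cfsg.Agent.H88.SZ.H66
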