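import Cfsg.Agent.H88.ZMin
import Cfsg.Agent.H63.BG6
import Cfsg.Agent.H63.Constt
import Cfsg.Agent.H88.ZBG11
import Cfsg.Agent.H88.ZBG13B
import Cfsg.Agent.H88.ZBG12c2
import Cfsg.Agent.H88.ZBG12D
import Cfsg.Agent.H68.PF8a

/-!
Bender–Glauberman, section 14: `κ(M)`, the types `𝓕`, `𝓟`, `𝓟₁`, `𝓟₂`, σ-decompositions.
-/

set_option autoImplicit false
set_option linter.unusedSectionVars false
set_option linter.unusedVariables false
set_option linter.unusedSectionVars false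

namespace Cfsg.Agent.H88.SZ.H63

open Cfsg.Agent.H63

variable [Om]

open Cfsg Subgroup Cfsg.Agent.H67 Cfsg.Agent.H66 Cfsg.Agent.H64
open Cfsg.Agent.H88.SZ.H67 Cfsg.Agent.H88.SZ.H66 Cfsg.Agent.H88.SZ.H64

universe u
variable {G : Type u} [Group G] [Finite G]

/-! ### `κ(M)` and the types `𝓕`, `𝓟`, `𝓟₁`, `𝓟₂` -/

section Kappa
variable {M U K : Subgroup G} {p : ℕ}

theorem kappa_prime (h : p ∈ kappa M) : p.Prime := h.1
theorem kappa_pi (h : p ∈ kappa M) : p ∣ Nat.card M := h.2.1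
theorem kappa_sigma' (h : p ∈ kappa M) : p ∉ sigma M := h.2.2.1

theorem mem_kappa_iff_syl : p ∈ kappa M ↔ p.Prime ∧ p ∣ Nat.card M ∧ p ∉ sigma M ∧
    ∀ S, IsSyl p S M → IsCyclic S ∧ ∃ x ∈ S, x ≠ 1 ∧ sigmaCore M ⊓ C1[x] ≠ ⊥ := by
  refine and_congr_right fun hp => and_congr_right fun _ => and_congr_right fun _ => ?_
  have := Fact.mk hp
  constructor
  · intro h S hS
    obtain ⟨T, rfl⟩ := exists_sylow_map hS
    obtain ⟨h1, x, hx, h2, y, hy, h3, h4⟩ := h T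
    refine ⟨isCyclic_of_surjective _ (equivMapOfInjective _ _ M.subtype_injective).surjective,
      x, ⟨x, hx, rfl⟩, fun e => h2 (Subtype.ext e), ne_bot_of_mem (x := y) ⟨hy, ?_⟩ h3⟩
    exact mem_centralizer_singleton_iff.2 h4.symm
  · intro h T
    obtain ⟨h1, _, ⟨x, hx, rfl⟩, h2, h3⟩ := h _ (syl_map_sylow T)
    obtain ⟨y, hy, h4⟩ := exists_ne_one_of_ne_bot h3
    exact ⟨isCyclic_of_surjective _ (equivMapOfInjective _ _ M.subtype_injective).symm.surjective,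
      x, hx, fun e => h2 (by rw [e]; rfl), y, hy.1, h4, (mem_centralizer_singleton_iff.1 hy.2).symm⟩

theorem rank_kappa (h : p ∈ kappa M) : rankP p M = 1 := by
  obtain ⟨hp, hd, -, h⟩ := mem_kappa_iff_syl.1 h
  have := Fact.mk hp
  obtain ⟨S, hS⟩ := exists_syl p M
  rw [← rankP_syl hS]
  exact rankP_eq_one_of_isCyclic (h S hS).1 (prime_dvd_card_hall hS hp rfl hd)

theorem kappa_tau13 (h : p ∈ kappa M) : p ∈ tau1 M ∨ p ∈ tau3 M := by
  by_cases hd : p ∣ Nat.card ↥⁅M, M⁆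
  · exact Or.inr (mem_tau3_iff.2 ⟨h.1, kappa_sigma' h, rank_kappa h, hd⟩)
  · exact Or.inl (mem_tau1_iff.2 ⟨h.1, kappa_sigma' h, rank_kappa h, hd⟩)

theorem kappa_tau2' (h : p ∈ kappa M) : p ∉ tau2 M := fun h' => by
  have := tau2_rk h'
  rw [rank_kappa h] at this
  omega

theorem kappa_subset_sigma' (M : Subgroup G) : kappa M ⊆ (sigma M)ᶜ := fun _ => kappa_sigma'

theorem kappa_nonregular (h : p ∈ kappa M) {P : Subgroup G} (hP : ElemOf p 1 P M) :
    sigmaCore M ⊓ C[P] ≠ ⊥ := by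
  obtain ⟨hp, -, -, h⟩ := mem_kappa_iff_syl.1 h
  have := Fact.mk hp
  obtain ⟨S, hS, hPS⟩ := exists_syl_ge hP.le hP.isPGroup
  obtain ⟨hc, x, hx, h1, h2⟩ := h S hS
  have h3 : P ≤ zpowers x := le_of_prime_card_of_inf_ne_bot hP.card_prime
    (inf_ne_bot_of_isCyclic_of_isPGroup hp hc (syl_isPGroup hS) hPS (zpowers_le.2 hx)
      (hP.ne_bot one_ne_zero) (zpowers_ne_bot' h1))
  exact ne_bot_mono h2 (inf_le_inf_left _ (centralizer_zpowers x ▸ centralizer_anti h3))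

theorem mem_kappa_of (hG : IsMinSimpleOddOrder G) (h : p ∈ tau1 M ∨ p ∈ tau3 M) {P : Subgroup G}
    (hP : P ≤ M) (pP : IsPGroup p P) (ntP : P ≠ ⊥) (nt : sigmaCore M ⊓ C[P] ≠ ⊥) : p ∈ kappa M := by
  have hp : p.Prime := h.elim tau1_prime tau3_prime
  have := Fact.mk hp
  have hw : p ∈ ϖ := wp_of_pgroup hp pP ntP (w_of_inf_cent hG (w_sigmaCore M) nt)
  refine mem_kappa_iff_syl.2 ⟨hp, h.elim tau1_sub_pi tau3_sub_pi,
    h.elim tau1_not_sigma tau3_not_sigma, fun S hS => ⟨?_, ?_⟩⟩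
  · exact cyclic_of_rk_le_one' hp (syl_isPGroup hS) (mFT_odd hG S)
      ((rankP_syl hS).trans (h.elim tau1_rk tau3_rk)).le
  · obtain ⟨g, hg, hgS⟩ := exists_cj_le_syl hS hP pP
    obtain ⟨x, hx, h1⟩ := exists_ne_one_of_ne_bot (fun e => ntP (cj_eq_bot_iff.1 e) : cj g P ≠ ⊥)
    refine ⟨x, hgS hx, h1, ne_bot_mono (fun e => nt (cj_eq_bot_iff.1 e) :
      cj g (sigmaCore M ⊓ C[P]) ≠ ⊥) ?_⟩
    rw [cj_inf, (Msigma_normal M).cj_eq hg, cj_centralizer]
    exact inf_le_inf_left _ (centralizer_le_centralizer_singleton hx)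

theorem mem_kappa_iff (hG : IsMinSimpleOddOrder G) : p ∈ kappa M ↔
    (p ∈ tau1 M ∨ p ∈ tau3 M) ∧ ∃ P, ElemOf p 1 P M ∧ sigmaCore M ⊓ C[P] ≠ ⊥ := by
  constructor
  · intro h
    obtain ⟨P, hP⟩ := exists_elemOf_one h.1 (kappa_pi h)
    exact ⟨kappa_tau13 h, P, hP, kappa_nonregular h hP⟩
  · rintro ⟨h, P, hP, nt⟩
    have := Fact.mk (h.elim tau1_prime tau3_prime)
    exact mem_kappa_of hG h hP.le hP.isPGroup (hP.ne_bot one_ne_zero) nt

theorem kappa_cj_subset (g : G) (M : Subgroup G) : kappa M ⊆ kappa (cj g M) := fun p h => by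
  obtain ⟨hp, hd, hs, h⟩ := mem_kappa_iff_syl.1 h
  refine mem_kappa_iff_syl.2 ⟨hp, by rwa [card_cj], by rwa [sigmaJ], fun S hS => ?_⟩
  have h1 := hall_cj hS g⁻¹
  rw [cj_inv_cj] at h1
  obtain ⟨h2, x, hx, h3, h4⟩ := h _ h1
  refine ⟨isCyclic_cj_iff.1 h2, g * x * g⁻¹, ?_, by simpa using h3, ?_⟩
  · have := conj_mem_cj (g := g) hx
    rwa [cj_cj_inv] at this
  · rw [MsigmaJ, ← cj_centralizer_singleton, ← cj_inf]
    exact fun e => h4 (cj_eq_bot_iff.1 e)

theorem kappaJ (g : G) (M : Subgroup G) : kappa (cj g M) = kappa M := by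
  refine Set.Subset.antisymm ?_ (kappa_cj_subset g M)
  have := kappa_cj_subset g⁻¹ (cj g M)
  rwa [cj_inv_cj] at this

theorem KappaCompl.cj (h : KappaCompl M U K) (g : G) : KappaCompl (cj g M) (cj g U) (cj g K) where
  hallK := by rw [kappaJ]; exact hall_cj h.hallK g
  hallU := by rw [kappaJ, sigmaJ]; exact hall_cj h.hallU g
  norm := by rw [← cj_normalizer]; exact cj_mono h.norm

theorem KappaCompl.cj_of_mem (h : KappaCompl M U K) {g : G} (hg : g ∈ M) :
    KappaCompl M (H63.cj g U) (H63.cj g K) := by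
  have := h.cj g
  rwa [cj_eq_self_of_mem hg] at this

theorem PType.max (h : PType M) : IsCoatom M := h.1
theorem FType.max (h : FType M) : IsCoatom M := h.1
theorem P1Type.ptype (h : P1Type M) : PType M := h.1
theorem P2Type.ptype (h : P2Type M) : PType M := h.1
theorem P1Type.max (h : P1Type M) : IsCoatom M := h.1.1
theorem P2Type.max (h : P2Type M) : IsCoatom M := h.1.1

theorem ftype_iff (maxM : IsCoatom M) : FType M ↔ ¬ PType M := by
  simp [FType, PType, maxM, Set.not_nonempty_iff_eq_empty]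

theorem ptype_or_ftype (maxM : IsCoatom M) : PType M ∨ FType M := by
  rw [ftype_iff maxM]; exact em _

theorem PType.p1_or_p2 (h : PType M) : P1Type M ∨ P2Type M :=
  (em _).imp (fun h' => ⟨h, h'⟩) fun h' => ⟨h, h'⟩

theorem P1Type.not_p2 (h : P1Type M) : ¬ P2Type M := fun h' => h'.2 h.2
theorem FType.not_ptype (h : FType M) : ¬ PType M := (ftype_iff h.1).1 h

theorem ftype_or_p2type_iff (maxM : IsCoatom M) : FType M ∨ P2Type M ↔ ¬ P1Type M := by
  rw [ftype_iff maxM, P1Type, P2Type]; tauto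

theorem PtypeJ (g : G) : PType (cj g M) ↔ PType M := by rw [PType, PType, kappaJ, mmaxJ]
theorem FtypeJ (g : G) : FType (cj g M) ↔ FType M := by rw [FType, FType, kappaJ, mmaxJ]
theorem P1typeJ (g : G) : P1Type (cj g M) ↔ P1Type M := by
  rw [P1Type, P1Type, PtypeJ, kappaJ, sigmaJ, isPi_cj_iff]
theorem P2typeJ (g : G) : P2Type (cj g M) ↔ P2Type M := by
  rw [P2Type, P2Type, PtypeJ, kappaJ, sigmaJ, isPi_cj_iff]

theorem ntrivg_kappa (maxM : IsCoatom M) (hK : IsPiHallOf (kappa M) K M) : K ≠ ⊥ ↔ PType M := by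
  constructor
  · intro h
    obtain ⟨p, hp, hd⟩ := exists_prime_dvd_card h
    exact ⟨maxM, p, hall_isPi hK p hp hd⟩
  · rintro ⟨-, p, hp⟩
    exact ne_bot_of_dvd_card hp.1 (prime_dvd_card_hall hK hp.1 hp (kappa_pi hp))

theorem trivg_kappa (maxM : IsCoatom M) (hK : IsPiHallOf (kappa M) K M) : K = ⊥ ↔ FType M := by
  rw [ftype_iff maxM, ← ntrivg_kappa maxM hK, not_not]

theorem KappaCompl.eq_bot_iff (h : KappaCompl M U K) :
    U = ⊥ ↔ IsPiSubgroup (sigma M ∪ kappa M) M := by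
  constructor
  · intro e
    have := isPi_compl_of_hall_bot (e ▸ h.hallU)
    rwa [compl_compl] at this
  · intro e
    exact hall_eq_bot_of_isPi_compl h.hallU (by rwa [compl_compl])

theorem not_isPi_sigma (hG : IsMinSimpleOddOrder G) (maxM : IsCoatom M) :
    ¬ IsPiSubgroup (sigma M) M := fun h =>
  (commutator_lt_of_isSolvable (mmax_sol hG maxM) (mmax_neq1 hG maxM)).not_ge
    ((le_Msigma hG maxM le_rfl h).trans (Msigma_der1 hG maxM))

theorem trivg_kappa_compl (hG : IsMinSimpleOddOrder G) (maxM : IsCoatom M) (h : KappaCompl M U K) :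
    U = ⊥ ↔ P1Type M := by
  rw [h.eq_bot_iff]
  refine ⟨fun e => ⟨⟨maxM, ?_⟩, e⟩, fun e => e.2⟩
  rw [Set.nonempty_iff_ne_empty]
  intro e'
  rw [e', Set.union_empty] at e
  exact not_isPi_sigma hG maxM e

theorem p2type_iff (maxM : IsCoatom M) (h : KappaCompl M U K) : P2Type M ↔ K ≠ ⊥ ∧ U ≠ ⊥ := by
  rw [P2Type, ntrivg_kappa maxM h.hallK, Ne, h.eq_bot_iff]

theorem kappa_hall_sigma' (hK : IsPiHallOf (kappa M) K M) : IsPiSubgroup (sigma M)ᶜ K :=
  isPi_mono (hall_isPi hK) (kappa_subset_sigma' M)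

theorem coprime_Msigma_kappa (hK : IsPiHallOf (kappa M) K M) :
    (Nat.card K).Coprime (Nat.card (sigmaCore M)) :=
  isPi_coprime' (kappa_hall_sigma' hK) (Msigma_pi M)

theorem KappaCompl.sigma'U (h : KappaCompl M U K) : IsPiSubgroup (sigma M)ᶜ U :=
  isPi_mono (hall_isPi h.hallU) (Set.compl_subset_compl.2 Set.subset_union_left)

theorem KappaCompl.kappa'U (h : KappaCompl M U K) : IsPiSubgroup (kappa M)ᶜ U :=
  isPi_mono (hall_isPi h.hallU) (Set.compl_subset_compl.2 Set.subset_union_right)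

theorem KappaCompl.coprime (h : KappaCompl M U K) : (Nat.card U).Coprime (Nat.card K) :=
  isPi_coprime' h.kappa'U (hall_isPi h.hallK)

theorem KappaCompl.sdp (h : KappaCompl M U K) : IsSdp U K (U ⊔ K) :=
  isSdp_sup_of_coprime h.norm h.coprime

theorem KappaCompl.sup_le (h : KappaCompl M U K) : U ⊔ K ≤ M :=
  _root_.sup_le (hall_le h.hallU) (hall_le h.hallK)

theorem KappaCompl.hallE (h : KappaCompl M U K) : IsPiHallOf (sigma M)ᶜ (U ⊔ K) M := by
  refine hall_mk h.sup_le (h.sdp.isPi h.sigma'U (kappa_hall_sigma' h.hallK)) fun q hq hd => ?_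
  have h1 := hall_relIndex h.hallU q hq (hd.trans (relIndex_dvd_of_le_left _ le_sup_left))
  have h2 := hall_relIndex h.hallK q hq (hd.trans (relIndex_dvd_of_le_left _ le_sup_right))
  rw [compl_compl] at h1 ⊢
  exact h1.resolve_right h2

theorem Fcore_sub_Msigma (hG : IsMinSimpleOddOrder G) (maxM : IsCoatom M) :
    fittingHallOf M ≤ sigmaCore M := by
  refine le_Msigma hG maxM (H68.Fcore_le M) fun p hp hd => ?_
  have := Fact.mk hp
  have h1 : IsSyl p O[{p}](fittingHallOf M) (fittingHallOf M) :=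
    hall_piCoreOf_of_isNilpotent _ (H68.Fcore_nil M)
  have hw : p ∈ ϖ := w_of_normal_nil hG maxM (H68.Fcore_normal M) (H68.Fcore_nil M) p hp hd
  exact mem_sigma_of_Sylow hp (mmax_proper maxM) (syl_of_hall (H68.Fcore_Hall M).hall ⟨hp, hd⟩ h1)
    (mmax_normal hG maxM ((H68.Fcore_normal M).piCoreOf _) (syl_ne_bot h1 hd)).le

theorem Fcore_eq_Msigma (hG : IsMinSimpleOddOrder G) (maxM : IsCoatom M) :
    fittingHallOf M = sigmaCore M ↔ Group.IsNilpotent (sigmaCore M) :=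
  ⟨fun h => h ▸ H68.Fcore_nil M, fun h => le_antisymm (Fcore_sub_Msigma hG maxM)
    (H68.Fcore_max (hall_isHallOf (Msigma_Hall hG maxM)) (Msigma_normal M) h)⟩

end Kappa

/-! ### σ-decompositions -/

section Decomp
variable {M L N H : Subgroup G} {x y g : G}

theorem SigMax.max (h : SigMax x M) : IsCoatom M := h.1
theorem SigMax.mem (h : SigMax x M) : x ∈ sigmaCore M := h.2
theorem SigMax.mem' (h : SigMax x M) : x ∈ M := (Msigma_normal M).1 h.2
theorem SigMax.piElt (h : SigMax x M) : PiElt (sigma M) x := piElt_of_mem (Msigma_pi M) h.2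

theorem SigMax.cj (h : SigMax x M) (g : G) : SigMax (g * x * g⁻¹) (cj g M) :=
  ⟨isCoatom_cj h.1, by rw [MsigmaJ]; exact conj_mem_cj h.2⟩

theorem conj_eq_of_mem_cent1 (hg : g ∈ C1[x]) : g * x * g⁻¹ = x := by
  rw [mem_centralizer_singleton_iff.1 hg, mul_inv_cancel_right]

theorem SigMax.cj_of_cent (h : SigMax x M) (hg : g ∈ C1[x]) : SigMax x (H63.cj g M) := by
  have := h.cj g
  rwa [conj_eq_of_mem_cent1 hg] at this

theorem Msigma_ell1 (maxM : IsCoatom M) (hx : x ∈ sigmaCore M) (h1 : x ≠ 1) : Ell1 x :=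
  ⟨h1, M, maxM, hx⟩

theorem Ell1.ne_one (h : Ell1 x) : x ≠ 1 := h.1

theorem Ell1.conj (h : Ell1 x) (g : G) : Ell1 (g * x * g⁻¹) := by
  obtain ⟨h1, M, hM⟩ := h
  exact ⟨by simpa using h1, _, hM.cj g⟩

theorem SigBase.max (h : SigBase x N) : IsCoatom N := h.1.max
theorem SigBase.le (h : SigBase x N) : C1[x] ≤ N := h.1.le
theorem SigBase.mem (h : SigBase x N) : x ∈ N := h.le (mem_centralizer_singleton_self x)

theorem SigBase.cj (h : SigBase x N) (g : G) : SigBase (g * x * g⁻¹) (cj g N) :=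
  ⟨by rw [← cj_centralizer_singleton]; exact h.1.cj g,
    by rw [MsigmaJ, conj_mem_cj_iff]; exact h.2⟩

theorem SigBase.unique (h : SigBase x N) (h' : SigBase x L) : N = L := h.1.unique h'.1

theorem SigBase.FTsig_eq (h : SigBase x N) : FTsig x = sigmaCore N ⊓ C1[x] :=
  le_antisymm (iSup₂_le fun _ h' => h'.unique h ▸ le_rfl)
    (le_iSup₂ (f := fun (N : Subgroup G) (_ : SigBase x N) => sigmaCore N ⊓ C1[x]) N h)

theorem FTsig_eq_bot (h : ∀ N, ¬ SigBase x N) : FTsig x = ⊥ :=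
  eq_bot_iff.2 (iSup₂_le fun N h' => (h N h').elim)

theorem SigBase.not_cent1_le (h : SigBase x N) (hx : SigMax x M) : ¬ C1[x] ≤ M := fun hC =>
  h.2 (h.1.eq hx.1 hC ▸ hx.2)

theorem FTsig_of_cent1_le (h : SigMax x M) (hC : C1[x] ≤ M) : FTsig x = ⊥ :=
  FTsig_eq_bot fun _ hN => hN.not_cent1_le h hC

theorem FTsig_cases (x : G) :
    FTsig x = ⊥ ∨ ∃ N, SigBase x N ∧ FTsig x = sigmaCore N ⊓ C1[x] := by
  by_cases h : ∃ N, SigBase x N
  · obtain ⟨N, h⟩ := h
    exact Or.inr ⟨N, h, h.FTsig_eq⟩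
  · exact Or.inl (FTsig_eq_bot fun N hN => h ⟨N, hN⟩)

theorem exists_sigBase_of_mem (hy : y ∈ FTsig x) (h1 : y ≠ 1) :
    ∃ N, SigBase x N ∧ y ∈ sigmaCore N := by
  rcases FTsig_cases x with h | ⟨N, hN, h⟩
  · rw [h] at hy; exact (h1 hy).elim
  · rw [h] at hy; exact ⟨N, hN, hy.1⟩

theorem cent1_signalizer (x : G) : FTsig x ≤ C1[x] := iSup₂_le fun _ _ => inf_le_right

theorem commute_of_mem_FTsig (hy : y ∈ FTsig x) : Commute x y :=
  (show Commute y x from mem_centralizer_singleton_iff.1 (cent1_signalizer x hy)).symm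

theorem FT_signalizerJ (g x : G) : FTsig (g * x * g⁻¹) = cj g (FTsig x) := by
  by_cases h : ∃ N, SigBase x N
  · obtain ⟨N, h⟩ := h
    rw [(h.cj g).FTsig_eq, h.FTsig_eq, cj_inf, MsigmaJ, cj_centralizer_singleton]
  · rw [FTsig_eq_bot (fun N hN => h ⟨N, hN⟩), cj_bot]
    refine FTsig_eq_bot fun N hN => h ⟨cj g⁻¹ N, ?_⟩
    have := hN.cj g⁻¹
    rwa [show g⁻¹ * (g * x * g⁻¹) * g⁻¹⁻¹ = x by group] at this

theorem mem_sigmaCover : g ∈ sigmaCover x ↔ ∃ r ∈ FTsig x, g = x * r :=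
  ⟨fun h => ⟨_, h, by group⟩, by
    rintro ⟨r, hr, rfl⟩
    show x⁻¹ * (x * r) ∈ FTsig x
    rwa [inv_mul_cancel_left]⟩

theorem self_mem_sigmaCover (x : G) : x ∈ sigmaCover x :=
  mem_sigmaCover.2 ⟨1, one_mem _, (mul_one x).symm⟩

theorem sigma_coverJ (z : G) (h : g ∈ sigmaCover x) :
    z * g * z⁻¹ ∈ sigmaCover (z * x * z⁻¹) := by
  obtain ⟨r, hr, rfl⟩ := mem_sigmaCover.1 h
  exact mem_sigmaCover.2 ⟨z * r * z⁻¹, by rw [FT_signalizerJ]; exact conj_mem_cj hr, by group⟩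

theorem sigma_supportJ (z : G) (h : g ∈ sigmaSupport M) :
    z * g * z⁻¹ ∈ sigmaSupport (cj z M) := by
  obtain ⟨x, hx, h1, h⟩ := h
  exact ⟨z * x * z⁻¹, by rw [MsigmaJ]; exact conj_mem_cj hx, by simpa using h1, sigma_coverJ z h⟩

theorem mem_classSupport_sigmaSupport :
    g ∈ classSupport (sigmaSupport M) ⊤ ↔ ∃ z, g ∈ sigmaSupport (cj z M) := by
  constructor
  · rintro ⟨a, ha, z, -, rfl⟩
    exact ⟨z, sigma_supportJ z ha⟩
  · rintro ⟨z, h⟩
    have := sigma_supportJ z⁻¹ h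
    rw [cj_inv_cj] at this
    exact ⟨_, this, z, mem_top z, by group⟩

theorem mem_sigma_decomposition (maxM : IsCoatom M) (h : constt (sigma M) x ≠ 1) :
    constt (sigma M) x ∈ sigmaDecomp x := ⟨h, M, maxM, rfl⟩

theorem sigma_decompositionJ (g x : G) :
    sigmaDecomp (g * x * g⁻¹) = cjSet g (sigmaDecomp x) := by
  ext y
  constructor
  · rintro ⟨h1, M, hM, rfl⟩
    rw [consttJ] at h1 ⊢
    exact conj_mem_cjSet ⟨by simpa using h1, M, hM, rfl⟩
  · rintro ⟨_, ⟨h1, M, hM, rfl⟩, rfl⟩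
    exact ⟨by simpa using h1, M, hM, (consttJ _ _ _).symm⟩

theorem sigmaDecomp_subset_zpowers (x : G) : sigmaDecomp x ⊆ zpowers x := by
  rintro _ ⟨-, M, -, rfl⟩
  exact constt_mem_zpowers _ x

theorem sigmaDecomp_one : sigmaDecomp (1 : G) = ∅ :=
  Set.eq_empty_of_forall_notMem fun _ ⟨h, _, _, e⟩ => h (e.trans (constt_one _))

theorem sigma_eq_of_conj (h : Conj M L) : sigma M = sigma L := by
  obtain ⟨g, rfl⟩ := h
  exact (sigmaJ g M).symm

variable (hG : IsMinSimpleOddOrder G)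
include hG

theorem sigma_mmax_exists {p : ℕ} (hp : p.Prime) (h : p ∣ Nat.card G) (hw : p ∈ ϖ := by w_tac) :
    ∃ M : Subgroup G, IsCoatom M ∧ p ∈ sigma M := by
  have := Fact.mk hp
  obtain ⟨P, hP⟩ := exists_syl p (⊤ : Subgroup G)
  obtain ⟨M, maxM, hN⟩ := ex_mmax_norm_pgroup hG hp (syl_isPGroup hP)
    (syl_ne_bot hP (by rwa [card_top]))
  exact ⟨M, maxM, mem_sigma_of_Sylow hp (mmax_proper maxM)
    (hall_of_le hP (le_normalizer.trans hN) le_top) hN⟩

theorem conj_of_sigma (maxM : IsCoatom M) (maxL : IsCoatom L) {p : ℕ} (h : p ∈ sigma M)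
    (h' : p ∈ sigma L) : Conj M L := by
  by_contra hn
  exact Set.disjoint_left.1 (sigma_partition hG maxM maxL hn) h h'

theorem sigma_eq_or_disjoint (maxM : IsCoatom M) (maxL : IsCoatom L) :
    sigma M = sigma L ∨ Disjoint (sigma M) (sigma L) :=
  (em (Conj M L)).imp sigma_eq_of_conj (sigma_partition hG maxM maxL)

theorem mem_Msigma (maxM : IsCoatom M) (hx : x ∈ M) (h : PiElt (sigma M) x) : x ∈ sigmaCore M :=
  mem_of_normal_hall (Msigma_Hall hG maxM) (Msigma_normal M) hx h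

theorem conj_of_piElt (maxM : IsCoatom M) (maxL : IsCoatom L) (h1 : x ≠ 1) (h : PiElt (sigma M) x)
    (h' : PiElt (sigma L) x) : Conj M L := by
  obtain ⟨p, hp, hd⟩ := exists_prime_dvd_orderOf h1
  exact conj_of_sigma hG maxM maxL (h p hp hd) (h' p hp hd)

theorem SigMax.conj (h : SigMax x M) (h' : SigMax x L) (h1 : x ≠ 1) : Conj M L :=
  conj_of_piElt hG h.1 h'.1 h1 h.piElt h'.piElt

theorem exists_sigMax_of_piElt (maxM : IsCoatom M) (h : PiElt (sigma M) x) :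
    ∃ g, SigMax x (cj g M) := by
  by_cases h1 : x = 1
  · exact ⟨1, isCoatom_cj maxM, by rw [h1]; exact one_mem _⟩
  obtain ⟨g, hg⟩ := (sigma_Jsub hG maxM (isPi_zpowers_iff.2 h) (zpowers_ne_bot' h1)).1
  refine ⟨g⁻¹, isCoatom_cj maxM, ?_⟩
  rw [MsigmaJ]
  exact cj_le_iff_le_cj_inv.1 hg (mem_zpowers x)

theorem ell1_of_piElt (maxM : IsCoatom M) (h1 : x ≠ 1) (h : PiElt (sigma M) x) : Ell1 x := by
  obtain ⟨g, hg⟩ := exists_sigMax_of_piElt hG maxM h
  exact ⟨h1, _, hg⟩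

theorem ell1_of_mem_sigmaDecomp (h : y ∈ sigmaDecomp x) : Ell1 y := by
  obtain ⟨h1, M, maxM, rfl⟩ := h
  exact ell1_of_piElt hG maxM h1 (piElt_constt _ x)

theorem exists_constt_sigma_ne_one (h1 : x ≠ 1) (hw : PiElt ϖ x := by w_tac) :
    ∃ M : Subgroup G, IsCoatom M ∧ constt (sigma M) x ≠ 1 := by
  obtain ⟨p, hp, hd⟩ := exists_prime_dvd_orderOf h1
  obtain ⟨M, maxM, hM⟩ := sigma_mmax_exists hG hp (hd.trans (orderOf_dvd_natCard x)) (hw p hp hd)
  exact ⟨M, maxM, constt_ne_one hp hM hd⟩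

/-- The σ-decomposition of a product of a nontrivial `σ(M)`-element and a commuting `σ(M)'`-element. -/
theorem sigmaDecomp_mul (maxM : IsCoatom M) (h1 : x ≠ 1) (hx : PiElt (sigma M) x)
    (hy : PiElt (sigma M)ᶜ y) (hc : Commute x y) :
    sigmaDecomp (x * y) = insert x (sigmaDecomp y) := by
  have key : ∀ L : Subgroup G, Disjoint (sigma M) (sigma L) →
      constt (sigma L) (x * y) = constt (sigma L) y := fun L h => by
    rw [constt_mul _ hc, constt_eq_one (hx.mono (Set.subset_compl_iff_disjoint_right.2 h)), one_mul]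
  ext z
  constructor
  · rintro ⟨hz, L, maxL, rfl⟩
    rcases sigma_eq_or_disjoint hG maxM maxL with h | h
    · rw [← h, constt_mul_eq_left hx hy hc]; exact Set.mem_insert _ _
    · rw [key L h] at hz ⊢
      exact Set.mem_insert_of_mem _ ⟨hz, L, maxL, rfl⟩
  · rintro (rfl | ⟨hz, L, maxL, rfl⟩)
    · exact ⟨h1, M, maxM, (constt_mul_eq_left hx hy hc).symm⟩
    · rcases sigma_eq_or_disjoint hG maxM maxL with h | h
      · rw [← h, constt_eq_one hy] at hz; exact (hz rfl).elim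
      · exact ⟨hz, L, maxL, (key L h).symm⟩

theorem ell1_decomposition (h : Ell1 x) : sigmaDecomp x = {x} := by
  obtain ⟨h1, M, hM⟩ := h
  have := sigmaDecomp_mul hG hM.1 h1 hM.piElt (piElt_one _) (Commute.one_right x)
  rwa [mul_one, sigmaDecomp_one, insert_empty_eq] at this

theorem sigmaDecomp_eq_insert (maxM : IsCoatom M) (h : constt (sigma M) x ≠ 1) :
    sigmaDecomp x = insert (constt (sigma M) x) (sigmaDecomp (constt (sigma M)ᶜ x)) := by
  rw [← sigmaDecomp_mul hG maxM h (piElt_constt _ x) (piElt_constt _ x)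
    (commute_constt_constt _ _ (Commute.refl x)), consttC]

omit hG in
theorem notMem_sigmaDecomp_of_piElt {π : Set ℕ} (hx : PiElt π x) (hy : PiElt πᶜ y) :
    x ∉ sigmaDecomp y := fun h =>
  h.1 (hx.eq_one (piElt_of_mem_zpowers hy (sigmaDecomp_subset_zpowers y h)))

theorem sigma_decomposition_constt' (maxM : IsCoatom M) (x : G) :
    sigmaDecomp (constt (sigma M)ᶜ x) = sigmaDecomp x \ {constt (sigma M) x} := by
  by_cases h : constt (sigma M) x = 1
  · rw [constt_p_elt (constt_eq_one_iff.1 h), h, Set.sdiff_singleton_eq_self fun h => h.1 rfl]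
  · rw [sigmaDecomp_eq_insert hG maxM h, Set.insert_sdiff_self_of_notMem
      (notMem_sigmaDecomp_of_piElt (piElt_constt _ x) (piElt_constt _ x))]

/-- mathcomp `cent1_sub_uniq_sigma_mmax`. -/
theorem cent1_sub_uniq_sigma_mmax (h : SigMax x M) (hu : ∀ L, SigMax x L → L = M) : C1[x] ≤ M :=
  fun _ hg => (cj_mmax_eq_iff hG h.1).1 (hu _ (h.cj_of_cent hg))

end Decomp

end Cfsg.Agent.H88.SZ.H63
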