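import Cfsg.Agent.H88.ZMin
import Cfsg.Agent.H88.ZBG14a1
import Cfsg.Agent.H69.BG3

/-!
Bender–Glauberman, 14.1–14.3.
-/

set_option autoImplicit false
set_option linter.unusedSectionVars false
set_option linter.unusedVariables false
set_option linter.unusedSectionVars false

namespace Cfsg.Agent.H88.SZ.H63

open Cfsg.Agent.H63

variable [Om]

open Cfsg Subgroup Cfsg.Agent.H67 Cfsg.Agent.H66 Cfsg.Agent.H64
open Cfsg.Agent.H88.SZ.H67 Cfsg.Agent.H88.SZ.H66 Cfsg.Agent.H88.SZ.H64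

universe u
variable {G : Type u} [Group G] [Finite G]

section Main
variable (hG : IsMinSimpleOddOrder G) {M K U : Subgroup G}
include hG

/-- BG 14.1. -/
theorem sigma'_kappa'_facts (maxM : IsCoatom M) {p : ℕ} [hp : Fact p.Prime] {S : Subgroup G}
    (sylS : IsSyl p S M) (piMp : p ∣ Nat.card M) (s'p : p ∉ sigma M) (k'p : p ∉ kappa M) :
    IsMulCommutative S ∧ (ElemOf p 1 (omegaOne p S) S ∨ ElemOf p 2 (omegaOne p S) S) ∧
      sigmaCore M ⊓ C[omegaOne p S] = ⊥ ∧ Group.IsNilpotent (sigmaCore M) := by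
  have cS := sigma'_pgroup_abelian hG maxM hp.out s'p (hall_le sylS) (syl_isPGroup sylS)
  have hA := elemOf_omegaOne_of_comm (p := p) cS
  rw [rankP_syl sylS] at hA
  by_cases t2p : p ∈ tau2 M
  · rw [tau2_rk t2p] at hA
    exact ⟨cS, Or.inr hA, (tau2_context hG maxM t2p (hA.mono (hall_le sylS))).2.2.1,
      tau2_Msigma_nil hG maxM t2p⟩
  · have t13 : p ∈ tau1 M ∨ p ∈ tau3 M := by
      have := (partition_pi_mmax hG maxM hp.out).1 piMp
      tauto
    rw [t13.elim tau1_rk tau3_rk] at hA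
    have sAM := hA.le.trans (hall_le sylS)
    have reg : sigmaCore M ⊓ C[omegaOne p S] = ⊥ := by
      by_contra nt
      exact k'p (mem_kappa_of hG t13 sAM hA.isPGroup (hA.ne_bot one_ne_zero) nt)
    exact ⟨cS, Or.inl hA, reg, H69.prime_regular_sol_nil (sAM.trans (Msigma_normal M).2)
      (mmax_sub_sol hG maxM (Msigma_normal M).1) hA.card_prime reg⟩

theorem notP1type_Msigma_nil (h : FType M ∨ P2Type M) : Group.IsNilpotent (sigmaCore M) := by
  have maxM : IsCoatom M := h.elim FType.max P2Type.max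
  have h1 : ¬ IsPiSubgroup (sigma M ∪ kappa M) M := by
    rcases h with h | h
    · rw [h.2, Set.union_empty]; exact not_isPi_sigma hG maxM
    · exact h.2
  simp only [IsPiSubgroup, not_forall] at h1
  obtain ⟨p, hp, hd, hn⟩ := h1
  have := Fact.mk hp
  obtain ⟨S, hS⟩ := exists_syl p M
  exact (sigma'_kappa'_facts hG maxM hS hd (fun h => hn (Or.inl h)) (fun h => hn (Or.inr h))).2.2.2

theorem notP1type_Fcore (h : FType M ∨ P2Type M) : fittingHallOf M = sigmaCore M :=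
  (Fcore_eq_Msigma hG (h.elim FType.max P2Type.max)).2 (notP1type_Msigma_nil hG h)

/-- The core of BG 14.2(a). -/
theorem Ptype_structure_aux (PM : PType M) (hallK : IsPiHallOf (kappa M) K M) :
    ∃ U E₁, KappaCompl M U K ∧ IsMulCommutative U ∧ Semiprime (sigmaCore M) K ∧ Semiregular U K ∧
      (∀ X, X ≤ K → (Nat.card X).Prime → K ≤ N[X]) ∧ IsPiHallOf (tau1 M) E₁ (U ⊔ K) ∧ E₁ ≤ K ∧
      E₁ ≠ ⊥ ∧ (U ≠ ⊥ → IsCyclic K) := by
  have maxM := PM.max
  have ntK : K ≠ ⊥ := (ntrivg_kappa maxM hallK).2 PM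
  obtain ⟨E, hallE, sKE⟩ := ex_sigma_compl_ge hG maxM (hall_le hallK) (kappa_hall_sigma' hallK)
  have sEM := hall_le hallE
  have iE : PiNat (sigma M ∪ kappa M)ᶜᶜ (E.relIndex M) := by
    have := hall_relIndex hallE
    rw [compl_compl] at this ⊢
    exact this.mono Set.subset_union_left
  by_cases h3 : ∃ p ∈ kappa M, p ∈ tau3 M
  · obtain ⟨p, kp, t3p⟩ := h3
    have := Fact.mk kp.1
    obtain ⟨E₁, E₂, E₃, complE⟩ := ex_sigmaCompl hG maxM hallE
    obtain ⟨P, hP⟩ := exists_elemOf_one kp.1 (prime_dvd_card_hall complE.hallE₃ kp.1 t3p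
      ((pi_sigma_compl hG maxM hallE kp.1).2 ⟨kappa_pi kp, kappa_sigma' kp⟩))
    have sPE := hP.le.trans (hall_le complE.hallE₃)
    have ntP := kappa_nonregular kp (hP.of_le (sPE.trans sEM))
    obtain ⟨ntE₁, sdE, prE, nX⟩ := tau13_nonregular hG maxM complE
      fun h => ntP (h.inf_cent hP.le (hP.ne_bot one_ne_zero))
    rw [prE.inf_cent sPE (hP.ne_bot one_ne_zero)] at ntP
    have kE : IsPiSubgroup (kappa M) E := fun q hq hd => by
      have := Fact.mk hq
      obtain ⟨Q, hQ⟩ := exists_elemOf_one hq hd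
      refine mem_kappa_of hG ?_ (hQ.le.trans sEM) hQ.isPGroup (hQ.ne_bot one_ne_zero)
        (ne_bot_mono ntP (inf_le_inf_left _ (centralizer_anti hQ.le)))
      rw [sdE.card] at hd
      exact ((Nat.Prime.dvd_mul hq).1 hd).symm.imp (hall_isPi complE.hallE₁ q hq)
        (hall_isPi complE.hallE₃ q hq)
    have eK : E = K := hall_eq_of_le hallK kE sKE sEM
    subst eK
    refine ⟨⊥, E₁, ⟨hallK, hall_of_relIndex (hall_bot ?_) sEM iE, le_normalizer_bot _⟩,
      inferInstance, prE, semiregular_bot_left _, fun X hX hp => (nX X hX hp).2,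
      by rw [bot_sup_eq]; exact complE.hallE₁, hall_le complE.hallE₁, ntE₁, fun h => (h rfl).elim⟩
    rw [compl_compl]; exact isPi_mono kE Set.subset_union_right
  · have k1 : kappa M ⊆ tau1 M := fun p kp =>
      (kappa_tau13 kp).resolve_right fun t3p => h3 ⟨p, kp, t3p⟩
    obtain ⟨E₁, E₂, E₃, complE, sKE₁⟩ := H3.ex_sigmaCompl_ge_tau1 hG maxM hallE sKE
      (isPi_mono (hall_isPi hallK) k1)
    have sE₁ := hall_le complE.hallE₁
    have prE₁ := tau1_primact_Msigma hG maxM hallE complE.hallE₁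
    obtain ⟨p, kp⟩ := PM.2
    have := Fact.mk kp.1
    obtain ⟨P, hP⟩ := exists_elemOf_one kp.1 (prime_dvd_card_hall hallK kp.1 kp (kappa_pi kp))
    have ntP := kappa_nonregular kp (hP.mono (hall_le hallK))
    rw [prE₁.inf_cent (hP.le.trans sKE₁) (hP.ne_bot one_ne_zero)] at ntP
    have kE : IsPiSubgroup (kappa M) E₁ := fun q hq hd => by
      have := Fact.mk hq
      obtain ⟨Q, hQ⟩ := exists_elemOf_one hq hd
      exact mem_kappa_of hG (Or.inl (hall_isPi complE.hallE₁ q hq hd)) (hQ.le.trans (sE₁.trans sEM))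
        hQ.isPGroup (hQ.ne_bot one_ne_zero)
        (ne_bot_mono ntP (inf_le_inf_left _ (centralizer_anti hQ.le)))
    have eK : E₁ = K := hall_eq_of_le hallK kE sKE₁ (sE₁.trans sEM)
    subst eK
    obtain ⟨⟨-, nsE₃⟩, -, ⟨cycE₁, -⟩, ⟨⟨sd21, -⟩, sd32, sdE⟩, -⟩ := sigma_compl_context hG maxM complE
    have regE₃ : Semiregular E₃ E₁ := by
      by_contra h
      have pr := tau13_primact_Msigma hG maxM complE h
      have ntE₃ : E₃ ≠ ⊥ := fun e => h (e ▸ semiregular_bot_left _)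
      obtain ⟨q, hq, hd⟩ := exists_prime_dvd_card ntE₃
      have := Fact.mk hq
      obtain ⟨Q, hQ⟩ := exists_elemOf_one hq hd
      have t3q := hall_isPi complE.hallE₃ q hq hd
      refine h3 ⟨q, mem_kappa_of hG (Or.inr t3q) (hQ.le.trans (nsE₃.1.trans sEM)) hQ.isPGroup
        (hQ.ne_bot one_ne_zero) ?_, t3q⟩
      rwa [pr.inf_cent (hQ.le.trans le_sup_left) (hQ.ne_bot one_ne_zero),
        ← pr.inf_cent le_sup_right ntK]
    have regU : Semiregular (E₃ ⊔ E₂) E₁ := semiregular_of_prime_subgroups fun X hX prX => by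
      have h1 := sd32.inf_cent (hX.trans (sE₁.trans nsE₃.2)) (hX.trans sd21.norm)
      rw [← h1.sup, regE₃.inf_cent hX (ne_bot_of_prime_card prX), bot_sup_eq]
      by_contra nt
      obtain ⟨q, hq, hd⟩ := exists_prime_dvd_card nt
      have := Fact.mk hq
      have := Fact.mk prX
      obtain ⟨Q, hQ⟩ := exists_elemOf_one hq hd
      have t2q := hall_isPi complE.hallE₂ q hq (hd.trans (card_dvd_of_le' inf_le_left))
      obtain ⟨A, hA⟩ := ex_tau2Elem_of_mem hG maxM hallE t2q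
      have sQA := (((tau2_compl_context hG maxM hallE t2q hA).1.2 Q).1
        (hQ.mono (inf_le_left.trans (hall_le complE.hallE₂)))).le
      have kX := kE _ prX (card_dvd_of_le' hX)
      have hX' : ElemOf (Nat.card X) 1 X E := (elemOf_one_iff prX).2 ⟨hX.trans sE₁, rfl⟩
      exact kappa_nonregular kX (hX'.mono sEM) (tau12_regular hG maxM hallE (k1 kX) t2q hX' hA
        (ne_bot_mono (hQ.ne_bot one_ne_zero) (le_inf sQA (hQ.le.trans inf_le_right))))
    have piU : IsPiSubgroup (sigma M ∪ kappa M)ᶜ (E₃ ⊔ E₂) := by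
      refine sd32.isPi (isPi_mono (hall_isPi complE.hallE₃) ?_) (isPi_mono (hall_isPi complE.hallE₂) ?_)
      · rintro q t3q (h | h)
        · exact tau3_not_sigma t3q h
        · exact h3 ⟨q, h, t3q⟩
      · rintro q t2q (h | h)
        · exact tau2_not_sigma t2q h
        · exact kappa_tau2' h t2q
    refine ⟨E₃ ⊔ E₂, E₁, ⟨hallK, hall_of_relIndex (sdE.hall_left piU ?_) sEM iE, sdE.norm⟩, ?_, prE₁,
      regU, fun X hX _ => le_cent_of_comm cycE₁.isMulCommutative le_rfl hX |>.trans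
        (centralizer_le_normalizer _), by rw [sdE.sup]; exact complE.hallE₁, le_rfl, ntK,
      fun _ => cycE₁⟩
    · rw [compl_compl]; exact isPi_mono kE Set.subset_union_right
    · exact sigma'_nil_abelian hG maxM (sdE.le_left.trans sEM) (isPi_of_le (hall_isPi hallE) sdE.le_left)
        (H69.prime_regular_sol_nil (hP.le.trans sdE.norm)
          (mmax_sub_sol hG maxM (sdE.le_left.trans sEM)) hP.card_prime
          (regU.inf_cent hP.le (hP.ne_bot one_ne_zero)))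

/-- BG 14.2(a). -/
theorem Ptype_structure_a (PM : PType M) (hallK : IsPiHallOf (kappa M) K M) :
    ∃ U, KappaCompl M U K ∧ IsMulCommutative U ∧ Semiprime (sigmaCore M) K ∧ Semiregular U K := by
  obtain ⟨U, -, h1, h2, h3, h4, -⟩ := Ptype_structure_aux hG PM hallK
  exact ⟨U, h1, h2, h3, h4⟩

theorem Ptype_semiprime (PM : PType M) (hallK : IsPiHallOf (kappa M) K M) :
    Semiprime (sigmaCore M) K := by
  obtain ⟨U, -, -, h, -⟩ := Ptype_structure_a hG PM hallK
  exact h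

theorem Ptype_norm_eq (PM : PType M) (hallK : IsPiHallOf (kappa M) K M) {X : Subgroup G}
    (sXK : X ≤ K) (hX : X = K ∨ (Nat.card X).Prime) : M ⊓ N[X] = K ⊔ (sigmaCore M ⊓ C[K]) := by
  have maxM := PM.max
  obtain ⟨U, -, hU, -, prK, regU, nX, -⟩ := Ptype_structure_aux hG PM hallK
  have ntX : X ≠ ⊥ := hX.elim (fun e => e ▸ (ntrivg_kappa maxM hallK).2 PM) ne_bot_of_prime_card
  have nXK : K ≤ N[X] := hX.elim (fun e => e ▸ le_normalizer) (nX X sXK)
  have solX : Group.IsSolvable X := mmax_sub_sol hG maxM (sXK.trans (hall_le hallK))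
  have sdM := sdprod_sigma hG maxM hU.hallE
  have h1 := (pprod_norm_coprime_prod sdM.isMul sdM.normal (sXK.trans le_sup_right)
    (isPi_coprime (Msigma_pi M) (isPi_of_le (kappa_hall_sigma' hallK) sXK)) (Or.inl solX)).sup
  have h2 := (pprod_norm_coprime_prod hU.sdp.isMul hU.sdp.normal sXK
    (Nat.Coprime.coprime_dvd_right (card_dvd_of_le' sXK) hU.coprime) (Or.inl solX)).sup
  rw [← h1, ← h2, regU.inf_cent sXK ntX, bot_sup_eq, inf_eq_left.2 nXK, prK.inf_cent sXK ntX, sup_comm]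

omit hG in
theorem kappa_isDp (hallK : IsPiHallOf (kappa M) K M) :
    IsDp K (sigmaCore M ⊓ C[K]) (K ⊔ (sigmaCore M ⊓ C[K])) :=
  isDp_sup_of_coprime inf_le_right (Nat.Coprime.coprime_dvd_right (card_dvd_of_le' inf_le_left)
    (coprime_Msigma_kappa hallK))

/-- BG 14.2(b). -/
theorem Ptype_structure_b (PM : PType M) (hallK : IsPiHallOf (kappa M) K M) :
    IsDp K (sigmaCore M ⊓ C[K]) (M ⊓ N[K]) ∧ ∀ X, X ≤ K → (Nat.card X).Prime →
      M ⊓ N[X] = M ⊓ N[K] ∧ ∀ L, IsCoatom L → N[X] ≤ L → X ≤ sigmaCore L := by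
  rw [Ptype_norm_eq hG PM hallK le_rfl (Or.inl rfl)]
  refine ⟨kappa_isDp hallK, fun X sXK prX => ⟨Ptype_norm_eq hG PM hallK sXK (Or.inr prX),
    fun L maxL sN => ?_⟩⟩
  have := Fact.mk prX
  have kX := hall_isPi hallK _ prX (card_dvd_of_le' sXK)
  have hX : ElemOf (Nat.card X) 1 X M := (elemOf_one_iff prX).2 ⟨sXK.trans (hall_le hallK), rfl⟩
  exact pgroup_le_Msigma hG maxL (tau13_nonregular_sigma hG PM.max hX (kappa_tau13 kX)
    (kappa_nonregular kX hX) maxL sN) (le_normalizer.trans sN) hX.isPGroup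

theorem Ptype_uniq_aux (PM : PType M) (hallK : IsPiHallOf (kappa M) K M) {q : ℕ} [Fact q.Prime]
    {X : Subgroup G} (hX : ElemOf q 1 X (sigmaCore M ⊓ C[K])) :
    UniqMax C[X] M ∧ ∀ S : Subgroup G, IsSyl q S (sigmaCore M) → UniqMax S M := by
  obtain ⟨U, E₁, hU, -, -, -, -, hall1, s1, nt1, -⟩ := Ptype_structure_aux hG PM hallK
  exact cent_cent_Msigma_tau1_uniq hG PM.max hU.hallE hall1 le_rfl nt1
    (hX.mono (inf_le_inf_left _ (centralizer_anti s1)))

/-- BG 14.2(c). -/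
theorem Ptype_structure_c (PM : PType M) (hallK : IsPiHallOf (kappa M) K M) :
    sigmaCore M ⊓ C[K] ≠ ⊥ ∧
      ∀ X, X ≤ sigmaCore M ⊓ C[K] → (Nat.card X).Prime → UniqMax C[X] M := by
  refine ⟨?_, fun X hX prX => ?_⟩
  · obtain ⟨p, kp⟩ := PM.2
    have := Fact.mk kp.1
    obtain ⟨P, hP⟩ := exists_elemOf_one kp.1 (prime_dvd_card_hall hallK kp.1 kp (kappa_pi kp))
    rw [← (Ptype_semiprime hG PM hallK).inf_cent hP.le (hP.ne_bot one_ne_zero)]
    exact kappa_nonregular kp (hP.mono (hall_le hallK))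
  · have := Fact.mk prX
    exact (Ptype_uniq_aux hG PM hallK ((elemOf_one_iff prX).2 ⟨hX, rfl⟩)).1

theorem Ptype_cent1_le (PM : PType M) (hallK : IsPiHallOf (kappa M) K M) {y : G}
    (hy : y ∈ sigmaCore M ⊓ C[K]) (nty : y ≠ 1) : C1[y] ≤ M := by
  obtain ⟨q, Y, hq, -, hY⟩ := exists_prime_card_le_zpowers nty
  have := Fact.mk hq
  exact (centralizer_zpowers y ▸ centralizer_anti hY.le).trans
    ((Ptype_structure_c hG PM hallK).2 Y (hY.le.trans (zpowers_le.2 hy)) hY.card_prime).le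

/-- BG 14.2(d). -/
theorem Ptype_structure_d (PM : PType M) (hallK : IsPiHallOf (kappa M) K M) :
    (∀ g, g ∉ M → sigmaCore M ⊓ C[K] ⊓ cj g M = ⊥) ∧
      ∀ g ∈ M, g ∉ N[K] → K ⊓ cj g K = ⊥ := by
  have maxM := PM.max
  refine ⟨fun g hg => ?_, fun g hg hn => ?_⟩
  · by_contra nt
    obtain ⟨X, sX, prX⟩ := exists_prime_card_le_of_ne_bot nt
    have sXMs : X ≤ sigmaCore M := sX.trans (inf_le_left.trans inf_le_left)
    obtain ⟨c, hc, e⟩ := sigma_group_trans_b hG maxM (Msigma_pi M _ prX (card_dvd_of_le' sXMs))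
      (isPGroup_of_card_eq_prime rfl) (conj_refl M) (conj_cj g M) (sXMs.trans (Msigma_normal M).1)
      (sX.trans inf_le_right)
    rw [cj_eq_self_of_mem (((Ptype_structure_c hG PM hallK).2 X (sX.trans inf_le_left) prX).le hc)] at e
    exact hg ((cj_mmax_eq_iff hG maxM).1 e)
  · by_contra nt
    obtain ⟨X, sX, prX⟩ := exists_prime_card_le_of_ne_bot nt
    have h1 := Ptype_norm_eq hG PM hallK (sX.trans inf_le_left) (Or.inr prX)
    have h2 := Ptype_norm_eq hG PM hallK (le_cj_iff_cj_inv_le.1 (sX.trans inf_le_right))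
      (Or.inr (by rwa [card_cj]))
    have h3 : cj g K ≤ K ⊔ (sigmaCore M ⊓ C[K]) := by
      rw [← h1]
      refine le_inf (cj_le_of_mem hg (hall_le hallK)) ?_
      rw [cj_le_iff_le_cj_inv, cj_normalizer]
      exact (le_sup_left.trans h2.ge).trans inf_le_right
    have hd := kappa_isDp hallK
    exact hn (mem_normalizer_of_cj_le (le_of_normal_hall (hall_of_le hallK le_sup_left
      (sup_le (hall_le hallK) (inf_le_left.trans (Msigma_normal M).1))) hd.normal_left h3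
      (isPi_cj (hall_isPi hallK) g)))

/-- BG 14.2(e). -/
theorem Ptype_structure_e (PM : PType M) (hallK : IsPiHallOf (kappa M) K M) {p : ℕ} (hp : p.Prime)
    (h : p ∣ Nat.card ↥(sigmaCore M ⊓ C[K])) {S : Subgroup G} (sylS : IsSyl p S (sigmaCore M)) :
    UniqMax S M ∧ ¬ S ≤ sigmaCore M ⊓ C[K] := by
  have := Fact.mk hp
  obtain ⟨Y, hY⟩ := exists_elemOf_one hp h
  have uS := (Ptype_uniq_aux hG PM hallK hY).2 S sylS
  refine ⟨uS, fun sS => ?_⟩
  obtain ⟨X, sXK, prX⟩ := exists_prime_card_le_of_ne_bot ((ntrivg_kappa PM.max hallK).2 PM)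
  obtain ⟨L, maxL, sN⟩ := ex_mmax_norm_pgroup hG prX (isPGroup_of_card_eq_prime rfl)
    (ne_bot_of_prime_card prX) (wp_of_kappa hG (hall_isPi hallK _ prX (card_dvd_of_le' sXK)))
  have h1 := ((Ptype_structure_b hG PM hallK).2 X sXK prX).2 L maxL sN
  rw [uS.eq maxL ((sS.trans (inf_le_right.trans ((centralizer_anti sXK).trans
    (centralizer_le_normalizer _)))).trans sN)] at h1
  exact ne_bot_of_prime_card prX (isPi_eq_bot (isPi_of_le (Msigma_pi M) h1)
    (isPi_of_le (kappa_hall_sigma' hallK) sXK))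

/-- BG 14.2(f). -/
theorem Ptype_structure_f (PM : PType M) (hallK : IsPiHallOf (kappa M) K M) {Y : Subgroup G}
    (sY : IsPiSubgroup (sigma M) Y) (nt : Y ⊓ (sigmaCore M ⊓ C[K]) ≠ ⊥) : Y ≤ sigmaCore M := by
  obtain ⟨g, hg⟩ := (sigma_Jsub hG PM.max sY (ne_bot_mono nt inf_le_left)).1
  rw [cj_le_iff_le_cj_inv] at hg
  have h1 : g⁻¹ ∈ M := by
    by_contra h
    refine nt (eq_bot_iff.2 (((Ptype_structure_d hG PM hallK).1 _ h).symm ▸ ?_))
    exact le_inf inf_le_right (inf_le_left.trans (hg.trans (cj_mono (Msigma_normal M).1)))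
  rwa [(Msigma_normal M).cj_eq h1] at hg

theorem ex_kappa_compl (maxM : IsCoatom M) (hallK : IsPiHallOf (kappa M) K M) :
    ∃ U, KappaCompl M U K := by
  by_cases h : K = ⊥
  · obtain ⟨U, hU⟩ := exists_hall (sigma M ∪ kappa M)ᶜ (mmax_sol hG maxM)
    exact ⟨U, hallK, hU, h ▸ bot_le⟩
  · obtain ⟨U, hU, -⟩ := Ptype_structure_a hG ((ntrivg_kappa maxM hallK).1 h) hallK
    exact ⟨U, hU⟩

theorem kappa_witness (maxM : IsCoatom M) : ∃ U K, KappaCompl M U K := by
  obtain ⟨K, hK⟩ := exists_hall (kappa M) (mmax_sol hG maxM)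
  obtain ⟨U, hU⟩ := ex_kappa_compl hG maxM hK
  exact ⟨U, K, hU⟩

/-- A Hall `(σ ∪ κ)'`-subgroup and a Hall `κ`-subgroup inside one `σ'`-subgroup form a complement. -/
theorem kappa_compl_of_le (maxM : IsCoatom M) (hallK : IsPiHallOf (kappa M) K M)
    (hallU : IsPiHallOf (sigma M ∪ kappa M)ᶜ U M) {E : Subgroup G} (s'E : IsPiSubgroup (sigma M)ᶜ E)
    (sEM : E ≤ M) (sKE : K ≤ E) (sUE : U ≤ E) : KappaCompl M U K := by
  obtain ⟨U₀, K₀, h⟩ := kappa_witness hG maxM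
  obtain ⟨g, hg, hE⟩ := exists_le_cj_hall (mmax_sol hG maxM) h.hallE sEM s'E
  have h' := h.cj_of_mem hg
  rw [cj_sup] at hE
  have e : U = cj g U₀ := eq_of_normal_hall (hall_of_le h'.hallU le_sup_left h'.sup_le) h'.sdp.normal
    (hall_of_le hallU (sUE.trans hE) h'.sup_le)
  exact ⟨hallK, hallU, e ▸ (sKE.trans hE).trans h'.sdp.normal.2⟩

theorem ex_kappa_compl_of_hallU (maxM : IsCoatom M) (hallU : IsPiHallOf (sigma M ∪ kappa M)ᶜ U M) :
    ∃ K, KappaCompl M U K := by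
  obtain ⟨U₀, K₀, h⟩ := kappa_witness hG maxM
  obtain ⟨g, hg, rfl⟩ := hall_conj (mmax_sol hG maxM) h.hallU hallU
  exact ⟨_, h.cj_of_mem hg⟩

theorem kappa_compl_conj (maxM : IsCoatom M) (h : KappaCompl M U K) {U' K' : Subgroup G}
    (h' : KappaCompl M U' K') : ∃ g ∈ M, U' = cj g U ∧ K' = cj g K := by
  obtain ⟨g, hg, e⟩ := hall_conj (mmax_sol hG maxM) h.hallE h'.hallE
  have h1 := h.cj_of_mem hg
  rw [cj_sup] at e
  have e1 : cj g U = U' := eq_of_normal_hall (hall_of_le h'.hallU le_sup_left h'.sup_le) h'.sdp.normal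
    (hall_of_le h1.hallU (e ▸ le_sup_left) h'.sup_le)
  obtain ⟨k, hk, e2⟩ := hall_conj (mmax_sub_sol hG maxM h'.sup_le)
    (hall_of_le h1.hallK (e ▸ le_sup_right) h'.sup_le) (hall_of_le h'.hallK le_sup_right h'.sup_le)
  exact ⟨k * g, M.mul_mem (h'.sup_le hk) hg, by rw [cj_mul, e1, h'.sdp.normal.cj_eq hk],
    by rw [cj_mul, e2]⟩

theorem kappa_compl_context (maxM : IsCoatom M) (h : KappaCompl M U K) :
    IsPiHallOf (sigma M)ᶜ (U ⊔ K) M ∧ IsSdp U K (U ⊔ K) ∧ IsSdp (sigmaCore M) (U ⊔ K) M ∧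
      Semiprime (sigmaCore M) K ∧ Semiregular U K ∧ (K ≠ ⊥ → IsMulCommutative U) := by
  refine ⟨h.hallE, h.sdp, sdprod_sigma hG maxM h.hallE, ?_⟩
  by_cases hK : K = ⊥
  · subst hK
    exact ⟨(semiregular_bot_right _).semiprime, semiregular_bot_right _, fun h => (h rfl).elim⟩
  · obtain ⟨U₀, h₀, h1, h2, h3⟩ := Ptype_structure_a hG ((ntrivg_kappa maxM h.hallK).1 hK) h.hallK
    obtain ⟨g, -, e1, e2⟩ := kappa_compl_conj hG maxM h₀ h
    refine ⟨h2, ?_, fun _ => e1 ▸ isMulCommutative_cj_iff.2 h1⟩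
    have := h3.cj g
    rwa [← e1, ← e2] at this

/-- If `U ≠ 1` then `C_{M_σ}(U) = 1`. -/
theorem KappaCompl.cent_U (maxM : IsCoatom M) (h : KappaCompl M U K) (ntU : U ≠ ⊥) :
    sigmaCore M ⊓ C[U] = ⊥ := by
  obtain ⟨p, hp, hd⟩ := exists_prime_dvd_card ntU
  have := Fact.mk hp
  obtain ⟨S, hS⟩ := exists_syl p U
  have hπ := hall_isPi h.hallU p hp hd
  have := (sigma'_kappa'_facts hG maxM (syl_of_hall h.hallU hπ hS)
    (hd.trans (card_dvd_of_le' (hall_le h.hallU))) (fun h => hπ (Or.inl h))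
    (fun h => hπ (Or.inr h))).2.2.1
  exact _root_.eq_bot_iff.2 (this ▸ inf_le_inf_left _ (centralizer_anti ((omegaOne_le p S).trans (hall_le hS))))

/-- BG 14.2(g). -/
theorem Ptype_structure_g (P2M : P2Type M) (hallK : IsPiHallOf (kappa M) K M) :
    sigma M = beta M ∧ (Nat.card K).Prime ∧ Group.IsNilpotent (sigmaCore M) ∧
      NormedTI ((sigmaCore M : Set G) \ {1}) ⊤ M := by
  have maxM := P2M.max
  obtain ⟨U, hU, -, prK, regU⟩ := Ptype_structure_a hG P2M.1 hallK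
  obtain ⟨ntK, ntU⟩ := (p2type_iff maxM hU).1 P2M
  have frob : IsFrobenius (U ⊔ K) U K := ⟨hU.sdp, ntU, ntK, regU⟩
  have cU := hU.cent_U hG maxM ntU
  have hsb : sigma M = beta M := by
    obtain ⟨H, hH, cH⟩ := der_compl_cent_beta' hG maxM hU.hallE
    have e : H = ⊥ := eq_bot_iff.2 (cU ▸ le_inf (hall_le hH) (cent_symm (frob.le_derived.trans cH)))
    have h1 := isPi_compl_of_hall_bot (e ▸ hH)
    rw [compl_compl] at h1
    refine Set.Subset.antisymm (fun p sp => ?_) fun p => beta_sub_sigma hG maxM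
    exact h1 p sp.1 ((pi_Msigma hG maxM).1 sp).2
  refine ⟨hsb, (H69.Frobenius_primact frob (hU.sup_le.trans (Msigma_normal M).2)
    (mmax_sub_sol hG maxM (Msigma_normal M).1) (Msigma_neq1 hG maxM)
    (coprime_sigma_compl hG maxM hU.hallE) prK cU).1, notP1type_Msigma_nil hG (Or.inr P2M),
    normedTI_diff_one_iff.2 ⟨Msigma_neq1 hG maxM, norm_Msigma hG maxM,
      isTISubset_iff_inf_cj.2 fun g hg => ?_⟩⟩
  rw [norm_Msigma hG maxM] at hg
  have h1 := ((sigma_compl_embedding hG maxM hU.hallE).2.2 g hg).2.1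
  rw [← hsb] at h1
  exact isPi_eq_bot (isPi_of_le (Msigma_pi M) inf_le_left)
    (isPi_of_le h1 (inf_le_inf_left _ (cj_mono (Msigma_normal M).1)))

/-- BG 14.3. -/
theorem pi_of_cent_sigma (maxM : IsCoatom M) {x y : G} (hx : x ∈ sigmaCore M) (ntx : x ≠ 1)
    (hy : y ∈ M ⊓ C1[x]) (nty : y ≠ 1) (s'y : PiElt (sigma M)ᶜ y) :
    (PiElt (kappa M) y ∧ C1[x] ≤ M) ∨ (PiElt (tau2 M) y ∧ Ell1 y ∧ UniqMax C1[y] M) := by
  have hxy : x ∈ sigmaCore M ⊓ C1[y] := ⟨hx, mem_centralizer_singleton_comm.1 hy.2⟩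
  by_cases t2y : PiElt (tau2 M) y
  · refine Or.inr ⟨t2y, ?_, cent1_nreg_sigma_uniq hG maxM hy.1 nty t2y (ne_bot_of_mem hxy ntx)⟩
    obtain ⟨p, hp, hd⟩ := exists_prime_dvd_orderOf nty
    have := Fact.mk hp
    obtain ⟨E, hallE⟩ := ex_sigma_compl hG maxM
    obtain ⟨A, hA⟩ := ex_tau2Elem_of_mem hG maxM hallE (t2y p hp hd)
    obtain ⟨L, maxL, sN⟩ := ex_mmax_norm_pgroup hG hp hA.isPGroup (hA.ne_bot two_ne_zero)
    exact ell1_of_piElt hG maxL nty (t2y.mono fun q hq =>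
      ((primes_norm_tau2Elem hG maxM hallE (t2y p hp hd) hA maxL sN).1 q hq).1)
  · left
    simp only [PiElt, PiNat, not_forall] at t2y
    obtain ⟨p, hp, hd, t2'p⟩ := t2y
    have := Fact.mk hp
    obtain ⟨X, hX⟩ := exists_elemOf_one (X := zpowers y) hp (by rwa [Nat.card_zpowers])
    have sXM : X ≤ M := hX.le.trans (zpowers_le.2 hy.1)
    have cX : C1[y] ≤ C[X] := centralizer_zpowers y ▸ centralizer_anti hX.le
    have t13 : p ∈ tau1 M ∨ p ∈ tau3 M := by
      have h1 := (partition_pi_mmax hG maxM hp).1 (hd.trans (orderOf_dvd_card_of_mem hy.1))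
      have h2 : p ∉ sigma M := s'y p hp hd
      tauto
    have kp := mem_kappa_of hG t13 sXM hX.isPGroup (hX.ne_bot one_ne_zero)
      (ne_bot_of_mem (x := x) ⟨hx, cX hxy.2⟩ ntx)
    obtain ⟨K, hallK, sXK⟩ := exists_hall_ge (mmax_sol hG maxM) sXM
      (isPi_of_isPGroup_of_mem hp hX.isPGroup kp)
    have PM : PType M := ⟨maxM, p, kp⟩
    have h1 : y ∈ K ⊔ (sigmaCore M ⊓ C[K]) := by
      rw [← Ptype_norm_eq hG PM hallK sXK (Or.inr hX.card_prime)]
      exact ⟨hy.1, centralizer_le_normalizer _ (cX (mem_centralizer_singleton_self y))⟩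
    have hd' := kappa_isDp hallK
    have Ky : y ∈ K := mem_of_normal_hall (hd'.isSdp.hall_left (kappa_hall_sigma' hallK)
      (by rw [compl_compl]; exact isPi_of_le (Msigma_pi M) inf_le_left)) hd'.normal_left h1 s'y
    rw [Ptype_semiprime hG PM hallK y Ky nty] at hxy
    exact ⟨piElt_of_mem (hall_isPi hallK) Ky, Ptype_cent1_le hG PM hallK hxy ntx⟩

end Main

end Cfsg.Agent.H88.SZ.H63
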