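import Cfsg.Agent.H88.ZMin
import Cfsg.Agent.H88.ZBG14B3
import Cfsg.Agent.H88.ZBG14c
import Cfsg.Agent.H88.ZBG15c

/-! Bender-Glauberman 15.8 and 15.9. -/

set_option autoImplicit false
set_option linter.unusedSectionVars false
set_option linter.unusedVariables false
set_option linter.unusedSectionVars false

namespace Cfsg.Agent.H88.SZ.H64

open Cfsg.Agent.H64

variable [Om]

open Cfsg Cfsg.Agent.H63 Cfsg.Agent.H66 Cfsg.Agent.H67 Subgroup
open Cfsg.Agent.H88.SZ.H63 Cfsg.Agent.H88.SZ.H66 Cfsg.Agent.H88.SZ.H67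

universe u

variable {G : Type u} [Group G] [Finite G]

variable (hG : IsMinSimpleOddOrder G)
include hG

/-- B & G, Theorem 15.8. -/
theorem tau2_P2type_signalizer {M Mstar U K R H : Subgroup G} {r : ℕ} [Fact r.Prime]
    (P2M : P2Type M) (complU : KappaCompl M U K) (maxMstar : IsCoatom Mstar) (sCK : C[K] ≤ Mstar)
    (sylR : IsSyl r R U) (maxH : IsCoatom H) (sNR : N[R] ≤ H) (t2H : (tau2 H).Nonempty)
    (hw : r ∈ ϖ := by w_tac) :
    (Nat.card K).Prime ∧ tau2 H = {Nat.card K} ∧ tau2 M = ∅ := by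
  have maxM := P2M.max
  have e := ptypeEmbedding_of_cent hG P2M.ptype complU.hallK maxMstar sCK
  have ntR : R ≠ ⊥ := by
    rintro rfl
    exact mmax_ne_top hG maxH (top_le_iff.1 ((le_normalizer_bot ⊤).trans sNR))
  obtain ⟨FH, sUHs, -, -, sKF, hallD⟩ := P2type_signalizer hG P2M complU maxMstar sCK
    (dvd_card_of_syl_ne_bot sylR ntR) sylR maxH sNR
  obtain ⟨-, prK, -⟩ := Ptype_structure_g hG P2M complU.hallK
  have ntK := ne_bot_of_prime_card prK
  have neHL : H ≠ Mstar := fun h => FH.not_ptype (h ▸ e.typeP)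
  have sKLs : K ≤ sigmaCore Mstar := e.defK ▸ inf_le_left
  set q := Nat.card K with hq
  haveI : Fact q.Prime := ⟨prK⟩
  have hK : ElemOf q 1 K K := el1_mk prK le_rfl rfl
  have qK := el_pgroup hK
  have sLq : q ∈ sigma Mstar :=
    mem_of_isPi_of_isPGroup prK qK ntK (isPi_of_le (Msigma_pi Mstar) sKLs)
  set D := H ⊓ Mstar
  have cF : IsMulCommutative (fittingOf D) := sigma'_nil_abelian hG maxH
    ((fittingOf_le D).trans inf_le_left) (isPi_of_le (hall_isPi hallD) (fittingOf_le D))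
    (fittingOf_nil D)
  have uniqS : ∀ S, IsSyl q S (sigmaCore Mstar) → UniqMax S Mstar := fun S sylS =>
    (Ptype_structure_e hG e.typeP e.hallKappa prK (by rw [e.defK]) sylS).1
  have cKA : ∀ p, ∀ _ : Fact p.Prime, p ∈ tau2 H → ∀ A, ElemOf p 2 A D → A ≤ C[K] := by
    intro p hp t2p A hA
    obtain ⟨⟨nsA, -⟩, -⟩ := tau2_compl_context hG maxH hallD t2p hA
    exact le_cent_of_comm cF (le_fittingOf_of_comm nsA (el_comm hA)) sKF
  have t2q : ∀ p ∈ tau2 H, p = q := by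
    intro p t2p
    by_contra ne
    haveI hp : Fact p.Prime := ⟨tau2_prime t2p⟩
    obtain ⟨A, hA⟩ := ex_tau2Elem_of_mem hG maxH hallD t2p
    have cAK := cKA p hp t2p A hA
    have sAL : A ≤ Mstar := hA.1.trans inf_le_right
    have pA := el_pgroup hA
    have sLp : p ∈ sigma Mstar := by
      by_contra s'p
      have hAL := el_of_le hA sAL
      have t2Lp : p ∈ tau2 Mstar := mem_tau2_iff.2 ⟨hp.out, s'p,
        le_antisymm (sigma'_rk_le_two hG maxMstar hp.out s'p) (rk_ge hp.out hAL)⟩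
      exact ntK (eq_bot_iff.2 ((tau2_context hG maxMstar t2Lp hAL).2.2.1 ▸
        le_inf sKLs (cent_symm cAK)))
    have sALs := H64.pgroup_le_Msigma hG maxMstar sLp sAL pA
    obtain ⟨S, sylS⟩ := exists_syl q (sigmaCore Mstar)
    have qS := syl_isPGroup sylS
    have co : (Nat.card A).Coprime (Nat.card S) :=
      isPi_coprime' (isPi_compl_of_isPGroup hp.out pA ne) (isPi_of_isPGroup prK qS)
    have cAS : A ≤ C[S] := by
      by_cases eF : fittingHallOf Mstar = sigmaCore Mstar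
      · exact le_centralizer_of_isNilpotent_of_coprime (eF ▸ H68.Fcore_nil Mstar) sALs
          (hall_le sylS) co
      · obtain ⟨D', hallD'⟩ := exists_hall {q}ᶜ
          (mmax_sub_sol hG maxMstar (Msigma_normal Mstar).1)
        obtain ⟨-, -, ⟨sylQ, -⟩, -, -, -, -, hF, -⟩ := Fcore_structure hG maxMstar e.hallKappa eF rfl
          e.defK.symm hq rfl rfl hallD'
        refine le_centralizer_of_isNilpotent_of_coprime (fittingOf_nil Mstar)
          ((hF A sALs).2 (by rw [commutator_eq_bot_of_cent' cAK]; exact bot_le)) ?_ co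
        exact (le_of_normal_syl sylQ (piCoreOf_normalIn _ _)
          ((hall_le sylS).trans (Msigma_normal Mstar).1) qS).trans (pCoreOf_le_fittingOf prK _)
    exact neHL (eq_of_inU (cent_uniq_Uniqueness hG (uniqS S sylS).inU cAS (rank_ge_el hp.out (el_self hA)))
      maxH (hA.1.trans inf_le_left) maxMstar sAL)
  have t2Hq : q ∈ tau2 H := by
    obtain ⟨p, t2p⟩ := t2H
    exact t2q p t2p ▸ t2p
  refine ⟨prK, Set.eq_singleton_iff_unique_mem.2 ⟨t2Hq, t2q⟩,
    Set.eq_empty_iff_forall_notMem.2 fun p t2p => ?_⟩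
  haveI hp : Fact p.Prime := ⟨tau2_prime t2p⟩
  obtain ⟨A, hA⟩ := ex_tau2Elem_of_mem hG maxH hallD t2Hq
  obtain ⟨⟨-, defA⟩, ⟨sCA, -⟩, -⟩ := tau2_compl_context hG maxH hallD t2Hq hA
  obtain ⟨S, sylS, sAS⟩ := exists_syl_ge
    (H64.pgroup_le_Msigma hG maxMstar sLq (hA.1.trans inf_le_right) (el_pgroup hA)) (el_pgroup hA)
  have ncS : ¬ IsMulCommutative S := fun cS => neHL ((uniqS S sylS).eq maxH
    ((le_cent_of_comm cS le_rfl sAS).trans (sCA.trans inf_le_left)))
  obtain ⟨-, ⟨oX, -⟩, -⟩ := nonabelian_tau2 hG maxH hallD t2Hq hA (syl_isPGroup sylS) ncS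
  have hX : ElemOf q 1 (A ⊓ C[sigmaCore H]) A := el1_mk prK inf_le_left oX
  have hKA : ElemOf q 1 K A := (defA K).1 (el_of_le hK (sKF.trans (fittingOf_le D)))
  have cXU : A ⊓ C[sigmaCore H] ≤ C[U] := inf_le_right.trans (centralizer_anti sUHs)
  obtain ⟨-, -, -, -, regUK, -⟩ := kappa_compl_context hG maxM complU
  have ntU : U ≠ ⊥ := ne_bot_mono ntR (hall_le sylR)
  have neXK : A ⊓ C[sigmaCore H] ≠ K := fun h => ntU (by
    rw [← regUK.inf_cent le_rfl ntK]
    exact (inf_eq_left.2 (cent_symm (h ▸ cXU))).symm)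
  -- `C(U) ≤ M`
  have sk'p : p ∈ (sigma M ∪ kappa M)ᶜ := fun h =>
    h.elim (tau2_not_sigma t2p) fun h => kappa_tau2' h t2p
  obtain ⟨B, hB⟩ := rk_exists (n := 2) (X := U) hp.out
    (by rw [rk_hall hp.out complU.hallU sk'p, tau2_rk t2p])
  have sCUM : C[U] ≤ M := (centralizer_anti hB.1).trans
    (p2Elem_mmax hG maxM (el_mono hB (hall_le complU.hallU))).1
  have sAM : A ≤ M := el1_sup_eq prK hA hX hKA neXK ▸ sup_le (cXU.trans sCUM) (hall_le complU.hallK)
  have := rk_ge prK (el_of_le hA sAM)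
  rw [rank_kappa (mem_of_isPi_of_isPGroup prK qK ntK (hall_isPi complU.hallK))] at this
  omega

/-- B & G, Theorem 15.9 (a), (b), with 15.7(d) as a hypothesis. -/
theorem nonFtype_signalizer_base_of {M : Subgroup G} (maxM : IsCoatom M)
    (h157 : ∀ g, g ∉ M → fittingOf M ⊓ cj g (fittingOf M) ≠ ⊥ →
      ∀ E E₁ E₂ E₃ : Subgroup G, SigmaCompl M E E₁ E₂ E₃ → E₃ = ⊥ ∧ IsSdp E₂ E₁ E)
    {x : G} {N : Subgroup G} (Msx : x ∈ sigmaCore M) (ntx : x ≠ 1)
    (notCx : ¬ C1[x] ≤ M) (maxN : IsCoatom N) (sCxN : C1[x] ≤ N) (notFN : ¬ FType N) :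
    FType M ∧ P2Type N ∧ ∃ E : Subgroup G, IsPiHallOf (sigma M)ᶜ E M ∧ IsCyclic E ∧
      IsFrobenius M (sigmaCore M) E := by
  have hx : SigMax x M := ⟨maxM, Msx⟩
  obtain ⟨-, t2x, hN, -, st2, -, hallMN⟩ :=
    FT_signalizer_context hG hx ntx (sigBase_of_le hG hx ntx notCx maxN sCxN)
  have P2N := hN.resolve_left notFN
  obtain ⟨r, hr, rx⟩ := Nat.exists_prime_and_dvd (fun e => ntx (orderOf_eq_one_iff.1 e))
  haveI : Fact r.Prime := ⟨hr⟩
  have t2r : r ∈ tau2 N := t2x r hr rx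
  have sk'r : r ∈ (sigma N ∪ kappa N)ᶜ := fun h =>
    h.elim (tau2_not_sigma t2r) fun h => kappa_tau2' h t2r
  obtain ⟨U, hallU⟩ := exists_hall (sigma N ∪ kappa N)ᶜ (mmax_sub_sol hG maxN (hall_le hallMN))
  have hallUN := hall_trans hallMN (Set.compl_subset_compl.2 Set.subset_union_left) hallU
  obtain ⟨K, complU⟩ := ex_kappa_compl_of_hallU hG maxN hallUN
  obtain ⟨R, sylR⟩ := exists_syl r U
  have rkR : rankP r R = 2 := by rw [rk_syl hr sylR, rk_hall hr hallUN sk'r, tau2_rk t2r]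
  have sNRM : N[R] ≤ M := norm_noncyclic_sigma hG maxM (st2 t2r) (syl_isPGroup sylR)
    ((hall_le sylR).trans ((hall_le hallU).trans inf_le_left))
    (not_isCyclic_of_two_le_rankP rkR.ge)
  obtain ⟨L, maxL, sCKL⟩ := mmax_exists
    (mFT_cent_proper hG ((ntrivg_kappa maxN complU.hallK).2 P2N.ptype)
      (w_of_kappa hG (hall_isPi complU.hallK)))
  obtain ⟨FM, -⟩ := P2type_signalizer hG P2N complU maxL sCKL
    (prime_dvd_card_hall hallUN hr sk'r (tau2_sub_pi t2r)) sylR maxM sNRM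
  have t2M : tau2 M = ∅ := by
    by_contra ne
    have := (tau2_P2type_signalizer hG P2N complU maxL sCKL sylR maxM sNRM
      (Set.nonempty_iff_ne_empty.2 ne)).2.2
    rw [this] at t2r
    exact t2r
  obtain ⟨E, hallE⟩ := ex_sigma_compl hG maxM
  obtain ⟨E₁, E₂, E₃, hE⟩ := ex_sigmaCompl hG maxM hallE
  obtain ⟨g, gC, gM⟩ := SetLike.not_le_iff_exists.1 notCx
  have xF : x ∈ fittingOf M :=
    le_fittingOf (Msigma_normal M) (notP1type_Msigma_nil hG (Or.inl FM)) Msx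
  have xFg : x ∈ cj g (fittingOf M) := by
    have := conj_mem_cj (g := g) xF
    rwa [mem_centralizer_singleton_iff.1 gC, mul_inv_cancel_right] at this
  obtain ⟨-, defE⟩ := h157 g gM (ne_bot_of_mem (mem_inf.2 ⟨xF, xFg⟩) ntx) E E₁ E₂ E₃ hE
  have trivE₂ : E₂ = ⊥ := hall_eq_bot_of_isPi_compl hE.hallE₂ fun p _ _ h => by
    rw [t2M] at h
    exact h
  rw [trivE₂] at defE
  refine ⟨FM, P2N, E, hallE, defE.eq_of_bot_left ▸ (sigma_compl_context hG maxM hE).2.2.1.1,
    sdprod_sigma hG maxM hallE, Msigma_neq1 hG maxM, sigma_compl_neq1 hG maxM hallE,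
    semiregular_of_prime_subgroups fun P sPE prP => ?_⟩
  refine Ftype_reg_tau13 hG FM (p := Nat.card P) ?_ (sPE.trans (hall_le hallE))
    (isPGroup_of_card_eq_prime rfl) (ne_bot_of_prime_card prP)
  rcases (partition_pi_sigma_compl hG maxM hallE prP).1 (card_dvd_of_le' sPE) with h | h | h
  · exact Or.inl h
  · rw [t2M] at h
    exact h.elim
  · exact Or.inr h

end Cfsg.Agent.H88.SZ.H64
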