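import Cfsg.Agent.H88.ZMin
import Cfsg.Agent.H88.ZBG15d
import Cfsg.Agent.H88.ZBG15e

/-!
B & G, section 15 (Coq `BGsection15`, same names).  `M_F` is `fittingHallOf M`, `M_σ` is
`sigmaCore M`, `K*` is `sigmaCore M ⊓ C[K]`.  15.1 - 15.7 are in `BG15a` - `BG15d`.
-/

set_option autoImplicit false
set_option linter.unusedSectionVars false
set_option linter.unusedVariables false

namespace Cfsg.Agent.H88.SZ.H66

open Cfsg.Agent.H66

variable [Om]

open Cfsg Cfsg.Agent.H63 Subgroup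
open Cfsg.Agent.H88.SZ.H63

export Cfsg.Agent.H88.SZ.H63 (Fcore_sub_Msigma Fcore_eq_Msigma)

universe u

variable {G : Type u} [Group G] [Finite G]

variable (hG : IsMinSimpleOddOrder G)
include hG

/-- B & G, Theorem 15.8. -/
theorem tau2_P2type_signalizer {M Mstar U K R H : Subgroup G} {r : ℕ} [Fact r.Prime]
    (P2M : P2Type M) (complU : KappaCompl M U K) (maxMstar : IsCoatom Mstar) (sCK : C[K] ≤ Mstar)
    (sylR : IsSyl r R U) (maxH : IsCoatom H) (sNR : N[R] ≤ H) (t2H : (tau2 H).Nonempty)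
    (hw : r ∈ ϖ := by w_tac) :
    (Nat.card K).Prime ∧ tau2 H = {Nat.card K} ∧ tau2 M = ∅ :=
  H64.tau2_P2type_signalizer hG P2M complU maxMstar sCK sylR maxH sNR t2H

variable {M : Subgroup G} (maxM : IsCoatom M)
include maxM

/-- B & G, Theorem 15.9 (a), (b); `N` is the signalizer base `N(x)`. -/
theorem nonFtype_signalizer_base {x : G} {N : Subgroup G} (Msx : x ∈ sigmaCore M) (ntx : x ≠ 1)
    (notCx : ¬ C1[x] ≤ M) (maxN : IsCoatom N) (sCxN : C1[x] ≤ N) (notFN : ¬ FType N) :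
    FType M ∧ P2Type N ∧ ∃ E : Subgroup G, IsPiHallOf (sigma M)ᶜ E M ∧ IsCyclic E ∧
      IsFrobenius M (sigmaCore M) E :=
  H64.nonFtype_signalizer_base_of hG maxM
    (fun _ gM nt => (nonTI_Fitting_structure hG maxM gM rfl rfl nt).2.2.2.1) Msx ntx notCx maxN
    sCxN notFN

end Cfsg.Agent.H88.SZ.H66
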