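import Cfsg.Agent.H88.ZMin
import Mathlib
import Cfsg.Agent.H71.FTDefs
import Cfsg.Agent.H88.ZBG14B3
import Cfsg.Agent.H88.ZBG15

/-! B & G, Proposition 16.1 (the five types of maximal subgroups) and Theorem I. -/

set_option autoImplicit false
set_option linter.unusedSectionVars false
set_option linter.unusedVariables false

namespace Cfsg.Agent.H88.SZ.H71

open Cfsg.Agent.H71

variable [Om]

open Subgroup Cfsg.Agent.H63 Cfsg.Agent.H68
open Cfsg.Agent.H88.SZ.H63 Cfsg.Agent.H88.SZ.H68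

universe u

variable {G : Type u} [Group G] [Finite G]

omit [Finite G] in
theorem isCyclic_pPrimeCore_iff' {p : ℕ} (hp : p.Prime) (X : Subgroup G) :
    IsCyclic (pPrimeCore p X) ↔ IsCyclic O[{p}ᶜ](X) := by
  rw [← H67.map_pPrimeCore_subtype hp]
  exact ((pPrimeCore p X).equivMapOfInjective _ X.subtype_injective).isCyclic

theorem card_pCore_eq' {p : ℕ} (hp : p.Prime) (X : Subgroup G) :
    Nat.card (pCore p X) = Nat.card O[{p}](X) := by
  rw [← H67.map_pCore_subtype hp, card_map_of_injective X.subtype_injective]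

omit [Finite G] in
theorem exponent_quo_Fcore' (M : Subgroup G) :
    Monoid.exponent (M ⧸ fittingHall M) = Monoid.exponent (M /ᵍ fittingHallOf M) :=
  Monoid.exponent_eq_of_mulEquiv (quoEquiv (Fcore_normal M).norm _ (Fcore_subgroupOf M).symm)

variable (hG : IsMinSimpleOddOrder G) {M U K V W₁ W₂ : Subgroup G}
include hG

theorem Fitting_ne_bot (maxM : IsCoatom M) : fittingOf M ≠ ⊥ := fun h =>
  (H66.Fcore_structure_chain hG maxM).1 (eq_bot_iff.2 (h ▸ Fcore_sub_Fitting M))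

theorem norm_Fcore' (maxM : IsCoatom M) : N[fittingHallOf M] = M :=
  H67.mmax_normal hG maxM (Fcore_normal M) (H66.Fcore_structure_chain hG maxM).1

/-- If `M_F` is not a TI-subgroup, two conjugates of `F(M)` intersect. -/
theorem exists_Fitting_inf_ne (maxM : IsCoatom M) (h : ¬ IsTISubset (fittingHallOf M : Set G)) :
    ∃ g, g ∉ M ∧ fittingOf M ⊓ cj g (fittingOf M) ≠ ⊥ := by
  rw [isTISubset_iff_inf_cj, norm_Fcore' hG maxM] at h
  push Not at h
  obtain ⟨g, hg, h⟩ := h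
  exact ⟨g, hg, fun e => h (eq_bot_iff.2 (e ▸ inf_le_inf (Fcore_sub_Fitting M)
    (H67.cj_mono (Fcore_sub_Fitting M))))⟩

theorem Fitting_TI (maxM : IsCoatom M)
    (h : ¬ ((FType M ∨ P1Type M) ∧ fittingHallOf M = sigmaCore M)) :
    IsTISubset (fittingOf M : Set G) := by
  by_contra h'
  have := H66.nonTI_Fitting_facts hG maxM fun e => h' (normedTI_diff_one_iff.1 e).2.2
  exact h ⟨this.1, this.2.1⟩

/-! ### Type `𝓕` -/

theorem Ftype_sdp (FM : FType M) (complU : KappaCompl M U K) : IsSdp (fittingHallOf M) U M := by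
  have h := (kappa_compl_context hG FM.max complU).2.2.1
  rwa [(trivg_kappa FM.max complU.hallK).2 FM, sup_bot_eq, ← notP1type_Fcore hG (Or.inl FM)] at h

theorem typeF_compl (maxM : IsCoatom M) (complU : KappaCompl M U K) (ntU : U ≠ ⊥)
    {D : Subgroup G} (hD : fittingHallOf D = sigmaCore M) : ∃ U₀, IsTypeFCompl D U U₀ := by
  obtain ⟨U₀, h⟩ := (H66.kappa_structure hG maxM complU).2.2.2.2 ntU
  exact ⟨U₀, by rwa [IsTypeFCompl, hD]⟩

theorem typeF_of_FType (FM : FType M) (complU : KappaCompl M U K) : OfTypeF M U := by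
  have maxM := FM.max
  have hF := notP1type_Fcore hG (Or.inl FM)
  have ntU : U ≠ ⊥ := fun h => FM.not_ptype ((trivg_kappa_compl hG maxM complU).1 h).ptype
  have hs := Ftype_sdp hG FM complU
  refine ⟨(H66.Fcore_structure_chain hG maxM).1, ntU, hs, ⟨_, ⟨?_, ?_⟩,
    (H66.kappa_structure hG maxM complU).2.2.2.1, fun x hx h1 => ?_⟩,
    typeF_compl hG maxM complU ntU hF⟩
  · exact iSup₂_le fun _ _ => inf_le_left
  · refine fun u hu => H67.mem_normalizer_of_cj_le ?_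
    rw [H67.cj_iSup]
    refine iSup_le fun x => ?_
    rw [H67.cj_iSup]
    refine iSup_le fun hx => le_iSup₂_of_le (u * x * u⁻¹) ⟨?_, ?_⟩ ?_
    · rw [← hF] at hx ⊢
      exact H67.conj_mem_of_mem_normalizer (hs.norm hu) hx.1
    · simpa using hx.2
    · rw [H67.cj_inf, H67.cj_centralizer_singleton, H67.cj_eq_self_of_mem hu]
  · exact le_iSup₂_of_le x ⟨hF ▸ hx, h1⟩ le_rfl

theorem typeI_of_FType (FM : FType M) : IsOfTypeI M := by
  have maxM := FM.max
  obtain ⟨U, K, complU⟩ := kappa_witness hG maxM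
  refine ⟨(isOfTypeF_iff (H67.mmax_sol hG maxM) (H67.mFT_odd hG M)).2
    ⟨U, typeF_of_FType hG FM complU⟩, or_iff_not_imp_left.2 fun h => ?_⟩
  obtain ⟨g, hg, ntX⟩ := exists_Fitting_inf_ne hG maxM h
  obtain ⟨-, ⟨hX, -⟩, -, -, ⟨-, h1, h2⟩ | ⟨⟨hp, -, -, -, hc⟩, h3 | ⟨-, h3, -⟩⟩⟩ :=
    H66.nonTI_Fitting_structure hG maxM hg rfl rfl ntX
  · exact Or.inl ⟨h1, H67.rankLE_iff.2 h2.le, by rw [H67.rankLE_iff]; omega⟩
  · rw [exponent_quo_Fcore']
    exact Or.inr ⟨h3, _, hp, card_dvd_of_le hX, (isCyclic_pPrimeCore_iff' hp _).2 hc⟩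
  · exact absurd h3.ptype FM.not_ptype

/-! ### Type `𝓟` -/

theorem typeP_of_compl (PM : PType M) (hallK : IsPiHallOf (kappa M) K M)
    (hV : IsSdp (fittingHallOf M) V ⁅M, M⁆) (nVK : K ≤ N[V]) :
    IsTypePWith M K V (sigmaCore M ⊓ C[K]) := by
  have maxM := PM.max
  obtain ⟨L, hL⟩ := Ptype_embedding hG PM hallK
  obtain ⟨-, ⟨h1, h2, -⟩, ⟨-, h3⟩, h4⟩ := H66.Fitting_structure hG maxM
  obtain ⟨-, -, h5, h6, h7⟩ := H66.Ptype_cyclics hG PM hallK
  obtain ⟨e⟩ := hV.nonempty_equiv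
  refine ⟨(ntrivg_kappa maxM hallK).2 PM, kappa_hall_cyclic hG maxM hallK, H67.hall_coprime hallK,
    hL.sdp.isComplIn, Group.nilpotent_of_mulEquiv e.symm, nVK, hV.isComplIn, h7, h2 ▸ h1, h2,
    h4 PM, le_inf h6 h5, fun x hx hx1 => ?_, hL.snc hG PM hallK⟩
  have hK : sigmaCore M ⊓ C[K] ≤ ⁅M, M⁆ := h5.trans (commutator_le_of_le le_rfl le_rfl)
  have h8 := (isSdp_sup (K := sigmaCore M ⊓ C[K]) (H := K)
    (H67.le_normalizer_of_le_centralizer (cent_symm inf_le_right))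
    (eq_bot_iff.2 (hL.sdp.inf ▸ inf_le_inf_right _ hK))).eq_of_le_left
    (L := ⁅M, M⁆ ⊓ C1[x]) (le_inf hK (inf_le_right.trans (centralizer_le (Set.singleton_subset_iff.2 hx))))
    (by rw [sup_comm, ← hL.centK x hx hx1]
        exact inf_le_inf_right _ (commutator_le_of_le le_rfl le_rfl))
    (eq_bot_iff.2 (hL.sdp.inf' ▸ inf_le_inf_left _ inf_le_left))
  exact h8.symm

theorem typeP_of_PType (PM : PType M) (hallK : IsPiHallOf (kappa M) K M) :
    ∃ V, IsTypePWith M K V (sigmaCore M ⊓ C[K]) := by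
  have maxM := PM.max
  obtain ⟨L, hL⟩ := Ptype_embedding hG PM hallK
  have sM' : ⁅M, M⁆ ≤ M := commutator_le_of_le le_rfl le_rfl
  have sF : fittingHallOf M ≤ ⁅M, M⁆ := (H66.Fitting_structure hG maxM).2.2.1.1
  obtain ⟨V, hV, nVK⟩ := H67.coprime_hall_exists (primesOf (Nat.card (fittingHallOf M)))ᶜ
    hL.sdp.norm (hL.sdp.isHallOf_right_iff.1 (H67.hall_isHallOf hallK)).symm
    (H67.mmax_sub_sol hG maxM sM')
  exact ⟨V, typeP_of_compl hG PM hallK (H67.isSdp_of_normal_hall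
    (H67.hall_of_le (Fcore_Hall M).hall sF sM') ⟨sF, sM'.trans (Fcore_normal M).norm⟩ hV) nVK⟩

theorem P2type_sdp (P2M : P2Type M) (complU : KappaCompl M U K) :
    IsSdp (fittingHallOf M) U ⁅M, M⁆ := by
  rw [notP1type_Fcore hG (Or.inr P2M)]
  exact Ptype_der1 hG P2M.ptype complU

theorem typeP_of_P2Type (P2M : P2Type M) (complU : KappaCompl M U K) :
    IsTypePWith M K U (sigmaCore M ⊓ C[K]) :=
  typeP_of_compl hG P2M.ptype complU.hallK (P2type_sdp hG P2M complU) complU.norm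

theorem ptype_of_typeP (maxM : IsCoatom M) (h : IsTypePWith M W₁ V W₂) : PType M :=
  (ptype_or_ftype maxM).resolve_right fun FM =>
    let ⟨U, _, complU⟩ := kappa_witness hG maxM
    typePF_exclusion h U (typeF_of_FType hG FM complU)

/-- In any type `P` data, `W₁` is a Hall `κ(M)`-subgroup and `W₂ = C_{M_σ}(W₁)`. -/
theorem typeP_kappa (maxM : IsCoatom M) (h : IsTypePWith M W₁ V W₂) :
    IsPiHallOf (kappa M) W₁ M ∧ W₂ = sigmaCore M ⊓ C[W₁] := by
  have PM := ptype_of_typeP hG maxM h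
  obtain ⟨U, K, complU⟩ := kappa_witness hG maxM
  obtain ⟨V', h'⟩ := typeP_of_PType hG PM complU.hallK
  obtain ⟨x, hx, rfl⟩ := of_typeP_compl_conj h' (typeP_sdp_der h)
  have hallK := H67.hall_cj_of_mem complU.hallK hx
  obtain ⟨V'', h''⟩ := typeP_of_PType hG PM hallK
  exact ⟨hallK, (typeP_cent_compl h).symm.trans (typeP_cent_compl h'')⟩

theorem typeI_iff_FType (maxM : IsCoatom M) : IsOfTypeI M ↔ FType M := by
  refine ⟨fun h => (ptype_or_ftype maxM).resolve_left fun PM => ?_, typeI_of_FType hG⟩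
  obtain ⟨U, hU⟩ := (isOfTypeF_iff (H67.mmax_sol hG maxM) (H67.mFT_odd hG M)).1 h.1
  obtain ⟨_, K, complU⟩ := kappa_witness hG maxM
  obtain ⟨V, hV⟩ := typeP_of_PType hG PM complU.hallK
  exact typePF_exclusion hV U hU

theorem P1type_der1 (P1M : P1Type M) : sigmaCore M = ⁅M, M⁆ := by
  obtain ⟨U, K, complU⟩ := kappa_witness hG P1M.max
  exact (Ptype_der1 hG P1M.ptype complU).right_eq_bot_iff.1
    ((trivg_kappa_compl hG P1M.max complU).2 P1M)

theorem P2type_norm_compl (P2M : P2Type M) (complU : KappaCompl M U K) : ¬ NU U M := by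
  rintro ⟨h, wU⟩
  have maxM := P2M.max
  obtain ⟨ntK, ntU⟩ := (p2type_iff maxM complU).1 P2M
  obtain ⟨L, hL⟩ := Ptype_embedding hG P2M.ptype complU.hallK
  obtain ⟨r, hr, hrU⟩ := Nat.exists_prime_and_dvd (mt card_eq_one.1 ntU)
  have := Fact.mk hr
  obtain ⟨R, hR⟩ := H67.exists_syl r U
  have hw : r ∈ ϖ := wU r hr hrU
  obtain ⟨H, maxH, hH⟩ := H67.mmax_exists_norm hG (H67.syl_ne_bot hR hrU)
    (H67.mFT_pgroup_proper hG hr (H67.syl_isPGroup hR))
  have hX := hL.uniqX K le_rfl (Ptype_structure_g hG P2M complU.hallK).2.1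
  exact (P2type_signalizer hG P2M complU hX.max hX.le hrU hR maxH hH).2.2.2.1
    (inf_le_right.trans h)

theorem typeP_norm_of_P1Type (P1M : P1Type M) (h : IsTypePWith M W₁ V W₂) (ntV : V ≠ ⊥) :
    NU V M := by
  refine ⟨?_, H67.isPi_of_le (H67.w_sigmaCore M) ((typeP_U_le_der h).trans (P1type_der1 hG P1M).ge)⟩
  have maxM := P1M.max
  obtain ⟨r, hr, hrV⟩ := Nat.exists_prime_and_dvd (mt card_eq_one.1 ntV)
  have := Fact.mk hr
  have hallV : IsHallOf V M :=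
    ((typeP_sdp_core h).isHallOf_right_iff.2 (typeP_coprime_core_U h)).trans (typeP_der_Hall h)
  have sr : r ∈ sigma M := H67.isPi_piCoreOf (sigma M) M r hr
    (hrV.trans (card_dvd_of_le ((typeP_U_le_der h).trans (P1type_der1 hG P1M).ge)))
  exact (H67.normalizer_le_normalizer_piCoreOf {r} V).trans (H66.norm_sigma_Sylow sr
    (H67.syl_of_hall hallV.hall ⟨hr, hrV⟩ (H67.hall_piCoreOf_of_isNilpotent _ h.U_nilpotent)))

theorem typeP_norm_of_P2Type (P2M : P2Type M) (h : IsTypePWith M W₁ V W₂) : ¬ NU V M := by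
  obtain ⟨U, complU⟩ := ex_kappa_compl hG P2M.max (typeP_kappa hG P2M.max h).1
  obtain ⟨x, hx, -, rfl, -⟩ := of_typeP_conj h (typeP_of_P2Type hG P2M complU)
  rintro ⟨hN, wV⟩
  refine P2type_norm_compl hG P2M complU ⟨?_, H67.isPi_cj_iff.2 wV⟩
  rw [← H67.cj_normalizer]
  exact (H67.cj_mono hN).trans (H67.cj_eq_self_of_mem hx).le

theorem typeP_compl_eq_bot_iff (maxM : IsCoatom M) (h : IsTypePWith M W₁ V W₂) :
    V = ⊥ ↔ P1Type M ∧ fittingHallOf M = sigmaCore M := by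
  rw [(typeP_sdp_core h).right_eq_bot_iff]
  obtain ⟨-, h1, h2, -⟩ := H66.Fcore_structure_chain hG maxM
  refine ⟨fun e => ?_, fun e => e.2.trans (P1type_der1 hG e.1)⟩
  have e' := le_antisymm h1 (h2.trans e.ge)
  obtain ⟨U, K, complU⟩ := kappa_witness hG maxM
  exact ⟨(trivg_kappa_compl hG maxM complU).1 ((Ptype_der1 hG (ptype_of_typeP hG maxM h)
    complU).right_eq_bot_iff.2 (e'.symm.trans e)), e'⟩

theorem Fcore_der1_P2Type (P2M : P2Type M) : fittingHallOf ⁅M, M⁆ = fittingHallOf M := by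
  obtain ⟨U, K, complU⟩ := kappa_witness hG P2M.max
  have h := typeP_of_P2Type hG P2M complU
  have sM' : ⁅M, M⁆ ≤ M := commutator_le_of_le le_rfl le_rfl
  exact le_antisymm (Fcore_max ((Fcore_Hall _).trans (typeP_der_Hall h)) ⟨(Fcore_le _).trans sM',
      (H67.derived_normalIn M).norm.trans (norm_le_norm_Fcore _)⟩ (Fcore_nil _))
    (Fcore_max ((Fcore_Hall M).of_le (typeP_core_le_der h) sM') (typeP_sdp_core h).normal
      (Fcore_nil _))

theorem typeF_der1_of_P2Type (P2M : P2Type M) (complU : KappaCompl M U K) : OfTypeF ⁅M, M⁆ U := by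
  have maxM := P2M.max
  obtain ⟨ntK, ntU⟩ := (p2type_iff maxM complU).1 P2M
  have hF := Fcore_der1_P2Type hG P2M
  exact ⟨hF ▸ (H66.Fcore_structure_chain hG maxM).1, ntU, hF ▸ P2type_sdp hG P2M complU,
    ⟨U, H67.normalIn_refl U, (kappa_compl_context hG maxM complU).2.2.2.2.2 ntK,
      fun _ _ _ => inf_le_left⟩,
    typeF_compl hG maxM complU ntU (hF.trans (notP1type_Fcore hG (Or.inr P2M)))⟩

theorem typeII_iff_P2Type (maxM : IsCoatom M) : IsOfTypeII M ↔ P2Type M := by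
  constructor
  · rintro ⟨W₁, V, W₂, h, ntV, -, -, -, hN, -⟩
    exact (ptype_of_typeP hG maxM h).p1_or_p2.resolve_left fun P1M =>
      hN (typeP_norm_of_P1Type hG P1M h ntV)
  · intro P2M
    obtain ⟨U, K, complU⟩ := kappa_witness hG maxM
    obtain ⟨ntK, ntU⟩ := (p2type_iff maxM complU).1 P2M
    exact ⟨K, U, _, typeP_of_P2Type hG P2M complU, ntU,
      (Ptype_structure_g hG P2M complU.hallK).2.1,
      Fitting_TI hG maxM fun h => h.1.elim (·.not_ptype P2M.ptype) (·.not_p2 P2M),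
      (kappa_compl_context hG maxM complU).2.2.2.2.2 ntK, P2type_norm_compl hG P2M complU,
      (isOfTypeF_iff (H67.mmax_sub_sol hG maxM (commutator_le_of_le le_rfl le_rfl))
        (H67.mFT_odd hG _)).2 ⟨U, typeF_der1_of_P2Type hG P2M complU⟩, Fcore_der1_P2Type hG P2M⟩

theorem prime_kappa_of_Fcore_ne (maxM : IsCoatom M) (hallK : IsPiHallOf (kappa M) K M)
    (neF : fittingHallOf M ≠ sigmaCore M) : P1Type M ∧ (Nat.card K).Prime := by
  obtain ⟨D, hD⟩ := H67.exists_hall {Nat.card ↥(sigmaCore M ⊓ C[K])}ᶜ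
    (H67.mmax_sub_sol hG maxM (H67.piCoreOf_le (sigma M) M))
  have := H66.Fcore_structure hG maxM hallK neF rfl rfl rfl rfl rfl hD
  exact ⟨this.1.1, this.2.1.1⟩

theorem typeIII_IV_iff (maxM : IsCoatom M) :
    IsOfTypeIII M ∨ IsOfTypeIV M ↔ P1Type M ∧ fittingHallOf M ≠ sigmaCore M := by
  constructor
  · intro h
    obtain ⟨W₁, V, W₂, h, ntV, hN⟩ : ∃ W₁ V W₂, IsTypePWith M W₁ V W₂ ∧ V ≠ ⊥ ∧ NU V M := by
      rcases h with ⟨W₁, V, W₂, h, ntV, -, -, -, hN⟩ | ⟨W₁, V, W₂, h, ntV, -, -, -, hN⟩ <;>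
        exact ⟨W₁, V, W₂, h, ntV, hN⟩
    have P1M := (ptype_of_typeP hG maxM h).p1_or_p2.resolve_right fun P2M =>
      typeP_norm_of_P2Type hG P2M h hN
    exact ⟨P1M, fun e => ntV ((typeP_compl_eq_bot_iff hG maxM h).2 ⟨P1M, e⟩)⟩
  · rintro ⟨P1M, neF⟩
    obtain ⟨U, K, complU⟩ := kappa_witness hG maxM
    obtain ⟨V, h⟩ := typeP_of_PType hG P1M.ptype complU.hallK
    have ntV : V ≠ ⊥ := fun e => neF ((typeP_compl_eq_bot_iff hG maxM h).1 e).2
    have h1 := (prime_kappa_of_Fcore_ne hG maxM complU.hallK neF).2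
    have h2 := Fitting_TI hG maxM fun h => neF h.2
    have h3 := typeP_norm_of_P1Type hG P1M h ntV
    by_cases hV : IsMulCommutative V
    · exact Or.inl ⟨K, V, _, h, ntV, h1, h2, hV, h3⟩
    · exact Or.inr ⟨K, V, _, h, ntV, h1, h2, hV, h3⟩

theorem typeV_iff (maxM : IsCoatom M) :
    IsOfTypeV M ↔ P1Type M ∧ fittingHallOf M = sigmaCore M := by
  constructor
  · rintro ⟨W₁, V, W₂, h, hV, -⟩
    exact (typeP_compl_eq_bot_iff hG maxM h).1 hV
  · intro hP
    obtain ⟨U, K, complU⟩ := kappa_witness hG maxM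
    obtain ⟨V, h⟩ := typeP_of_PType hG hP.1.ptype complU.hallK
    refine ⟨K, V, _, h, (typeP_compl_eq_bot_iff hG maxM h).2 hP,
      or_iff_not_imp_left.2 fun hTI => ?_⟩
    obtain ⟨g, hg, ntX⟩ := exists_Fitting_inf_ne hG maxM hTI
    have hs : IsSdp (fittingHallOf M) K M := by
      rw [hP.2, P1type_der1 hG hP.1]; exact typeP_sdp_der h
    obtain ⟨-, ⟨hX, -⟩, -, -, ⟨FM, -⟩ | ⟨⟨hp, -, -, -, hc⟩, h3 | ⟨h3, -, h4⟩⟩⟩ :=
      H66.nonTI_Fitting_structure hG maxM hg rfl rfl ntX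
    · exact absurd hP.1.ptype FM.not_ptype
    · obtain ⟨e⟩ := hs.nonempty_equiv
      have := h.W₁_cyclic
      rw [← Monoid.exponent_eq_of_mulEquiv e, IsCyclic.exponent_eq_card] at h3
      exact Or.inl ⟨_, hp, card_dvd_of_le hX, h3 _ hp (card_dvd_of_le hX),
        (isCyclic_pPrimeCore_iff' hp _).2 hc⟩
    · exact Or.inr ⟨_, hp, card_dvd_of_le hX, (card_pCore_eq' hp _).trans h3,
        hs.relIndex_left ▸ h4, (isCyclic_pPrimeCore_iff' hp _).2 hc⟩

theorem typeII_V_of_PType (PM : PType M) :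
    IsOfTypeII M ∨ IsOfTypeIII M ∨ IsOfTypeIV M ∨ IsOfTypeV M := by
  rw [← or_assoc (a := IsOfTypeIII M), typeII_iff_P2Type hG PM.max, typeIII_IV_iff hG PM.max,
    typeV_iff hG PM.max]
  have := PM.p1_or_p2
  tauto

/-- B & G 16.1 (f): `M_s = M_σ`. -/
theorem typeCore_eq_Msigma (maxM : IsCoatom M) : typeCore M = sigmaCore M := by
  unfold typeCore
  split_ifs with h
  · exact (P1type_der1 hG ((typeIII_IV_iff hG maxM).1 h).1).symm
  · by_contra e
    obtain ⟨U, K, complU⟩ := kappa_witness hG maxM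
    exact h ((typeIII_IV_iff hG maxM).2 ⟨(prime_kappa_of_Fcore_ne hG maxM complU.hallK e).1, e⟩)

/-! ### Theorem I -/

theorem nilpotent_Hall_tame {H : Subgroup G} (nilH : Group.IsNilpotent H) (hallH : IsHallOf H ⊤)
    {x g : G} (hx : x ∈ H) (hg : g * x * g⁻¹ ∈ H) (wH : IsPiSubgroup ϖ H := by w_tac) :
    ∃ n ∈ N[H], n * x * n⁻¹ = g * x * g⁻¹ := by
  by_cases ntH : H = ⊥
  · subst ntH
    exact ⟨1, one_mem _, by rw [mem_bot.1 hx]; group⟩
  obtain ⟨M, maxM, hM⟩ := H66.nilpotent_Hall_sigma hG nilH hallH ntH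
  obtain ⟨b, hb, e⟩ := H66.sigma_Hall_tame hG maxM (H67.hall_of_le hallH.hall hM le_top) hx hg
  exact ⟨b, hb.2, e.symm⟩

theorem typeI_or_pair :
    (∀ M : Subgroup G, IsCoatom M → IsOfTypeI M) ∨
      ∃ W₁ W₂ S T : Subgroup G, IsSelfNormalizingCyclic W₁ W₂ ∧ IsCoatom S ∧ IsCoatom T ∧
        IsComplIn ⁅S, S⁆ W₁ S ∧ IsComplIn ⁅T, T⁆ W₂ T ∧ S ⊓ T = W₁ ⊔ W₂ ∧
        (IsOfTypeII S ∨ IsOfTypeII T) ∧
        (IsOfTypeII S ∨ IsOfTypeIII S ∨ IsOfTypeIV S ∨ IsOfTypeV S) ∧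
        (IsOfTypeII T ∨ IsOfTypeIII T ∨ IsOfTypeIV T ∨ IsOfTypeV T) ∧
        ∀ M : Subgroup G, IsCoatom M → IsOfTypeI M ∨ ∃ g : G, M = cj g S ∨ M = cj g T := by
  refine or_iff_not_imp_left.2 fun h => ?_
  push Not at h
  obtain ⟨M, maxM, h⟩ := h
  have PM := (ptype_or_ftype maxM).resolve_right (mt (typeI_of_FType hG) h)
  obtain ⟨U, K, complU⟩ := kappa_witness hG maxM
  obtain ⟨L, hL⟩ := Ptype_embedding hG PM complU.hallK
  refine ⟨K, _, M, L, hL.snc hG PM complU.hallK, maxM, hL.typeP.max, hL.sdp.isComplIn,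
    (hL.symm hG PM complU.hallK).sdp.isComplIn, hL.inf, ?_, typeII_V_of_PType hG PM,
    typeII_V_of_PType hG hL.typeP, fun H maxH => ?_⟩
  · exact hL.typeP2.imp (fun h => (typeII_iff_P2Type hG maxM).2 h.1)
      fun h => (typeII_iff_P2Type hG hL.typeP.max).2 h.1
  · rcases ptype_or_ftype maxH with PH | FH
    · rcases hL.conj H PH with ⟨g, hg⟩ | ⟨g, hg⟩
      · exact Or.inr ⟨g, Or.inl hg⟩
      · exact Or.inr ⟨g, Or.inr hg⟩
    · exact Or.inl (typeI_of_FType hG FH)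

end Cfsg.Agent.H88.SZ.H71
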