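import Cfsg.Agent.H88.ZMin
import Cfsg.Agent.H88.ZBG16A
import Cfsg.Agent.H88.ZBG16T

/-! Bender-Glauberman section 16: Theorem II and Peterfalvi (8.12), for the types of `H71.FTDefs`. -/

set_option autoImplicit false
set_option linter.unusedSectionVars false
set_option linter.unusedVariables false

namespace Cfsg.Agent.H88.SZ.H67

open Cfsg.Agent.H67

variable [Om]

open Subgroup Cfsg Cfsg.Agent.H63 Cfsg.Agent.H66 Cfsg.Agent.H64
open Cfsg.Agent.H88.SZ.H63 Cfsg.Agent.H88.SZ.H66 Cfsg.Agent.H88.SZ.H64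
open Cfsg.Agent.H68 (cycV)

variable {G : Type*} [Group G] [Finite G]

section

variable (hG : IsMinSimpleOddOrder G) {M U K : Subgroup G} (maxM : IsCoatom M)
include hG maxM

theorem mem_typeA1_iff {a : G} : a ∈ typeA1 M ↔ a ∈ sigmaCore M ∧ a ≠ 1 := by
  rw [typeA1, H71.typeCore_eq_Msigma hG maxM]
  rfl

theorem mem_typeA_iff {a : G} :
    a ∈ typeA M ↔ a ∈ sigmaHat M ∧ a ≠ 1 ∧ PiElt (kappa M)ᶜ a := by
  unfold typeA
  split_ifs with h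
  · have FM := (H71.typeI_iff_FType hG maxM).1 h
    rw [notP1type_Fcore hG (Or.inl FM)]
    exact ⟨fun ⟨h1, h2, h3⟩ => ⟨⟨h1, h3⟩, h2, fun p _ _ => by simp [FM.2]⟩,
      fun ⟨⟨h1, h3⟩, h2, _⟩ => ⟨h1, h2, h3⟩⟩
  · have PM := (ptype_or_ftype maxM).resolve_right (mt (H71.typeI_of_FType hG) h)
    obtain ⟨U, K, hc⟩ := kappa_witness hG maxM
    rw [H71.typeCore_eq_Msigma hG maxM, ← (Ptype_der1 hG PM hc).sup]
    refine ⟨fun ⟨h1, h2, h3⟩ => ?_,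
      fun ⟨⟨h1, h3⟩, h2, h4⟩ => ⟨(mem_sigma_sup_iff hG maxM hc h1).2 h4, h2, h3⟩⟩
    have haM := (kappa'_Hall hG maxM hc).1.1 h1
    exact ⟨⟨haM, h3⟩, h2, (mem_sigma_sup_iff hG maxM hc haM).1 h1⟩

theorem typeA0_cases {a : G} (ha : a ∈ typeA0 M) :
    a ∈ typeA M ∨ (PType M ∧ a ∈ M ∧ ∀ g, g * a * g⁻¹ ∈ M → g ∈ M) := by
  refine ha.imp_right ?_
  rintro ⟨-, W₁, V, W₂, h, m, hm, w, hw, hw₁, hw₂, rfl⟩
  have PM := H71.ptype_of_typeP hG maxM h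
  obtain ⟨hK, rfl⟩ := H71.typeP_kappa hG maxM h
  obtain ⟨L, hL⟩ := Ptype_embedding hG PM hK
  refine ⟨PM, M.mul_mem (M.mul_mem hm (H68.typeP_W_le h hw)) (M.inv_mem hm), fun g hg => ?_⟩
  by_contra hgM
  refine hL.disj (g * m)⁻¹ (fun h' => hgM ?_) w (H68.mem_cycV.2 ⟨hw, hw₁, hw₂⟩) (mem_cj.2 ?_)
  · simpa using M.mul_mem (M.inv_mem h') (M.inv_mem hm)
  · simpa [mul_assoc] using hg

theorem typeA0_sub {a : G} (ha : a ∈ typeA0 M) : a ∈ M :=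
  (typeA0_cases hG maxM ha).elim (fun h => ((mem_typeA_iff hG maxM).1 h).1.1) fun h => h.2.1

/-- B & G Theorem II (T1). -/
theorem typeA0_tame {x g : G} (hx : x ∈ typeA0 M)
    (hg : g * x * g⁻¹ ∈ typeA0 M) : ∃ m ∈ M, m * x * m⁻¹ = g * x * g⁻¹ := by
  have hxM := typeA0_sub hG maxM hx
  rcases typeA0_cases hG maxM hx with hx | hx
  swap
  · exact ⟨g, hx.2.2 g (typeA0_sub hG maxM hg), rfl⟩
  rcases typeA0_cases hG maxM hg with hg | hg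
  swap
  · exact ⟨g, M.inv_mem_iff.1 (hg.2.2 g⁻¹ (by simpa [mul_assoc] using hxM)), rfl⟩
  obtain ⟨hx₁, -, hx₂⟩ := (mem_typeA_iff hG maxM).1 hx
  obtain ⟨hg₁, -, -⟩ := (mem_typeA_iff hG maxM).1 hg
  by_cases hs : x ∈ sigmaCore M
  · obtain ⟨b, hb, e⟩ := sigma_Hall_tame hG maxM (hall_self (Msigma_pi M)) hs
      (mem_Msigma hG maxM hg₁.1 ((piElt_of_mem (Msigma_pi M) hs).conj g))
    exact ⟨b, hb.1, e.symm⟩
  · exact ⟨g, mem_of_conj_sigmaA hG maxM hx₁ hx₂ hs hg₁, rfl⟩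

theorem typeA0_not_cent1_le {x : G} (hx : x ∈ typeA0 M) (hC : ¬ C1[x] ≤ M) :
    x ∈ sigmaCore M ∧ x ≠ 1 := by
  have e : ∀ g ∈ C1[x], g * x * g⁻¹ = x := fun g hg => by
    rw [mem_centralizer_singleton_iff.1 hg, mul_inv_cancel_right]
  rcases typeA0_cases hG maxM hx with hx | hx
  · obtain ⟨hx₁, h1, hx₂⟩ := (mem_typeA_iff hG maxM).1 hx
    refine ⟨by_contra fun hs => hC fun g hg => ?_, h1⟩
    exact mem_of_conj_sigmaA hG maxM hx₁ hx₂ hs (by rwa [e g hg])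
  · exact absurd (fun g hg => hx.2.2 g (by rw [e g hg]; exact hx.2.1)) hC

/-- B & G Theorem II (c). -/
theorem coprime_signalizer_base {x y : G} {N : Subgroup G} (hx : x ∈ sigmaCore M) (h1 : x ≠ 1)
    (hC : ¬ C1[x] ≤ M) (maxN : IsCoatom N) (hN : C1[x] ≤ N) (hy : y ∈ typeA0 M) :
    (Nat.card (sigmaCore N)).Coprime (Nat.card ↥(M ⊓ C1[y])) := by
  obtain ⟨hb, -, -, -, -, -, -, hdisj⟩ := BGsummaryD4 hG maxM hx h1 hC maxN hN
  refine coprime_iff_no_common_prime.2 fun p hp hd hd' => ?_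
  have sp : p ∈ sigma N := Msigma_pi N p hp hd
  obtain ⟨FM, t2⟩ := non_disjoint_signalizer_Frobenius hG ⟨maxM, hx⟩ h1 hb
    fun h => h p hp (hd'.trans (card_dvd_of_le inf_le_left)) sp
  have e : ∀ z : G, PiElt (∅ : Set ℕ) z → z = 1 := fun z hz => hz.eq_one fun _ _ _ => by simp
  obtain ⟨hy₁, hy1, hy₂⟩ := (mem_typeA_iff hG maxM).1
    ((typeA0_cases hG maxM hy).resolve_right fun h => FM.not_ptype h.1)
  have hs : y ∈ sigmaCore M := by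
    by_contra hs
    obtain ⟨h₁, -, h₂⟩ := sigmaA_constt hG maxM hy₁ hy₂ hs
    exact h₁ (e _ (t2 ▸ h₂))
  obtain ⟨z, hz, ho⟩ := exists_orderOf_eq_prime hp hd'
  have z1 : z ≠ 1 := ne_one_of_prime_orderOf (ho ▸ hp)
  rcases pi_of_cent_sigma hG maxM hs hy1 hz z1 (piElt_iff.2 (ho ▸ (piNat_prime hp).2
    fun h => Set.disjoint_left.1 hdisj h sp)) with h | h
  · exact z1 (e _ (FM.2 ▸ h.1))
  · exact z1 (e _ (t2 ▸ h.1))

/-- In types I and II a complement to `M_F` is a Hall `(σ ∪ κ)'`-subgroup. -/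
theorem hall_of_typeI_II_compl
    (hU : (Cfsg.Agent.IsOfTypeI M ∧ IsComplIn (fittingHallOf M) U M) ∨
      (IsOfTypeII M ∧ IsComplIn (fittingHallOf M) U ⁅M, M⁆)) :
    IsPiHallOf (sigma M ∪ kappa M)ᶜ U M ∧ fittingHallOf M = sigmaCore M := by
  obtain ⟨V, K, hc⟩ := kappa_witness hG maxM
  have nF := (H68.Fcore_normal M).norm
  rcases hU with ⟨h, hU⟩ | ⟨h, hU⟩
  · have FM := (H71.typeI_iff_FType hG maxM).1 h
    exact ⟨hall_of_card_eq hc.hallU hU.2.1 ((isSdp_of_isComplIn hU (hU.2.1.trans nF)).card_right_eq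
      (H71.Ftype_sdp hG FM hc)), notP1type_Fcore hG (Or.inl FM)⟩
  · have P2M := (H71.typeII_iff_P2Type hG maxM).1 h
    have sUM := hU.2.1.trans (derived_normalIn M).le
    exact ⟨hall_of_card_eq hc.hallU sUM ((isSdp_of_isComplIn hU (sUM.trans nF)).card_right_eq
      (H71.P2type_sdp hG P2M hc)), notP1type_Fcore hG (Or.inr P2M)⟩

theorem typeA_diff_typeA1 (h : KappaCompl M U K) :
    typeA M \ typeA1 M = sigmaA M U \ (sigmaCore M : Set G) := by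
  ext a
  rw [Set.mem_sdiff, Set.mem_sdiff, mem_typeA_iff hG maxM, mem_typeA1_iff hG maxM,
    mem_sigmaA_iff hG maxM h, SetLike.mem_coe]
  exact ⟨fun ⟨⟨h1, h2, h3⟩, h4⟩ => ⟨⟨h1, h3⟩, fun h5 => h4 ⟨h5, h2⟩⟩,
    fun ⟨⟨h1, h3⟩, h4⟩ => ⟨⟨h1, fun e => h4 (e ▸ one_mem _), h3⟩, fun h5 => h4 h5.1⟩⟩

end

/-- Row S1390 with the corrected type I. -/
theorem FTtypeI_II {G : Type*} [Group G] [Finite G] (hG : IsMinSimpleOddOrder G)
    (M : Subgroup G) (hM : IsCoatom M) (U : Subgroup G)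
    (hU : (Cfsg.Agent.IsOfTypeI M ∧ Cfsg.IsComplIn (Cfsg.fittingHallOf M) U M) ∨ (IsOfTypeII M ∧ Cfsg.IsComplIn (Cfsg.fittingHallOf M) U ⁅M, M⁆)) :
    (∀ (p : ℕ), p.Prime → ∀ P : Sylow p U, IsMulCommutative (P : Subgroup U) ∧ Cfsg.PRankLE p 2 (P : Subgroup U)) ∧
      (∀ X : Set G, X ⊆ (U : Set G) \ {1} → X.Nonempty → Cfsg.fittingHallOf M ⊓ Subgroup.centralizer X ≠ ⊥ →
        Subgroup.centralizer X ≤ M ∧ ∀ L : Subgroup G, IsCoatom L → Subgroup.centralizer X ≤ L → L = M) ∧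
      Cfsg.IsTISubset (typeA M \ typeA1 M) := by
  obtain ⟨hallU, hF⟩ := hall_of_typeI_II_compl hG hM hU
  obtain ⟨K, hc⟩ := ex_kappa_compl_of_hallU hG hM hallU
  refine ⟨fun p hp P => ?_, fun X hX ⟨x, hx⟩ hne => ?_, ?_⟩
  · have : Fact p.Prime := ⟨hp⟩
    obtain ⟨h1, h2⟩ := BGsummaryB1 hG hM hallU (syl_map_sylow P)
    exact sylow_comm_rank_of_map P h1 h2
  · rw [← centralizer_closure] at hne ⊢
    exact ((kappa_structure hG hM hc).2.2.1 (closure X)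
      ((closure_le _).2 (hX.trans Set.sdiff_subset))
      (ne_bot_of_mem (subset_closure hx) (hX hx).2) (hF ▸ hne)).1.2
  · rw [typeA_diff_typeA1 hG hM hc]
    exact BGsummaryB5 hG hM hc

/-- Row S1391 with the corrected type I. -/
theorem BGsummaryII {G : Type*} [Group G] [Finite G] (hG : IsMinSimpleOddOrder G)
    (M : Subgroup G) (hM : IsCoatom M) (X : Set G) (hX : X = typeA M ∨ X = typeA0 M) :
    (∀ x ∈ X, ∀ g : G, g * x * g⁻¹ ∈ X → ∃ m ∈ M, m * x * m⁻¹ = g * x * g⁻¹) ∧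
      (∀ x ∈ X, ¬ Subgroup.centralizer ({x} : Set G) ≤ M → x ∈ typeA1 M ∧ ∃! L : Subgroup G, IsCoatom L ∧ Subgroup.centralizer ({x} : Set G) ≤ L) ∧
      ∀ x ∈ X, ¬ Subgroup.centralizer ({x} : Set G) ≤ M → ∀ L : Subgroup G, IsCoatom L → Subgroup.centralizer ({x} : Set G) ≤ L →
        Cfsg.IsComplIn (Cfsg.fittingHallOf L) (M ⊓ L) L ∧
        Subgroup.centralizer ({x} : Set G) ≤ Subgroup.normalizer ((Cfsg.fittingHallOf L ⊓ Subgroup.centralizer ({x} : Set G) : Subgroup G) : Set G) ∧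
        Cfsg.IsComplIn (Cfsg.fittingHallOf L ⊓ Subgroup.centralizer ({x} : Set G)) (M ⊓ Subgroup.centralizer ({x} : Set G)) (Subgroup.centralizer ({x} : Set G)) ∧
        (∀ y ∈ X, (Nat.card (Cfsg.fittingHallOf L)).Coprime (Nat.card ↥(M ⊓ Subgroup.centralizer ({y} : Set G)))) ∧
        (x ∈ typeA L ∧ x ∉ typeA1 L) ∧
        (Cfsg.Agent.IsOfTypeI L ∨ IsOfTypeII L) ∧
        (IsOfTypeII L → ∃ E : Subgroup ↥M, Cfsg.IsFrobeniusComplement E ∧ Cfsg.frobeniusKernel E = ((Cfsg.fittingHall ↥M : Subgroup ↥M) : Set ↥M)) := by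
  have sX : X ⊆ typeA0 M := by
    rcases hX with rfl | rfl
    exacts [Set.subset_union_left, le_rfl]
  refine ⟨fun x hx g hg => typeA0_tame hG hM (sX hx) (sX hg), fun x hx hC => ?_,
    fun x hx hC L hL hxL => ?_⟩
  · obtain ⟨hs, h1⟩ := typeA0_not_cent1_le hG hM (sX hx) hC
    obtain ⟨N, hN⟩ := FT_signalizer_base_exists hG ⟨hM, hs⟩ h1 hC
    exact ⟨(mem_typeA1_iff hG hM).2 ⟨hs, h1⟩, N, ⟨hN.1.max, hN.1.le⟩,
      fun L hL => hN.1.eq hL.1 hL.2⟩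
  · obtain ⟨hs, h1⟩ := typeA0_not_cent1_le hG hM (sX hx) hC
    obtain ⟨hb, tL, hF, h2, h3, h4, h5, -⟩ := BGsummaryD4 hG hM hs h1 hC hL hxL
    rw [hF]
    refine ⟨h3.isComplIn, h2.le_norm, h2.isComplIn,
      fun y hy => coprime_signalizer_base hG hM hs h1 hC hL hxL (sX hy),
      ⟨(mem_typeA_iff hG hL).2 ⟨h4, h1, h5⟩, fun h => hb.2 ((mem_typeA1_iff hG hL).1 h).1⟩,
      tL.imp (H71.typeI_of_FType hG) (H71.typeII_iff_P2Type hG hL).2, fun h => ?_⟩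
    obtain ⟨FM, -, E, -, -, hE⟩ := nonFtype_signalizer_base hG hM hs h1 hC hL hxL
      fun h' => h'.not_ptype ((H71.typeII_iff_P2Type hG hL).1 h).ptype
    refine ⟨_, hE.isFrobeniusComplement, ?_⟩
    rw [frobeniusKernel_eq hE, ← notP1type_Fcore hG (Or.inl FM), H68.Fcore_subgroupOf]

end Cfsg.Agent.H88.SZ.H67
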