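import Cfsg.Agent.H67.MinSimple
import Cfsg.Agent.H66.BG10Defs
import Cfsg.Agent.H68.PF8Defs

/-!
Suzuki's version of the Feit-Thompson-Bender-Glauberman analysis: `ϖ` is a set of odd primes closed
under adjacency in the prime graph of the simple group `G`, and the normalizer of every nontrivial
`ϖ`-subgroup is solvable of odd order.  The names of the odd-order files are redefined in this
namespace: `Pr H` replaces "`H` is proper" (`H` normalizes a nontrivial `ϖ`-subgroup),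
`IsCoatom M` says that `M` is maximal with `Pr M`, and `sigma M` only contains primes of `ϖ`.
-/

set_option autoImplicit false

namespace Cfsg.Agent.H88.SZ

open Cfsg Cfsg.Agent.H63

universe u

/-- The set of primes `ϖ`. -/
class Om where
  w : Set ℕ

@[inherit_doc] scoped notation "ϖ" => Om.w

namespace H2
end H2
namespace H3
end H3
namespace H13
end H13
namespace H14
end H14
namespace H63
end H63
namespace H64
end H64
namespace H66
namespace Aux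
end Aux
end H66
namespace H67
end H67
namespace H68
end H68
namespace H69
end H69
namespace H71
end H71
namespace H72
end H72

variable [Om] {G : Type u} [Group G]

/-- `H` normalizes a nontrivial `ϖ`-subgroup. -/
def Pr (H : Subgroup G) : Prop := ∃ X : Subgroup G, X ≠ ⊥ ∧ IsPiSubgroup ϖ X ∧ H ≤ N[X]

/-- `M` is a maximal `ϖ`-local subgroup. -/
def IsCoatom (M : Subgroup G) : Prop := Pr M ∧ ∀ H : Subgroup G, Pr H → M ≤ H → H = M

/-- The standing hypothesis. -/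
structure IsMinSimpleOddOrder (G : Type u) [Group G] : Prop where
  fin : Finite G
  simple : IsSimpleGroup G
  nonab : ¬ IsMulCommutative G
  two : 2 ∉ ϖ
  iso : ∀ x y : G, Commute x y → (orderOf x).Prime → (orderOf y).Prime → orderOf x ∈ ϖ →
    orderOf y ∈ ϖ
  odd : ∀ X : Subgroup G, X ≠ ⊥ → IsPiSubgroup ϖ X → Odd (Nat.card ↥N[X])
  sol : ∀ X : Subgroup G, X ≠ ⊥ → IsPiSubgroup ϖ X → Group.IsSolvable ↥N[X]
  ex : ∃ p ∈ ϖ, p.Prime ∧ p ∣ Nat.card G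

def InUniqueMaximal (X : Subgroup G) : Prop := ∃! M : Subgroup G, IsCoatom M ∧ X ≤ M

def UniqMax (H M : Subgroup G) : Prop :=
  IsCoatom M ∧ H ≤ M ∧ ∀ L : Subgroup G, IsCoatom L → H ≤ L → L = M

def IsSCNp (n p : ℕ) (A : Subgroup G) : Prop :=
  p ∈ ϖ ∧ ∃ P : Subgroup G, IsSyl p P ⊤ ∧ IsSCNn n P A

def sigma (M : Subgroup G) : Set ℕ :=
  {p | p.Prime ∧ p ∣ Nat.card M ∧
    (∃ P : Sylow p M, N[(P : Subgroup M).map M.subtype] ≤ M) ∧ p ∈ ϖ}

def sigmaCore (M : Subgroup G) : Subgroup G := (piCore (sigma M) M).map M.subtype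

theorem H66.sigmaCore_def (M : Subgroup G) : sigmaCore M = O[sigma M](M) := rfl

def kappa (M : Subgroup G) : Set ℕ :=
  {p | p.Prime ∧ p ∣ Nat.card M ∧ p ∉ sigma M ∧
    ∀ P : Sylow p M, IsCyclic P ∧
      ∃ x : M, x ∈ (P : Subgroup M) ∧ x ≠ 1 ∧ ∃ y ∈ sigmaCore M, y ≠ 1 ∧ (x : G) * y = y * x}

structure IsSigmaDecomposition (M K U : Subgroup G) : Prop where
  cyclic : IsCyclic K
  hall : IsPiHallOf (kappa M) K M
  compl : IsComplIn U (K ⊔ sigmaCore M) M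
  normal : K ≤ Subgroup.normalizer (U : Set G)

def sigmaHat (M : Subgroup G) : Set G :=
  {a | a ∈ M ∧ ∃ y ∈ sigmaCore M, y ≠ 1 ∧ a * y = y * a}

def sigmaA (M U : Subgroup G) : Set G :=
  sigmaHat M ∩ (↑(U ⊔ sigmaCore M) : Set G)

def tau1 (M : Subgroup G) : Set ℕ :=
  {p | p.Prime ∧ p ∉ sigma M ∧ p ∣ Nat.card M ∧ ¬ p ∣ Nat.card ↥⁅M, M⁆ ∧ PRankLE p 1 M}

def tau2 (M : Subgroup G) : Set ℕ :=
  {p | p.Prime ∧ p ∉ sigma M ∧ PRankLE p 2 M ∧ ¬ PRankLE p 1 M}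

def tau3 (M : Subgroup G) : Set ℕ :=
  {p | p.Prime ∧ p ∉ sigma M ∧ p ∣ Nat.card ↥⁅M, M⁆ ∧ PRankLE p 1 M}

/-- The condition separating types III, IV from type II: `U` is a `ϖ`-group and `N(U) ≤ M`. -/
def NU (U M : Subgroup G) : Prop := N[U] ≤ M ∧ IsPiSubgroup ϖ U

def IsOfTypeII (M : Subgroup G) : Prop :=
  ∃ W₁ U W₂ : Subgroup G, IsTypePWith M W₁ U W₂ ∧ U ≠ ⊥ ∧ (Nat.card W₁).Prime ∧
    IsTISubset (fittingOf M : Set G) ∧ IsMulCommutative U ∧ ¬ NU U M ∧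
    IsOfTypeF ↥⁅M, M⁆ ∧ fittingHallOf ⁅M, M⁆ = fittingHallOf M

def IsOfTypeIII (M : Subgroup G) : Prop :=
  ∃ W₁ U W₂ : Subgroup G, IsTypePWith M W₁ U W₂ ∧ U ≠ ⊥ ∧ (Nat.card W₁).Prime ∧
    IsTISubset (fittingOf M : Set G) ∧ IsMulCommutative U ∧ NU U M

def IsOfTypeIV (M : Subgroup G) : Prop :=
  ∃ W₁ U W₂ : Subgroup G, IsTypePWith M W₁ U W₂ ∧ U ≠ ⊥ ∧ (Nat.card W₁).Prime ∧
    IsTISubset (fittingOf M : Set G) ∧ ¬ IsMulCommutative U ∧ NU U M

open scoped Classical in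
noncomputable def typeCore (M : Subgroup G) : Subgroup G :=
  if IsOfTypeIII M ∨ IsOfTypeIV M then ⁅M, M⁆ else fittingHallOf M

noncomputable def typeA1 (M : Subgroup G) : Set G := (↑(typeCore M) : Set G) \ {1}

open scoped Classical in
noncomputable def typeA (M : Subgroup G) : Set G :=
  if Cfsg.Agent.IsOfTypeI M then
    {a | a ∈ M ∧ a ≠ 1 ∧ ∃ x ∈ fittingHallOf M, x ≠ 1 ∧ a * x = x * a}
  else
    {a | a ∈ ⁅M, M⁆ ∧ a ≠ 1 ∧ ∃ x ∈ typeCore M, x ≠ 1 ∧ a * x = x * a}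

noncomputable def typeA0 (M : Subgroup G) : Set G :=
  typeA M ∪ {v | ¬ Cfsg.Agent.IsOfTypeI M ∧ ∃ W₁ U W₂ : Subgroup G, IsTypePWith M W₁ U W₂ ∧
    ∃ m ∈ M, ∃ w ∈ W₁ ⊔ W₂, w ∉ W₁ ∧ w ∉ W₂ ∧ v = m * w * m⁻¹}

open scoped Classical in
noncomputable def supportR (M : Subgroup G) (x : G) : Subgroup G :=
  if h : ¬ Subgroup.centralizer ({x} : Set G) ≤ M ∧
      ∃! L : Subgroup G, IsCoatom L ∧ Subgroup.centralizer ({x} : Set G) ≤ L then
    fittingHallOf (Classical.choose h.2.exists) ⊓ Subgroup.centralizer ({x} : Set G)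
  else ⊥

def Supports (L M : Subgroup G) : Prop :=
  IsCoatom L ∧ ∃ x ∈ typeA0 M, ¬ Subgroup.centralizer ({x} : Set G) ≤ M ∧
    Subgroup.centralizer ({x} : Set G) ≤ L

noncomputable def tildeOf (M : Subgroup G) (A : Set G) : Set G :=
  {g | ∃ a ∈ A, ∃ r ∈ supportR M a, ∃ y : G, g = y * (a * r) * y⁻¹}

namespace H66

/-- Hypothesis 11.1 of Bender-Glauberman. -/
structure ExceptionalMax (p : ℕ) (M A₀ A : Subgroup G) : Prop where
  not_sigma : p ∉ sigma M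
  elemA : ElemOf p 2 A M
  elemA₀ : ElemOf p 1 A₀ A
  norm_le : N[A₀] ≤ M

structure SigmaCompl (M E E₁ E₂ E₃ : Subgroup G) : Prop where
  hallE : IsPiHallOf (sigma M)ᶜ E M
  hallE₁ : IsPiHallOf (tau1 M) E₁ E
  hallE₂ : IsPiHallOf (tau2 M) E₂ E
  hallE₃ : IsPiHallOf (tau3 M) E₃ E
  mul21 : IsMul E₂ E₁ (E₂ ⊔ E₁)

end H66

export H66 (ExceptionalMax SigmaCompl sigmaCore_def)

namespace H63

structure KappaCompl (M U K : Subgroup G) : Prop where
  hallK : IsPiHallOf (kappa M) K M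
  hallU : IsPiHallOf (sigma M ∪ kappa M)ᶜ U M
  norm : K ≤ N[U]

def PType (M : Subgroup G) : Prop := IsCoatom M ∧ (kappa M).Nonempty

def FType (M : Subgroup G) : Prop := IsCoatom M ∧ kappa M = ∅

def P1Type (M : Subgroup G) : Prop := PType M ∧ IsPiSubgroup (sigma M ∪ kappa M) M

def P2Type (M : Subgroup G) : Prop := PType M ∧ ¬ IsPiSubgroup (sigma M ∪ kappa M) M

def sigmaDecomp (x : G) : Set G :=
  {y | y ≠ 1 ∧ ∃ M : Subgroup G, IsCoatom M ∧ y = constt (sigma M) x}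

def SigMax (x : G) (M : Subgroup G) : Prop := IsCoatom M ∧ x ∈ sigmaCore M

def Ell1 (x : G) : Prop := x ≠ 1 ∧ ∃ M : Subgroup G, SigMax x M

def SigBase (x : G) (N : Subgroup G) : Prop := UniqMax C1[x] N ∧ x ∉ sigmaCore N

def FTsig (x : G) : Subgroup G := ⨆ (N : Subgroup G) (_ : SigBase x N), sigmaCore N ⊓ C1[x]

def sigmaCover (x : G) : Set G := {g | x⁻¹ * g ∈ FTsig x}

def sigmaSupport (M : Subgroup G) : Set G := {g | ∃ x ∈ sigmaCore M, x ≠ 1 ∧ g ∈ sigmaCover x}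

end H63

namespace H68

open Cfsg.Agent.H68 Cfsg.Agent.H70

structure OfTypeII (M W₁ U W₂ : Subgroup G) : Prop where
  base : OfTypeII_IV M W₁ U W₂
  abelian : IsMulCommutative U
  not_norm_le : ¬ NU U M
  typeF : OfTypeF ⁅M, M⁆ U
  core_eq : fittingHallOf ⁅M, M⁆ = fittingHallOf M

structure OfTypeIII (M W₁ U W₂ : Subgroup G) : Prop where
  base : OfTypeII_IV M W₁ U W₂
  abelian : IsMulCommutative U
  norm_le : NU U M

structure OfTypeIV (M W₁ U W₂ : Subgroup G) : Prop where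
  base : OfTypeII_IV M W₁ U W₂
  not_abelian : ¬ IsMulCommutative U
  norm_le : NU U M

open scoped Classical in
noncomputable def FTtype (M : Subgroup G) : ℕ :=
  if Cfsg.Agent.IsOfTypeI M then 1 else if IsOfTypeII M then 2 else if IsOfTypeIII M then 3
  else if IsOfTypeIV M then 4 else if IsOfTypeV M then 5 else 0

def AllType1 (G : Type u) [Group G] : Prop := ∀ M : Subgroup G, IsCoatom M → FTtype M = 1

structure TypePPair (S T W₁ W₂ : Subgroup G) : Prop where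
  cti : IsSelfNormalizingCyclic W₁ W₂
  maxS : IsCoatom S
  maxT : IsCoatom T
  sdpS : IsSdp ⁅S, S⁆ W₁ S
  sdpT : IsSdp ⁅T, T⁆ W₂ T
  inf : S ⊓ T = W₁ ⊔ W₂
  type2 : FTtype S = 2 ∨ FTtype T = 2
  neS : FTtype S ≠ 1
  neT : FTtype T ≠ 1
  conj : ∀ M : Subgroup G, IsCoatom M → FTtype M ≠ 1 → Conj S M ∨ Conj T M

noncomputable def ftDade0 (M : Subgroup G) : (G → ℂ) →ₗ[ℂ] (G → ℂ) := dade (typeA0 M) M (supportR M)

noncomputable def ftDade (M : Subgroup G) : (G → ℂ) →ₗ[ℂ] (G → ℂ) := dade (typeA M) M (supportR M)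

noncomputable def ftDade1 (M : Subgroup G) : (G → ℂ) →ₗ[ℂ] (G → ℂ) := dade (typeA1 M) M (supportR M)

noncomputable def ftDadeF (M : Subgroup G) : (G → ℂ) →ₗ[ℂ] (G → ℂ) :=
  dade (fittingHallOf M)^# M (supportR M)

end H68

export H68 (OfTypeII OfTypeIII OfTypeIV FTtype AllType1 TypePPair ftDade0 ftDade ftDade1 ftDadeF)

end Cfsg.Agent.H88.SZ
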