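import Cfsg.Agent.H88.ZPF13c
import Cfsg.Agent.S0205

/-!
Odd components of the prime graph of a simple group (Suzuki): either there is an isolated
nilpotent Hall subgroup, or the component consists of the two primes of a type `P` pair.
-/

set_option autoImplicit false
set_option linter.unusedSectionVars false
set_option linter.unusedVariables false

namespace Cfsg.Agent.H88.SZ

open Cfsg Cfsg.Agent.H63 Cfsg.Agent.H67 Cfsg.Agent.H68
open Cfsg.Agent.H88.SZ.H63 Cfsg.Agent.H88.SZ.H67 Cfsg.Agent.H88.SZ.H68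

universe u

variable [Om] {G : Type u} [Group G] [Finite G]

theorem local_main (hG : IsMinSimpleOddOrder G) :
    (∃ H : Subgroup G, Group.IsNilpotent H ∧ H ≠ ⊥ ∧ IsPiSubgroup ϖ H ∧
      ∀ a ∈ H, a ≠ 1 → C1[a] ≤ H) ∨
    ∃ S T W₁ U V W₂ : Subgroup G, H72.TP S W₁ U W₂ ∧ H72.TP T W₂ V W₁ := by
  rcases FTtypeP_pair_cases hG with h | ⟨S, T, W₁, W₂, h⟩
  · obtain ⟨M, hM⟩ := any_mmax hG
    exact Or.inl ⟨_, Fcore_nil M, mmax_Fcore_neq1 hG hM, H14.w_Fcore hG hM,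
      fun a ha h1 => H14.allType1_isolated hG h hM ha h1⟩
  · obtain ⟨U, hU⟩ := typeP_pairW hG h
    have hS : H72.TP S W₁ U W₂ := ⟨hG, h.maxS, hU⟩
    obtain ⟨T', V, hT⟩ := hS.exists_pair
    exact Or.inr ⟨S, T', W₁, U, V, W₂, hS, hT⟩

end Cfsg.Agent.H88.SZ

namespace Cfsg.Agent.H88.PG

open Cfsg Cfsg.Agent.H63 Cfsg.Agent.H67 Subgroup

universe u

/-- `A` is closed under adjacency in the prime graph. -/
def Closed (G : Type*) [Group G] (A : Set ℕ) : Prop :=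
  ∀ x y : G, Commute x y → (orderOf x).Prime → (orderOf y).Prime → orderOf x ∈ A → orderOf y ∈ A

/-- The primes of `D` dividing `|G|` are connected in the prime graph. -/
def Conn (G : Type*) [Group G] (D : Set ℕ) : Prop :=
  ∀ A : Set ℕ, Closed G A → ∀ p ∈ D, ∀ q ∈ D, p.Prime → q.Prime → p ∣ Nat.card G →
    q ∣ Nat.card G → p ∈ A → q ∈ A

def Adj (G : Type*) [Group G] (p q : ℕ) : Prop :=
  ∃ x y : G, orderOf x = p ∧ orderOf y = q ∧ Commute x y

def Clique (G : Type*) [Group G] (D : Set ℕ) : Prop :=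
  ∀ p ∈ D, ∀ q ∈ D, p.Prime → q.Prime → p ∣ Nat.card G → q ∣ Nat.card G → p ≠ q → Adj G p q

variable {G : Type u} [Group G] [Finite G] {D : Set ℕ}

theorem Closed.piElt (h : Closed G D) {x y : G} (hx : x ≠ 1) (hw : PiElt D x) (hc : Commute x y) :
    PiElt D y := by
  obtain ⟨p, hp, hd⟩ := exists_prime_dvd_orderOf hx
  intro q hq hqd
  have e1 := orderOf_pow_orderOf_div (orderOf_pos x).ne' hd
  have e2 := orderOf_pow_orderOf_div (orderOf_pos y).ne' hqd
  have := h _ _ (hc.pow_pow (orderOf x / p) (orderOf y / q)) (by rwa [e1]) (by rwa [e2])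
    (by rw [e1]; exact hw p hp hd)
  rwa [e2] at this

theorem Closed.cent1 (h : Closed G D) {x : G} (hx : x ≠ 1) (hw : PiElt D x) :
    IsPiSubgroup D C1[x] :=
  isPi_iff_forall_piElt.2 fun _ hy => h.piElt hx hw (mem_centralizer_iff.1 hy x rfl)

theorem isolated_hall {H : Subgroup G} (h : ∀ a ∈ H, a ≠ 1 → C1[a] ≤ H) : IsHallOf H ⊤ := by
  refine ⟨le_top, coprime_iff_no_common_prime.2 fun p hp hpK hpM => ?_⟩
  have := Fact.mk hp
  obtain ⟨a, ha, ho⟩ := exists_orderOf_eq_prime hp hpK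
  have ha1 : a ≠ 1 := by rintro rfl; exact hp.one_lt.ne (by simpa using ho)
  obtain ⟨P, hP, haP⟩ := exists_syl_ge (p := p) (le_top : zpowers a ≤ ⊤)
    (isPGroup_of_card_eq_prime (by rw [Nat.card_zpowers, ho]))
  obtain ⟨z, hz, hz1⟩ := exists_ne_one_of_ne_bot (center_ne_bot_of_isPGroup hp (syl_isPGroup hP)
    (ne_bot_of_mem (haP (mem_zpowers a)) ha1))
  have hzH : z ∈ H := h a ha ha1 (centralizer_le_centralizer_singleton (haP (mem_zpowers a)) hz.2)
  have : P ≤ H := (mem_centralizer_iff_le.1 hz.2).trans (h z hzH hz1)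
  exact syl_not_dvd hP (hpM.trans (relIndex_dvd_of_le_left ⊤ this))

theorem isolated_closed {H : Subgroup G} (h : ∀ a ∈ H, a ≠ 1 → C1[a] ≤ H) :
    Closed G {p | p ∣ Nat.card H} := by
  intro x y hc hx hy hxH
  have := Fact.mk hx
  obtain ⟨P, hP⟩ := exists_syl (orderOf x) H
  obtain ⟨g, -, hg⟩ := exists_cj_le_syl (syl_of_hall (isolated_hall h).hall ⟨hx, hxH⟩ hP)
    (le_top : zpowers x ≤ ⊤) (isPGroup_of_card_eq_prime (Nat.card_zpowers x))
  have h1 : g * x * g⁻¹ ∈ H := hP.1 (hg (conj_mem_cj (mem_zpowers x)))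
  have h2 : g * x * g⁻¹ ≠ 1 := fun e => by
    rw [← orderOf_conj' g x, e, orderOf_one] at hx
    exact Nat.not_prime_one hx
  have h3 : g * y * g⁻¹ ∈ H := h _ h1 h2 (by
    rw [← cj_centralizer_singleton]
    exact conj_mem_cj (mem_centralizer_singleton_iff.2 hc.eq.symm))
  have := orderOf_dvd_natCard H h3
  rwa [orderOf_conj'] at this

theorem adj_of_nil {H : Subgroup G} (hH : Group.IsNilpotent H) {p q : ℕ} (hp : p.Prime)
    (hq : q.Prime) (hpH : p ∣ Nat.card H) (hqH : q ∣ Nat.card H) (hne : p ≠ q) : Adj G p q := by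
  obtain ⟨x, hx, ex⟩ := exists_orderOf_eq_prime hp hpH
  obtain ⟨y, hy, ey⟩ := exists_orderOf_eq_prime hq hqH
  have := le_centralizer_of_isNilpotent_of_coprime hH (zpowers_le.2 hx) (zpowers_le.2 hy) (by
    rw [Nat.card_zpowers, Nat.card_zpowers, ex, ey]; exact (Nat.coprime_primes hp hq).2 hne)
  exact ⟨x, y, ex, ey, (mem_centralizer_iff.1 (this (mem_zpowers x)) y (mem_zpowers y)).symm⟩

/-- The primes of an isolated `D`-subgroup are those of `D`. -/
theorem dvd_of_isolated (hc : Conn G D) {H : Subgroup G} (hne : H ≠ ⊥) (hD : IsPiSubgroup D H)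
    (h : ∀ a ∈ H, a ≠ 1 → C1[a] ≤ H) {q : ℕ} (hqD : q ∈ D) (hq : q.Prime) (hqG : q ∣ Nat.card G) :
    q ∣ Nat.card H := by
  obtain ⟨p, hp, hd⟩ := Cfsg.Agent.H67.exists_prime_dvd_card hne
  exact hc _ (isolated_closed h) p (hD p hp hd) q hqD hp hq (hd.trans (card_subgroup_dvd_card H))
    hqG hd

theorem clique_of_isolated (hc : Conn G D) {H : Subgroup G} (hH : Group.IsNilpotent H)
    (hne : H ≠ ⊥) (hD : IsPiSubgroup D H) (h : ∀ a ∈ H, a ≠ 1 → C1[a] ≤ H) : Clique G D :=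
  fun p hpD q hqD hp hq hpG hqG hpq => adj_of_nil hH hp hq (dvd_of_isolated hc hne hD h hpD hp hpG)
    (dvd_of_isolated hc hne hD h hqD hq hqG) hpq

theorem inverts (hc : Closed G D) (h2 : 2 ∉ D) {t : G} (ht : orderOf t = 2) {Y : Subgroup G}
    (hY : IsPiSubgroup D Y) (hn : t ∈ N[Y]) :
    (∀ y ∈ Y, t * y * t⁻¹ = y⁻¹) ∧ IsMulCommutative Y := by
  let φ : MulAut Y := Y.normalizerMonoidHom ⟨t, hn⟩
  have eφ : ∀ y : Y, ((φ y : Y) : G) = t * y * t⁻¹ := fun _ => rfl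
  have tt : t * t = 1 := by rw [← pow_two, ← ht, pow_orderOf_eq_one]
  have hf : MonoidHom.FixedPointFree φ := fun y e => by
    by_contra hy
    have h1 : Commute (y : G) t := by
      have := congrArg Subtype.val e
      rw [eφ, mul_inv_eq_iff_eq_mul] at this
      exact this.symm
    exact h2 (hc.piElt (fun e => hy (Subtype.ext e)) (piElt_of_mem hY y.2) h1 2 Nat.prime_two
      ht.symm.dvd)
  have hi : Function.Involutive φ := fun y => Subtype.ext (by
    rw [eφ, eφ]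
    calc t * (t * y * t⁻¹) * t⁻¹ = (t * t) * y * (t * t)⁻¹ := by group
      _ = y := by rw [tt]; group)
  refine ⟨fun y hy => ?_, ⟨⟨fun a b => hf.commute_all_of_involutive hi a b⟩⟩⟩
  have := congrFun (hf.coe_eq_inv_of_involutive hi) ⟨y, hy⟩
  exact (eφ ⟨y, hy⟩).symm.trans (congrArg Subtype.val this)

/-- A `D`-subgroup normalized by an involution gives an isolated abelian subgroup. -/
theorem isolated_of_even (hc : Closed G D) (h2 : 2 ∉ D) {X : Subgroup G} (hX : X ≠ ⊥)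
    (hD : IsPiSubgroup D X) (he : ¬ Odd (Nat.card ↥N[X])) :
    ∃ H : Subgroup G, Group.IsNilpotent H ∧ H ≠ ⊥ ∧ IsPiSubgroup D H ∧
      ∀ a ∈ H, a ≠ 1 → C1[a] ≤ H := by
  obtain ⟨t, htN, ht⟩ := exists_orderOf_eq_prime Nat.prime_two (Nat.not_odd_iff_even.1 he).two_dvd
  have key : ∀ a : G, a ≠ 1 → PiElt D a → t * a * t⁻¹ = a⁻¹ →
      (∀ y ∈ C1[a], t * y * t⁻¹ = y⁻¹) ∧ IsMulCommutative C1[a] := fun a ha hw e =>
    inverts hc h2 ht (hc.cent1 ha hw) (mem_normalizer_of_cj_le (by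
      rw [cj_centralizer_singleton, e]
      intro y hy
      rw [mem_centralizer_singleton_iff] at hy ⊢
      exact Commute.inv_right_iff.1 (show Commute y a⁻¹ from hy)))
  obtain ⟨x, hx, hx1⟩ := exists_ne_one_of_ne_bot hX
  have hw := piElt_of_mem hD hx
  obtain ⟨k1, k2⟩ := key x hx1 hw ((inverts hc h2 ht hD htN).1 x hx)
  refine ⟨C1[x], isNilpotent_of_isMulCommutative k2,
    ne_bot_of_mem (mem_centralizer_singleton_self x) hx1, hc.cent1 hx1 hw, fun a ha ha1 y hy => ?_⟩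
  have k3 := (key a ha1 (piElt_of_mem (hc.cent1 hx1 hw) ha) (k1 a ha)).2
  exact mem_centralizer_singleton_iff.2
    (comm_of_isMulCommutative k3 hy (mem_centralizer_singleton_comm.1 ha))

/-- The simple case. -/
theorem simple_cases [IsSimpleGroup G] (hna : ¬ IsMulCommutative G) (hc : Closed G D) (h2 : 2 ∉ D)
    (hex : ∃ p ∈ D, p.Prime ∧ p ∣ Nat.card G) :
    (∃ H : Subgroup G, Group.IsNilpotent H ∧ H ≠ ⊥ ∧ IsPiSubgroup D H ∧
      ∀ a ∈ H, a ≠ 1 → C1[a] ≤ H) ∨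
    ∃ S T W₁ U V W₂ : Subgroup G, @SZ.H72.TP ⟨D⟩ G _ S W₁ U W₂ ∧ @SZ.H72.TP ⟨D⟩ G _ T W₂ V W₁ := by
  by_cases h : ∀ X : Subgroup G, X ≠ ⊥ → IsPiSubgroup D X → Odd (Nat.card ↥N[X])
  · letI : SZ.Om := ⟨D⟩
    exact SZ.local_main ⟨inferInstance, inferInstance, hna, h2, hc, h,
      fun X h1 h3 => S0205.result (h X h1 h3), hex⟩
  · push Not at h
    obtain ⟨X, h1, h3, h4⟩ := h
    exact Or.inl (isolated_of_even hc h2 h1 h3 h4)

theorem simple_clique [IsSimpleGroup G] (hna : ¬ IsMulCommutative G) (hc : Closed G D) (h2 : 2 ∉ D)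
    (hco : Conn G D) : Clique G D := by
  intro p hpD q hqD hp hq hpG hqG hpq
  rcases simple_cases hna hc h2 ⟨p, hpD, hp, hpG⟩ with ⟨H, h1, h3, h4, h5⟩ | ⟨S, T, W₁, U, V, W₂, h, h'⟩
  · exact clique_of_isolated hco h1 h3 h4 h5 p hpD q hqD hp hq hpG hqG hpq
  letI : SZ.Om := ⟨D⟩
  have hA : Closed G {Nat.card W₂, Nat.card W₁} := by
    rintro x y hxy hx hy (e | e)
    · exact h.adj_p hxy e hy
    · exact (h'.adj_p hxy e hy).symm
  have hD : Nat.card W₂ ∈ D := SZ.H14.w_Fcore h.hG h.max _ h.primep (card_dvd_of_le' h.W2_le_P)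
  have key : ∀ s ∈ D, s.Prime → s ∣ Nat.card G → s ∣ Nat.card ↥(W₁ ⊔ W₂) := fun s h1 h3 h4 => by
    rw [h.cyc.card_W]
    rcases hco _ hA _ hD s h1 h.primep h3 (card_subgroup_dvd_card W₂) h4 (Or.inl rfl) with e | e
    · exact e ▸ Dvd.intro_left _ rfl
    · exact (show s = _ from e) ▸ Dvd.intro _ rfl
  exact adj_of_nil (isNilpotent_of_isMulCommutative (isMulCommutative_of_isCyclic h.cyc.snc.2.2.2.2.1))
    hp hq (key p hpD hp hpG) (key q hqD hq hqG) hpq

end Cfsg.Agent.H88.PG
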