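import Cfsg.Agent.H88.ZDefs
import Cfsg.Agent.H67.Sol
import Cfsg.Agent.H67.Rank
import Cfsg.Agent.H63.Constt

/-!
The `ϖ`-local version of `H67.MinSimple`.
-/

set_option autoImplicit false
set_option linter.unusedSectionVars false
set_option linter.unusedVariables false

namespace Cfsg.Agent.H88.SZ.H67

open Subgroup Cfsg Cfsg.Agent.H63 Cfsg.Agent.H67

variable [Om] {G : Type*} [Group G]

/-! ### `Pr` -/

theorem ne_top_mono {H K : Subgroup G} (h : Pr K) (hHK : H ≤ K) : Pr H :=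
  h.imp fun _ e => ⟨e.1, e.2.1, hHK.trans e.2.2⟩

theorem pr_of_le {H K : Subgroup G} (hHK : H ≤ K) (h : Pr K) : Pr H := ne_top_mono h hHK

theorem pr_norm {X : Subgroup G} (h : X ≠ ⊥) (hw : IsPiSubgroup ϖ X) : Pr N[X] :=
  ⟨X, h, hw, le_rfl⟩

theorem pr_of_norm {X H : Subgroup G} (h : X ≠ ⊥) (hw : IsPiSubgroup ϖ X) (hn : H ≤ N[X]) : Pr H :=
  ⟨X, h, hw, hn⟩

theorem pr_cent {X : Subgroup G} (h : X ≠ ⊥) (hw : IsPiSubgroup ϖ X) : Pr C[X] :=
  ⟨X, h, hw, centralizer_le_normalizer _⟩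

theorem pr_cent1 {x : G} (h : x ≠ 1) (hw : PiElt ϖ x) : Pr C1[x] := by
  rw [← centralizer_zpowers]
  exact pr_cent (ne_bot_of_mem (mem_zpowers x) h) (isPi_zpowers_iff.2 hw)

theorem pr_cj {H : Subgroup G} (h : Pr H) (g : G) : Pr (cj g H) := by
  obtain ⟨X, h1, h2, h3⟩ := h
  exact ⟨cj g X, mt cj_eq_bot_iff.1 h1, isPi_cj h2 g, cj_normalizer g X ▸ cj_mono h3⟩

theorem pr_cj_iff {H : Subgroup G} {g : G} : Pr (cj g H) ↔ Pr H :=
  ⟨fun h => by simpa only [cj_inv_cj] using pr_cj h g⁻¹, fun h => pr_cj h g⟩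

theorem pr_norm_of_core [Finite G] {H : Subgroup G} (h : O[ϖ](H) ≠ ⊥) : Pr N[H] :=
  ⟨_, h, isPi_piCoreOf _ _, normalizer_le_normalizer_piCoreOf _ _⟩

/-- A subgroup containing a nontrivial `ϖ`-subgroup that its normalizer normalizes. -/
theorem pr_norm_of_normal [Finite G] {H X : Subgroup G} (hX : X ≠ ⊥) (hw : IsPiSubgroup ϖ X)
    (h : X ⊴ H) : Pr N[H] :=
  pr_norm_of_core (ne_bot_mono hX (le_piCoreOf h hw))

theorem _root_.Cfsg.Agent.H88.SZ.IsCoatom.pr {M : Subgroup G} (h : IsCoatom M) : Pr M := h.1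

theorem isCoatom_cj {g : G} {M : Subgroup G} (h : IsCoatom M) : IsCoatom (cj g M) := by
  refine ⟨pr_cj h.1 g, fun H hH hle => ?_⟩
  rw [← h.2 (cj g⁻¹ H) (pr_cj hH _) (cj_le_iff_le_cj_inv.1 hle), cj_cj_inv]

theorem isCoatom_cj_iff {g : G} {M : Subgroup G} : IsCoatom (cj g M) ↔ IsCoatom M :=
  ⟨fun h => by simpa only [cj_inv_cj] using isCoatom_cj (g := g⁻¹) h, isCoatom_cj⟩

/-! ### Maximal subgroups, no hypothesis on the group -/

theorem mmax_exists [Finite G] {H : Subgroup G} (h : Pr H) : ∃ M, IsCoatom M ∧ H ≤ M := by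
  obtain ⟨K, h1, h2, h3⟩ := exists_maximal_ge Pr h
  exact ⟨K, ⟨h2, h3⟩, h1⟩

theorem mmax_proper {M : Subgroup G} (h : IsCoatom M) : Pr M := h.1

/-- mathcomp `mmax_max`. -/
theorem mmax_max {M H : Subgroup G} (h : IsCoatom M) (hH : Pr H) (hMH : M ≤ H) : H = M :=
  h.2 H hH hMH

theorem eq_mmax {M H : Subgroup G} (h : IsCoatom M) (hH : IsCoatom H) (hMH : M ≤ H) : M = H :=
  (mmax_max h hH.1 hMH).symm

theorem sub_mmax_proper {M H : Subgroup G} (h : IsCoatom M) (hH : H ≤ M) : Pr H :=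
  ne_top_mono h.1 hH

theorem le_mmax_of_sup_ne_top {M H : Subgroup G} (h : IsCoatom M) (hH : Pr (M ⊔ H)) : H ≤ M :=
  le_sup_right.trans (h.2 _ hH le_sup_left).le

theorem mmaxJ {M : Subgroup G} {g : G} : IsCoatom (cj g M) ↔ IsCoatom M := isCoatom_cj_iff

theorem _root_.Cfsg.Agent.H88.SZ.UniqMax.max {U M : Subgroup G} (h : UniqMax U M) : IsCoatom M := h.1

theorem _root_.Cfsg.Agent.H88.SZ.UniqMax.le {U M : Subgroup G} (h : UniqMax U M) : U ≤ M := h.2.1

/-- mathcomp `eq_uniq_mmax`. -/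
theorem _root_.Cfsg.Agent.H88.SZ.UniqMax.eq {U M H : Subgroup G} (h : UniqMax U M) (hH : IsCoatom H)
    (hU : U ≤ H) : H = M := h.2.2 H hH hU

theorem _root_.Cfsg.Agent.H88.SZ.UniqMax.inU {U M : Subgroup G} (h : UniqMax U M) :
    InUniqueMaximal U :=
  ⟨M, ⟨h.1, h.2.1⟩, fun L hL => h.2.2 L hL.1 hL.2⟩

theorem _root_.Cfsg.Agent.H88.SZ.UniqMax.proper {U M : Subgroup G} (h : UniqMax U M) : Pr U :=
  sub_mmax_proper h.1 h.2.1

theorem _root_.Cfsg.Agent.H88.SZ.UniqMax.unique {U M L : Subgroup G} (h : UniqMax U M)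
    (h' : UniqMax U L) : M = L := h'.eq h.max h.le

/-- mathcomp `uniq_mmaxP`. -/
theorem uniq_mmaxP {U : Subgroup G} : InUniqueMaximal U ↔ ∃ M, UniqMax U M :=
  ⟨fun ⟨M, hM, h⟩ => ⟨M, hM.1, hM.2, fun L h₁ h₂ => h L ⟨h₁, h₂⟩⟩, fun ⟨_, h⟩ => h.inU⟩

theorem exists_uniqMax {U : Subgroup G} (h : InUniqueMaximal U) : ∃ M, UniqMax U M :=
  uniq_mmaxP.1 h

theorem eq_uniq_mmax {U M H : Subgroup G} (h : UniqMax U M) (hH : IsCoatom H) (hU : U ≤ H) :
    H = M := h.eq hH hU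

/-- mathcomp `def_uniq_mmax`. -/
theorem def_uniq_mmax {U M : Subgroup G} (h : InUniqueMaximal U) (hM : IsCoatom M) (hU : U ≤ M) :
    UniqMax U M := by
  obtain ⟨L, hL⟩ := exists_uniqMax h
  rwa [hL.eq hM hU]

theorem uniqMax_iff {U M : Subgroup G} : UniqMax U M ↔ InUniqueMaximal U ∧ IsCoatom M ∧ U ≤ M :=
  ⟨fun h => ⟨h.inU, h.max, h.le⟩, fun h => def_uniq_mmax h.1 h.2.1 h.2.2⟩

theorem eq_of_inU {U M L : Subgroup G} (h : InUniqueMaximal U) (hM : IsCoatom M) (hU : U ≤ M)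
    (hL : IsCoatom L) (hUL : U ≤ L) : M = L := (def_uniq_mmax h hL hUL).eq hM hU

theorem inU_proper {U : Subgroup G} (h : InUniqueMaximal U) : Pr U := by
  obtain ⟨M, hM⟩ := exists_uniqMax h
  exact hM.proper

/-- mathcomp `uniq_mmax_subset1`. -/
theorem uniqMax_of_forall {U M : Subgroup G} (hM : IsCoatom M) (hU : U ≤ M)
    (h : ∀ L, IsCoatom L → U ≤ L → L = M) : UniqMax U M := ⟨hM, hU, h⟩

theorem inU_of_forall {U M : Subgroup G} (hM : IsCoatom M) (hU : U ≤ M)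
    (h : ∀ L, IsCoatom L → U ≤ L → L = M) : InUniqueMaximal U := (uniqMax_of_forall hM hU h).inU

/-- If `U ≤ M` is not a uniqueness subgroup, another maximal subgroup contains it. -/
theorem exists_ne_of_not_inU {U M : Subgroup G} (hM : IsCoatom M) (hU : U ≤ M)
    (h : ¬ InUniqueMaximal U) : ∃ L, IsCoatom L ∧ U ≤ L ∧ L ≠ M := by
  by_contra hn
  push Not at hn
  exact h (inU_of_forall hM hU hn)

theorem exists_ne_of_not_uniqMax {U M : Subgroup G} (hM : IsCoatom M) (hU : U ≤ M)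
    (h : ¬ UniqMax U M) : ∃ L, IsCoatom L ∧ U ≤ L ∧ L ≠ M := by
  by_contra hn
  push Not at hn
  exact h (uniqMax_of_forall hM hU hn)

/-- mathcomp `sub_uniq_mmax`. -/
theorem sub_uniq_mmax [Finite G] {U M H : Subgroup G} (h : UniqMax U M) (hU : U ≤ H)
    (hH : Pr H) : H ≤ M := by
  obtain ⟨L, hL, hHL⟩ := mmax_exists hH
  rwa [h.eq hL (hU.trans hHL)] at hHL

theorem _root_.Cfsg.Agent.H88.SZ.UniqMax.sub [Finite G] {U M H : Subgroup G} (h : UniqMax U M)
    (hU : U ≤ H) (hH : Pr H) : H ≤ M := sub_uniq_mmax h hU hH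

theorem mmax_sup_id {M : Subgroup G} (h : IsCoatom M) : UniqMax M M :=
  ⟨h, le_rfl, fun _ hL hML => (eq_mmax h hL hML).symm⟩

theorem mmax_uniq_id {M : Subgroup G} (h : IsCoatom M) : InUniqueMaximal M := (mmax_sup_id h).inU

theorem def_uniq_mmaxJ {U M : Subgroup G} (h : UniqMax U M) (g : G) :
    UniqMax (cj g U) (cj g M) := by
  refine ⟨isCoatom_cj h.max, cj_mono h.le, fun L hL hUL => ?_⟩
  rw [← h.eq (isCoatom_cj (g := g⁻¹) hL) (cj_le_iff_le_cj_inv.1 hUL), cj_cj_inv]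

theorem _root_.Cfsg.Agent.H88.SZ.UniqMax.cj {U M : Subgroup G} (h : UniqMax U M) (g : G) :
    UniqMax (cj g U) (cj g M) := def_uniq_mmaxJ h g

theorem uniqMax_cj_iff {U M : Subgroup G} {g : G} : UniqMax (cj g U) (cj g M) ↔ UniqMax U M :=
  ⟨fun h => by simpa only [cj_inv_cj] using h.cj g⁻¹, fun h => h.cj g⟩

theorem inU_cj {U : Subgroup G} (h : InUniqueMaximal U) (g : G) : InUniqueMaximal (cj g U) := by
  obtain ⟨M, hM⟩ := exists_uniqMax h
  exact (hM.cj g).inU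

theorem uniq_mmaxJ {U : Subgroup G} {g : G} : InUniqueMaximal (cj g U) ↔ InUniqueMaximal U :=
  ⟨fun h => by simpa only [cj_inv_cj] using inU_cj h g⁻¹, fun h => inU_cj h g⟩

/-- mathcomp `def_uniq_mmaxS`, with the containment in `M` as hypothesis. -/
theorem _root_.Cfsg.Agent.H88.SZ.UniqMax.of_le {U V M : Subgroup G} (h : UniqMax U M) (hUV : U ≤ V)
    (hV : V ≤ M) : UniqMax V M :=
  ⟨h.max, hV, fun _ hL hVL => h.eq hL (hUV.trans hVL)⟩

theorem def_uniq_mmaxS [Finite G] {U V M : Subgroup G} (hUV : U ≤ V) (hV : Pr V)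
    (h : UniqMax U M) : UniqMax V M := h.of_le hUV (h.sub hUV hV)

theorem uniq_mmaxS [Finite G] {U V : Subgroup G} (hUV : U ≤ V) (hV : Pr V)
    (h : InUniqueMaximal U) : InUniqueMaximal V := by
  obtain ⟨M, hM⟩ := exists_uniqMax h
  exact (def_uniq_mmaxS hUV hV hM).inU

/-- An element conjugating a uniqueness subgroup of `M` into `M` normalizes `M`. -/
theorem _root_.Cfsg.Agent.H88.SZ.UniqMax.mem_normalizer {U M : Subgroup G} (h : UniqMax U M) {g : G}
    (hg : Cfsg.Agent.H63.cj g U ≤ M) : g ∈ N[M] :=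
  cj_eq_self_iff.1 ((h.cj g).eq h.max hg).symm


/-! ### The primes of `ϖ` -/

theorem w_of_pgroup [Finite G] {p : ℕ} {P : Subgroup G} (h : IsPGroup p P) (hp : p.Prime)
    (hw : p ∈ ϖ) : IsPiSubgroup ϖ P := isPi_of_isPGroup_of_mem hp h hw

theorem w_of_syl {p : ℕ} {P M : Subgroup G} (h : IsSyl p P M) (hw : p ∈ ϖ) : IsPiSubgroup ϖ P :=
  isPi_mono h.2.1 (Set.singleton_subset_iff.2 hw)

theorem w_of_elem [Finite G] {p n : ℕ} {A X : Subgroup G} (h : ElemOf p n A X) (hp : p.Prime)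
    (hw : p ∈ ϖ) : IsPiSubgroup ϖ A := w_of_pgroup h.isPGroup hp hw

theorem w_of_le {H K : Subgroup G} (hHK : H ≤ K) (h : IsPiSubgroup ϖ K) : IsPiSubgroup ϖ H :=
  isPi_of_le h hHK

theorem wp_of_dvd {p : ℕ} {H : Subgroup G} (hp : p.Prime) (hd : p ∣ Nat.card H)
    (h : IsPiSubgroup ϖ H) : p ∈ ϖ := h p hp hd

theorem wp_of_pgroup [Finite G] {p : ℕ} {H : Subgroup G} (hp : p.Prime) (hH : IsPGroup p H)
    (hne : H ≠ ⊥) (h : IsPiSubgroup ϖ H) : p ∈ ϖ := mem_of_isPi_of_isPGroup hp hH hne h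

theorem wp_of_sigma {p : ℕ} {M : Subgroup G} (h : p ∈ sigma M) : p ∈ ϖ := h.2.2.2

theorem sigma_sub_w (M : Subgroup G) : sigma M ⊆ ϖ := fun _ h => h.2.2.2

theorem w_of_sigma {M X : Subgroup G} (h : IsPiSubgroup (sigma M) X) : IsPiSubgroup ϖ X :=
  isPi_mono h (sigma_sub_w M)

theorem we_of_sigma {M : Subgroup G} {x : G} (h : PiElt (sigma M) x) : PiElt ϖ x :=
  h.mono (sigma_sub_w M)

theorem w_sigmaCore [Finite G] (M : Subgroup G) : IsPiSubgroup ϖ (sigmaCore M) :=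
  w_of_sigma (isPi_piCoreOf (sigma M) M)

theorem we_of_mem {H : Subgroup G} {x : G} (hx : x ∈ H) (h : IsPiSubgroup ϖ H) : PiElt ϖ x :=
  piElt_of_mem h hx

theorem w_pCore [Finite G] {p : ℕ} (hw : p ∈ ϖ) (X : Subgroup G) : IsPiSubgroup ϖ O[{p}](X) :=
  isPi_mono (isPi_piCoreOf _ _) (Set.singleton_subset_iff.2 hw)

theorem _root_.Cfsg.Agent.H88.SZ.IsSCNp.w {n p : ℕ} {A : Subgroup G} (h : IsSCNp n p A) : p ∈ ϖ :=
  h.1

theorem _root_.Cfsg.Agent.H88.SZ.IsSCNp.old {n p : ℕ} {A : Subgroup G} (h : IsSCNp n p A) :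
    Cfsg.Agent.H63.IsSCNp n p A := h.2

section
variable [Finite G] {n m p : ℕ} {A : Subgroup G}

theorem _root_.Cfsg.Agent.H88.SZ.IsSCNp.cj (h : IsSCNp n p A) (g : G) :
    IsSCNp n p (Cfsg.Agent.H63.cj g A) := ⟨h.1, h.old.cj g⟩
theorem _root_.Cfsg.Agent.H88.SZ.IsSCNp.isPGroup [Fact p.Prime] (h : IsSCNp n p A) : IsPGroup p A :=
  h.old.isPGroup
theorem _root_.Cfsg.Agent.H88.SZ.IsSCNp.comm (h : IsSCNp n p A) : IsMulCommutative A := h.old.comm
theorem _root_.Cfsg.Agent.H88.SZ.IsSCNp.le_rank (h : IsSCNp n p A) : n ≤ rank A := h.old.le_rank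
theorem _root_.Cfsg.Agent.H88.SZ.IsSCNp.le_rankP [Fact p.Prime] (h : IsSCNp n p A) :
    n ≤ rankP p A := h.old.le_rankP
theorem _root_.Cfsg.Agent.H88.SZ.IsSCNp.of_le (h : IsSCNp n p A) (hm : m ≤ n) : IsSCNp m p A :=
  ⟨h.1, h.old.of_le hm⟩
theorem _root_.Cfsg.Agent.H88.SZ.IsSCNp.isW [hp : Fact p.Prime] (h : IsSCNp n p A) :
    IsPiSubgroup ϖ A := w_of_pgroup h.isPGroup hp.out h.1
end

section

variable (hG : IsMinSimpleOddOrder G)
include hG

theorem mFT_finite : Finite G := hG.fin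

/-- Commuting with an element whose order is divisible by a prime of `ϖ`. -/
theorem we_of_commute' {x y : G} {p : ℕ} (hp : p.Prime) (hw : p ∈ ϖ) (hd : p ∣ orderOf x)
    (hc : Commute x y) : PiElt ϖ y := by
  have := hG.fin
  intro q hq hqd
  have e1 := orderOf_pow_orderOf_div (orderOf_pos x).ne' hd
  have e2 := orderOf_pow_orderOf_div (orderOf_pos y).ne' hqd
  have := hG.iso _ _ (hc.pow_pow (orderOf x / p) (orderOf y / q)) (by rwa [e1]) (by rwa [e2])
    (by rwa [e1])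
  rwa [e2] at this

theorem we_of_commute {x y : G} (hx : x ≠ 1) (hw : PiElt ϖ x) (hc : Commute x y) : PiElt ϖ y := by
  have := hG.fin
  obtain ⟨p, hp, hd⟩ := exists_prime_dvd_orderOf hx
  exact we_of_commute' hG hp (hw p hp hd) hd hc

theorem we_or (x : G) : PiElt ϖ x ∨ PiElt ϖᶜ x := by
  by_cases h : PiElt ϖᶜ x
  · exact Or.inr h
  · left
    simp only [PiElt, PiNat, not_forall, Set.mem_compl_iff, not_not] at h
    obtain ⟨p, hp, hd, hw⟩ := h
    exact we_of_commute' hG hp hw hd (Commute.refl x)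

theorem we'_of_commute {x y : G} (hx : x ≠ 1) (hw : PiElt ϖᶜ x) (hc : Commute x y) :
    PiElt ϖᶜ y := by
  intro q hq hd hqw
  exact hx ((we_of_commute' hG hq hqw hd hc.symm).eq_one hw)

theorem w_cent1 {x : G} (hx : x ≠ 1) (hw : PiElt ϖ x) : IsPiSubgroup ϖ C1[x] :=
  have := hG.fin
  isPi_iff_forall_piElt.2 fun _ hy => we_of_commute hG hx hw (mem_centralizer_iff.1 hy x rfl)

theorem w'_cent1 {x : G} (hx : x ≠ 1) (hw : PiElt ϖᶜ x) : IsPiSubgroup ϖᶜ C1[x] :=
  have := hG.fin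
  isPi_iff_forall_piElt.2 fun _ hy => we'_of_commute hG hx hw (mem_centralizer_iff.1 hy x rfl)

theorem w_cent {X : Subgroup G} (hX : X ≠ ⊥) (hw : IsPiSubgroup ϖ X) : IsPiSubgroup ϖ C[X] := by
  obtain ⟨x, hx, h1⟩ := exists_ne_one_of_ne_bot hX
  exact isPi_of_le (w_cent1 hG h1 (piElt_of_mem hw hx)) (centralizer_le_centralizer_singleton hx)

theorem w'_cent {X : Subgroup G} (hX : X ≠ ⊥) (hw : IsPiSubgroup ϖᶜ X) : IsPiSubgroup ϖᶜ C[X] := by
  obtain ⟨x, hx, h1⟩ := exists_ne_one_of_ne_bot hX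
  exact isPi_of_le (w'_cent1 hG h1 (piElt_of_mem hw hx)) (centralizer_le_centralizer_singleton hx)

theorem w_cent_of_dvd {X : Subgroup G} {p : ℕ} (hp : p.Prime) (hw : p ∈ ϖ) (hd : p ∣ Nat.card X) :
    IsPiSubgroup ϖ C[X] := by
  have := hG.fin
  obtain ⟨x, hx, e⟩ := exists_orderOf_eq_prime hp hd
  exact isPi_iff_forall_piElt.2 fun y hy =>
    we_of_commute' hG hp hw e.symm.dvd (mem_centralizer_iff.1 hy x hx)

theorem w_of_cent {X Y : Subgroup G} (hc : Y ≤ C[X]) (hX : X ≠ ⊥) (hw : IsPiSubgroup ϖ X) :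
    IsPiSubgroup ϖ Y := isPi_of_le (w_cent hG hX hw) hc

theorem w_of_cent' {X Y : Subgroup G} (hc : X ≤ C[Y]) (hX : X ≠ ⊥) (hw : IsPiSubgroup ϖ X) :
    IsPiSubgroup ϖ Y := w_of_cent hG (le_centralizer_iff.1 hc) hX hw

/-- If `Y` is a `ϖ`-group with a nontrivial fixed point of `X`, then `X` is a `ϖ`-group. -/
theorem w_of_inf_cent {X Y : Subgroup G} (hw : IsPiSubgroup ϖ Y) (h : Y ⊓ C[X] ≠ ⊥) :
    IsPiSubgroup ϖ X := w_of_cent' hG inf_le_right h (isPi_of_le hw inf_le_left)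

theorem we_of_inf_cent1 {Y : Subgroup G} {x : G} (hw : IsPiSubgroup ϖ Y) (h : Y ⊓ C1[x] ≠ ⊥) :
    PiElt ϖ x := by
  rw [← centralizer_zpowers] at h
  exact isPi_zpowers_iff.1 (w_of_inf_cent hG hw h)

theorem inf_cent_eq_bot_of_not_w {X Y : Subgroup G} (hw : IsPiSubgroup ϖ Y)
    (h : ¬ IsPiSubgroup ϖ X) : Y ⊓ C[X] = ⊥ := by
  by_contra e
  exact h (w_of_inf_cent hG hw e)

theorem inf_cent1_eq_bot_of_w' {Y : Subgroup G} {x : G} (hw : IsPiSubgroup ϖ Y) (hx : x ≠ 1)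
    (h : PiElt ϖᶜ x) : Y ⊓ C1[x] = ⊥ := by
  by_contra e
  exact hx ((we_of_inf_cent1 hG hw e).eq_one h)

theorem inf_cent_eq_bot_of_w' {X Y : Subgroup G} (hw : IsPiSubgroup ϖ Y) (hX : X ≠ ⊥)
    (h : IsPiSubgroup ϖᶜ X) : Y ⊓ C[X] = ⊥ :=
  inf_cent_eq_bot_of_not_w hG hw fun e => hX (isPi_eq_bot e h)

/-- A nilpotent subgroup is a `ϖ`-group or a `ϖ'`-group. -/
theorem w_or_of_nil {X : Subgroup G} (h : Group.IsNilpotent X) :
    IsPiSubgroup ϖ X ∨ IsPiSubgroup ϖᶜ X := by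
  have := hG.fin
  have hd := isDp_piCoreOf_of_isNilpotent ϖ h
  by_cases h1 : O[ϖ](X) = ⊥
  · right
    have := hd.sup
    rw [h1, bot_sup_eq] at this
    exact this ▸ isPi_piCoreOf _ _
  · left
    have h2 : O[ϖᶜ](X) = ⊥ := isPi_eq_bot (w_of_cent hG hd.cent h1 (isPi_piCoreOf _ _))
      (isPi_piCoreOf _ _)
    have := hd.sup
    rw [h2, sup_bot_eq] at this
    exact this ▸ isPi_piCoreOf _ _

theorem w_of_nil {X : Subgroup G} (h : Group.IsNilpotent X) {p : ℕ} (hp : p.Prime) (hw : p ∈ ϖ)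
    (hd : p ∣ Nat.card X) : IsPiSubgroup ϖ X :=
  (w_or_of_nil hG h).resolve_right fun e => e p hp hd hw

theorem w_of_nil' {X Y : Subgroup G} (h : Group.IsNilpotent X) (hY : Y ≤ X) (hne : Y ≠ ⊥)
    (hw : IsPiSubgroup ϖ Y) : IsPiSubgroup ϖ X :=
  (w_or_of_nil hG h).resolve_right fun e => hne (isPi_eq_bot hw (isPi_of_le e hY))

theorem pr_bot : Pr (⊥ : Subgroup G) := by
  have := hG.fin
  obtain ⟨p, hw, hp, hd⟩ := hG.ex
  have : Fact p.Prime := ⟨hp⟩
  obtain ⟨P, hP⟩ := exists_syl (p := p) (⊤ : Subgroup G)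
  exact ⟨P, syl_ne_bot hP (by rwa [card_top]), w_of_syl hP hw, bot_le⟩

theorem pr_of_w {X : Subgroup G} (hw : IsPiSubgroup ϖ X) : Pr X := by
  by_cases h : X = ⊥
  · exact h ▸ pr_bot hG
  · exact ⟨X, h, hw, le_normalizer⟩

theorem pr_odd {H : Subgroup G} (h : Pr H) : Odd (Nat.card H) := by
  obtain ⟨X, h1, h2, h3⟩ := h
  exact Odd.of_dvd_nat (hG.odd X h1 h2) (card_dvd_of_le h3)

theorem mFT_sol {H : Subgroup G} (h : Pr H) : Group.IsSolvable H := by
  obtain ⟨X, h1, h2, h3⟩ := h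
  exact isSolvable_of_le (hG.sol X h1 h2) h3

/-- A noncyclic abelian `p`-subgroup of a `ϖ`-local subgroup is a `ϖ`-group. -/
theorem w_of_noncyclic {A : Subgroup G} (hA : Pr A) (hc : IsMulCommutative A) (hn : ¬ IsCyclic A) :
    IsPiSubgroup ϖ A := by
  have := hG.fin
  refine (w_or_of_nil hG (isNilpotent_of_isMulCommutative hc)).resolve_right fun h => ?_
  obtain ⟨X, h1, h2, h3⟩ := hA
  obtain ⟨a, ha, a1, e⟩ := exists_cent1_ne_bot hc hn h3 (isPi_coprime' h h2) h1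
  exact e (inf_cent1_eq_bot_of_w' hG h2 a1 (piElt_of_mem h ha))

/-- A group normalized by a noncyclic abelian `ϖ`-group of coprime order is a `ϖ`-group. -/
theorem wp_of_normed {B Q : Subgroup G} {q : ℕ} (hq : q.Prime) (hc : IsMulCommutative B)
    (hn : ¬ IsCyclic B) (hB : IsPiSubgroup ϖ B) (hQ : IsPGroup q Q) (hne : Q ≠ ⊥)
    (h : B ≤ N[Q]) : q ∈ ϖ := by
  have := hG.fin
  by_contra e
  have h' : IsPiSubgroup ϖᶜ Q := isPi_of_isPGroup_of_mem hq hQ e
  obtain ⟨a, ha, a1, e⟩ := exists_cent1_ne_bot hc hn h (isPi_coprime hB h') hne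
  exact e (isPi_eq_bot (isPi_of_le (w_cent1 hG a1 (piElt_of_mem hB ha)) inf_le_right)
    (isPi_of_le h' inf_le_left))

theorem wp_of_elem {p n : ℕ} [hp : Fact p.Prime] {A X : Subgroup G} (h : ElemOf p n A X)
    (hA : Pr A) (hn : 2 ≤ n) : p ∈ ϖ := by
  have := hG.fin
  refine wp_of_pgroup hp.out h.isPGroup (h.ne_bot (by omega)) (w_of_noncyclic hG hA h.comm ?_)
  exact not_isCyclic_of_two_le_rankP (p := p) (h.rankP_eq.symm ▸ hn)

theorem wp_of_elem2 {p : ℕ} [Fact p.Prime] {A X : Subgroup G} (h : ElemOf p 2 A X) (hA : Pr A) :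
    p ∈ ϖ := wp_of_elem hG h hA le_rfl

theorem wp_of_elem3 {p : ℕ} [Fact p.Prime] {A X : Subgroup G} (h : ElemOf p 3 A X) (hA : Pr A) :
    p ∈ ϖ := wp_of_elem hG h hA (by omega)

theorem wp_of_rankP {p : ℕ} [Fact p.Prime] {X : Subgroup G} (hX : Pr X) (h : 2 ≤ rankP p X) :
    p ∈ ϖ := by
  have := hG.fin
  obtain ⟨A, hA⟩ := exists_elemOf_of_le_rankP h
  exact wp_of_elem2 hG hA (pr_of_le hA.le hX)

theorem rankP_le_one_of_not_w {p : ℕ} [Fact p.Prime] {X : Subgroup G} (hX : Pr X) (h : p ∉ ϖ) :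
    rankP p X ≤ 1 := by
  by_contra e
  exact h (wp_of_rankP hG hX (by omega))

theorem wp_of_alpha {p : ℕ} {M : Subgroup G} (h : p ∈ alpha M) (hM : Pr M) : p ∈ ϖ := by
  have := hG.fin
  have : Fact p.Prime := ⟨h.1⟩
  exact wp_of_rankP hG hM (le_trans (by omega) (not_pRankLE_iff.1 h.2))

theorem wp_of_beta {p : ℕ} {M : Subgroup G} (h : p ∈ beta M) (hM : Pr M) : p ∈ ϖ :=
  wp_of_alpha hG h.1 hM

theorem wp_of_tau2 {p : ℕ} {M : Subgroup G} (h : p ∈ tau2 M) (hM : Pr M) : p ∈ ϖ := by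
  have := hG.fin
  have : Fact p.Prime := ⟨h.1⟩
  exact wp_of_rankP hG hM (not_pRankLE_iff.1 h.2.2.2)

theorem w_of_alpha {M X : Subgroup G} (h : IsPiSubgroup (alpha M) X) (hM : Pr M) :
    IsPiSubgroup ϖ X := isPi_mono h fun _ e => wp_of_alpha hG e hM

theorem w_of_beta {M X : Subgroup G} (h : IsPiSubgroup (beta M) X) (hM : Pr M) :
    IsPiSubgroup ϖ X := isPi_mono h fun _ e => wp_of_beta hG e hM

theorem w_of_tau2 {M X : Subgroup G} (h : IsPiSubgroup (tau2 M) X) (hM : Pr M) :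
    IsPiSubgroup ϖ X := isPi_mono h fun _ e => wp_of_tau2 hG e hM

theorem w_alphaCore {M : Subgroup G} (hM : Pr M) : IsPiSubgroup ϖ (alphaCore M) :=
  have := hG.fin
  w_of_alpha hG (isPi_piCoreOf (alpha M) M) hM

theorem w_betaCore {M : Subgroup G} (hM : Pr M) : IsPiSubgroup ϖ (Cfsg.Agent.H66.betaCore M) :=
  have := hG.fin
  w_of_beta hG (isPi_piCoreOf (beta M) M) hM

theorem wp_of_kappa {p : ℕ} {M : Subgroup G} (h : p ∈ kappa M) : p ∈ ϖ := by
  have := hG.fin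
  have : Fact p.Prime := ⟨h.1⟩
  obtain ⟨P⟩ : Nonempty (Sylow p M) := inferInstance
  obtain ⟨-, x, hx, x1, y, hy, y1, e⟩ := h.2.2.2 P
  have hw : PiElt ϖ (x : G) :=
    we_of_commute hG y1 (piElt_of_mem (w_sigmaCore M) hy) (Commute.symm e)
  obtain ⟨k, hk⟩ := (IsPGroup.iff_orderOf.1 P.isPGroup') ⟨x, hx⟩
  have e1 : orderOf (x : G) = p ^ k := by
    rw [Subgroup.orderOf_coe, ← hk]
    exact (Subgroup.orderOf_coe (⟨x, hx⟩ : (P : Subgroup M)))
  refine hw p h.1 (e1 ▸ dvd_pow_self p fun h0 => x1 ?_)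
  rw [h0, pow_zero, orderOf_eq_one_iff] at e1
  exact Subtype.ext e1

theorem w_of_kappa {M X : Subgroup G} (h : IsPiSubgroup (kappa M) X) : IsPiSubgroup ϖ X :=
  isPi_mono h fun _ e => wp_of_kappa hG e

theorem wp_ne_two {p : ℕ} (h : p ∈ ϖ) : p ≠ 2 := fun e => hG.two (e ▸ h)

theorem wp_odd {p : ℕ} (hp : p.Prime) (h : p ∈ ϖ) : Odd p := hp.odd_of_ne_two (wp_ne_two hG h)

theorem w_odd {X : Subgroup G} (h : IsPiSubgroup ϖ X) : Odd (Nat.card X) := pr_odd hG (pr_of_w hG h)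

/-- A noncyclic `p`-subgroup of a `ϖ`-local subgroup. -/
theorem wp_of_noncyclic {p : ℕ} [hp : Fact p.Prime] {P : Subgroup G} (hP : IsPGroup p P) (h : Pr P)
    (hn : ¬ IsCyclic P) : p ∈ ϖ := by
  have := hG.fin
  have h1 : P ≠ ⊥ := by
    rintro rfl
    exact hn inferInstance
  refine wp_of_rankP hG h (Cfsg.Agent.H67.Aux.two_le_rankP_of_odd ?_ hP hn)
  rintro rfl
  exact absurd (Odd.of_dvd_nat (pr_odd hG h) (dvd_card_of_isPGroup hp.out hP h1)) (by decide)

theorem isCyclic_of_not_w {p : ℕ} [Fact p.Prime] {P : Subgroup G} (hP : IsPGroup p P) (h : Pr P)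
    (hw : p ∉ ϖ) : IsCyclic P := by
  by_contra e
  exact hw (wp_of_noncyclic hG hP h e)

theorem mmax_core_ne_bot {M : Subgroup G} (h : IsCoatom M) : O[ϖ](M) ≠ ⊥ := by
  obtain ⟨X, h1, h2, h3⟩ := h.1
  have e := h.2 _ (pr_norm h1 h2) h3
  exact ne_bot_mono h1 (le_piCoreOf ⟨le_normalizer.trans e.le, h3⟩ h2)

theorem w_Fitting {M : Subgroup G} (h : IsCoatom M) : IsPiSubgroup ϖ (fittingOf M) := by
  have := hG.fin
  exact w_of_nil' hG (fittingOf_nil M) inf_le_right (inf_fittingOf_ne_bot (piCoreOf_normalIn ϖ M)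
    (mFT_sol hG (pr_of_le (piCoreOf_le _ _) h.1)) (mmax_core_ne_bot hG h))
    (isPi_of_le (isPi_piCoreOf _ _) inf_le_left)

theorem w_of_normal_nil {M H : Subgroup G} (h : IsCoatom M) (hH : H ⊴ M)
    (hn : Group.IsNilpotent H) : IsPiSubgroup ϖ H :=
  have := hG.fin
  isPi_of_le (w_Fitting hG h) (le_fittingOf hH hn)

theorem wp_of_pCore {M : Subgroup G} {p : ℕ} (h : IsCoatom M) (hp : p.Prime)
    (hne : O[{p}](M) ≠ ⊥) : p ∈ ϖ :=
  have := hG.fin
  wp_of_pgroup hp (isPGroup_pCoreOf hp M) hne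
    (isPi_of_le (w_Fitting hG h) (pCoreOf_le_fittingOf hp M))

theorem mmax_w'core {M : Subgroup G} (h : IsCoatom M) : O[ϖᶜ](M) = ⊥ :=
  have := hG.fin
  piCoreOf_compl_eq_bot_of_fittingOf (mFT_sol hG h.1) (w_Fitting hG h)

/-- The normalizer of a nontrivial normal subgroup of a maximal subgroup is `ϖ`-local. -/
theorem pr_norm_of_mmax_normal {M H : Subgroup G} (h : IsCoatom M) (hH : H ⊴ M) (hne : H ≠ ⊥) :
    Pr N[H] :=
  have := hG.fin
  pr_of_norm (fittingOf_ne_bot (mFT_sol hG (pr_of_le hH.le h.1)) hne)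
    (w_of_normal_nil hG h hH.fittingOf (fittingOf_nil H)) (normalizer_le_normalizer_fittingOf H)

end

theorem le_of_hall {π : Set ℕ} {H M : Subgroup G} (h : IsPiHallOf π H M) : H ≤ M := h.1

theorem sigmaCore_le' (M : Subgroup G) : sigmaCore M ≤ M := piCoreOf_le _ _

theorem alphaCore_le' (M : Subgroup G) : alphaCore M ≤ M := piCoreOf_le _ _

theorem betaCore_le' (M : Subgroup G) : Cfsg.Agent.H66.betaCore M ≤ M := piCoreOf_le _ _

theorem derived_le' (M : Subgroup G) : ⁅M, M⁆ ≤ M := (derived_normalIn M).le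

theorem fittingHallOf_le' (M : Subgroup G) : fittingHallOf M ≤ M := map_subtype_le _

theorem ptype_max {M : Subgroup G} (h : H63.PType M) : IsCoatom M := h.1

theorem ftype_max {M : Subgroup G} (h : H63.FType M) : IsCoatom M := h.1

theorem p1type_max {M : Subgroup G} (h : H63.P1Type M) : IsCoatom M := h.1.1

theorem p2type_max {M : Subgroup G} (h : H63.P2Type M) : IsCoatom M := h.1.1

theorem sigmax_max {M : Subgroup G} {x : G} (h : H63.SigMax x M) : IsCoatom M := h.1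

theorem fact_out {p : ℕ} (h : Fact p.Prime) : p.Prime := h.out

end H67

/-- Prove `IsCoatom M` from the context. -/
scoped macro "max_tac" : tactic => `(tactic| with_reducible first
  | assumption
  | exact UniqMax.max (by with_reducible assumption)
  | exact H67.ptype_max (by with_reducible assumption)
  | exact H67.ftype_max (by with_reducible assumption)
  | exact H67.p1type_max (by with_reducible assumption)
  | exact H67.p2type_max (by with_reducible assumption)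
  | exact H67.sigmax_max (by with_reducible assumption)
  | exact H67.isCoatom_cj (by with_reducible assumption))

/-- One step `H ≤ ?K`, then the given tactic. -/
scoped macro "le_step " f:term " => " t:tactic : tactic => `(tactic| with_reducible first
  | (refine $f inf_le_left ?_; $t)
  | (refine $f inf_le_right ?_; $t)
  | (refine $f (H67.sigmaCore_le' _) ?_; $t)
  | (refine $f (H67.alphaCore_le' _) ?_; $t)
  | (refine $f (H67.betaCore_le' _) ?_; $t)
  | (refine $f (H67.derived_le' _) ?_; $t)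
  | (refine $f (H67.fittingHallOf_le' _) ?_; $t)
  | (refine $f (Cfsg.Agent.H67.fittingOf_le _) ?_; $t)
  | (refine $f (Cfsg.Agent.H67.piCoreOf_le _ _) ?_; $t)
  | (refine $f (Cfsg.Agent.H67.omegaOne_le _ _) ?_; $t)
  | (refine $f (by with_reducible assumption) ?_; $t)
  | (refine $f (H67.le_of_hall (by with_reducible assumption)) ?_; $t)
  | (refine $f (Cfsg.Agent.H63.NormalIn.le (by with_reducible assumption)) ?_; $t)
  | (refine $f (Cfsg.Agent.H63.ElemOf.le (by with_reducible assumption)) ?_; $t)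
  | (refine $f (Cfsg.Agent.H63.MaxElemOf.le (by with_reducible assumption)) ?_; $t)
  | (refine $f (Cfsg.Agent.H63.IsSdp.le_left (by with_reducible assumption)) ?_; $t)
  | (refine $f (Cfsg.Agent.H63.IsSdp.le_right (by with_reducible assumption)) ?_; $t)
  | (refine $f (Cfsg.Agent.H63.IsDp.le_left (by with_reducible assumption)) ?_; $t)
  | (refine $f (Cfsg.Agent.H63.IsDp.le_right (by with_reducible assumption)) ?_; $t)
  | (refine $f (Cfsg.Agent.H63.IsHallOf.le (by with_reducible assumption)) ?_; $t)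
  | (refine $f (UniqMax.le (by with_reducible assumption)) ?_; $t)
  | (refine $f (le_of_lt (by with_reducible assumption)) ?_; $t))

scoped macro "pr_0" : tactic => `(tactic| with_reducible first
  | assumption
  | (refine IsCoatom.pr ?_; max_tac))

scoped macro "pr_1" : tactic => `(tactic| first | pr_0 | le_step H67.pr_of_le => pr_0)

scoped macro "pr_2" : tactic => `(tactic| first | pr_0 | le_step H67.pr_of_le => pr_1)

/-- Prove `Pr H` from the context. -/
scoped macro "pr_a" : tactic => `(tactic| first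
  | pr_0
  | le_step H67.pr_of_le => pr_2
  | fail "pr_a failed")

/-- Prove `p ∈ ϖ` from the context. -/
scoped macro "wp_tac" : tactic => `(tactic| with_reducible first
  | assumption
  | exact H67.wp_of_sigma (by with_reducible assumption)
  | exact IsSCNp.w (by with_reducible assumption)
  | exact H67.wp_of_kappa (by with_reducible assumption) (by with_reducible assumption)
  | (refine H67.wp_of_alpha (by with_reducible assumption) (by with_reducible assumption) ?_; pr_a)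
  | (refine H67.wp_of_beta (by with_reducible assumption) (by with_reducible assumption) ?_; pr_a)
  | (refine H67.wp_of_tau2 (by with_reducible assumption) (by with_reducible assumption) ?_; pr_a)
  | (refine H67.wp_of_elem2 (by with_reducible assumption) (by with_reducible assumption) ?_; pr_a)
  | (refine H67.wp_of_elem3 (by with_reducible assumption) (by with_reducible assumption) ?_; pr_a)
  | fail "wp_tac failed")

scoped macro "prime_tac" : tactic => `(tactic| with_reducible first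
  | assumption
  | exact H67.fact_out (by with_reducible assumption))

scoped macro "w_0" : tactic => `(tactic| with_reducible first
  | assumption
  | exact H67.w_sigmaCore _
  | exact H67.w_of_sigma (by with_reducible assumption)
  | exact H67.w_of_kappa (by with_reducible assumption) (by with_reducible assumption)
  | (refine H67.w_Fitting (by with_reducible assumption) ?_; max_tac)
  | (refine H67.w_alphaCore (by with_reducible assumption) ?_; pr_a)
  | (refine H67.w_betaCore (by with_reducible assumption) ?_; pr_a)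
  | (refine H67.w_pCore ?_ _; wp_tac)
  | (refine H67.w_of_syl (by with_reducible assumption) ?_; wp_tac)
  | (refine H67.w_of_pgroup (by with_reducible assumption) ?_ ?_; prime_tac; wp_tac)
  | (refine H67.w_of_elem (by with_reducible assumption) ?_ ?_; prime_tac; wp_tac))

scoped macro "w_1" : tactic => `(tactic| first | w_0 | le_step H67.w_of_le => w_0)

/-- Prove `p ∈ ϖ`, `IsPiSubgroup ϖ X` or `PiElt ϖ x` from the context. -/
scoped macro "w_tac" : tactic => `(tactic| first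
  | wp_tac
  | w_0
  | le_step H67.w_of_le => w_1
  | with_reducible exact H67.we_of_sigma (by with_reducible assumption)
  | (with_reducible refine H67.we_of_mem (by with_reducible assumption) ?_; w_1)
  | fail "w_tac failed")

scoped macro "ne_tac" : tactic => `(tactic| first
  | with_reducible assumption
  | exact Cfsg.Agent.H63.ElemOf.ne_bot (by with_reducible assumption) (by decide))

scoped macro "pr_b" : tactic => `(tactic| first
  | (with_reducible refine H67.pr_norm ?_ ?_; ne_tac; w_tac)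
  | (with_reducible refine H67.pr_cent ?_ ?_; ne_tac; w_tac)
  | (with_reducible refine H67.pr_cent1 ?_ ?_; ne_tac; w_tac)
  | (with_reducible refine H67.pr_of_w (by with_reducible assumption) ?_; w_tac))

/-- Prove `Pr H` from the context. -/
scoped macro "pr_tac" : tactic => `(tactic| first
  | pr_a
  | pr_b
  | le_step H67.pr_of_le => pr_b
  | fail "pr_tac failed")

namespace H67

open Subgroup Cfsg Cfsg.Agent.H63 Cfsg.Agent.H67

variable [Om] {G : Type*} [Group G]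

section

variable (hG : IsMinSimpleOddOrder G)
include hG

theorem mFT_odd (H : Subgroup G) (h : Pr H := by pr_tac) : Odd (Nat.card H) := pr_odd hG h

theorem mFT_odd_orderOf (x : G) (h : Pr (zpowers x) := by pr_tac) : Odd (orderOf x) :=
  Nat.card_zpowers x ▸ pr_odd hG h

theorem mFT_odd_relIndex (H K : Subgroup G) (h : Pr K := by pr_tac) : Odd (H.relIndex K) :=
  Odd.of_dvd_nat (pr_odd hG h) (relIndex_dvd_card H K)

theorem mFT_odd_of_dvd {H : Subgroup G} {n : ℕ} (h : n ∣ Nat.card H) (hH : Pr H := by pr_tac) :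
    Odd n := Odd.of_dvd_nat (pr_odd hG hH) h

theorem mFT_prime_ne_two {H : Subgroup G} {p : ℕ} (h : p ∣ Nat.card H) (hH : Pr H := by pr_tac) :
    p ≠ 2 := by
  rintro rfl
  exact absurd (mFT_odd_of_dvd hG h hH) (by decide)

theorem mFT_prime_gt_two {H : Subgroup G} {p : ℕ} (hp : p.Prime) (h : p ∣ Nat.card H)
    (hH : Pr H := by pr_tac) : 2 < p :=
  lt_of_le_of_ne hp.two_le (mFT_prime_ne_two hG h hH).symm

theorem mFT_simple : IsSimpleGroup G := hG.simple

theorem mFT_nonAbelian : ¬ IsMulCommutative G := hG.nonab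

theorem mFT_nonSolvable : ¬ Group.IsSolvable G := by
  intro h
  have := mFT_simple hG
  exact mFT_nonAbelian hG ⟨⟨(IsSimpleGroup.comm_iff_isSolvable).2 h⟩⟩

theorem mFT_nonSolvable_top : ¬ Group.IsSolvable (⊤ : Subgroup G) := fun _ =>
  mFT_nonSolvable hG (Group.isSolvable_of_surjective (f := (⊤ : Subgroup G).subtype)
    fun x => ⟨⟨x, mem_top x⟩, rfl⟩)

theorem sol_ne_top {H : Subgroup G} (h : Group.IsSolvable H) : H ≠ ⊤ := by
  rintro rfl
  exact mFT_nonSolvable_top hG h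

theorem pr_ne_top {H : Subgroup G} (h : Pr H) : H ≠ ⊤ := sol_ne_top hG (mFT_sol hG h)

theorem not_pr_top : ¬ Pr (⊤ : Subgroup G) := fun h => pr_ne_top hG h rfl

theorem mFT_pgroup_proper {p : ℕ} (hp : p.Prime) {P : Subgroup G} (h : IsPGroup p P)
    (hw : p ∈ ϖ := by w_tac) : Pr P :=
  have := hG.fin
  pr_of_w hG (w_of_pgroup h hp hw)

theorem mFT_bot_ne_top : Pr (⊥ : Subgroup G) := pr_bot hG

theorem mFT_top_ne_bot : (⊤ : Subgroup G) ≠ ⊥ := (pr_ne_top hG (pr_bot hG)).symm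

theorem mFT_eq_bot_or_top {H : Subgroup G} (h : H.Normal) : H = ⊥ ∨ H = ⊤ :=
  have := mFT_simple hG
  h.eq_bot_or_eq_top

theorem mFT_norm_proper {H : Subgroup G} (h : H ≠ ⊥) (h' : Pr H)
    (hw : IsPiSubgroup ϖ H := by w_tac) : Pr N[H] := pr_norm h hw

theorem mFT_center_eq_bot : center G = ⊥ := by
  refine (mFT_eq_bot_or_top hG (inferInstance : (center G).Normal)).resolve_right fun h => ?_
  refine mFT_nonAbelian hG ⟨⟨fun a b => ?_⟩⟩
  have : b ∈ center G := h ▸ mem_top b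
  exact mem_center_iff.1 this a

theorem mFT_cent1_proper {x : G} (h : x ≠ 1) (hw : PiElt ϖ x := by w_tac) : Pr C1[x] :=
  pr_cent1 h hw

theorem mFT_cent_proper {H : Subgroup G} (h : H ≠ ⊥) (hw : IsPiSubgroup ϖ H := by w_tac) :
    Pr C[H] := pr_cent h hw

theorem mFT_cent_top : C[(⊤ : Subgroup G)] = ⊥ := by
  rw [← mFT_center_eq_bot hG, coe_top, centralizer_univ]

theorem mFT_derived_top : ⁅(⊤ : Subgroup G), (⊤ : Subgroup G)⁆ = ⊤ := by
  refine (mFT_eq_bot_or_top hG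
    (inferInstance : (⁅(⊤ : Subgroup G), (⊤ : Subgroup G)⁆).Normal)).resolve_left fun h => ?_
  have := commutator_eq_bot_iff_le_centralizer.1 h
  rw [mFT_cent_top hG] at this
  exact mFT_top_ne_bot hG (le_bot_iff.1 this)

theorem mFT_piCore_top (π : Set ℕ) (h : ¬ IsPiSubgroup π (⊤ : Subgroup G)) :
    O[π]((⊤ : Subgroup G)) = ⊥ := by
  have := mFT_finite hG
  refine (mFT_eq_bot_or_top hG (normalIn_top_iff.1 (piCoreOf_normalIn π ⊤))).resolve_right
    fun h1 => h ?_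
  rw [← h1]
  exact isPi_piCoreOf π ⊤

theorem any_mmax : ∃ M : Subgroup G, IsCoatom M :=
  have := mFT_finite hG
  (mmax_exists (pr_bot hG)).imp fun _ h => h.1

theorem mmax_sol {M : Subgroup G} (h : IsCoatom M) : Group.IsSolvable M := mFT_sol hG h.1

theorem mmax_odd {M : Subgroup G} (h : IsCoatom M) : Odd (Nat.card M) := pr_odd hG h.1

theorem mmax_ne_top {M : Subgroup G} (h : IsCoatom M) : M ≠ ⊤ := pr_ne_top hG h.1

theorem mmax_sub_sol {M H : Subgroup G} (h : IsCoatom M) (hH : H ≤ M) : Group.IsSolvable H :=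
  mFT_sol hG (sub_mmax_proper h hH)

theorem mmax_sub_odd {M H : Subgroup G} (h : IsCoatom M) (hH : H ≤ M) : Odd (Nat.card H) :=
  pr_odd hG (sub_mmax_proper h hH)

theorem mmax_neq1 {M : Subgroup G} (h : IsCoatom M) : M ≠ ⊥ :=
  ne_bot_mono (mmax_core_ne_bot hG h) (piCoreOf_le _ _)

/-- mathcomp `mmax_norm`. -/
theorem mmax_norm {X M : Subgroup G} (h : IsCoatom M) (hX : X ≠ ⊥) (hX' : Pr X) (hn : M ≤ N[X])
    (hw : IsPiSubgroup ϖ X := by w_tac) : N[X] = M := mmax_max h (pr_norm hX hw) hn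

/-- mathcomp `mmax_normal`. -/
theorem mmax_normal {H M : Subgroup G} (h : IsCoatom M) (hH : H ⊴ M) (hne : H ≠ ⊥) : N[H] = M :=
  mmax_max h (pr_norm_of_mmax_normal hG h hH hne) hH.norm

theorem norm_mmax {M : Subgroup G} (h : IsCoatom M) : N[M] = M :=
  mmax_normal hG h (normalIn_refl M) (mmax_neq1 hG h)

/-- A `ϖ`-subgroup normalized by a maximal subgroup lies in it. -/
theorem le_mmax_of_norm {X M : Subgroup G} (h : IsCoatom M) (hX' : Pr X) (hn : M ≤ N[X])
    (hw : IsPiSubgroup ϖ X := by w_tac) : X ≤ M := by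
  by_cases hX : X = ⊥
  · rw [hX]; exact bot_le
  · rw [← mmax_norm hG h hX hX' hn hw]; exact le_normalizer

theorem mmax_cent_le {H M : Subgroup G} (h : IsCoatom M) (hH : H ⊴ M) (hne : H ≠ ⊥) : C[H] ≤ M := by
  rw [← mmax_normal hG h hH hne]
  exact centralizer_le_normalizer _

theorem cj_mmax_eq_iff {M : Subgroup G} (h : IsCoatom M) {g : G} : cj g M = M ↔ g ∈ M := by
  rw [cj_eq_self_iff, norm_mmax hG h]

theorem mem_mmax_of_cj_le {M : Subgroup G} (h : IsCoatom M) {g : G} (hg : cj g M ≤ M) : g ∈ M :=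
  (cj_mmax_eq_iff hG h).1 (eq_mmax (isCoatom_cj h) h hg)

/-- An element conjugating a uniqueness subgroup of `M` into `M` lies in `M`. -/
theorem mem_of_cj_le_uniq_mmax {U M : Subgroup G} (h : UniqMax U M) {g : G} (hg : cj g U ≤ M) :
    g ∈ M := by
  rw [← norm_mmax hG h.max]
  exact h.mem_normalizer hg

/-- mathcomp `uniq_mmax_norm_sub`. -/
theorem uniq_mmax_norm_sub {U M : Subgroup G} (h : UniqMax U M) : N[U] ≤ M := fun _ hg =>
  mem_of_cj_le_uniq_mmax hG h ((cj_eq_self hg).le.trans h.le)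

theorem uniq_mmax_cent_sub {U M : Subgroup G} (h : UniqMax U M) : C[U] ≤ M :=
  (centralizer_le_normalizer _).trans (uniq_mmax_norm_sub hG h)

theorem uniq_mmax_neq1 {U : Subgroup G} (h : InUniqueMaximal U) : U ≠ ⊥ := by
  rintro rfl
  obtain ⟨M, hM⟩ := exists_uniqMax h
  exact mmax_ne_top hG hM.max
    (top_le_iff.1 ((le_normalizer_bot ⊤).trans (uniq_mmax_norm_sub hG hM)))

/-- A nontrivial `ϖ`-subgroup centralizing a uniqueness subgroup of `M` has its normalizer in `M`. -/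
theorem norm_le_of_uniq_cent {U M X : Subgroup G} (h : UniqMax U M) (hX : X ≠ ⊥) (hc : X ≤ C[U])
    (hw : IsPiSubgroup ϖ X := by w_tac) : N[X] ≤ M :=
  have := mFT_finite hG
  h.sub (le_normalizer_of_le_centralizer' hc) (pr_norm hX hw)

theorem norm_le_of_uniq_norm {U M X : Subgroup G} (h : UniqMax U M) (hX : X ≠ ⊥) (hX' : Pr X)
    (hn : U ≤ N[X]) (hw : IsPiSubgroup ϖ X := by w_tac) : N[X] ≤ M :=
  have := mFT_finite hG
  h.sub hn (pr_norm hX hw)

theorem cent1_le_of_uniq {U M : Subgroup G} (h : UniqMax U M) {x : G} (hx : x ≠ 1)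
    (hc : x ∈ C[U]) (hw : PiElt ϖ x := by w_tac) : C1[x] ≤ M :=
  have := mFT_finite hG
  h.sub (mem_centralizer_iff_le.1 hc) (pr_cent1 hx hw)

/-- Existence of a maximal subgroup containing the normalizer. -/
theorem mmax_exists_norm {H : Subgroup G} (h : H ≠ ⊥) (h' : Pr H)
    (hw : IsPiSubgroup ϖ H := by w_tac) : ∃ M, IsCoatom M ∧ N[H] ≤ M :=
  have := mFT_finite hG
  mmax_exists (pr_norm h hw)

theorem mmax_exists_cent1 {x : G} (h : x ≠ 1) (hw : PiElt ϖ x := by w_tac) :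
    ∃ M, IsCoatom M ∧ C1[x] ≤ M :=
  have := mFT_finite hG
  mmax_exists (pr_cent1 h hw)

end

/-- mathcomp `mmax_sigma_Sylow` (no hypothesis on `M` is needed). -/
theorem mmax_sigma_Sylow [Finite G] {p : ℕ} [Fact p.Prime] {M P : Subgroup G} (h : IsSyl p P M)
    (hn : N[P] ≤ M) : IsSyl p P ⊤ := syl_top_of_normalizer_le h hn

end H67

export H67 (ne_top_mono pr_of_le pr_norm pr_of_norm pr_cent pr_cent1 pr_cj pr_cj_iff 
  pr_norm_of_core pr_norm_of_normal isCoatom_cj isCoatom_cj_iff mmax_exists mmax_proper 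
  mmax_max eq_mmax sub_mmax_proper le_mmax_of_sup_ne_top mmaxJ uniq_mmaxP exists_uniqMax 
  eq_uniq_mmax def_uniq_mmax uniqMax_iff eq_of_inU inU_proper uniqMax_of_forall inU_of_forall 
  exists_ne_of_not_inU exists_ne_of_not_uniqMax sub_uniq_mmax mmax_sup_id mmax_uniq_id 
  def_uniq_mmaxJ uniqMax_cj_iff inU_cj uniq_mmaxJ def_uniq_mmaxS uniq_mmaxS w_of_pgroup 
  w_of_syl w_of_elem w_of_le wp_of_dvd wp_of_pgroup wp_of_sigma sigma_sub_w w_of_sigma 
  we_of_sigma w_sigmaCore we_of_mem w_pCore mFT_finite we_of_commute' 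
  we_of_commute we_or we'_of_commute w_cent1 w'_cent1 w_cent w'_cent w_cent_of_dvd w_of_cent 
  w_of_cent' w_of_inf_cent we_of_inf_cent1 inf_cent_eq_bot_of_not_w inf_cent1_eq_bot_of_w' 
  inf_cent_eq_bot_of_w' w_or_of_nil w_of_nil w_of_nil' pr_bot pr_of_w pr_odd mFT_sol 
  w_of_noncyclic wp_of_normed wp_of_elem wp_of_elem2 wp_of_elem3 wp_of_rankP rankP_le_one_of_not_w 
  wp_of_alpha wp_of_beta wp_of_tau2 w_of_alpha w_of_beta w_of_tau2 w_alphaCore w_betaCore 
  wp_of_kappa w_of_kappa wp_ne_two wp_odd w_odd wp_of_noncyclic isCyclic_of_not_w 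
  mmax_core_ne_bot w_Fitting w_of_normal_nil wp_of_pCore mmax_w'core pr_norm_of_mmax_normal 
  le_of_hall sigmaCore_le' alphaCore_le' betaCore_le' derived_le' fittingHallOf_le' ptype_max 
  ftype_max p1type_max p2type_max sigmax_max fact_out mFT_odd mFT_odd_orderOf mFT_odd_relIndex 
  mFT_odd_of_dvd mFT_prime_ne_two mFT_prime_gt_two mFT_simple mFT_nonAbelian mFT_nonSolvable 
  mFT_nonSolvable_top sol_ne_top pr_ne_top not_pr_top mFT_pgroup_proper mFT_bot_ne_top 
  mFT_top_ne_bot mFT_eq_bot_or_top mFT_norm_proper mFT_center_eq_bot mFT_cent1_proper 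
  mFT_cent_proper mFT_cent_top mFT_derived_top mFT_piCore_top any_mmax mmax_sol mmax_odd 
  mmax_ne_top mmax_sub_sol mmax_sub_odd mmax_neq1 mmax_norm mmax_normal norm_mmax 
  le_mmax_of_norm mmax_cent_le cj_mmax_eq_iff mem_mmax_of_cj_le mem_of_cj_le_uniq_mmax 
  uniq_mmax_norm_sub uniq_mmax_cent_sub uniq_mmax_neq1 norm_le_of_uniq_cent 
  norm_le_of_uniq_norm cent1_le_of_uniq mmax_exists_norm mmax_exists_cent1 mmax_sigma_Sylow)

export H63 (KappaCompl PType FType P1Type P2Type sigmaDecomp SigMax Ell1 SigBase FTsig sigmaCover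
  sigmaSupport)

end Cfsg.Agent.H88.SZ
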