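import Cfsg.Agent.H88.ZMin
import Cfsg.Agent.H88.ZPF8
import Cfsg.Agent.H70.PF3Defs

/-! Peterfalvi (8.15): the cyclic TI, prime TI and prime Dade hypotheses for a maximal subgroup of
type `P`, and the definition of the coherence base. -/

set_option autoImplicit false
set_option linter.unusedSectionVars false
set_option linter.unusedVariables false
set_option linter.unusedSectionVars false

namespace Cfsg.Agent.H88.SZ.H68

open Cfsg.Agent.H68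

variable [Om]

open Cfsg Cfsg.Agent.H63 Cfsg.Agent.H67 Cfsg.Agent.H70 Subgroup
open Cfsg.Agent.H88.SZ.H63 Cfsg.Agent.H88.SZ.H67

universe u

variable {G : Type u} [Group G] [Finite G]

/-- The specification of Coq's `FTtypeP_coh_base` (Peterfalvi (5.3)(b) for `𝒮 = seqIndD M' M M_s 1`). -/
structure CohBaseSpec (M W₁ W₂ : Subgroup G) (R : (G → ℂ) → Finset (G → ℂ)) : Prop where
  scoh : Subcoherent M (seqIndD ⁅M, M⁆ M (typeCore M) ⊥) (ftDade0 M) R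
  ortho : ∀ φ ∈ seqIndD ⁅M, M⁆ M (typeCore M) ⊥, IsIrr M φ →
    ∀ α ∈ R φ, ∀ i j, cfdot ⊤ α (eta W₁ W₂ i j) = 0
  tired : ∀ j : W₂ →* ℂˣ, j ≠ 1 → ∀ α, α ∈ R (prTIred M W₁ W₂ j) ↔
    ∃ i, α = (prTIsign M W₁ W₂ j : ℂ) • eta W₁ W₂ i j ∨
      α = -((prTIsign M W₁ W₂ j : ℂ) • eta W₁ W₂ i j⁻¹)

/-- Coq `FTtypeP_coh_base`. -/
noncomputable def cohBase (M W₁ W₂ : Subgroup G) : (G → ℂ) → Finset (G → ℂ) :=
  Classical.epsilon (CohBaseSpec M W₁ W₂)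

theorem cohBase_spec {M W₁ W₂ : Subgroup G} (h : ∃ R, CohBaseSpec M W₁ W₂ R) :
    CohBaseSpec M W₁ W₂ (cohBase M W₁ W₂) := Classical.epsilon_spec h

variable (hG : IsMinSimpleOddOrder G) {M W₁ U W₂ : Subgroup G}
include hG

theorem typeP_W_odd (h : IsTypePWith M W₁ U W₂) (hM : IsCoatom M) : Odd (Nat.card ↥(W₁ ⊔ W₂)) :=
  mmax_sub_odd hG hM (sup_le (typeP_sdp_der h).le_right
    ((typeP_W2_le_der h).trans (derived_normalIn M).le))

theorem FT_cyclicTI_hyp (h : IsTypePWith M W₁ U W₂) (hM : IsCoatom M := by max_tac) : CycTI W₁ W₂ :=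
  ⟨h.selfNormalizing, typeP_W_odd hG h hM⟩

theorem TypePPair.cycTI {S T : Subgroup G} (h : TypePPair S T W₁ W₂) : CycTI W₁ W₂ :=
  ⟨h.cti, mmax_sub_odd hG h.maxS (h.inf ▸ inf_le_left)⟩

theorem FT_primeTI_hyp (h : IsTypePWith M W₁ U W₂) (hM : IsCoatom M := by max_tac) :
    PrimeTI M ⁅M, M⁆ W₁ W₂ :=
  ⟨typeP_sdp_der h, h.W₁_ne, typeP_W1_Hall h, h.W₁_cyclic, typeP_W2_ne h, typeP_W2_le_der h,
    typeP_W2_cyclic h, h.W₂_centralizer, typeP_W_odd hG h hM⟩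

theorem FT_prDade_hyp (hM : IsCoatom M) (h : IsTypePWith M W₁ U W₂) :
    PrimeDade M ⁅M, M⁆ (typeCore M) (typeA M) (typeA0 M) W₁ W₂ (supportR M) :=
  have h1 := FTtypeP_neq1 hG hM h
  ⟨FT_cyclicTI_hyp hG h, FT_primeTI_hyp hG h, FT_Dade0_hyp hG hM, FTcore_normal M,
    (typeP_W2_le_core h).trans (Fcore_sub_FTcore hG hM), FTcore_sub_der1 hG hM,
    fun _ hx _ => FTsupp_norm hx,
    fun y hy hy1 _ hx hx1 e => (mem_FTsupp_typeP h1).2 ⟨hx, hx1, y, hy, hy1, e⟩,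
    FTsupp_sub_der1 h1, FTtypeP_supp0_def h h1⟩

theorem FT_prDade_hypF (hM : IsCoatom M) (h : IsTypePWith M W₁ U W₂) :
    PrimeDade M ⁅M, M⁆ (fittingHallOf M) (typeA M) (typeA0 M) W₁ W₂ (supportR M) :=
  have h1 := FTtypeP_neq1 hG hM h
  ⟨FT_cyclicTI_hyp hG h, FT_primeTI_hyp hG h, FT_Dade0_hyp hG hM, Fcore_normal M,
    typeP_W2_le_core h, typeP_core_le_der h, fun _ hx _ => FTsupp_norm hx,
    fun y hy hy1 _ hx hx1 e => (mem_FTsupp_typeP h1).2 ⟨hx, hx1, y, Fcore_sub_FTcore hG hM hy, hy1, e⟩,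
    FTsupp_sub_der1 h1, FTtypeP_supp0_def h h1⟩

end Cfsg.Agent.H88.SZ.H68
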