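import Cfsg.Agent.H88.ZMin
import Cfsg.Agent.H88.ZPF8P
import Cfsg.Agent.H70.PF4
import Cfsg.Agent.H65.SeqInd
import Cfsg.Agent.H65.PF5c

/-! Peterfalvi (8.15), coherence part.  `𝒮 = seqIndD ⁅M, M⁆ M (typeCore M) ⊥`,
`τ = ftDade0 M`, `R = cohBase M W₁ W₂`. -/

set_option autoImplicit false
set_option linter.unusedSectionVars false
set_option linter.unusedVariables false
set_option linter.unusedSectionVars false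

namespace Cfsg.Agent.H88.SZ.H68

open Cfsg.Agent.H68

variable [Om]

open Cfsg Cfsg.Agent.H63 Cfsg.Agent.H67 Cfsg.Agent.H70 Subgroup
open Cfsg.Agent.H88.SZ.H63 Cfsg.Agent.H88.SZ.H67

universe u

variable {G : Type u} [Group G] [Finite G]
variable (hG : IsMinSimpleOddOrder G) {M W₁ U W₂ : Subgroup G}
include hG

theorem FTtypeP_seqInd_nonreal (hM : IsCoatom M) :
    ∀ χ ∈ seqIndD ⁅M, M⁆ M (typeCore M) ⊥, conjFun χ ≠ χ := fun _ hχ =>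
  H65.PF.seqInd_conjC_neq (mFT_odd hG M) (derived_normalIn M) (FTcore_sub_der1 hG hM) hχ

theorem FTtypeP_coh_base_spec (hM : IsCoatom M) (h : IsTypePWith M W₁ U W₂) :
    CohBaseSpec M W₁ W₂ (cohBase M W₁ W₂) := by
  obtain ⟨R, h1, h2, h3⟩ := H65.PF.prDade_subcoherent (FT_prDade_hyp hG hM h)
    (H65.PF.seqInd_conjC_subset1 le_rfl) (FTtypeP_seqInd_nonreal hG hM)
  refine cohBase_spec ⟨R, h1, h2, fun j _ α => ?_⟩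
  rw [h3, H65.PF.mem_prTIR]
  simp only [neg_smul]

theorem FTtypeP_subcoherent (hM : IsCoatom M) (h : IsTypePWith M W₁ U W₂) :
    Subcoherent M (seqIndD ⁅M, M⁆ M (typeCore M) ⊥) (ftDade0 M) (cohBase M W₁ W₂) :=
  (FTtypeP_coh_base_spec hG hM h).scoh

theorem FTtypeP_base_ortho (hM : IsCoatom M) (h : IsTypePWith M W₁ U W₂) {φ : G → ℂ}
    (hφ : φ ∈ seqIndD ⁅M, M⁆ M (typeCore M) ⊥) (hi : IsIrr M φ) {α : G → ℂ} (hα : α ∈ cohBase M W₁ W₂ φ)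
    (i : W₁ →* ℂˣ) (j : W₂ →* ℂˣ) : cfdot ⊤ α (eta W₁ W₂ i j) = 0 :=
  (FTtypeP_coh_base_spec hG hM h).ortho φ hφ hi α hα i j

theorem FTtypeP_base_TIred (hM : IsCoatom M) (h : IsTypePWith M W₁ U W₂) {j : W₂ →* ℂˣ} (hj : j ≠ 1)
    {α : G → ℂ} : α ∈ cohBase M W₁ W₂ (prTIred M W₁ W₂ j) ↔
      ∃ i, α = (prTIsign M W₁ W₂ j : ℂ) • eta W₁ W₂ i j ∨
        α = -((prTIsign M W₁ W₂ j : ℂ) • eta W₁ W₂ i j⁻¹) :=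
  (FTtypeP_coh_base_spec hG hM h).tired j hj α

theorem FTtypeP_base_TIred_eq (hM : IsCoatom M) (h : IsTypePWith M W₁ U W₂) {j : W₂ →* ℂˣ} (hj : j ≠ 1) :
    cohBase M W₁ W₂ (prTIred M W₁ W₂ j) = H65.PF.prTIR M W₁ W₂ j := by
  ext α
  rw [FTtypeP_base_TIred hG hM h hj, H65.PF.mem_prTIR]
  simp only [neg_smul]

theorem coherent_ortho_cycTIiso (hM : IsCoatom M) (h : IsTypePWith M W₁ U W₂) {S₁ : Set (G → ℂ)}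
    (hS : ConjSubset S₁ (seqIndD ⁅M, M⁆ M (typeCore M) ⊥)) {τ₁ : (G → ℂ) →ₗ[ℂ] (G → ℂ)}
    (hτ : CoherentWith M S₁ {1}ᶜ (ftDade0 M) τ₁) {χ : G → ℂ} (hχ : χ ∈ S₁) (hi : IsIrr M χ)
    (i : W₁ →* ℂˣ) (j : W₂ →* ℂˣ) : cfdot ⊤ (τ₁ χ) (eta W₁ W₂ i j) = 0 :=
  H65.PF.dot_eq_zero_of_zspan (fun _ hα => FTtypeP_base_ortho hG hM h (hS.1 hχ) hi hα i j)
    ((FTtypeP_subcoherent hG hM h).coh_mem_zspanR hS.1 hS.2 hτ hχ)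

/-- Peterfalvi (5.8) in the odd order context. -/
theorem FTtypeP_coherent_TIred (hM : IsCoatom M) (h : IsTypePWith M W₁ U W₂) {S₁ : Set (G → ℂ)}
    (hS : ConjSubset S₁ (seqIndD ⁅M, M⁆ M (typeCore M) ⊥)) {τ₁ : (G → ℂ) →ₗ[ℂ] (G → ℂ)}
    (hτ : CoherentWith M S₁ {1}ᶜ (ftDade0 M) τ₁) {χ : G → ℂ} (hχ : χ ∈ S₁) (hi : IsIrr M χ)
    {j : W₂ →* ℂˣ} (hj : prTIred M W₁ W₂ j ∈ S₁) :
    τ₁ (prTIred M W₁ W₂ j) = (prTIsign M W₁ W₂ j : ℂ) • ∑ i, eta W₁ W₂ i j ∨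
      (τ₁ (prTIred M W₁ W₂ j) = -(prTIsign M W₁ W₂ j : ℂ) • ∑ i, eta W₁ W₂ i j⁻¹ ∧
        ∀ l, prTIred M W₁ W₂ l ∈ S₁ → prTIred M W₁ W₂ l 1 = prTIred M W₁ W₂ j 1 → l = j ∨ l = j⁻¹) :=
  H65.PF.coherent_prDade_TIred (FT_prDade_hyp hG hM h) hS
    (fun _ hφ => FTtypeP_seqInd_nonreal hG hM _ (hS.1 hφ)) ⟨χ, hχ, hi⟩ hj hτ

/-- The weak form of `FTtypeP_coherent_TIred`. -/
theorem FTtypeP_coherent_TIred' (hM : IsCoatom M) (h : IsTypePWith M W₁ U W₂) {S₁ : Set (G → ℂ)}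
    (hS : ConjSubset S₁ (seqIndD ⁅M, M⁆ M (typeCore M) ⊥)) {τ₁ : (G → ℂ) →ₗ[ℂ] (G → ℂ)}
    (hτ : CoherentWith M S₁ {1}ᶜ (ftDade0 M) τ₁) {χ : G → ℂ} (hχ : χ ∈ S₁) (hi : IsIrr M χ)
    {j : W₂ →* ℂˣ} (hj : prTIred M W₁ W₂ j ∈ S₁) :
    ∃ (ε : ℤ) (k : W₂ →* ℂˣ), (ε = 1 ∨ ε = -1) ∧ (k = j ∨ k = j⁻¹) ∧
      τ₁ (prTIred M W₁ W₂ j) = (ε : ℂ) • ∑ i, eta W₁ W₂ i k := by
  rcases FTtypeP_coherent_TIred hG hM h hS hτ hχ hi hj with e | ⟨e, -⟩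
  · exact ⟨_, j, prTIsign_cases M j, Or.inl rfl, e⟩
  · refine ⟨-prTIsign M W₁ W₂ j, j⁻¹, ?_, Or.inr rfl, by rw [e, Int.cast_neg]⟩
    rcases prTIsign_cases (W₁ := W₁) M j with e | e <;> simp [e]

open scoped Classical in
theorem size_red_subseq_seqInd_typeP (h : IsTypePWith M W₁ U W₂) (S₁ : Finset (G → ℂ))
    (hS : ↑S₁ ⊆ seqIndT ⁅M, M⁆ M) (hred : ∀ χ ∈ S₁, ¬ IsIrr M χ) (hM : IsCoatom M := by max_tac) :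
    S₁.card = ((irrF ⁅M, M⁆).filter fun θ => cfInd M ⁅M, M⁆ θ ∈ S₁).card := by
  have hp := FT_primeTI_hyp hG h
  refine (Finset.card_bij (fun θ _ => cfInd M ⁅M, M⁆ θ) (fun θ hθ => (Finset.mem_filter.1 hθ).2)
    (fun θ hθ θ' hθ' e => ?_) fun χ hχ => ?_).symm
  · obtain ⟨h1, h2⟩ := Finset.mem_filter.1 hθ
    obtain ⟨h1', h2'⟩ := Finset.mem_filter.1 hθ'
    obtain ⟨j, rfl, e1⟩ := prTIred_of_not_irr hp (mem_irrF.1 h1) (hred _ h2)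
    obtain ⟨j', rfl, e2⟩ := prTIred_of_not_irr hp (mem_irrF.1 h1') (hred _ h2')
    rw [prTIred_inj hp (e1.symm.trans (e.trans e2))]
  · obtain ⟨θ, hθ, rfl⟩ := hS hχ
    exact ⟨θ, Finset.mem_filter.2 ⟨mem_irrF.2 hθ, hχ⟩, rfl⟩

end Cfsg.Agent.H88.SZ.H68
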