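import Cfsg.Agent.H88.ZMin
import Cfsg.Agent.H13.PF9Coh
import Cfsg.Agent.H88.ZPF8

/-! Peterfalvi section 9 (Coq names).  `H = fittingHallOf M`, `H₀ = fcoreKer M U`,
`C = fcomplKer M U`, `p = fcorePrime M U`, `q = Nat.card W₁`, `u = ubar M U`. -/

set_option autoImplicit false
set_option linter.unusedSectionVars false
set_option linter.unusedVariables false
set_option linter.unusedSectionVars false

namespace Cfsg.Agent.H88.SZ.H13

open Cfsg.Agent.H13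

variable [Om]

open Cfsg Cfsg.Agent.H63 Cfsg.Agent.H68 Cfsg.Agent.H70
open Cfsg.Agent.H88.SZ.H63 Cfsg.Agent.H88.SZ.H68

universe u

variable {G : Type u} [Group G] [Finite G] {M W₁ U W₂ : Subgroup G}

theorem Ptype_Fcore_coprime (h : IsTypePWith M W₁ U W₂) :
    (Nat.card (fittingHallOf M)).Coprime (Nat.card ↥(U ⊔ W₁)) := by
  rw [(typeP_sdp_UW1 h).card]
  exact (typeP_coprime_core_U h).mul_right (typeP_coprime_core_W1 h)
omit [Finite G] in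
theorem fcomplKer_le (M U : Subgroup G) : fcomplKer M U ≤ U := inf_le_left
omit [Finite G] in
theorem fcomplKer_of_fcoreKer_eq_bot (h : fcoreKer M U = ⊥) :
    fcomplKer M U = U ⊓ C[fittingHallOf M] := by
  rw [fcomplKer, h]
  congr 1
  refine eq_of_forall_le_iff fun A => ?_
  rw [le_stabMod_iff, le_bot_iff, Subgroup.commutator_eq_bot_iff_le_centralizer]
  exact and_iff_right (H67.le_normalizer_bot A)
theorem coreS_anti {Y Z : Subgroup G} (h : Y ≤ Z) : coreS M Z ⊆ coreS M Y := coreS_anti' h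

section
variable (hG : IsMinSimpleOddOrder G) (hM : IsCoatom M) (h : IsTypePWith M W₁ U W₂)
  (h5 : FTtype M ≠ 5)
include hG hM h h5

theorem P9_of : P9 M W₁ U W₂ :=
  have h' := compl_of_typeII_IV hG hM h h5
  ⟨h, h'.U_ne, h'.prime, H67.mFT_odd hG M⟩

theorem Ptype_U_ne_bot : U ≠ ⊥ := (P9_of hG hM h h5).U_ne
theorem Ptype_W1_prime : (Nat.card W₁).Prime := (P9_of hG hM h h5).prime
theorem Ptype_compl_Frobenius : IsFrobenius (U ⊔ W₁) U W₁ := (P9_of hG hM h h5).frobUW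
/-- (9.3), type II -/
theorem typeII_core (h2 : FTtype M = 2) : fittingHallOf M ⊓ C[U] = ⊥ ∧
    Nat.card (fittingHallOf M) = Nat.card W₂ ^ Nat.card W₁ := by
  have h9 := P9_of hG hM h h5
  have h1 : fittingHallOf M ⊓ C[U] = ⊥ := by
    by_contra hne
    have wU : IsPiSubgroup ϖ U := H67.w_of_inf_cent hG
      (H67.w_of_normal_nil hG hM (H68.Fcore_normal M) (H68.Fcore_nil M)) hne
    refine (compl_of_typeII hG hM h h2).not_norm_le ⟨?_, wU⟩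
    obtain ⟨x, hx, hx1⟩ := (Subgroup.bot_or_exists_ne_one U).resolve_left h9.U_ne
    have hu := (FTtypeI_II_facts hG hM (Or.inr ⟨h2, rfl⟩) h9.sdpK).2.1 U^# ⟨x, hx, hx1⟩ subset_rfl
      (fun hb => hne (eq_bot_iff.2 (hb ▸ inf_le_inf_left _
        (Subgroup.centralizer_le Set.sdiff_subset))))
    refine H67.norm_le_of_uniq_cent hG hu h9.U_ne fun y hy z hz => ?_
    by_cases hy1 : y = 1
    · simp [hy1]
    · exact (hz y ⟨hy, hy1⟩).symm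
  refine ⟨h1, ?_⟩
  have := (H69.Frobenius_Wielandt_fixpoint h9.frobUW (h9.UW_le.trans h9.nH) h9.copHUW
    h9.solH).2.2 h1
  rwa [h9.cent_W1] at this
/-- (9.3), types III and IV -/
theorem typeIII_IV_core (h2 : FTtype M ≠ 2) : (Nat.card W₂).Prime ∧
    fittingHallOf M ⊓ C[U ⊔ W₁] = ⊥ ∧
    Nat.card (fittingHallOf M) = Nat.card W₂ ^ Nat.card W₁ * Nat.card ↥(fittingHallOf M ⊓ C[U]) := by
  have h9 := P9_of hG hM h h5
  have hp : (Nat.card W₂).Prime := by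
    obtain ⟨T, V, hT, hV⟩ := FTtypeP_pair_witness hG hM h
    exact (compl_of_typeII hG hT.maxT hV (hT.type2.resolve_left h2)).base.prime
  have hw := (H69.Frobenius_Wielandt_fixpoint h9.frobUW (h9.UW_le.trans h9.nH) h9.copHUW
    h9.solH).1
  rw [h9.cent_W1] at hw
  have hle : fittingHallOf M ⊓ C[U ⊔ W₁] ≤ W₂ := by
    rw [← h9.cent_W1]
    exact inf_le_inf_left _ (H67.centralizer_anti le_sup_right)
  have h1 : fittingHallOf M ⊓ C[U ⊔ W₁] = ⊥ := by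
    rcases (Nat.dvd_prime hp).1 (Subgroup.card_dvd_of_le hle) with e | e
    · exact Subgroup.card_eq_one.1 e
    · exfalso
      rw [e] at hw
      have e2 := Nat.eq_of_mul_eq_mul_left (pow_pos hp.pos _) hw
      have e3 : fittingHallOf M ⊓ C[U] = fittingHallOf M :=
        Subgroup.eq_of_le_of_card_ge inf_le_left e2.le
      exact h9.not_U_le_cent (Subgroup.le_centralizer_iff.1 (e3 ▸ inf_le_right))
  refine ⟨hp, h1, ?_⟩
  rwa [h1, Subgroup.card_bot, one_pow, one_mul] at hw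
/-- (9.4) -/
theorem Ptype_Fcore_kernel_exists : ChiefFactor M (fcoreKer M U) (fittingHallOf M) ∧
    fittingHallOf M ⊓ C[U] ≤ fcoreKer M U :=
  (P9_of hG hM h h5).ker_spec
theorem fcoreKer_lt : fcoreKer M U < fittingHallOf M := (P9_of hG hM h h5).H0_lt
theorem fcoreKer_normal : fcoreKer M U ⊴ M := (P9_of hG hM h h5).H0_normal
theorem fcorePrime_prime : (fcorePrime M U).Prime := (P9_of hG hM h h5).p_prime
theorem der_Fcore_le_fcoreKer : ⁅fittingHallOf M, fittingHallOf M⁆ ≤ fcoreKer M U :=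
  (P9_of hG hM h h5).derH
theorem pow_mem_fcoreKer {x : G} (hx : x ∈ fittingHallOf M) : x ^ fcorePrime M U ∈ fcoreKer M U :=
  (P9_of hG hM h h5).powH hx
theorem Fcore_quo_elemAb :
    IsElementaryAbelian (fcorePrime M U) (fittingHallOf M /ᵍ fcoreKer M U) :=
  (P9_of hG hM h h5).elemAb
theorem mem_fcomplKer {x : G} : x ∈ fcomplKer M U ↔
    x ∈ U ∧ ∀ k ∈ fittingHallOf M, x * k * x⁻¹ * k⁻¹ ∈ fcoreKer M U :=
  (P9_of hG hM h h5).mem_C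
theorem le_fcomplKer {X : Subgroup G} :
    X ≤ fcomplKer M U ↔ X ≤ U ∧ ⁅X, fittingHallOf M⁆ ≤ fcoreKer M U :=
  (P9_of hG hM h h5).le_C
theorem fcomplKer_normal : fcomplKer M U ⊴ U ⊔ W₁ := (P9_of hG hM h h5).C_normal
theorem cent_le_fcomplKer : U ⊓ C[fittingHallOf M] ≤ fcomplKer M U := (P9_of hG hM h h5).cent_le_C
theorem der_le_fcomplKer : ⁅U, U⁆ ≤ fcomplKer M U := (P9_of hG hM h h5).derU_le_C
theorem Ptype_Fcore_extensions_normal :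
    fcoreKer M U ⊔ fcomplKer M U ⊴ M ∧ fittingHallOf M ⊔ fcomplKer M U ⊴ M ∧
    fcoreKer M U ⊔ ⁅U, U⁆ ⊴ M ∧ fcoreKer M U ⊔ ⁅fcomplKer M U, fcomplKer M U⁆ ⊴ M :=
  have h9 := P9_of hG hM h h5
  ⟨h9.H0C_normal, h9.HC_normal, h9.H0U'_normal, h9.H0C'_normal⟩
theorem relIndex_HC_der : (fittingHallOf M ⊔ fcomplKer M U).relIndex ⁅M, M⁆ = ubar M U :=
  (P9_of hG hM h h5).relIndex_HC_K
theorem relIndex_HC : (fittingHallOf M ⊔ fcomplKer M U).relIndex M = Nat.card W₁ * ubar M U :=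
  (P9_of hG hM h h5).relIndex_HC_M
/-- (9.6); the middle clause is `|C_{H̄}(W₁)| = |W₂ H₀ / H₀| = p`. -/
theorem Ptype_Fcore_factor_facts : fcomplKer M U ≠ U ∧
    (fcoreKer M U).relIndex W₂ = fcorePrime M U ∧
    (fcoreKer M U).relIndex (fittingHallOf M) = fcorePrime M U ^ Nat.card W₁ :=
  have h9 := P9_of hG hM h h5
  ⟨h9.C_ne, h9.relW2, h9.relH⟩
theorem one_lt_ubar : 1 < ubar M U := (P9_of hG hM h h5).one_lt_u
theorem ubar_modEq : ubar M U ≡ 1 [MOD Nat.card W₁] := (P9_of hG hM h h5).u_modEq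
theorem Ptype_Ubar_Frobenius :
    IsFrobenius ((U ⊔ W₁) /ᵍ fcomplKer M U) (U /ᵍ fcomplKer M U) (W₁ /ᵍ fcomplKer M U) :=
  (P9_of hG hM h h5).frobUbar
theorem def_Ptype_factor_prime (hp : (Nat.card W₂).Prime) : fcorePrime M U = Nat.card W₂ :=
  (P9_of hG hM h h5).p_eq_of_prime hp
theorem typeIII_IV_core_prime (h2 : FTtype M ≠ 2) : fcorePrime M U = Nat.card W₂ :=
  (P9_of hG hM h h5).p_eq_of_prime (typeIII_IV_core hG hM h h5 h2).1

/-! ### (9.7) -/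

/-- (9.7)(a), coordinate form -/
theorem typeP_Galois_Pn (hn : ¬ TypePGalois M U) :
    ∃ (f : G → ZMod (fcorePrime M U)) (ψ : U →* (ZMod (fcorePrime M U))ˣ),
      NonGalois M W₁ U f ψ :=
  (P9_of hG hM h h5).exists_nonGalois hn

section NonGalois
variable {p : ℕ} {f : G → ZMod p} {ψ : U →* (ZMod p)ˣ} (hf : NonGalois M W₁ U f ψ)
include hf
theorem nonGalois_not_Galois : ¬ TypePGalois M U := (P9_of hG hM h h5).ng_not_Galois hf
theorem nonGalois_mem_C {x : G} :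
    x ∈ fcomplKer M U ↔ ∀ w ∈ W₁, w⁻¹ * x * w ∈ ppre ψ ⊥ :=
  (P9_of hG hM h h5).ng_mem_C hf
theorem nonGalois_prod_eq_one [Fintype W₁] (x : U) (y : W₁ → U)
    (hy : ∀ w : W₁, (y w : G) = (w : G)⁻¹ * x * w) : ∏ w : W₁, ψ (y w) = 1 :=
  (P9_of hG hM h h5).ng_prod_eq_one x y hy
/-- `1 < a`, `a ∣ p - 1`, `a` is odd, `U / C_U(H₁)` is cyclic and `Ū` embeds in `(ℤ/a)^(q-1)`. -/
theorem nonGalois_facts : 1 < (ppre ψ ⊥).relIndex U ∧ (ppre ψ ⊥).relIndex U ∣ p - 1 ∧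
    Odd ((ppre ψ ⊥).relIndex U) ∧ IsCyclic (U /ᵍ ppre ψ ⊥) ∧
    (∃ e : U →* (Fin (Nat.card W₁ - 1) → Multiplicative (ZMod ((ppre ψ ⊥).relIndex U))),
      ppre e ⊥ = fcomplKer M U) ∧
    ubar M U ∣ (ppre ψ ⊥).relIndex U ^ (Nat.card W₁ - 1) :=
  have h9 := P9_of hG hM h h5
  ⟨h9.one_lt_a hf, h9.a_dvd_pred hf, h9.a_odd, h9.isCyclic_quo_U1 hf, h9.exists_embed hf,
    h9.u_dvd_pow hf⟩
/-- The subgroup `H₁` of (9.7)(a) (more precisely its preimage in `H`). -/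
theorem nonGalois_exists_H1 : ∃ H₁ : Subgroup G,
    (∀ x, x ∈ H₁ ↔ x ∈ fittingHallOf M ∧ ∀ w ∈ W₁, w ≠ 1 → f (w⁻¹ * x * w) = 0) ∧
    fcoreKer M U ≤ H₁ ∧ H₁ ≤ fittingHallOf M ∧ (fcoreKer M U).relIndex H₁ = p ∧ U ≤ N[H₁] ∧
    (⨆ w : W₁, cj (w : G) H₁) = fittingHallOf M ∧
    U ⊓ stabMod H₁ (fcoreKer M U) = ppre ψ ⊥ :=
  (P9_of hG hM h h5).exists_H1 hf
/-- (9.8)(a) -/
theorem typeP_nonGalois_characters_a {θ : G → ℂ} (hθ : θ ∈ coreX M (fcoreKer M U)) :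
    ∃ n : ℕ, θ 1 = ((ppre ψ ⊥).relIndex U * n : ℕ) :=
  (P9_of hG hM h h5).ng_degree hf hθ
/-- (9.8)(d) -/
theorem typeP_nonGalois_characters_d :
    (ppre ψ ⊥).relIndex U ^ 2 * Nat.card ↥⁅U, U⁆ ∣ (p - 1) * Nat.card U ∧
    ∃ T : Finset (G → ℂ), (p - 1) * Nat.card U ≤ (ppre ψ ⊥).relIndex U ^ 2 * Nat.card ↥⁅U, U⁆ * T.card ∧
      ∀ ζ ∈ T, ζ ∈ coreS M (fcoreKer M U ⊔ ⁅U, U⁆) ∧ IsIrr M ζ ∧
        ζ 1 = (Nat.card W₁ * (ppre ψ ⊥).relIndex U : ℕ) ∧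
        ∃ ξ, IsLin (fittingHallOf M ⊔ ppre ψ ⊥) ξ ∧ ζ = cfInd M (fittingHallOf M ⊔ ppre ψ ⊥) ξ := by
  obtain ⟨T, hT, hT'⟩ := (P9_of hG hM h h5).ng_exists_T hf
  refine ⟨⟨_, hT⟩, T, hT.le, fun ζ hζ => ?_⟩
  obtain ⟨h1, h2, h3, ξ, h4, -, h6⟩ := hT' ζ hζ
  exact ⟨h1, h2, h3, ξ, h4, h6⟩
end NonGalois

/-- (9.7)(b) -/
theorem typeP_Galois_P (hg : TypePGalois M U) :
    ∃ (F : Type) (_ : Field F) (_ : Fintype F) (f : G → F) (ψ : U →* Fˣ) (η : W₁ →* (F ≃+* F)),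
      GaloisModel M W₁ U W₂ f ψ η :=
  (P9_of hG hM h h5).exists_galoisModel hg
theorem typeP_Galois_facts (hg : TypePGalois M U) : IsCyclic (U /ᵍ fcomplKer M U) ∧
    (ubar M U).Coprime (fcorePrime M U - 1) ∧
    ubar M U ∣ (fcorePrime M U ^ Nat.card W₁ - 1) / (fcorePrime M U - 1) :=
  (P9_of hG hM h h5).galois_facts hg

/-! ### (9.8) - (9.11) -/

/-- (9.8)(b), (9.9)(b): the number of reducible characters in `𝒮(K)` for `H₀ ≤ K ≤ H₀C`. -/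
theorem typeP_card_reducible {K : Subgroup G} (h₀ : fcoreKer M U ≤ K)
    (h₁ : K ≤ fcoreKer M U ⊔ fcomplKer M U) :
    {ζ ∈ coreS M K | ¬ IsIrr M ζ}.ncard = fcorePrime M U - 1 :=
  (P9_of hG hM h h5).card_reducible h₀ h₁
/-- (9.8)(b), (9.9)(b) -/
theorem typeP_reducible_core_Ind {ζ : G → ℂ} (hζ : ζ ∈ coreS M (fcoreKer M U)) (hr : ¬ IsIrr M ζ) :
    IsIndHC M W₁ U ζ :=
  (P9_of hG hM h h5).isIndHC_of_not_irr hζ hr
/-- When `|W₂|` is prime every reducible `Ind χ` (`χ ≠ 1` irreducible of `M'`), i.e. every `μ_j` with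
`j ≠ 0`, is induced from a linear character of `HC`. -/
theorem typeP_reducible_core_Ind_prime (hp : (Nat.card W₂).Prime) {χ : G → ℂ}
    (hχ : IsIrr ⁅M, M⁆ χ) (h1 : χ ≠ cfOne ⁅M, M⁆) (hr : ¬ IsIrr M (cfInd M ⁅M, M⁆ χ)) :
    IsIndHC M W₁ U (cfInd M ⁅M, M⁆ χ) :=
  (P9_of hG hM h h5).isIndHC_of_prime hp hχ h1 hr
/-- (9.8)(c) -/
theorem typeP_nonGalois_characters_c (hn : ¬ TypePGalois M U) :
    ∃ ζ, IsIrr M ζ ∧ IsIndHC M W₁ U ζ := by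
  obtain ⟨f, ψ, hf⟩ := (P9_of hG hM h h5).exists_nonGalois hn
  exact (P9_of hG hM h h5).ng_exists_irr hf
/-- (9.9)(a), first part -/
theorem typeP_Galois_characters_a (hg : TypePGalois M U) {θ : G → ℂ}
    (hθ : θ ∈ coreX M (fcoreKer M U)) : ∃ n : ℕ, θ 1 = (ubar M U * n : ℕ) :=
  (P9_of hG hM h h5).galois_degree hg hθ
/-- (9.9)(a), second part -/
theorem typeP_Galois_characters_a' (hg : TypePGalois M U) {θ : G → ℂ}
    (hθ : θ ∈ coreX M (fcoreKer M U ⊔ ⁅fcomplKer M U, fcomplKer M U⁆)) :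
    θ 1 = ubar M U ∧ ∃ ξ, IsLin (fittingHallOf M ⊔ fcomplKer M U) ξ ∧
      θ = cfInd ⁅M, M⁆ (fittingHallOf M ⊔ fcomplKer M U) ξ :=
  (P9_of hG hM h h5).galois_ind hg hθ
/-- (9.9)(c) -/
theorem typeP_Galois_characters_c (hg : TypePGalois M U)
    (hr : ∀ ζ ∈ coreS M (fcoreKer M U ⊔ ⁅fcomplKer M U, fcomplKer M U⁆), ¬ IsIrr M ζ) :
    fcomplKer M U = ⊥ ∧
    ubar M U = (fcorePrime M U ^ Nat.card W₁ - 1) / (fcorePrime M U - 1) ∧
    IsFrobenius (⁅M, M⁆ /ᵍ fcoreKer M U) (fittingHallOf M /ᵍ fcoreKer M U) (U /ᵍ fcoreKer M U) :=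
  have h9 := P9_of hG hM h h5
  have h1 := h9.galois_all_reducible hg hr
  ⟨h1.1, h1.2, h9.galois_Frobenius hg h1.1⟩
/-- (9.10) -/
theorem typeP_reducible_core_cases :
    (∃ ζ, IsIrr M ζ ∧ ζ ∈ coreS M (fcoreKer M U ⊔ ⁅fcomplKer M U, fcomplKer M U⁆) ∧
      ζ 1 = (Nat.card W₁ * ubar M U : ℕ) ∧ ∃ ξ, IsLin (fittingHallOf M ⊔ fcomplKer M U) ξ ∧
        ζ = cfInd M (fittingHallOf M ⊔ fcomplKer M U) ξ) ∨
    (TypePGalois M U ∧ fcomplKer M U = ⊥ ∧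
      IsFrobenius (⁅M, M⁆ /ᵍ fcoreKer M U) (fittingHallOf M /ᵍ fcoreKer M U) (U /ᵍ fcoreKer M U) ∧
      IsCyclic U ∧ Nat.card U = (fcorePrime M U ^ Nat.card W₁ - 1) / (fcorePrime M U - 1) ∧
      (FTtype M = 2 → IsFrobenius ⁅M, M⁆ (fittingHallOf M) U)) := by
  have h9 := P9_of hG hM h h5
  by_cases hg : TypePGalois M U
  · by_cases hr : ∀ ζ ∈ coreS M (fcoreKer M U ⊔ ⁅fcomplKer M U, fcomplKer M U⁆), ¬ IsIrr M ζ
    · right
      obtain ⟨h1, h2⟩ := h9.galois_all_reducible hg hr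
      have hc : IsCyclic U := by
        have h3 := (h9.galois_facts hg).1
        rw [h1] at h3
        exact (quoEquivOfDisjoint (H67.le_normalizer_bot U) (bot_inf_eq U)).isCyclic.2 h3
      refine ⟨hg, h1, h9.galois_Frobenius hg h1, hc, ?_, fun h2 => ?_⟩
      · rw [← h2, ← h9.card_C_mul, h1, Subgroup.card_bot, one_mul]
      · have hII := compl_of_typeII hG hM h h2
        rw [← hII.core_eq]
        exact (typeF_context_b (H67.mFT_odd hG _) hII.typeF).2 (H69.isZGroup_of_isCyclic hc)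
    · left
      push Not at hr
      obtain ⟨ζ, hζ, hi⟩ := hr
      obtain ⟨θ, hθ, rfl⟩ := mem_coreS.1 hζ
      obtain ⟨h1, ξ, hξ, e⟩ := h9.galois_ind hg hθ
      refine ⟨_, hi, hζ, ?_, ξ, hξ, ?_⟩
      · rw [h9.indK_one, h1, Nat.cast_mul]
      · rw [e, cfInd_cfInd h9.HC_leK h9.K_le]
  · left
    obtain ⟨f, ψ, hf⟩ := h9.exists_nonGalois hg
    obtain ⟨ζ, hi, hζ⟩ := h9.ng_exists_irr hf
    exact ⟨ζ, hi, coreS_anti' (sup_le_sup_left h9.derC_le _) hζ.mem, hζ.one, hζ.ind⟩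

end

end Cfsg.Agent.H88.SZ.H13
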