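import Cfsg.Agent.H88.ZMin
import Cfsg.Agent.H88.ZPF9a
import Cfsg.Agent.H88.ZPF8Char

/-! Peterfalvi section 9: (9.11).  The rest of the section is in `PF9a`. -/

set_option autoImplicit false
set_option linter.unusedSectionVars false
set_option linter.unusedVariables false

namespace Cfsg.Agent.H88.SZ.H13

open Cfsg.Agent.H13

variable [Om]

open Cfsg Cfsg.Agent.H63 Cfsg.Agent.H68 Cfsg.Agent.H70
open Cfsg.Agent.H88.SZ.H63 Cfsg.Agent.H88.SZ.H68

universe u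

variable {G : Type u} [Group G] [Finite G] {M W₁ U W₂ : Subgroup G}

/-- (9.11) -/
theorem Ptype_core_coherence (hG : IsMinSimpleOddOrder G) (hM : IsCoatom M)
    (h : IsTypePWith M W₁ U W₂) (h5 : FTtype M ≠ 5) :
    Coherent M (coreS M (fcoreKer M U ⊔ ⁅fcomplKer M U, fcomplKer M U⁆)) {1}ᶜ (ftDade0 M) := by
  refine (P9_of hG hM h h5).core_coherence (FT_Dade0_hyp hG hM) (fun a ha h1 hne => ?_)
    ((FTtypeP_subcoherent hG hM h).mono (H65.PF.seqInd_sub1 (Fcore_sub_FTcore hG hM))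
      fun χ hχ => H65.PF.conj_seqInd hχ)
  obtain ⟨x, hx, hx1⟩ := (Subgroup.bot_or_exists_ne_one _).resolve_left hne
  exact FTsupp_sub0 M ((mem_FTsupp_typeP (FTtypeP_neq1 hG hM h)).2
    ⟨ha, h1, x, Fcore_sub_FTcore hG hM hx.1, hx1, hx.2 a rfl⟩)

end Cfsg.Agent.H88.SZ.H13
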