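import Cfsg.Agent.H88.ZMin
import Cfsg.Agent.H2.PF10b
import Cfsg.Agent.H88.ZPF9
import Cfsg.Agent.H68.PF7
import Cfsg.Agent.H88.ZPF8Char
import Cfsg.Agent.H65.PF6

/-! Peterfalvi section 10 (Coq names).  `calS = seqIndD ⁅M, M⁆ M ⁅M, M⁆ ⊥`,
`tau = ftDade0 M`, `alpha_ i j = bridge345 M W₁ W₂ δ n ζ i j`. -/

set_option autoImplicit false
set_option linter.unusedSectionVars false
set_option linter.unusedVariables false
set_option linter.unusedVariables false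
set_option linter.unusedSectionVars false

namespace Cfsg.Agent.H88.SZ.H2

open Cfsg.Agent.H2

variable [Om]

open Cfsg Cfsg.Agent.H63 Cfsg.Agent.H67 Cfsg.Agent.H68 Cfsg.Agent.H70 Cfsg.Agent.H65.PF
open Cfsg.Agent.H88.SZ.H63 Cfsg.Agent.H88.SZ.H67 Cfsg.Agent.H88.SZ.H68

universe u

variable {G : Type u} [Group G] [Finite G] {M W₁ U W₂ : Subgroup G}

/-- The counting argument of Peterfalvi (10.8). -/
theorem noncoherence_core' {L K H : Subgroup G} {A₀ : Set G} {R : G → Subgroup G}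
    (h : PrimeDade L K K K^# A₀ W₁ W₂ R) (hoL : Odd (Nat.card L))
    (hs : Group.IsSolvable K) (hW₂ : W₂ ≤ ⁅K, K⁆) {d n : ℕ} {δ : ℤ} (hc : T345Const L W₁ W₂ d δ n)
    {ζ : G → ℂ} (hζi : IsIrr L ζ) (hζS : ζ ∈ seqIndD K L K ⊥) (hζ1 : ζ 1 = Nat.card W₁)
    {τ₁ : (G → ℂ) →ₗ[ℂ] (G → ℂ)} (hτ : CoherentWith L (seqIndD K L K ⊥) {1}ᶜ (dade A₀ L R) τ₁)
    {T D U : Subgroup G} (hT : PrimeTI T D W₂ W₁) (hF : IsFrobenius D H U)
    (hU : 7 ≤ Nat.card U) (hTI : NormedTI H^# ⊤ T) (hH : IsHallOf H ⊤) (hW : W₁ ≤ H) : False := by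
  classical
  let _ := Fintype.ofFinite G
  have hK := h.prTI.K_normal
  have hw1 := h.prTI.three_le_W1
  have hw2 := h.prTI.three_le_W2
  have hD : DadeHypothesis K^# L R := dade_restrict h.dade (prDade_sub_A0 h) h.A_norm
  have hτ' : CoherentWith L (seqIndD K L K ⊥) {1}ᶜ (dade K^# L R) τ₁ := hτ.congr_tau fun α hα =>
    (restr_DadeE h.dade (prDade_sub_A0 h) h.A_norm (zcharD1_seqInd_on hK
      (H65.mem_zspanOn_compl_one.1 hα).1 (H65.mem_zspanOn_compl_one.1 hα).2)).symm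
  have hlt : ⁅K, K⁆ < K := commutator_lt_of_isSolvable hs fun e =>
    h.prTI.W2_ne (eq_bot_iff.2 (e ▸ h.prTI.W2_le))
  have hm : (2 * Nat.card W₁ + 1) * Nat.card W₂ ≤ Nat.card K := by
    rw [← card_mul_relIndex hlt.le, mul_comm]
    exact Nat.mul_le_mul (Subgroup.card_le_of_le hW₂)
      (prTI_index_le h.prTI hoL (hK.commutator hK) hlt hW₂)
  have hm' : (2 * Nat.card W₁ + 1 : ℝ) * Nat.card W₂ ≤ Nat.card K := by exact_mod_cast hm
  have hw1' : (3 : ℝ) ≤ Nat.card W₁ := by exact_mod_cast hw1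
  have hw2' : (3 : ℝ) ≤ Nat.card W₂ := by exact_mod_cast hw2
  obtain ⟨S, hS⟩ := exists_finset_seqIndD K L K ⊥
  obtain ⟨Γ, -, -, -, -, h7⟩ := Dade_Ind1_sub_lin hD hoL hτ' hζi hζS
    (by rw [hζ1, h.prTI.relIndex_K]) S hS
  rw [h.prTI.relIndex_K] at h7
  have h8 := (h7 (by nlinarith)).1
  set G₀ := Finset.univ.filter (· ∉ dadeSupport K^# R) with hG₀
  have h9 := Dade_cover_inequality (I := Unit) (A := fun _ => K^#) (L := fun _ => L)
    (H := fun _ => R) (fun _ => hD) (fun i j hij => absurd rfl hij) (hτ.vc ζ hζS).cfun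
    (hτ.dirr hζS hζi).cfnorm G₀ (by simp [hG₀])
  set B := (classSupport H^# ⊤ ∪ classSupport (cycV W₁ W₂) ⊤).toFinset with hB
  have h10 : ((G₀ \ B).card : ℝ) ≤ ∑ g ∈ G₀, ‖τ₁ ζ g‖ ^ 2 := by
    refine le_trans ?_ (Finset.sum_le_sum_of_subset_of_nonneg Finset.sdiff_subset
      fun _ _ _ => sq_nonneg _ : ∑ g ∈ G₀ \ B, ‖τ₁ ζ g‖ ^ 2 ≤ _)
    rw [Finset.card_eq_sum_ones, Nat.cast_sum]
    refine Finset.sum_le_sum fun g hg => ?_
    obtain ⟨hg1, hg2⟩ := Finset.mem_sdiff.1 hg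
    have := zeta_tau1_coprime h hoL hc hζi hζS hζ1 hτ (Finset.mem_filter.1 hg1).2 (by
      by_contra h0
      exact hg2 (Set.mem_toFinset.2 (cover_of_not_coprime hT hF hTI hH hW h0)))
    rw [Nat.cast_one]; nlinarith
  have h11 : G₀.card ≤ (G₀ \ B).card + ((Nat.card H - 1) * T.relIndex ⊤ +
      (Nat.card W₁ - 1) * (Nat.card W₂ - 1) * (W₁ ⊔ W₂).relIndex ⊤) := by
    refine (Finset.card_le_card_sdiff_add_card (t := B)).trans (Nat.add_le_add_left ?_ _)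
    rw [hB, ← Set.ncard_eq_toFinset_card', ← H72.ncard_diff_one, ← H72.card_support_normedTI hTI,
      ← card_cycTIset h.cycTI.dp, Nat.card_coe_set_eq, ← H72.card_support_normedTI h.cycTI.normedTI]
    exact Set.ncard_union_le _ _
  have hH1 : 1 ≤ Nat.card H := Nat.card_pos
  have h12 : (G₀.card : ℝ) ≤ (G₀ \ B).card + ((Nat.card H - 1) * T.relIndex ⊤ +
      (Nat.card W₁ - 1) * (Nat.card W₂ - 1) * (W₁ ⊔ W₂).relIndex ⊤) := by
    have := (Nat.cast_le (α := ℝ)).2 h11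
    push_cast [Nat.cast_sub hH1, Nat.cast_sub (by omega : 1 ≤ Nat.card W₁),
      Nat.cast_sub (by omega : 1 ≤ Nat.card W₂)] at this
    exact this
  have ha := card_mul_relIndex (le_top : T ≤ ⊤)
  have hb := card_mul_relIndex (le_top : W₁ ⊔ W₂ ≤ ⊤)
  rw [Subgroup.card_top] at ha hb
  rw [hT.sdp.card, hF.sdp.card] at ha
  rw [h.cycTI.card_W] at hb
  refine num_10_8 (g := Nat.card G) (a := T.relIndex ⊤) (b := (W₁ ⊔ W₂).relIndex ⊤)
    (m := Nat.card K) (h := Nat.card H) (u := Nat.card U) hw1' hw2' (by exact_mod_cast hU)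
    (by exact_mod_cast hH1) (by nlinarith) (by exact_mod_cast relIndex_pos T ⊤)
    (by exact_mod_cast ha.symm) (by exact_mod_cast hb.symm) ?_
  rw [Fintype.sum_unique, card_diff_one, h.prTI.sdp.card, Nat.cast_mul] at h9
  have hg : (0 : ℝ) ≤ (Nat.card G : ℝ)⁻¹ := by positivity
  refine le_trans (add_le_add (mul_le_mul_of_nonneg_left (by linarith) hg) (by linarith)) h9

theorem typeP_W2_le_der2 (h : IsTypePWith M W₁ U W₂) : W₂ ≤ ⁅⁅M, M⁆, ⁅M, M⁆⁆ :=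
  h.W₂_le.trans inf_le_right

theorem typeP_der2_lt (h : IsTypePWith M W₁ U W₂) : ⁅⁅M, M⁆, ⁅M, M⁆⁆ < ⁅M, M⁆ :=
  commutator_lt_of_isSolvable (isSolvable_of_le (derived_normalIn M).1 (of_typeP_sol h)) fun e =>
    typeP_W2_ne h (eq_bot_iff.2 (e ▸ (typeP_W2_le_der2 h).trans (derived_normalIn _).1))

/-- `M / M''` is a Frobenius group (any group of type `P`). -/
theorem typeP_Frobenius_der2 (h : IsTypePWith M W₁ U W₂) :
    IsFrobenius (M /ᵍ ⁅⁅M, M⁆, ⁅M, M⁆⁆) (⁅M, M⁆ /ᵍ ⁅⁅M, M⁆, ⁅M, M⁆⁆) (W₁ /ᵍ ⁅⁅M, M⁆, ⁅M, M⁆⁆) := by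
  have hN := (derived_normalIn M).commutator (derived_normalIn M)
  have hNK := typeP_der2_lt h
  have hs := typeP_sdp_der h
  have h1 : W₁ ≤ N[⁅⁅M, M⁆, ⁅M, M⁆⁆] := hs.le_right.trans hN.2
  refine ⟨hs.quo_of_le_left hN.2 hNK.le, quo_ne_bot hNK (hs.le_left.trans hN.2),
    fun e => h.W₁_ne ?_, fun x hx hx1 => ?_⟩
  · rw [eq_bot_iff, ← hs.inf]
    exact le_inf (((quo_eq_bot_iff h1).1 e).trans hNK.le) le_rfl
  obtain ⟨a, ha, haM, rfl⟩ := mem_quo.1 hx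
  have haW : Subgroup.zpowers a ≤ W₁ := Subgroup.zpowers_le.2 ha
  rw [← centralizer_zpowers, ← quo_zpowers haM, ← H63.coprime_quo_cent hNK.le (haW.trans h1)
    (((typeP_coprime_der h).symm.coprime_dvd_left (Subgroup.card_dvd_of_le haW)).coprime_dvd_right
      (Subgroup.card_dvd_of_le hNK.le))
    (Or.inl (isSolvable_of_isMulCommutative inferInstance)), centralizer_zpowers,
    h.W₂_centralizer a ha fun e => hx1 (by rw [e, coset_one]),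
    quo_eq_bot_of_le (typeP_W2_le_der2 h)]

/-- The characters of `M` induced from non-principal linear characters of `M'` are irreducible. -/
theorem typeP_seqInd_der2_irr (h : IsTypePWith M W₁ U W₂) {K : Subgroup G}
    (hK : ⁅⁅M, M⁆, ⁅M, M⁆⁆ ≤ K) {ζ : G → ℂ} (hζ : ζ ∈ seqIndD ⁅M, M⁆ M ⁅M, M⁆ K) :
    IsIrr M ζ ∧ ζ 1 = Nat.card W₁ := by
  refine ⟨?_, by rw [seqInd_derived_degree hK hζ, (typeP_sdp_der h).relIndex_left]⟩
  have hN := (derived_normalIn M).commutator (derived_normalIn M)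
  obtain ⟨θ, hθ, h1, h2, rfl⟩ := hζ
  obtain ⟨α, hα, rfl⟩ := hθ.exists_cfMod (hK.trans h1) (derived_normalIn _).2
  rw [cfInd_cfMod hN.2 (derived_normalIn M).1 (derived_normalIn _).1]
  refine (H65.PF.irr_induced_Frobenius_ker (typeP_Frobenius_der2 h).isFrobeniusKer hα
    fun e => h2 ?_).cfMod hN
  rw [H72.le_cfker_iff_eq_cfOne hθ, e, cfMod_cfOne (derived_normalIn _)]

/-- (10.2), valid for every group of type `P`. -/
theorem FTtypeP_ref_irr (h : IsTypePWith M W₁ U W₂) :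
    ∃ ζ, IsIrr M ζ ∧ ζ ∈ seqIndD ⁅M, M⁆ M ⁅M, M⁆ ⊥ ∧ ζ 1 = Nat.card W₁ := by
  obtain ⟨ζ, hζ, -⟩ := exists_linInd (L := M)
    (isSolvable_of_le (derived_normalIn M).1 (of_typeP_sol h)) (derived_normalIn ⁅M, M⁆)
    (typeP_der2_lt h).ne
  have h1 := typeP_seqInd_der2_irr h le_rfl hζ
  exact ⟨ζ, h1.1, seqIndD_mono_right bot_le hζ, h1.2⟩

section OneMaximal

variable (hG : IsMinSimpleOddOrder G) (hM : IsCoatom M) (h : IsTypePWith M W₁ U W₂)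
include hG hM h

/-- Coq `coherent_ortho_cycTIiso` for any set of characters supported on `M'`. -/
theorem coherent_ortho_eta {S₁ : Set (G → ℂ)} {τ₁ : (G → ℂ) →ₗ[ℂ] (G → ℂ)}
    (hτ : CoherentWith M S₁ {1}ᶜ (ftDade0 M) τ₁) {χ : G → ℂ} (hχ : χ ∈ S₁) (hc : conjFun χ ∈ S₁)
    (hχS : χ ∈ seqIndD ⁅M, M⁆ M (typeCore M) ⊥) (hi : IsIrr M χ) (i : W₁ →* ℂˣ) (j : W₂ →* ℂˣ) :
    cfdot ⊤ (τ₁ χ) (eta W₁ W₂ i j) = 0 :=   prDade_coherent_ortho_eta (FT_prDade_hyp hG hM h) hτ hχ hc hi (FTtypeP_seqInd_nonreal hG hM χ hχS)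
    (seqInd_offK (derived_normalIn M) hχS) i j

variable (h2 : FTtype M ≠ 2)
include h2

theorem FTtype345_gt2 : 2 < FTtype M := by
  have := FTtype_range hG hM
  have := FTtypeP_neq1 hG hM h
  omega

/-- Hypothesis (4.6) for `M` with `H = K = M'` and `A = M'^#`. -/
theorem FTtype345_prDade :
    PrimeDade M ⁅M, M⁆ ⁅M, M⁆ ⁅M, M⁆^# (typeA0 M) W₁ W₂ (supportR M) := by
  have h1 := FT_prDade_hyp hG hM h
  rwa [FTcore_type_gt2 hG hM (FTtype345_gt2 hG hM h h2),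
    FTsupp_type_gt2 hG hM (FTtype345_gt2 hG hM h h2)] at h1

/-- (10.3), first assertion. -/
theorem FTtype345_core_prime : (Nat.card W₂).Prime := by
  obtain ⟨T, V, hp, hT⟩ := FTtypeP_pair_witness hG hM h
  exact (compl_of_typeII hG hp.maxT hT (hp.type2.resolve_left h2)).base.prime

/-- (10.3). -/
theorem FTtype345_constants : ∃ (d : ℕ) (δ : ℤ) (n : ℕ), T345Const M W₁ W₂ d δ n :=   prTI_constants (FT_primeTI_hyp hG h) (FTtype345_core_prime hG hM h h2) le_rfl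

variable {d n : ℕ} {δ : ℤ} (hc : T345Const M W₁ W₂ d δ n) {ζ : G → ℂ} (hζi : IsIrr M ζ)
  (hζS : ζ ∈ seqIndD ⁅M, M⁆ M ⁅M, M⁆ ⊥) (hζ1 : ζ 1 = Nat.card W₁)
include hc hζi hζS hζ1

/-- (10.5), first part. -/
theorem supp_FTtype345_bridge (i : W₁ →* ℂˣ) {j : W₂ →* ℂˣ} (hj : j ≠ 1) :
    bridge345 M W₁ W₂ δ n ζ i j ∈ CFon M (typeA0 M) :=   bridge_supp (FTtype345_prDade hG hM h h2) hc hζi (seqInd_offK (derived_normalIn M) hζS) hζ1 i hj

theorem vchar_FTtype345_bridge (i : W₁ →* ℂˣ) (j : W₂ →* ℂˣ) :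
    IsVChar M (bridge345 M W₁ W₂ δ n ζ i j) :=   bridge_vchar (FT_primeTI_hyp hG h) hζi δ n i j

theorem vchar_Dade_FTtype345_bridge (i : W₁ →* ℂˣ) {j : W₂ →* ℂˣ} (hj : j ≠ 1) :
    IsVChar ⊤ (ftDade0 M (bridge345 M W₁ W₂ δ n ζ i j)) :=   bridge_Dade_vchar (FTtype345_prDade hG hM h h2) hc hζi (seqInd_offK (derived_normalIn M) hζS) hζ1 i hj

theorem norm_FTtype345_bridge (i : W₁ →* ℂˣ) {j : W₂ →* ℂˣ} (hj : j ≠ 1) :
    cfnorm ⊤ (ftDade0 M (bridge345 M W₁ W₂ δ n ζ i j)) = 2 + (n : ℝ) ^ 2 :=   bridge_Dade_norm (FTtype345_prDade hG hM h h2) hc hζi (seqInd_offK (derived_normalIn M) hζS) hζ1 i hj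

/-- The last paragraph of the proof of (10.5), with `Y` any function orthogonal to the `eta`. -/
theorem FTtype345_bridge_eq (i : W₁ →* ℂˣ) {j : W₂ →* ℂˣ} (hj : j ≠ 1) {X Y : G → ℂ}
    (hXY : ftDade0 M (bridge345 M W₁ W₂ δ n ζ i j) = X + Y) (hY : IsVChar ⊤ Y)
    (hYη : ∀ i j, cfdot ⊤ Y (eta W₁ W₂ i j) = 0) (ho : cfdot ⊤ Y X = 0) (hn : cfnorm ⊤ Y = (n : ℝ) ^ 2) :
    X = (δ : ℂ) • (eta W₁ W₂ i j - eta W₁ W₂ i 1) :=   bridge_eq (FTtype345_prDade hG hM h h2) hc hζi (seqInd_offK (derived_normalIn M) hζS) hζ1 i hj hXY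
    hY hYη ho hn

/-- The form used in (11.8). -/
theorem FTtype345_bridge_coherence {S₁ : Set (G → ℂ)} {τ₁ : (G → ℂ) →ₗ[ℂ] (G → ℂ)}
    (hτ : CoherentWith M S₁ {1}ᶜ (ftDade0 M) τ₁) (hS₁ : ConjSubset S₁ (seqIndD ⁅M, M⁆ M ⁅M, M⁆ ⊥))
    (hirr : ∀ χ ∈ S₁, IsIrr M χ) (i : W₁ →* ℂˣ) {j : W₂ →* ℂˣ} (hj : j ≠ 1) {X Y : G → ℂ}
    (hXY : ftDade0 M (bridge345 M W₁ W₂ δ n ζ i j) = X + Y) (hY : Y ∈ zspan (τ₁ '' S₁))
    (ho : cfdot ⊤ Y X = 0) (hn : cfnorm ⊤ Y = (n : ℝ) ^ 2) :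
    X = (δ : ℂ) • (eta W₁ W₂ i j - eta W₁ W₂ i 1) := by
  have h3 : ∀ χ ∈ S₁, χ ∈ seqIndD ⁅M, M⁆ M (typeCore M) ⊥ := fun χ hχ => by
    rw [FTcore_type_gt2 hG hM (FTtype345_gt2 hG hM h h2)]; exact hS₁.1 hχ
  refine FTtype345_bridge_eq hG hM h h2 hc hζi hζS hζ1 i hj hXY (vch_top.2 (H65.vc_of_mem_zspan ?_ hY))
    (fun k l => H65.zspan_induction (P := fun Y => cfdot ⊤ Y (eta W₁ W₂ k l) = 0) ?_
      (cfdot_zero_left _) (fun α β _ _ ha hb => by rw [cfdot_add_left, ha, hb, add_zero])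
      (fun m α _ ha => by rw [cfdot_smul_left, ha, mul_zero]) hY) ho hn
  · rintro _ ⟨χ, hχ, rfl⟩
    exact vch_top.1 (hτ.vc χ hχ)
  · rintro _ ⟨χ, hχ, rfl⟩
    exact coherent_ortho_eta hG hM h hτ hχ (hS₁.2 χ hχ) (h3 χ hχ) (hirr χ hχ) k l

/-- Coq `def_tau_alpha`. -/
theorem FTtype345_bridge_tau {S₁ : Set (G → ℂ)} {τ₁ : (G → ℂ) →ₗ[ℂ] (G → ℂ)}
    (hτ : CoherentWith M S₁ {1}ᶜ (ftDade0 M) τ₁) (hζ : ζ ∈ S₁) (hζc : conjFun ζ ∈ S₁)
    (i : W₁ →* ℂˣ) {j : W₂ →* ℂˣ} (hj : j ≠ 1)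
    (hn : cfdot ⊤ (ftDade0 M (bridge345 M W₁ W₂ δ n ζ i j)) (τ₁ ζ) = -n) :
    ftDade0 M (bridge345 M W₁ W₂ δ n ζ i j) =
      (δ : ℂ) • (eta W₁ W₂ i j - eta W₁ W₂ i 1) - (n : ℂ) • τ₁ ζ :=   bridge_tau (FTtype345_prDade hG hM h h2) hc hζi (seqInd_offK (derived_normalIn M) hζS) hζ1
    (hτ.dirr hζ hζi) (coherent_ortho_eta hG hM h hτ hζ hζc
      (by rwa [FTcore_type_gt2 hG hM (FTtype345_gt2 hG hM h h2)]) hζi) i hj hn

/-- The sum of the `alpha_ i j` over `i`. -/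
theorem sum_FTtype345_bridge (j : W₂ →* ℂˣ) :
    ∑ i, bridge345 M W₁ W₂ δ n ζ i j =
      (prTIred M W₁ W₂ j - (d : ℂ) • ζ) - (δ : ℂ) • (prTIred M W₁ W₂ 1 - ζ) :=   sum_bridge (FT_primeTI_hyp hG h) hc ζ j

omit hc in
/-- (10.9). -/
theorem FTtype345_Dade_bridge0 (hw : Nat.card W₁ < Nat.card W₂) :
    ∃ χ : G → ℂ, ftDade0 M (prTIred M W₁ W₂ 1 - ζ) = ∑ i, eta W₁ W₂ i 1 - χ ∧ IsVChar ⊤ χ ∧
      cfnorm ⊤ χ = 1 ∧ ∀ i j, cfdot ⊤ χ (eta W₁ W₂ i j) = 0 :=   Dade_bridge0 (FTtype345_prDade hG hM h h2) hζi (seqInd_offK (derived_normalIn M) hζS) hζ1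
    (seqInd_ortho_1 (derived_normalIn M).1 le_rfl hζS) hw

/-- (10.7). -/
theorem Frob_der1_type2 {τ₁ : (G → ℂ) →ₗ[ℂ] (G → ℂ)}
    (hτ : CoherentWith M (seqIndD ⁅M, M⁆ M ⁅M, M⁆ ⊥) {1}ᶜ (ftDade0 M) τ₁) {T V : Subgroup G}
    (hp : TypePPair M T W₁ W₂) (hT : IsTypePWith T W₂ V W₁) :
    IsFrobenius ⁅T, T⁆ (fittingHallOf T) V := by
  classical
  have hT2 : FTtype T = 2 := hp.type2.resolve_left h2
  have hT5 : FTtype T ≠ 5 := by omega
  have hm := hp.maxT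
  rcases H13.typeP_reducible_core_cases hG hm hT hT5 with ⟨lam, hli, hlS, hl1, -⟩ | h1
  swap
  · exact h1.2.2.2.2.2 hT2
  exfalso
  have hD := FT_prDade_hypF hG hm hT
  have hK := derived_normalIn T
  obtain ⟨ν, hνS, hνr⟩ : {ζ ∈ H13.coreS T (H13.fcoreKer T V) | ¬ IsIrr T ζ}.Nonempty := by
    refine Set.nonempty_of_ncard_ne_zero ?_
    rw [H13.typeP_card_reducible hG hm hT hT5 le_rfl le_sup_left]
    have := (H13.fcorePrime_prime hG hm hT hT5).one_lt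
    omega
  have hν1 := (H13.typeP_reducible_core_Ind hG hm hT hT5 hνS hνr).one
  obtain ⟨r, hr, rfl⟩ := (seqInd_prTI_cases hD.prTI hD.H_le hνS).resolve_left hνr
  have hlS' : lam ∈ seqIndD ⁅T, T⁆ T (fittingHallOf T) ⊥ := seqIndD_mono_right bot_le hlS
  have hνS' : prTIred T W₂ W₁ r ∈ seqIndD ⁅T, T⁆ T (fittingHallOf T) ⊥ :=
    seqIndD_mono_right bot_le hνS
  have hz := H65.zspan_sub (H65.mem_zspan_self hνS') (H65.mem_zspan_self hlS')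
  have hA : prTIred T W₂ W₁ r - lam ∈ CFon T (typeA T) :=
    prDade_zspan_on hD subset_rfl hz (by rw [Pi.sub_apply, hν1, hl1, sub_self])
  have hA0 : prTIred T W₂ W₁ r - lam ∈ CFon T (typeA0 T) :=
    ⟨hA.1, fun x hx => hA.2 x fun hx' => hx (prDade_sub_A0 hD hx')⟩
  have hlK := seqInd_offK hK hlS
  have hr' : r⁻¹ ≠ 1 := fun e => hr (inv_eq_one.1 e)
  have hrr : r⁻¹ ≠ r := hom_inv_ne_self hD.prTI.W2_odd hr
  have ho : ∀ j, cfdot T lam (prTIred T W₂ W₁ j) = 0 := fun j =>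
    cfdot_symm_zero (cfdot_prTIred_of_off hD.prTI hli hlK j)
  refine coh_no_row (FTtype345_prDade hG hM h h2) (mFT_odd hG M) hc hζi hζS hζ1 hτ
    (Y := ftDade0 T (prTIred T W₂ W₁ r - lam))
    (Dade_vchar hD.dade (zspan_seqInd_vchar hK.1 hz) hA0.2)
    (fun x hx => prDade_vanish_cycV hD hA.1 (zspan_seqInd_on hK hz).2 (cycV_symm W₁ W₂ ▸ hx))
    ((cfdot_Dade_one hD.dade hA0).trans (zspan_seqInd_ortho_1 hK.1 hD.H_le hz)) ?_ hr
    (ε := prTIsign T W₂ W₁ r) ?_ (prTIsign_cases T r) fun α hα => ?_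
  · refine (Dade_cfnorm hD.dade hA0).le.trans (le_of_eq ?_)
    rw [cfnorm_sub_of_orth (cfdot_symm_zero (ho r)), cfnorm_prTIred hD.prTI, hli.cfnorm]
  · have h3 := prDade_sub_TIred hD hr hr' (by
      rw [prTIred_inv hD.prTI, seqInd_conjFun_one hνS])
    simp only [eta_symm (hp.cycTI hG)] at h3
    rw [← h3]
    refine (Dade_isometry hD.dade hA0 (Submodule.sub_mem _ (prTIred_char hD.prTI _).cfun
      (prTIred_char hD.prTI _).cfun)).trans ?_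
    simp only [cfdot_sub_left, cfdot_sub_right, ho, cfdot_prTIred hD.prTI, if_true,
      if_neg hrr.symm, sub_zero]
  · have hd : Disjoint (dadeSupport (typeA1 M) (supportR M)) (dadeSupport (typeA T) (supportR T)) := by
      by_contra hd
      obtain ⟨g, hL, x, hx, hxM, hxL⟩ := (FTsupports_cj_iff hG hM hm (hp.not_conj hG)).2 hd
      have h3 := FT_Frobenius_type1 hG hM
        ((FTsupport_facts hG hM hx hxM hL hxL).2.2.2.2.2.1 (by rwa [FTtype_cj]))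
      exact hp.neS h3
    rw [FTsupp1_type_gt2 hG hM (FTtype345_gt2 hG hM h h2)] at hd
    exact cfdot_eq_zero_of_disjoint (Dade_cfunS_of_supp hD.dade hA).2
      (Dade_cfunS_of_supp (FT_Dade0_hyp hG hM) hα).2 hd.symm

end OneMaximal

variable (hG : IsMinSimpleOddOrder G)
include hG

/-- (10.8). -/
theorem FTtype345_noncoherence (hM : IsCoatom M) (h : 2 < FTtype M) :
    ¬ Coherent M (seqIndD ⁅M, M⁆ M ⁅M, M⁆ ⊥) {1}ᶜ (ftDade0 M) := by
  rintro ⟨τ₁, hτ⟩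
  obtain ⟨W₁, U, W₂, hP⟩ := FTtypeP_witness hG hM (by omega)
  have h2 : FTtype M ≠ 2 := by omega
  obtain ⟨T, V, hp, hT⟩ := FTtypeP_pair_witness hG hM hP
  obtain ⟨d, δ, n, hc⟩ := FTtype345_constants hG hM hP h2
  obtain ⟨ζ, hζi, hζS, hζ1⟩ := FTtypeP_ref_irr hP
  have hT2 : FTtype T = 2 := hp.type2.resolve_left h2
  have hU := odd_Frobenius_index_le (mmax_sub_odd hG hp.maxT
      (sup_le ((typeP_U_le_der hT).trans (derived_normalIn T).le) (typeP_W1_le hT)))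
    (H13.Ptype_compl_Frobenius hG hp.maxT hT (by omega)).isFrobeniusKer
  rw [(typeP_sdp_UW1 hT).relIndex_left] at hU
  have h3 := (hp.cycTI hG).three_le_W2
  have hTI := (FTtypeII_ker_TI hG hp.maxT hT2).2.2
  rw [FTsupp1_type_le2 hG hp.maxT hT2.le] at hTI
  exact noncoherence_core' (FTtype345_prDade hG hM hP h2) (mmax_odd hG hM)
    (isSolvable_of_le (derived_normalIn M).1 (of_typeP_sol hP)) (typeP_W2_le_der2 hP) hc hζi hζS hζ1
    hτ (FT_primeTI_hyp hG hT hp.maxT) (Frob_der1_type2 hG hM hP h2 hc hζi hζS hζ1 hτ hp hT) (by omega) hTI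
    (FTcore_facts hG hp.maxT).1 (hT.W₂_le.trans inf_le_left)

/-- (10.10). -/
theorem FTtype5_exclusion (hM : IsCoatom M) : FTtype M ≠ 5 := by
  intro h5
  obtain ⟨W₁, U, W₂, hP⟩ := FTtypeP_witness hG hM (by omega)
  have h2 : FTtype M ≠ 2 := by omega
  have hn := FTtype345_noncoherence hG hM (by omega)
  have hV := compl_of_typeV hG hM hP h5
  have hD := FTtype345_prDade hG hM hP h2
  have hH : fittingHallOf M = ⁅M, M⁆ := (hV.U_eq ▸ typeP_sdp_core hP).eq_of_bot_right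
  have hnil : Group.IsNilpotent ↥⁅M, M⁆ := hH ▸ Fcore_nil M
  have hK := derived_normalIn M
  have hS := FTtypeP_subcoherent hG hM hP
  rw [FTcore_type_gt2 hG hM (by omega)] at hS
  obtain ⟨-, hb, p, hp, hpK, -, hw⟩ := non_coherent_chief hK (isSolvable_of_le hK.1 (of_typeP_sol hP))
    hS ⟨mFT_odd hG M, bot_normalIn M, bot_le, quo_isNilpotent _ hnil, by
      rw [sup_bot_eq]; exact (typeP_Frobenius_der2 hP).isFrobeniusKer⟩ hn
  rw [hD.prTI.relIndex_K] at hb hw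
  rw [sup_bot_eq] at hb
  have := Fact.mk hp
  have hpK' : IsPGroup p ↥⁅M, M⁆ :=
    isPGroup_of_quo (bot_normalIn _).2 (by rw [bot_inf_eq]; exact IsPGroup.of_bot) hpK
  have hq : ∀ q : ℕ, q.Prime → q ∣ Nat.card ↥⁅M, M⁆ → q = p := fun q hq hd =>
    isPi_of_isPGroup hp hpK' q hq hd
  have hc := hV.cases
  rw [hH] at hc
  rcases hc with hc | ⟨q, hq1, hq2, hq3, -⟩ | ⟨q, hq1, hq2, hq3, hq4, -⟩
  · exact hn ((Sibley_coherence (mFT_odd hG M) hnil hc (Or.inr ⟨W₂, _, _,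
      FTtype345_core_prime hG hM hP h2, typeP_W2_le_der2 hP, hD⟩)).congr_tau fun α hα =>
      (Dade_Ind_TI hD.dade (prDade_sub_A0 hD) hc (zcharD1_seqInd_on hK
        (H65.mem_zspanOn_compl_one.1 hα).1 (H65.mem_zspanOn_compl_one.1 hα).2)).symm)
  · exact hw (hq q hq1 hq2 ▸ hq3)
  · obtain rfl := hq q hq1 hq2
    rw [piCoreOf_eq_self (isPi_of_isPGroup hp hpK')] at hq3
    exact hn (typeV_coherent hD (mFT_odd hG M) le_rfl (typeP_W2_le_der2 hP) hp hq3 hq4 hb)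

/-- (10.11), first assertion. -/
theorem FTtypeP_pair_primes {S T : Subgroup G} (h : TypePPair S T W₁ W₂) :
    (Nat.card W₁).Prime ∧ (Nat.card W₂).Prime := by
  obtain ⟨U, hU⟩ := typeP_pairW hG h
  obtain ⟨V, hV⟩ := typeP_pairW hG h.symm
  exact ⟨(compl_of_typeII_IV hG h.maxS hU (FTtype5_exclusion hG h.maxS)).prime,
    (compl_of_typeII_IV hG h.maxT hV (FTtype5_exclusion hG h.maxT)).prime⟩

theorem FTtypeP_primes (hM : IsCoatom M) (h : IsTypePWith M W₁ U W₂) :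
    (Nat.card W₁).Prime ∧ (Nat.card W₂).Prime := by
  obtain ⟨T, V, hp, -⟩ := FTtypeP_pair_witness hG hM h
  exact FTtypeP_pair_primes hG hp

/-- (10.11), remainder. -/
theorem FTtypeII_prime_facts (hM : IsCoatom M) (h : IsTypePWith M W₁ U W₂) (h2 : FTtype M = 2) :
    IsElementaryAbelian (Nat.card W₂) (fittingHallOf M) ∧
    Nat.card (fittingHallOf M) = Nat.card W₂ ^ Nat.card W₁ ∧
    Coherent M (seqIndD ⁅M, M⁆ M (fittingHallOf M) ⊥) {1}ᶜ (ftDade0 M) ∧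
    H13.fcoreKer M U = ⊥ := by
  have h5 : FTtype M ≠ 5 := by omega
  have hp := H13.def_Ptype_factor_prime hG hM h h5 (FTtypeP_primes hG hM h).2
  have hc := (H13.typeII_core hG hM h h5 h2).2
  have h0 : H13.fcoreKer M U = ⊥ := by
    have h1 := card_mul_relIndex (H13.fcoreKer_lt hG hM h h5).le
    rw [(H13.Ptype_Fcore_factor_facts hG hM h h5).2.2, hp, hc] at h1
    exact Subgroup.card_eq_one.1 (Nat.eq_of_mul_eq_mul_right (pow_pos Nat.card_pos _)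
      (h1.trans (one_mul _).symm))
  refine ⟨?_, hc, ?_, h0⟩
  · refine ⟨derived_eq_bot_iff.1 (eq_bot_iff.2 (h0 ▸ H13.der_Fcore_le_fcoreKer hG hM h h5)),
      fun x hx => ?_⟩
    have h1 := H13.pow_mem_fcoreKer hG hM h h5 hx
    rwa [h0, hp, Subgroup.mem_bot] at h1
  · have h1 := H13.Ptype_core_coherence hG hM h h5
    have h3 : ⁅H13.fcomplKer M U, H13.fcomplKer M U⁆ = ⊥ := eq_bot_iff.2
      ((Subgroup.commutator_mono (H13.fcomplKer_le M U) (H13.fcomplKer_le M U)).trans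
        (derived_eq_bot_iff.2 (compl_of_typeII hG hM h h2).abelian).le)
    rwa [h0, h3, sup_bot_eq] at h1

end Cfsg.Agent.H88.SZ.H2
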