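import Cfsg.Agent.H88.ZMin
import Mathlib
import Cfsg.Agent.H69.PF11a
import Cfsg.Agent.H88.ZPF10
import Cfsg.Agent.H88.ZPF8Char
import Cfsg.Agent.H65.PF6
import Cfsg.Agent.H72.PFNum

/-!
Peterfalvi (11.3) - (11.7).
-/

set_option autoImplicit false
set_option linter.unusedSectionVars false
set_option linter.unusedVariables false
set_option linter.unusedSectionVars false
set_option linter.unusedVariables false
set_option linter.style.haveILetI false

namespace Cfsg.Agent.H88.SZ.H69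

open Cfsg.Agent.H69

variable [Om]

open Cfsg Cfsg.Agent.H63 Cfsg.Agent.H67 Cfsg.Agent.H68 Cfsg.Agent.H70 Cfsg.Agent.H13 Cfsg.Agent.H2
  Cfsg.Agent.H65.PF Subgroup
open Cfsg.Agent.H88.SZ.H63 Cfsg.Agent.H88.SZ.H67 Cfsg.Agent.H88.SZ.H68 Cfsg.Agent.H88.SZ.H13 Cfsg.Agent.H88.SZ.H2

universe u

theorem four_mul_sq_lt_three_pow {q : ℕ} (hq : 5 ≤ q) : 4 * q ^ 2 + 1 < 3 ^ q := by
  induction q, hq using Nat.le_induction with
  | base => norm_num
  | succ n hn ih => rw [pow_succ 3]; nlinarith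

theorem lbound_expn_odd_prime {p q : ℕ} (hp : p.Prime) (hq : q.Prime) (hp3 : 3 ≤ p) (hq3 : 3 ≤ q)
    (hpq : p ≠ q) : 4 * q ^ 2 + 1 < p ^ q := by
  by_cases h3 : q = 3
  · subst h3
    have h5 := H72.prime_ge_five hp (by omega) hpq
    calc 4 * 3 ^ 2 + 1 < 5 ^ 3 := by norm_num
      _ ≤ p ^ 3 := Nat.pow_le_pow_left h5 3
  · exact (four_mul_sq_lt_three_pow (H72.prime_ge_five hq (by omega) h3)).trans_le
      (Nat.pow_le_pow_left hp3 q)

variable {G : Type u} [Group G] [Finite G] {M W₁ U W₂ : Subgroup G}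

local notation "HH" => fittingHallOf M
local notation "H0" => fcoreKer M U
local notation "CC" => fcomplKer M U
local notation "C0" => U ⊓ C[fittingHallOf M]
local notation "KK" => (⁅M, M⁆ : Subgroup G)
local notation "qq" => Nat.card W₁

theorem P9_norm_C0 (h : P9 M W₁ U W₂) : U ⊔ W₁ ≤ N[C0] :=
  le_normalizer_inf h.sdpU.le_norm (le_normalizer_centralizer (h.UW_le.trans h.nH))

theorem P9_H0C0_normal (h : P9 M W₁ U W₂) : H0 ⊔ C0 ⊴ M :=
  h.sup_normal le_rfl h.H0_normal h.cent_le_C (P9_norm_C0 h)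

theorem P9_HC0_normal (h : P9 M W₁ U W₂) : HH ⊔ C0 ⊴ M :=
  h.sup_normal h.H0_le h.H_normal h.cent_le_C (P9_norm_C0 h)

theorem P9_HC0_eq (h : P9 M W₁ U W₂) : HH ⊔ C0 = fittingOf M := (typeP_context_a h.typeP).sup

theorem P9_relIndex_H0C0 (h : P9 M W₁ U W₂) : (H0 ⊔ C0).relIndex (HH ⊔ C0) = fcorePrime M U ^ qq := by
  have hd := typeP_context_a h.typeP
  have h1 := card_mul_relIndex (sup_le_sup_right h.H0_le C0)
  rw [(hd.mono h.H0_le le_rfl).card, (hd.mono le_rfl le_rfl).card, h.card_H,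
    mul_right_comm (Nat.card H0) (_ ^ _)] at h1
  exact Nat.eq_of_mul_eq_mul_left (Nat.mul_pos Nat.card_pos Nat.card_pos) h1

variable (hG : IsMinSimpleOddOrder G) (hM : IsCoatom M) (h : IsTypePWith M W₁ U W₂)
  (h2 : FTtype M ≠ 2)
include hG hM h h2

theorem FTtype34_gt2 : 2 < FTtype M := by
  have := FTtype_range hG hM
  have := FTtypeP_neq1 hG hM h
  omega

theorem FTtype34_P9 : P9 M W₁ U W₂ :=
  have h' := compl_of_typeII_IV hG hM h (FTtype5_exclusion hG hM)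
  ⟨h, h'.U_ne, h'.prime, mFT_odd hG M⟩

theorem FTtype34_prime : (Nat.card W₂).Prime := (FTtypeP_primes hG hM h).2

theorem FTtype34_p_eq : fcorePrime M U = Nat.card W₂ :=
  (FTtype34_P9 hG hM h h2).p_eq_of_prime (FTtype34_prime hG hM h h2)

theorem FTtype34_core : typeCore M = KK := FTcore_type_gt2 hG hM (FTtype34_gt2 hG hM h h2)

theorem FTtype34_subcoherent :
    Subcoherent M (seqIndD KK M KK ⊥) (ftDade0 M) (cohBase M W₁ W₂) := by
  have := FTtypeP_subcoherent hG hM h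
  rwa [FTtype34_core hG hM h h2] at this

theorem FTtype34_prDade : PrimeDade M KK KK KK^# (typeA0 M) W₁ W₂ (supportR M) := by
  have := FT_prDade_hyp hG hM h
  rwa [FTtype34_core hG hM h h2, FTsupp_type_gt2 hG hM (FTtype34_gt2 hG hM h h2)] at this

/-- The members of `𝒮(X)`, `M'' ≤ X`, form a coherent set. -/
theorem FTtype34_lin_coherent {X : Subgroup G} (hX : ⁅KK, KK⁆ ≤ X) :
    Coherent M (seqIndD KK M KK X) {1}ᶜ (ftDade0 M) :=
  ((FTtype34_subcoherent hG hM h h2).mono (seqIndD_mono_right bot_le)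
    fun _ => conj_seqInd).uniform_degree_coherence fun φ hφ ψ hψ => by
      rw [seqInd_derived_degree hX hφ, seqInd_derived_degree hX hψ]

/-- (11.3) -/
theorem FTtype34_noncoherence : ¬ Coherent M
    (seqIndD ⁅M, M⁆ M ⁅M, M⁆ (fcoreKer M U ⊔ U ⊓ C[fittingHallOf M])) {1}ᶜ (ftDade0 M) := by
  intro hc
  have h9 := FTtype34_P9 hG hM h h2
  refine FTtype345_noncoherence hG hM (FTtype34_gt2 hG hM h h2) (bounded_seqIndD_coherence h9.K_normal
    (isSolvable_of_le h9.solM h9.K_le) (FTtype34_subcoherent hG hM h h2) ⟨bot_le, le_normalizer_bot M⟩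
    (P9_HC0_normal h9) (P9_H0C0_normal h9) bot_le (sup_le_sup_right h9.H0_le _)
    (sup_le h9.H_leK (inf_le_left.trans h9.U_leK))
    (quo_isNilpotent _ (P9_HC0_eq h9 ▸ fittingOf_nil M)) hc ?_)
  rw [P9_relIndex_H0C0 h9, h9.relIndex_K]
  exact lbound_expn_odd_prime h9.p_prime h9.prime h9.three_le_p h9.three_le_q fun e => by
    have := h9.cop_pq
    rw [e, Nat.coprime_self] at this
    exact h9.prime.ne_one this

/-- (11.5) -/
theorem FTtype34_der2 : ⁅⁅M, M⁆, ⁅M, M⁆⁆ = fittingHallOf M ⊔ U ⊓ C[fittingHallOf M] := by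
  have h9 := FTtype34_P9 hG hM h h2
  have hle : ⁅KK, KK⁆ ≤ HH ⊔ C0 := by
    rw [P9_HC0_eq h9, ← h.fitting_eq]; exact h.derived_two_le
  have hCK : HH ⊔ C0 ≤ KK := sup_le h9.H_leK (inf_le_left.trans h9.U_leK)
  have hn : ⁅KK, KK⁆ ⊴ M := (charIn_derived KK).normalIn_of_normalIn h9.K_normal
  have hC0 : C0 ≠ U := fun e => h9.not_U_le_cent (e.ge.trans inf_le_right)
  have hu : 1 < (C0).relIndex U := lt_of_le_of_ne (relIndex_pos _ _)
    fun e => hC0 (le_antisymm inf_le_left (relIndex_eq_one.1 e.symm))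
  have hi : (HH ⊔ C0).relIndex KK = (C0).relIndex U := h9.relIndex_sup_K inf_le_left
  have hlt : ⁅KK, KK⁆ < KK := lt_of_le_of_ne (hle.trans hCK) fun e => by
    rw [le_antisymm hCK (e.ge.trans hle), relIndex_self] at hi
    omega
  have hb := coherent_seqIndD_bound_ab h9.K_normal (isSolvable_of_le h9.solM h9.K_le)
    (FTtype34_subcoherent hG hM h h2) hn hlt hCK (B := H0 ⊔ C0) (by
      rw [derived_sup_of_cent inf_le_right]
      exact sup_le_sup h9.derH (commutator_le_of_le le_rfl le_rfl))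
    (FTtype34_lin_coherent hG hM h h2 le_rfl) (FTtype34_noncoherence hG hM h h2)
  rw [h9.relIndex_sup_M inf_le_left, ← relIndex_mul_relIndex _ _ _ hle hCK, hi] at hb
  have hF := typeP_Frobenius_der2 h
  have hd := H69.semiregular_dvd (quo_norms ⁅KK, KK⁆ (h9.W1_le.trans (P9_HC0_normal h9).norm))
    (hF.reg.mono_left (quo_mono _ hCK))
  rw [card_quo_of_disjoint (h9.W1_le.trans hn.norm) (le_bot_iff.1 ((inf_le_inf_right _
    hlt.le).trans h9.sdpM.inf.le)), card_quo ((P9_HC0_normal h9).le.trans hn.norm)] at hd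
  set m := (⁅KK, KK⁆ : Subgroup G).relIndex (HH ⊔ C0) with hm
  have hmo : Odd m := Odd.of_dvd_nat (h9.odd_of_le (P9_HC0_normal h9).le) (relIndex_dvd_card _ _)
  by_contra hne
  have h1 : m ≠ 1 := fun e => hne (le_antisymm hle (relIndex_eq_one.1 e))
  have h3 := H72.two_mul_lt_of_modEq h9.q_odd hmo ((Nat.modEq_iff_dvd' hmo.pos).2 hd).symm h1
  nlinarith

/-- (11.6) -/
theorem FTtype34_facts : IsPGroup (Nat.card W₂) (fittingHallOf M) ∧ U ≤ C[fcoreKer M U] ∧
    fcoreKer M U = ⁅fittingHallOf M, fittingHallOf M⁆ ∧ U ⊓ C[fittingHallOf M] = ⁅U, U⁆ :=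
  P9_facts_of_der2 (FTtype34_P9 hG hM h h2) (FTtype34_prime hG hM h h2)
    (typeIII_IV_core hG hM h (FTtype5_exclusion hG hM) h2).2.2 (FTtype34_der2 hG hM h h2)

theorem FTtype34_fcoreKer : fcoreKer M U = ⊥ :=
  have h1 := FTtype34_facts hG hM h h2
  P9_fcoreKer_eq_bot (FTtype34_P9 hG hM h h2) (FTtype34_p_eq hG hM h h2 ▸ h1.1) h1.2.1 h1.2.2.1

/-- (11.7) -/
theorem FTtype34_Fcore_kernel_trivial : IsElementaryAbelian (Nat.card W₂) (fittingHallOf M) ∧
    Nat.card (fittingHallOf M) = Nat.card W₂ ^ Nat.card W₁ ∧ fcoreKer M U = ⊥ := by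
  have h9 := FTtype34_P9 hG hM h h2
  have h0 := FTtype34_fcoreKer hG hM h h2
  have hp := FTtype34_p_eq hG hM h h2
  refine ⟨?_, ?_, h0⟩
  · refine ⟨derived_eq_bot_iff.1 (le_bot_iff.1 (h0 ▸ h9.derH)), fun x hx => ?_⟩
    have := h9.powH hx
    rwa [h0, hp, mem_bot] at this
  · rw [h9.card_H, h0, hp, card_bot, one_mul]

theorem Ptype_Fcompl_kernel_cent : fcomplKer M U = U ⊓ C[fittingHallOf M] :=
  fcomplKer_of_fcoreKer_eq_bot (FTtype34_fcoreKer hG hM h h2)

theorem FTtype34_fcomplKer_eq_der : fcomplKer M U = ⁅U, U⁆ :=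
  (Ptype_Fcompl_kernel_cent hG hM h h2).trans (FTtype34_facts hG hM h h2).2.2.2

theorem FTtype34_der2' : ⁅⁅M, M⁆, ⁅M, M⁆⁆ = fittingHallOf M ⊔ fcomplKer M U := by
  rw [Ptype_Fcompl_kernel_cent hG hM h h2, FTtype34_der2 hG hM h h2]

theorem FTtype34_noncoherence' :
    ¬ Coherent M (seqIndD ⁅M, M⁆ M ⁅M, M⁆ (fcomplKer M U)) {1}ᶜ (ftDade0 M) := by
  have := FTtype34_noncoherence hG hM h h2
  rwa [FTtype34_fcoreKer hG hM h h2, bot_sup_eq, ← Ptype_Fcompl_kernel_cent hG hM h h2] at this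

end Cfsg.Agent.H88.SZ.H69
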