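import Cfsg.Agent.H88.ZMin
import Cfsg.Agent.H88.ZPF13b
import Cfsg.Agent.H69.FixLift
import Cfsg.Agent.H69.BG3
import Cfsg.Agent.H63.QuoCore
import Cfsg.Agent.H63.BG1

/-!
Peterfalvi (13.16), (13.17), and the exclusion of case (9.7)(a).
-/

set_option autoImplicit false
set_option linter.unusedSectionVars false
set_option linter.unusedVariables false
set_option linter.unusedSectionVars false

namespace Cfsg.Agent.H88.SZ.H72

open Cfsg.Agent.H72

variable [Om]

open Cfsg Cfsg.Agent.H63 Cfsg.Agent.H67 Cfsg.Agent.H68 Cfsg.Agent.H70 Cfsg.Agent.H13 Cfsg.Agent.H65.PF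
open Cfsg.Agent.H88.SZ.H63 Cfsg.Agent.H88.SZ.H67 Cfsg.Agent.H88.SZ.H68 Cfsg.Agent.H88.SZ.H13

universe u

variable {G : Type u} [Group G] [Finite G] {S T L W₁ U V W₂ : Subgroup G}

namespace TP

variable (h : TP S W₁ U W₂)
include h

theorem U_le : U ≤ S := typeP_U_le h.tp

theorem PW_le : fittingHallOf S ⊔ W₁ ≤ S := sup_le (Fcore_le S) h.W1_le

theorem isMul_PW_U : IsMul (fittingHallOf S ⊔ W₁) U S := by
  refine ⟨h.PW_le, h.U_le, fun s hs => ?_⟩
  obtain ⟨a, ha, x, hx, rfl⟩ := (typeP_sdp_core_UW1 h.tp).exists_mul hs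
  obtain ⟨w, hw, u, hu, rfl⟩ := h.frobUW.sdp.exists_mul' hx
  exact ⟨a * w, Subgroup.mul_mem_sup ha hw, u, hu, (mul_assoc _ _ _).symm⟩

theorem PW_le_cent : fittingHallOf S ⊔ W₁ ≤ C[W₂] :=
  sup_le (le_cent_of_comm h.commP le_rfl h.W2_le_P) h.cyc.dp.cent'

/-- (13.16). -/
theorem norm_W2 : N[W₂] = fittingHallOf S ⊔ W₁ := by
  refine le_antisymm ?_ (le_normalizer_of_le_centralizer h.PW_le_cent)
  have h1 : N[W₂] ≤ S := fun g hg => by
    obtain ⟨x, hx, hx1⟩ := exists_ne_one_of_ne_bot h.cyc.W2_ne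
    exact h.tiP.mem trivial ⟨h.W2_le_P hx, hx1⟩
      ⟨h.W2_le_P (conj_mem_of_mem_normalizer hg hx), fun e => hx1 (conj_eq_one_iff.1 e)⟩
  have h2 : U ⊓ N[W₂] = ⊥ := by
    by_contra hK
    have hW : W₁ ≤ N[W₂] := le_normalizer_of_le_centralizer h.cyc.dp.cent'
    have h3 : W₁ ≤ N[U ⊓ N[W₂]] := le_normalizer_inf h.frobUW.norm (le_normalizer_normalizer hW)
    have hF := h.frobUW.mono_left inf_le_left hK h3
    have h4 : U ⊓ N[W₂] ≤ C[W₂] := hF.le_derived.trans
      (derived_le_cent_of_isCyclic h.cyc.W2_cyc (sup_le inf_le_right hW))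
    have hKS : U ⊓ N[W₂] ≤ S := inf_le_left.trans h.U_le
    have hn : U ⊓ N[W₂] ≤ N[fittingHallOf S] := hKS.trans h.P_norm
    have hc : (Nat.card ↥(U ⊓ N[W₂])).Coprime (Nat.card (fittingHallOf S)) :=
      ((typeP_coprime_core_U h.tp).coprime_dvd_right (card_dvd_of_le' inf_le_left)).symm
    have hV : ⁅fittingHallOf S, U ⊓ N[W₂]⁆ ≤ fittingHallOf S := commutator_le_of_norm_left hn
    have h5 := (H69.Frobenius_Wielandt_fixpoint hF (V := ⁅fittingHallOf S, U ⊓ N[W₂]⁆)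
      (le_normalizer_commutator ((sup_le hKS h.W1_le).trans h.P_norm) hF.normal.norm)
      (((Ptype_Fcore_coprime h.tp).coprime_dvd_left (card_dvd_of_le' hV)).coprime_dvd_right
        (card_dvd_of_le' (sup_le_sup_right inf_le_left _)))
      (isSolvable_of_le (Fcore_sol S) hV)).2.1 (le_bot_iff.1 ((le_inf inf_le_left
        ((inf_le_inf_right _ hV).trans ((typeP_cent_core_compl h.tp).le.trans (cent_symm h4)))).trans
        (coprime_abel_cent_TI hn hc h.commP).le))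
    exact hK (le_bot_iff.1 ((le_inf inf_le_left
      (coprime_cent_of_commutator_cent hn hc (cent_symm h5))).trans h.C_bot.le))
  have h3 := h.isMul_PW_U.of_le_left (le_normalizer_of_le_centralizer h.PW_le_cent) h1
  rw [h2] at h3
  exact h3.le_of_le le_rfl bot_le

theorem cent_W2 : C[W₂] = fittingHallOf S ⊔ W₁ :=
  le_antisymm (h.norm_W2 ▸ le_normalizer_of_le_centralizer le_rfl) h.PW_le_cent

theorem coprime_Uq_pow (n : ℕ) : (Nat.card U).Coprime (Nat.card W₁ ^ n) := h.coprime_UW.pow_right n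

theorem not_conj_of_norm (h2 : FTtype S = 2) (wU : IsPiSubgroup ϖ U) (hU : N[U] ≤ L) :
    ¬ Conj S L := by
  rintro ⟨g, rfl⟩
  have h1 : cj g⁻¹ U ≤ S := le_cj_iff_cj_inv_le.1 (Subgroup.le_normalizer.trans hU)
  have h3 : cj g⁻¹ U ≤ fittingHallOf S ⊔ U := by
    rw [(typeP_sdp_core h.tp).sup]
    exact le_of_coprime_relIndex h1 h.der_normal.norm (by
      rw [card_cj, h.pti.relIndex_K]; exact h.coprime_UW)
  obtain ⟨k, hk, e⟩ := exists_cj_eq_of_le_sup (h.U_le.trans h.P_norm)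
    (typeP_coprime_core_U h.tp).symm (Or.inr (Fcore_sol S)) h3 (card_cj _ _)
  have h4 := mem_cj.1 (hU (cj_eq_cj_iff.1 e.symm))
  have h5 : g ∈ S := by
    have h6 := S.mul_mem (S.inv_mem (Fcore_le S hk)) h4
    simpa using h6
  rw [cj_eq_self_of_mem h5] at hU
  exact (compl_of_typeII h.hG h.max h.tp h2).not_norm_le ⟨hU, wU⟩

theorem not_conj_of_norm' (h' : TP T W₂ V W₁) (hU : N[U] ≤ L) : ¬ Conj T L := by
  rintro ⟨g, rfl⟩
  have h1 := Fcore_Hall (cj g T)
  have h2 : Nat.card (fittingHallOf (cj g T)) = Nat.card W₁ ^ Nat.card W₂ := by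
    rw [Fcore_cj, card_cj, h'.cardP]
  have h3 : W₁ ≤ fittingHallOf (cj g T) :=
    le_of_coprime_relIndex (h.frobUW.norm.trans hU) (Fcore_normal _).norm
      (h1.2.coprime_dvd_left (h2 ▸ dvd_pow_self _ h.primep.ne_zero))
  have h4 : U ≤ fittingHallOf (cj g T) := by
    rw [← h.frobUW.commutator_eq]
    exact (Subgroup.commutator_mono le_rfl h3).trans (commutator_le_of_norm_right
      ((Subgroup.le_normalizer.trans hU).trans (Fcore_normal _).norm))
  have h5 := card_dvd_of_le' h4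
  rw [h2] at h5
  exact h.U_ne (Subgroup.card_eq_one.1 ((h.coprime_Uq_pow _).eq_one_of_dvd h5))

theorem coprime_core (hL : IsCoatom L) (h1 : FTtype L = 1) :
    (Nat.card W₂).Coprime (Nat.card (fittingHallOf L)) := by
  have h2 := FTcore_coprime h.hG h.max hL fun hc => h.n1 ((FTtype_of_conj hc).symm.trans h1)
  rw [FTcore_type_le2 h.hG hL (by omega)] at h2
  exact h2.coprime_dvd_left (card_dvd_of_le' (h.W2_le_P.trans (Fcore_sub_FTcore h.hG h.max)))

/-- (13.17). -/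
theorem typeII_support (h' : TP T W₂ V W₁) (h2 : FTtype S = 2) (wU : IsPiSubgroup ϖ U)
    (hL : IsCoatom L) (hU : N[U] ≤ L) :
    FTtype L = 1 ∧ U ≤ fittingHallOf L ∧ ∃ E, IsFrobenius L (fittingHallOf L) E ∧
      (E = W₁ ∨ ∃ y ∈ fittingHallOf T, E = W₁ ⊔ cj y W₂ ∧ Nat.card E = Nat.card W₂ * Nat.card W₁) := by
  have h1 : FTtype L = 1 := by
    by_contra h1
    rcases (of_typeP_pair h.hG h.max h.tp h'.max h'.tp).conj L hL h1 with hc | hc
    · exact h.not_conj_of_norm h2 wU hU hc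
    · exact h.not_conj_of_norm' h' hU hc
  obtain ⟨E₀, hE₀⟩ := H14.FTtype1_Frobenius h.hG hL h1
  have hc := h'.coprime_core hL h1
  have hWL : W₁ ≤ L := h.frobUW.norm.trans hU
  obtain ⟨g, hg, hW⟩ := exists_le_cj_hall (mmax_sol h.hG hL)
    (hE₀.sdp.hall_right_of_hall_left (Fcore_Hall L).hall) hWL (isPi_compl_of_coprime hc)
  have hE := hE₀.cj_right hg
  generalize cj g E₀ = E at hW hE
  have hoE : Odd (Nat.card E) := mmax_sub_odd h.hG hL hE.sdp.le_right
  have hn : W₁ ⊴ E := H69.prime_odd_regular_normal h.primeq hoE hW hE.ker_ne hE.norm hE.reg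
  have hs : IsSdp (fittingHallOf L) W₁ (fittingHallOf L ⊔ W₁) := hE.sdp.mono_right hW
  refine ⟨h1, ?_, E, hE, ?_⟩
  · have h3 : L ≤ N[fittingHallOf L ⊔ W₁] := hE.sdp.le_of_le (le_normalizer_of_le le_sup_left)
      (le_normalizer_sup hE.norm hn.norm)
    refine le_of_coprime_relIndex (X := fittingHallOf L ⊔ W₁) ?_ hs.le_norm
      (by rw [hs.relIndex_left]; exact h.coprime_UW)
    rw [← h.frobUW.commutator_eq]
    exact (Subgroup.commutator_mono le_rfl le_sup_right).trans (commutator_le_of_norm_right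
      ((Subgroup.le_normalizer.trans hU).trans h3))
  have h3 : E ≤ fittingHallOf T ⊔ W₂ := h'.norm_W2 ▸ hn.norm
  have h4 : fittingHallOf T ⊓ E = W₁ := by
    have h5 := H69.card_dvd_of_abelem_of_isZGroup h.primeq (X := fittingHallOf T ⊓ E)
      (fun x hx => h'.abelP.2 x hx.1) (H69.isZGroup_of_le
        (isZGroup_of_odd_semiregular hoE hE.ker_ne hE.norm hE.reg) inf_le_right)
    exact (Subgroup.eq_of_le_of_card_ge (le_inf h'.W2_le_P hW)
      (Nat.le_of_dvd h.primeq.pos h5)).symm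
  have hs' : IsSdp (fittingHallOf T) W₂ (fittingHallOf T ⊔ W₂) :=
    (typeP_sdp_core_UW1 h'.tp).mono_right le_sup_right
  have h5 : (fittingHallOf T).relIndex E ∣ Nat.card W₂ := by
    rw [← hs'.relIndex_left]
    exact relIndex_inf_dvd_of_le_normalizer h3 le_sup_left (Or.inr (h3.trans hs'.le_norm))
  have h6 := card_inf_mul_relIndex (fittingHallOf T) E
  rw [h4] at h6
  rcases (Nat.dvd_prime h.primep).1 h5 with h7 | h7
  · rw [h7, mul_one] at h6
    exact Or.inl (Subgroup.eq_of_le_of_card_ge hW h6.ge).symm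
  · rw [h7] at h6
    obtain ⟨R, hR, hRc⟩ := exists_prime_card_le h.primep (X := E) (Dvd.intro_left _ h6)
    obtain ⟨y, hy, rfl⟩ := exists_cj_eq_of_le_sup hs'.norm (typeP_coprime_core_W1 h'.tp).symm
      (Or.inr (Fcore_sol T)) (hR.trans h3) hRc
    refine Or.inr ⟨y, hy, (Subgroup.eq_of_le_of_card_ge (sup_le hW hR) ?_).symm, by rw [← h6, mul_comm]⟩
    rw [card_sup_of_inf_eq_bot (Or.inr (hR.trans hn.norm))
      (inf_eq_bot_of_coprime' (by rw [hRc]; exact h.cyc.coprime)), hRc, h6]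

theorem sylP : IsSyl (Nat.card W₂) (fittingHallOf S) ⊤ := by
  have := Fact.mk h.primep
  refine syl_mk le_top (IsPGroup.of_card h.cardP) ?_
  have h1 := (FTcore_facts h.hG h.max).1.2
  rw [h.cardP] at h1
  exact fun hd => h.primep.one_lt.ne' (Nat.Coprime.eq_one_of_dvd
    (h1.coprime_dvd_left (dvd_pow_self _ h.primeq.ne_zero)) hd)

theorem galois_cent (hg : TypePGalois S U) {a g : G} (ha : a ∈ fittingHallOf S) (ha1 : a ≠ 1)
    (hgS : g ∈ ⁅S, S⁆) (hc : g * a * g⁻¹ = a) : g ∈ fittingHallOf S := by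
  obtain ⟨F, _, _, f, ψ, η, hm⟩ := typeP_Galois_P h.hG h.max h.tp h.n5 hg
  obtain ⟨x, hx, y, hy, rfl⟩ := (typeP_sdp_core h.tp).exists_mul hgS
  have h1 : y * a * y⁻¹ = a := by
    have h2 := comm_of_isMulCommutative h.commP hx ha
    calc y * a * y⁻¹ = x⁻¹ * (x * y * a * (x * y)⁻¹) * x := by group
      _ = a := by rw [hc, mul_assoc, ← h2, inv_mul_cancel_left]
  have h2 := hm.conj ⟨y, hy⟩ a ha
  have h3 : f a ≠ 0 := fun e => ha1 (by have := (hm.ker a ha).1 e; rwa [h.ker_bot, Subgroup.mem_bot] at this)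
  rw [show ((⟨y, hy⟩ : U) : G) = y from rfl, h1, eq_comm, mul_eq_right₀ h3, Units.val_eq_one] at h2
  have h4 : y ∈ ppre ψ ⊥ := (mem_ppre ψ).2 ⟨hy, by rw [Subgroup.mem_bot]; exact h2⟩
  rw [hm.ker_psi, h.C_eq, h.C_bot, Subgroup.mem_bot] at h4
  rwa [h4, mul_one]

theorem coprime_order (hg : TypePGalois S U) {g : G} (hV : g ∉ classSupport (cycV W₁ W₂) ⊤)
    (hP : g ∉ classSupport (fittingHallOf S)^# ⊤) : (orderOf g).Coprime (Nat.card W₂) := by
  have := Fact.mk h.primep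
  by_contra hc
  rw [Nat.coprime_comm, h.primep.coprime_iff_not_dvd, not_not] at hc
  have ho : orderOf (g ^ (orderOf g / Nat.card W₂)) = Nat.card W₂ :=
    orderOf_pow_orderOf_div (orderOf_pos g).ne' hc
  have hcm : Commute g (g ^ (orderOf g / Nat.card W₂)) := Commute.self_pow _ _
  generalize g ^ (orderOf g / Nat.card W₂) = a at ho hcm
  obtain ⟨x, -, hx⟩ := exists_cj_le_syl h.sylP (K := Subgroup.zpowers a) le_top
    (IsPGroup.of_card (n := 1) (by rw [Nat.card_zpowers, ho, pow_one]))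
  have ha : x * a * x⁻¹ ∈ fittingHallOf S := hx (conj_mem_cj (Subgroup.mem_zpowers a))
  have ha1 : x * a * x⁻¹ ≠ 1 := fun e => by
    rw [conj_eq_one_iff] at e
    rw [e, orderOf_one] at ho
    exact h.primep.one_lt.ne ho
  have hcg : x * g * x⁻¹ * (x * a * x⁻¹) * (x * g * x⁻¹)⁻¹ = x * a * x⁻¹ := by
    calc _ = x * (g * a) * g⁻¹ * x⁻¹ := by group
      _ = _ := by rw [hcm.eq]; group
  have hS : x * g * x⁻¹ ∈ S := h.cent_le (h.P_sub ⟨ha, ha1⟩)
    (Subgroup.mem_centralizer_singleton_iff.2 (mul_inv_eq_iff_eq_mul.1 hcg))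
  by_cases hd : x * g * x⁻¹ ∈ ⁅S, S⁆
  · refine hP ⟨_, ⟨h.galois_cent hg ha ha1 hd hcg, fun e => ?_⟩, x⁻¹, trivial, by group⟩
    rw [Set.mem_singleton_iff, conj_eq_one_iff] at e
    rw [e, orderOf_one, Nat.dvd_one] at hc
    exact h.primep.one_lt.ne' hc
  · obtain ⟨k, -, h1, h2⟩ := prTI_exists_conj h.pti hS hd
    by_cases h3 : k * (x * g * x⁻¹) * k⁻¹ ∈ W₁
    · have h4 := Subgroup.orderOf_dvd_natCard _ h3
      rw [orderOf_conj', orderOf_conj'] at h4
      exact h.pq_ne ((Nat.prime_dvd_prime_iff_eq h.primep h.primeq).1 (hc.trans h4))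
    · exact hV ⟨_, ⟨h1, fun e => e.elim h3 h2⟩, (k * x)⁻¹, trivial, by group⟩

theorem nonGalois_noncyclic (hg : ¬ TypePGalois S U) : ¬ IsCyclic U := fun hc => by
  obtain ⟨hq, a, ha, hp, hU, hexp⟩ := h.nonGalois_order hg
  obtain ⟨x, hx, ex⟩ := exists_zpowers_eq_of_isCyclic hc
  have h2 := Nat.le_of_dvd (by omega) (orderOf_dvd_of_pow_eq_one (hexp x hx))
  rw [← Nat.card_zpowers, ex, hU] at h2
  nlinarith

theorem cent_le_of_U {x : G} (hx : x ∈ U) (hx1 : x ≠ 1) (hxP : fittingHallOf S ⊓ C1[x] ≠ ⊥) :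
    C1[x] ≤ S := by
  obtain ⟨z, ⟨hz, hzx⟩, hz1⟩ := exists_ne_one_of_ne_bot hxP
  exact h.cent_le (FTsupp_sub0 S ((mem_FTsupp_typeP h.n1).2
    ⟨typeP_U_le_der h.tp hx, hx1, z, Fcore_sub_FTcore h.hG h.max hz, hz1,
      (Subgroup.mem_centralizer_singleton_iff.1 hzx).symm⟩))

/-- The centre of a nilpotent group `H ≥ U` in case (9.7)(a). -/
theorem nonGalois_center (hg : ¬ TypePGalois S U) {H : Subgroup G} (hH : Group.IsNilpotent H)
    (hUH : U ≤ H) {r : ℕ} (hr : r.Prime) (hrU : r ∣ Nat.card U) :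
    omegaOne r Z[H] ≤ U ∧
      (Nat.card (omegaOne r Z[H]) = r ∨ Nat.card (omegaOne r Z[H]) = r ^ 2) := by
  classical
  obtain ⟨hq, -⟩ := h.nonGalois_order hg
  obtain ⟨f, ψ, hf⟩ := typeP_Galois_Pn h.hG h.max h.tp h.n5 hg
  obtain ⟨h1, -, -, -, ⟨e, he⟩, -⟩ := nonGalois_facts h.hG h.max h.tp h.n5 hf
  rw [h.C_eq, h.C_bot] at he
  have := Fact.mk hr
  obtain ⟨x, hx, hx1, hxP⟩ := exists_cent1_ne_bot h.commU (h.nonGalois_noncyclic hg)
    ((typeP_U_le h.tp).trans h.P_norm) (typeP_coprime_core_U h.tp).symm h.P_ne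
  have hC : C1[x] ≤ S := h.cent_le_of_U hx hx1 hxP
  have hZ : omegaOne r Z[H] ≠ ⊥ := by
    have h2 : O[{r}](H) ≠ ⊥ := (pCoreOf_ne_bot_iff hr).2 (by
      rw [fittingOf_eq_self hH]; exact hrU.trans (card_dvd_of_le' hUH))
    have h3 := inf_center_ne_bot_of_isNilpotent hH (piCoreOf_normalIn {r} H) h2
    exact ne_bot_mono (omegaOne_ne_bot_of_isPGroup hr
      ((isPGroup_pCoreOf hr H).to_le inf_le_left) h3) (omegaOne_mono inf_le_right)
  have hZe := elemAb_omegaOne_center r H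
  have hZC : omegaOne r Z[H] ≤ C[U] :=
    (omegaOne_center_le_centralizer r H).trans (Subgroup.centralizer_le hUH)
  have hall : IsHallOf U S := by
    refine ⟨typeP_U_le h.tp, ?_⟩
    have h2 := card_mul_relIndex (typeP_U_le h.tp)
    rw [h.cardS, mul_right_comm, mul_comm _ (Nat.card U)] at h2
    rw [Nat.eq_of_mul_eq_mul_left Nat.card_pos h2]
    exact Nat.Coprime.mul_right (h.coprime_PU.symm.pow_right _) h.coprime_UW
  have hZU : omegaOne r Z[H] ≤ U := by
    refine le_hall_of_le_normalizer hall.hall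
      ((hZC.trans (Subgroup.centralizer_le (Set.singleton_subset_iff.2 hx))).trans hC)
      (fun s hs hd => ?_) (Or.inr (hZC.trans (Subgroup.centralizer_le_normalizer _)))
    obtain ⟨k, hk⟩ := elemAb_card hZe
    rw [hk] at hd
    rw [(Nat.prime_dvd_prime_iff_eq hs hr).1 (hs.dvd_of_dvd_pow hd)]
    exact ⟨hr, hrU⟩
  have hle : Nat.card (omegaOne r Z[H]) ≤ r ^ 2 := by
    generalize (ppre ψ ⊥).relIndex U = b at h1 e he
    have : NeZero b := ⟨by omega⟩
    have h2 : Nat.card {t : Multiplicative (ZMod b) // t ^ r = 1} ≤ r := by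
      rw [Nat.subtype_card (Finset.univ.filter fun t : Multiplicative (ZMod b) => t ^ r = 1)
        (by simp)]
      exact IsCyclic.card_pow_eq_one_le hr.pos
    let φ : omegaOne r Z[H] → Fin (Nat.card W₁ - 1) → {t : Multiplicative (ZMod b) // t ^ r = 1} :=
      fun w i => ⟨e ⟨w, hZU w.2⟩ i, by
        rw [← Pi.pow_apply, ← map_pow,
          show (⟨w, hZU w.2⟩ : U) ^ r = 1 from Subtype.ext (elemAb_pow hZe w.2), map_one,
          Pi.one_apply]⟩
    have h3 : Function.Injective φ := fun w w' ew => by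
      have h4 : e ⟨w, hZU w.2⟩ = e ⟨w', hZU w'.2⟩ := funext fun i =>
        congrArg Subtype.val (congrFun ew i)
      have h5 : (w : G) * (w' : G)⁻¹ ∈ ppre e ⊥ := (mem_ppre e).2
        ⟨U.mul_mem (hZU w.2) (U.inv_mem (hZU w'.2)), by
          rw [Subgroup.mem_bot]
          show e (⟨w, hZU w.2⟩ * ⟨w', hZU w'.2⟩⁻¹) = 1
          rw [map_mul, map_inv, h4, mul_inv_cancel]⟩
      rw [he, Subgroup.mem_bot] at h5
      exact Subtype.ext (mul_inv_eq_one.1 h5)
    refine (Nat.card_le_card_of_injective φ h3).trans ?_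
    rw [Nat.card_fun, Nat.card_eq_fintype_card (α := Fin _), Fintype.card_fin, hq]
    exact Nat.pow_le_pow_left h2 _
  obtain ⟨k, hk⟩ := elemAb_card hZe
  have hk0 : k ≠ 0 := by
    rintro rfl
    exact hZ (Subgroup.card_eq_one.1 (by rw [hk, pow_zero]))
  rw [hk] at hle ⊢
  have hk2 : k ≤ 2 := (Nat.pow_le_pow_iff_right hr.one_lt).1 hle
  refine ⟨hZU, ?_⟩
  interval_cases k
  · exact absurd rfl hk0
  · exact Or.inl (pow_one r)
  · exact Or.inr rfl

omit h in
theorem exists_prime_mod3 {a : ℕ} (ha : 0 < a) (h : a % 3 ≠ 1) :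
    ∃ r, r.Prime ∧ r ∣ a ∧ r % 3 ≠ 1 := by
  induction a using Nat.recOnMul with
  | zero => omega
  | one => omega
  | prime p hp => exact ⟨p, hp, dvd_rfl, h⟩
  | mul a b iha ihb =>
    by_cases h1 : a % 3 = 1
    · by_cases h2 : b % 3 = 1
      · exact absurd (by rw [Nat.mul_mod, h1, h2]) h
      · obtain ⟨r, hr, hd, e⟩ := ihb (Nat.pos_of_mul_pos_left ha) h2
        exact ⟨r, hr, hd.mul_left a, e⟩
    · obtain ⟨r, hr, hd, e⟩ := iha (Nat.pos_of_mul_pos_right ha) h1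
      exact ⟨r, hr, hd.mul_right b, e⟩

/-- Case (9.7)(a) does not occur. -/
theorem galois : TypePGalois S U := by
  by_contra hg
  obtain ⟨T, V, h'⟩ := h.exists_pair
  obtain ⟨hq, a, ha, hp, hU, -⟩ := h.nonGalois_order hg
  have hp3 := h.p3
  have hne := h.pq_ne
  have h2 : FTtype S = 2 := h.type2_of_lt (by omega)
  have wU : IsPiSubgroup ϖ U := w_of_noncyclic h.hG (sub_mmax_proper h.max h.U_le) h.commU
    (h.nonGalois_noncyclic hg)
  obtain ⟨L, hL, hUL⟩ := mmax_exists (pr_norm h.U_ne wU)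
  obtain ⟨-, hUH, E, hE, hc⟩ := h.typeII_support h' h2 wU hL hUL
  have ha3 : a % 3 ≠ 1 := fun e => by
    have h3 : 3 ∣ Nat.card W₂ := by omega
    have := (Nat.prime_dvd_prime_iff_eq Nat.prime_three h.primep).1 h3
    omega
  obtain ⟨r, hr, hra, hr3⟩ := exists_prime_mod3 (by omega) ha3
  have := Fact.mk hr
  have hrU : r ∣ Nat.card U := by rw [hU]; exact hra.trans (dvd_pow_self _ two_ne_zero)
  obtain ⟨hZU, hZ⟩ := h.nonGalois_center hg (Fcore_nil L) hUH hr hrU
  have hd := (hE.reg.mono_left (omegaOne_center_le r _)).card_dvd_pred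
    (hE.norm.trans (normalizer_le_normalizer_omegaOne_center r _))
  have hr2 := hr.two_le
  have hra' := Nat.le_of_dvd (by omega) hra
  rcases hc with rfl | ⟨y, -, -, hc⟩
  · rw [hq] at hd
    have hZ2 : Nat.card (omegaOne r Z[fittingHallOf L]) = r ^ 2 := hZ.resolve_left fun e => by
      rw [e] at hd
      omega
    have hZe := elemAb_omegaOne_center r (fittingHallOf L)
    have hnc : ¬ IsCyclic (omegaOne r Z[fittingHallOf L]) := fun hc => by
      obtain ⟨x, hx, ex⟩ := exists_zpowers_eq_of_isCyclic hc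
      have h3 := Nat.le_of_dvd hr.pos (orderOf_dvd_of_pow_eq_one (elemAb_pow hZe hx))
      rw [← Nat.card_zpowers, ex, hZ2] at h3
      nlinarith
    obtain ⟨x, hx, hx1, hxP⟩ := exists_cent1_ne_bot hZe.1 hnc
      (hZU.trans ((typeP_U_le h.tp).trans h.P_norm))
      ((typeP_coprime_core_U h.tp).symm.coprime_dvd_left (card_dvd_of_le' hZU)) h.P_ne
    have hH : fittingHallOf L ≤ S := ((cent_symm (omegaOne_center_le_centralizer r _)).trans
      (centralizer_le_centralizer_singleton hx)).trans (h.cent_le_of_U (hZU hx) hx1 hxP)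
    exact (compl_of_typeII h.hG h.max h.tp h2).not_norm_le
      ⟨hUL.trans (hE.sdp.le_of_le hH h.W1_le), wU⟩
  · have hd1 : Nat.card W₂ ∣ Nat.card (omegaOne r Z[fittingHallOf L]) - 1 :=
      (Dvd.intro _ hc.symm).trans hd
    have hd2 : Nat.card W₂ ∣ (r + 1) * (r - 1) := by
      rcases hZ with e | e <;> rw [e] at hd1
      · exact hd1.mul_left _
      · rwa [← Nat.sq_sub_sq, one_pow]
    rcases (Nat.Prime.dvd_mul h.primep).1 hd2 with h3 | h3 <;>
      have := Nat.le_of_dvd (by omega) h3 <;> omega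

/-- A prime adjacent to `p` is `q`. -/
theorem adj_p {x y : G} (hc : Commute x y) (hx : orderOf x = Nat.card W₂) (hy : (orderOf y).Prime) :
    orderOf y = Nat.card W₂ ∨ orderOf y = Nat.card W₁ := by
  by_contra hn
  rw [not_or] at hn
  have hco : (orderOf x).Coprime (orderOf y) := by
    rw [hx]; exact (Nat.coprime_primes h.primep hy).2 (Ne.symm hn.1)
  have ho : orderOf (x * y) = Nat.card W₂ * orderOf y := by
    rw [hc.orderOf_mul_eq_mul_orderOf_of_coprime hco, hx]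
  have key : ∀ {A : Set G} {K : Subgroup G}, A ⊆ K → x * y ∈ classSupport A ⊤ →
      orderOf y ∣ Nat.card K := by
    rintro A K hA ⟨a, ha, g, -, e⟩
    have h1 := Subgroup.orderOf_dvd_natCard K (hA ha)
    rw [← orderOf_conj' g a, ← e, ho] at h1
    exact (Dvd.intro_left _ rfl).trans h1
  have h1 := h.coprime_order h.galois (g := x * y) (fun e => ?_) (fun e => ?_)
  · rw [ho] at h1
    exact h.primep.one_lt.ne' (Nat.Coprime.eq_one_of_dvd h1.symm (Dvd.intro _ rfl))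
  · have h2 := key cycV_subset e
    rw [h.cyc.card_W] at h2
    rcases (Nat.Prime.dvd_mul hy).1 h2 with h3 | h3
    · exact hn.2 ((Nat.prime_dvd_prime_iff_eq hy h.primeq).1 h3)
    · exact hn.1 ((Nat.prime_dvd_prime_iff_eq hy h.primep).1 h3)
  · have h2 := key Set.diff_subset e
    rw [h.cardP] at h2
    exact hn.1 ((Nat.prime_dvd_prime_iff_eq hy h.primep).1 (hy.dvd_of_dvd_pow h2))

end TP

end Cfsg.Agent.H88.SZ.H72
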