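import Cfsg.Agent.H88.ZMin
import Cfsg.Agent.H68.PF8a
import Cfsg.Agent.H68.DadeAmb
import Cfsg.Agent.H67.Fit
import Cfsg.Agent.H72.PF1

/-! Peterfalvi section 8: the part that does not depend on the local analysis (conjugation invariance of
the types, elementary properties of `M_s`, `A₁(M)`, `A(M)`, `A₀(M)`, `R(x)`). -/

set_option autoImplicit false
set_option linter.unusedSectionVars false
set_option linter.unusedVariables false
set_option linter.unusedSectionVars false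

namespace Cfsg.Agent.H88.SZ.H68

open Cfsg.Agent.H68

variable [Om]

open Cfsg Cfsg.Agent.H63 Cfsg.Agent.H67 Cfsg.Agent.H70 Subgroup
open Cfsg.Agent.H88.SZ.H63 Cfsg.Agent.H88.SZ.H67

universe u

variable {G : Type u} [Group G] [Finite G]

/-- (8.2)(c) -/
theorem typeF_context_c {M U : Subgroup G} (h : OfTypeF M U) {U₁ : Subgroup G} (h₁ : IsTypeFInertia M U U₁)
    {θ : G → ℂ} (hθ : IsIrr (fittingHallOf M) θ) (h1 : θ ≠ cfOne (fittingHallOf M)) :
    U ⊓ inertia (fittingHallOf M) θ ≤ U₁ := by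
  rintro x ⟨hxU, hxI⟩
  have hc : (Nat.card (fittingHallOf M)).Coprime (orderOf x) :=
    (Fcore_coprime h.sdp).coprime_dvd_right (orderOf_dvd_natCard _ hxU)
  obtain ⟨⟨y, hy, hyx⟩, hy1⟩ := (ne_bot_iff_exists_ne_one).1 (H72.cent1_ne_bot_of_mem_inertia hθ h1 hxI hc)
  refine h₁.2.2 y hy (fun e => hy1 (Subtype.ext e)) ⟨hxU, ?_⟩
  exact mem_centralizer_singleton_iff.2 (mem_centralizer_singleton_iff.1 hyx).symm

/-! ### Ambient forms of the types -/

section Amb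
variable {M U W₁ W₂ : Subgroup G}

omit [Finite G] in
theorem isTISubset_cj {H : Subgroup G} (h : IsTISubset (H : Set G)) (g : G) :
    IsTISubset (cj g H : Set G) := by
  intro x hx y hy hxy
  have h1 : g⁻¹ * x * g ∉ N[H] := fun e => hx (by rw [← cj_normalizer]; exact mem_cj.2 e)
  have := h _ h1 _ (mem_cj.1 hy) (by
    have := mem_cj.1 hxy
    simpa [mul_assoc] using this)
  have e : y = g * (g⁻¹ * y * g) * g⁻¹ := by group
  rw [e, this]; group

theorem isOfTypeF_iff' : IsOfTypeF M ↔ Group.IsSolvable M ∧ Odd (Nat.card M) ∧ ∃ U, OfTypeF M U :=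
  ⟨fun h => ⟨h.1, h.2.1, (isOfTypeF_iff h.1 h.2.1).1 h⟩,
    fun h => (isOfTypeF_iff h.1 h.2.1).2 h.2.2⟩

theorem isOfTypeF_cj (h : IsOfTypeF M) (g : G) : IsOfTypeF (cj g M) := by
  obtain ⟨hs, ho, U, hU⟩ := isOfTypeF_iff'.1 h
  refine isOfTypeF_iff'.2 ⟨?_, by rwa [card_cj], _, hU.cj g⟩
  exact Group.isSolvable_of_surjective (f := (cjEquiv g M).toMonoidHom) (cjEquiv g M).surjective

theorem exponent_quo_Fcore (h : IsSdp (fittingHallOf M) U M) :
    Monoid.exponent (M ⧸ fittingHall M) = Monoid.exponent U := by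
  have hc := h.isComplement'_subgroupOf
  rw [Fcore_subgroupOf] at hc
  rw [Monoid.exponent_eq_of_mulEquiv hc.symm.QuotientMulEquiv]
  exact Monoid.exponent_eq_of_mulEquiv (subgroupOfEquivOfLe h.le_right)

omit [Finite G] in
theorem isCyclic_pPrimeCore_iff {p : ℕ} (hp : p.Prime) (X : Subgroup G) :
    IsCyclic (pPrimeCore p X) ↔ IsCyclic O[{p}ᶜ](X) := by
  rw [← map_pPrimeCore_subtype hp]
  exact ((pPrimeCore p X).equivMapOfInjective _ X.subtype_injective).isCyclic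

theorem card_pCore_eq {p : ℕ} (hp : p.Prime) (X : Subgroup G) :
    Nat.card (pCore p X) = Nat.card O[{p}](X) := by
  rw [← map_pCore_subtype hp, card_map_of_injective X.subtype_injective]

/-- The three cases of type I in the ambient language. -/
def TypeICases (M U : Subgroup G) : Prop :=
  IsTISubset (fittingHallOf M : Set G) ∨
    (IsMulCommutative (fittingHallOf M) ∧ rank (fittingHallOf M) = 2) ∨
    ((∀ p : ℕ, p.Prime → p ∣ Nat.card (fittingHallOf M) → Monoid.exponent U ∣ p - 1) ∧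
      ∃ p : ℕ, p.Prime ∧ p ∣ Nat.card (fittingHallOf M) ∧ IsCyclic O[{p}ᶜ](fittingHallOf M))

theorem isOfTypeI_iff (h : IsSdp (fittingHallOf M) U M) :
    IsOfTypeI M ↔ IsOfTypeF M ∧ TypeICases M U := by
  unfold IsOfTypeI TypeICases
  rw [exponent_quo_Fcore h, rankLE_iff, rankLE_iff]
  refine and_congr_right fun _ => or_congr_right (or_congr (and_congr_right fun _ => by omega)
    (and_congr_right fun _ => exists_congr fun p => and_congr_right fun hp => ?_))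
  rw [isCyclic_pPrimeCore_iff hp]

theorem TypeICases.cj (h : TypeICases M U) (g : G) : TypeICases (cj g M) (cj g U) := by
  unfold TypeICases
  rw [Fcore_cj, card_cj, exponent_cj, rank_cj, isMulCommutative_cj_iff]
  rcases h with h | h | ⟨h, p, hp, hpd, hc⟩
  · exact Or.inl (isTISubset_cj h g)
  · exact Or.inr (Or.inl h)
  · exact Or.inr (Or.inr ⟨h, p, hp, hpd, by rwa [← cj_piCoreOf, isCyclic_cj_iff]⟩)

theorem isOfTypeI_cj (h : IsOfTypeI M) (g : G) : IsOfTypeI (cj g M) := by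
  obtain ⟨U, hU⟩ := exists_Fcore_compl M
  have hU' := hU.cj g
  rw [← Fcore_cj] at hU'
  obtain ⟨h1, h2⟩ := (isOfTypeI_iff hU).1 h
  exact (isOfTypeI_iff hU').2 ⟨isOfTypeF_cj h1 g, h2.cj g⟩

theorem NU_cj {U : Subgroup G} (g : G) : NU (cj g U) (cj g M) ↔ NU U M := by
  rw [NU, NU, ← cj_normalizer, cj_le_cj_iff, isPi_cj_iff]

theorem isOfTypeII_cj (h : IsOfTypeII M) (g : G) : IsOfTypeII (cj g M) := by
  obtain ⟨W₁, U, W₂, hP, h1, h2, h3, h4, h5, h6, h7⟩ := h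
  refine ⟨_, _, _, conj_of_typeP hP g, by rwa [Ne, cj_eq_bot_iff], by rwa [card_cj], ?_,
    isMulCommutative_cj_iff.2 h4, by rwa [NU_cj], ?_, ?_⟩
  · rw [Fitting_cj]; exact isTISubset_cj h3 g
  · rw [← cj_commutator]; exact isOfTypeF_cj h6 g
  · rw [← cj_commutator, Fcore_cj, Fcore_cj, h7]

theorem isOfTypeIII_cj (h : IsOfTypeIII M) (g : G) : IsOfTypeIII (cj g M) := by
  obtain ⟨W₁, U, W₂, hP, h1, h2, h3, h4, h5⟩ := h
  refine ⟨_, _, _, conj_of_typeP hP g, by rwa [Ne, cj_eq_bot_iff], by rwa [card_cj], ?_,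
    isMulCommutative_cj_iff.2 h4, by rwa [NU_cj]⟩
  rw [Fitting_cj]; exact isTISubset_cj h3 g

theorem isOfTypeIV_cj (h : IsOfTypeIV M) (g : G) : IsOfTypeIV (cj g M) := by
  obtain ⟨W₁, U, W₂, hP, h1, h2, h3, h4, h5⟩ := h
  refine ⟨_, _, _, conj_of_typeP hP g, by rwa [Ne, cj_eq_bot_iff], by rwa [card_cj], ?_,
    by rwa [isMulCommutative_cj_iff], by rwa [NU_cj]⟩
  rw [Fitting_cj]; exact isTISubset_cj h3 g

/-- The three cases of type V in the ambient language. -/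
def TypeVCases (M W₁ : Subgroup G) : Prop :=
  IsTISubset (fittingHallOf M : Set G) ∨
    (∃ p : ℕ, p.Prime ∧ p ∣ Nat.card (fittingHallOf M) ∧ Nat.card W₁ ∣ p - 1 ∧
      IsCyclic O[{p}ᶜ](fittingHallOf M)) ∨
    (∃ p : ℕ, p.Prime ∧ p ∣ Nat.card (fittingHallOf M) ∧
      Nat.card O[{p}](fittingHallOf M) = p ^ 3 ∧ Nat.card W₁ ∣ p + 1 ∧
      IsCyclic O[{p}ᶜ](fittingHallOf M))

theorem isOfTypeV_iff : IsOfTypeV M ↔
    ∃ W₁ U W₂ : Subgroup G, IsTypePWith M W₁ U W₂ ∧ U = ⊥ ∧ TypeVCases M W₁ := by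
  unfold IsOfTypeV TypeVCases
  refine exists₃_congr fun W₁ U W₂ => and_congr_right fun _ => and_congr_right fun _ =>
    or_congr_right (or_congr (exists_congr fun p => and_congr_right fun hp => ?_)
      (exists_congr fun p => and_congr_right fun hp => ?_))
  · rw [isCyclic_pPrimeCore_iff hp]
  · rw [isCyclic_pPrimeCore_iff hp, card_pCore_eq hp]

theorem TypeVCases.cj (h : TypeVCases M W₁) (g : G) : TypeVCases (cj g M) (cj g W₁) := by
  unfold TypeVCases
  rw [Fcore_cj, card_cj, card_cj]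
  rcases h with h | ⟨p, hp, hpd, h1, hc⟩ | ⟨p, hp, hpd, h0, h1, hc⟩
  · exact Or.inl (isTISubset_cj h g)
  · exact Or.inr (Or.inl ⟨p, hp, hpd, h1, by rwa [← cj_piCoreOf, isCyclic_cj_iff]⟩)
  · exact Or.inr (Or.inr ⟨p, hp, hpd, by rwa [← cj_piCoreOf, card_cj], h1,
      by rwa [← cj_piCoreOf, isCyclic_cj_iff]⟩)

theorem isOfTypeV_cj (h : IsOfTypeV M) (g : G) : IsOfTypeV (cj g M) := by
  obtain ⟨W₁, U, W₂, hP, h1, h2⟩ := isOfTypeV_iff.1 h
  exact isOfTypeV_iff.2 ⟨_, _, _, conj_of_typeP hP g, by rw [h1, cj_bot], h2.cj g⟩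

omit [Finite G] in
theorem cj_iff_of_imp {P : Subgroup G → Prop} (h : ∀ M g, P M → P (cj g M)) (g : G) (M : Subgroup G) :
    P (cj g M) ↔ P M :=
  ⟨fun h' => by simpa only [cj_inv_cj] using h _ g⁻¹ h', h M g⟩

theorem isOfTypeI_cj_iff (g : G) (M : Subgroup G) : IsOfTypeI (cj g M) ↔ IsOfTypeI M :=
  cj_iff_of_imp (P := fun M => IsOfTypeI M) (fun _ g h => isOfTypeI_cj h g) g M

theorem isOfTypeII_cj_iff (g : G) (M : Subgroup G) : IsOfTypeII (cj g M) ↔ IsOfTypeII M :=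
  cj_iff_of_imp (P := fun M => IsOfTypeII M) (fun _ g h => isOfTypeII_cj h g) g M

theorem isOfTypeIII_cj_iff (g : G) (M : Subgroup G) : IsOfTypeIII (cj g M) ↔ IsOfTypeIII M :=
  cj_iff_of_imp (P := fun M => IsOfTypeIII M) (fun _ g h => isOfTypeIII_cj h g) g M

theorem isOfTypeIV_cj_iff (g : G) (M : Subgroup G) : IsOfTypeIV (cj g M) ↔ IsOfTypeIV M :=
  cj_iff_of_imp (P := fun M => IsOfTypeIV M) (fun _ g h => isOfTypeIV_cj h g) g M

theorem isOfTypeV_cj_iff (g : G) (M : Subgroup G) : IsOfTypeV (cj g M) ↔ IsOfTypeV M :=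
  cj_iff_of_imp (P := fun M => IsOfTypeV M) (fun _ g h => isOfTypeV_cj h g) g M

theorem not_typeIII_of_typeIV (h : IsOfTypeIV M) : ¬ IsOfTypeIII M := by
  rintro ⟨W₁, U, W₂, hP, -, -, -, h4, -⟩
  obtain ⟨W₁', U', W₂', hP', -, -, -, h4', -⟩ := h
  obtain ⟨x, -, -, e, -⟩ := of_typeP_conj hP hP'
  exact h4' (e ▸ isMulCommutative_cj_iff.2 h4)

end Amb

section FTtype
variable {M W₁ U W₂ : Subgroup G}

theorem FTtype_cj (g : G) (M : Subgroup G) : FTtype (cj g M) = FTtype M := by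
  unfold FTtype
  rw [propext (isOfTypeI_cj_iff g M), propext (isOfTypeII_cj_iff g M), propext (isOfTypeIII_cj_iff g M),
    propext (isOfTypeIV_cj_iff g M), propext (isOfTypeV_cj_iff g M)]

theorem FTtype_of_conj {M L : Subgroup G} (h : Conj M L) : FTtype L = FTtype M := by
  obtain ⟨g, rfl⟩ := h; exact FTtype_cj g M

theorem FTcore_cj (g : G) (M : Subgroup G) : typeCore (cj g M) = cj g (typeCore M) := by
  unfold typeCore
  rw [propext (isOfTypeIII_cj_iff g M), propext (isOfTypeIV_cj_iff g M)]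
  split_ifs
  · rw [cj_commutator]
  · rw [Fcore_cj]

omit [Finite G] in
theorem FTtype_eq_one_iff : FTtype M = 1 ↔ IsOfTypeI M := by
  unfold FTtype; split_ifs <;> simp [*]

omit [Finite G] in
theorem FTtype_le_five (M : Subgroup G) : FTtype M ≤ 5 := by
  unfold FTtype; split_ifs <;> simp

omit [Finite G] in
theorem mem_FTsupp1 {x : G} : x ∈ typeA1 M ↔ x ∈ typeCore M ∧ x ≠ 1 := Iff.rfl

omit [Finite G] in
theorem FTsupp1_eq (M : Subgroup G) : typeA1 M = (typeCore M)^# := rfl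

omit [Finite G] in
theorem mem_FTsupp_type1 (h : FTtype M = 1) {a : G} : a ∈ typeA M ↔
    a ∈ M ∧ a ≠ 1 ∧ ∃ x ∈ fittingHallOf M, x ≠ 1 ∧ a * x = x * a := by
  unfold typeA; rw [if_pos (FTtype_eq_one_iff.1 h)]; rfl

omit [Finite G] in
theorem mem_FTsupp_typeP (h : FTtype M ≠ 1) {a : G} : a ∈ typeA M ↔
    a ∈ ⁅M, M⁆ ∧ a ≠ 1 ∧ ∃ x ∈ typeCore M, x ≠ 1 ∧ a * x = x * a := by
  unfold typeA; rw [if_neg (mt FTtype_eq_one_iff.2 h)]; rfl

omit [Finite G] in
theorem mem_FTsupp0 {a : G} : a ∈ typeA0 M ↔ a ∈ typeA M ∨ (FTtype M ≠ 1 ∧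
    ∃ W₁ U W₂ : Subgroup G, IsTypePWith M W₁ U W₂ ∧ a ∈ classSupport (cycV W₁ W₂) M) := by
  unfold typeA0
  rw [Set.mem_union, Ne, FTtype_eq_one_iff]
  refine or_congr_right (and_congr_right fun _ => exists₃_congr fun W₁ U W₂ =>
    and_congr_right fun _ => ⟨?_, ?_⟩)
  · rintro ⟨m, hm, w, h1, h2, h3, rfl⟩
    exact ⟨w, mem_cycV.2 ⟨h1, h2, h3⟩, m, hm, rfl⟩
  · rintro ⟨w, hw, m, hm, rfl⟩
    obtain ⟨h1, h2, h3⟩ := mem_cycV.1 hw
    exact ⟨m, hm, w, h1, h2, h3, rfl⟩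

omit [Finite G] in
theorem conj_ne_one_iff' {g x : G} : g⁻¹ * x * g ≠ 1 ↔ x ≠ 1 := by
  rw [Ne, Ne, mul_assoc, inv_mul_eq_one, eq_comm, mul_eq_right]

omit [Finite G] in
theorem diff_one_cj (g : G) (H : Subgroup G) : (cj g H)^# = cjSet g H^# := by
  ext x
  rw [mem_cjSet]
  exact and_congr mem_cj (conj_ne_one_iff' (g := g)).symm

theorem FTsupp1_cj (g : G) (M : Subgroup G) : typeA1 (cj g M) = cjSet g (typeA1 M) := by
  rw [FTsupp1_eq, FTsupp1_eq, FTcore_cj, diff_one_cj]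

omit [Finite G] in
theorem exists_comm_cj {g a : G} {H : Subgroup G} :
    (∃ x ∈ cj g H, x ≠ 1 ∧ a * x = x * a) ↔
      ∃ x ∈ H, x ≠ 1 ∧ g⁻¹ * a * g * x = x * (g⁻¹ * a * g) := by
  constructor
  · rintro ⟨x, hx, h1, e⟩
    refine ⟨_, mem_cj.1 hx, conj_ne_one_iff'.2 h1, ?_⟩
    calc _ = g⁻¹ * (a * x) * g := by group
      _ = _ := by rw [e]; group
  · rintro ⟨x, hx, h1, e⟩
    refine ⟨_, conj_mem_cj hx, fun e' => h1 (by simpa using e'), ?_⟩
    calc _ = g * (g⁻¹ * a * g * x) * g⁻¹ := by group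
      _ = _ := by rw [e]; group

theorem FTsupp_cj (g : G) (M : Subgroup G) : typeA (cj g M) = cjSet g (typeA M) := by
  ext a
  rw [mem_cjSet]
  by_cases h : FTtype M = 1
  · rw [mem_FTsupp_type1 h, mem_FTsupp_type1 ((FTtype_cj g M).trans h), Fcore_cj, exists_comm_cj, mem_cj,
      conj_ne_one_iff']
  · rw [mem_FTsupp_typeP h, mem_FTsupp_typeP (by rwa [FTtype_cj]), FTcore_cj, exists_comm_cj,
      ← cj_commutator, mem_cj, conj_ne_one_iff']

omit [Finite G] in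
theorem classSupport_cj (g : G) (A : Set G) (M : Subgroup G) :
    classSupport (cjSet g A) (cj g M) = cjSet g (classSupport A M) := by
  ext y
  rw [mem_cjSet]
  constructor
  · rintro ⟨a, ha, m, hm, rfl⟩
    exact ⟨_, mem_cjSet.1 ha, _, mem_cj.1 hm, by group⟩
  · rintro ⟨a, ha, m, hm, e⟩
    refine ⟨_, conj_mem_cjSet ha, _, conj_mem_cj hm, ?_⟩
    calc y = g * (g⁻¹ * y * g) * g⁻¹ := by group
      _ = _ := by rw [e]; group

omit [Finite G] in
theorem classSupport_cjSet_of_mem {g : G} (A : Set G) (hg : g ∈ M) :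
    classSupport (cjSet g A) M = classSupport A M := by
  have := classSupport_cj g A M
  rwa [cj_eq_self_of_mem hg, cjSet_eq_self_iff.2 (le_normalizer_classSupport A M hg)] at this

theorem FTsupp0_cj_sub (g : G) (M : Subgroup G) : cjSet g (typeA0 M) ⊆ typeA0 (cj g M) := by
  intro a ha
  rcases mem_FTsupp0.1 (mem_cjSet.1 ha) with h | ⟨h1, W₁, U, W₂, hP, h⟩
  · exact mem_FTsupp0.2 (Or.inl (by rw [FTsupp_cj]; exact mem_cjSet.2 h))
  · refine mem_FTsupp0.2 (Or.inr ⟨by rwa [FTtype_cj], _, _, _, conj_of_typeP hP g, ?_⟩)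
    rw [cycV_cj, classSupport_cj]; exact mem_cjSet.2 h

theorem FTsupp0_cj (g : G) (M : Subgroup G) : typeA0 (cj g M) = cjSet g (typeA0 M) := by
  refine Set.Subset.antisymm (fun a ha => ?_) (FTsupp0_cj_sub g M)
  have := FTsupp0_cj_sub g⁻¹ (cj g M) (conj_mem_cjSet (g := g⁻¹) ha)
  rw [cj_inv_cj, inv_inv] at this
  exact mem_cjSet.2 this

omit [Finite G] in
theorem FTsignalizer_of_le {x : G} (h : C1[x] ≤ M) : supportR M x = ⊥ := by
  unfold supportR; rw [dif_neg (fun h' => h'.1 h)]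

omit [Finite G] in
theorem FTsignalizer_of_uniq {x : G} {L : Subgroup G} (h : ¬ C1[x] ≤ M) (hL : UniqMax C1[x] L) :
    supportR M x = fittingHallOf L ⊓ C1[x] := by
  unfold supportR
  have h' : ¬ C1[x] ≤ M ∧ ∃! L : Subgroup G, IsCoatom L ∧ C1[x] ≤ L := ⟨h, hL.inU⟩
  rw [dif_pos h']
  have := Classical.choose_spec h'.2.exists
  rw [hL.eq this.1 this.2]

omit [Finite G] in
theorem FTsignalizer_of_not_uniq {x : G} (h : ¬ InUniqueMaximal C1[x]) : supportR M x = ⊥ := by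
  unfold supportR; rw [dif_neg (fun h' => h h'.2)]

theorem FTsignalizer_cj (g : G) (M : Subgroup G) (x : G) :
    supportR (cj g M) (g * x * g⁻¹) = cj g (supportR M x) := by
  by_cases h : C1[x] ≤ M
  · rw [FTsignalizer_of_le h, FTsignalizer_of_le, cj_bot]
    rw [← cj_centralizer_singleton]; exact cj_mono h
  by_cases h' : InUniqueMaximal C1[x]
  · obtain ⟨L, hL⟩ := exists_uniqMax h'
    have hL' := hL.cj g
    rw [cj_centralizer_singleton] at hL'
    rw [FTsignalizer_of_uniq h hL, FTsignalizer_of_uniq _ hL', cj_inf, Fcore_cj, cj_centralizer_singleton]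
    rwa [← cj_centralizer_singleton, cj_le_cj_iff]
  · rw [FTsignalizer_of_not_uniq h', FTsignalizer_of_not_uniq, cj_bot]
    rwa [← cj_centralizer_singleton, uniq_mmaxJ]

theorem FT_Dade_support_cj (g : G) (M : Subgroup G) (A : Set G) :
    dadeSupport (cjSet g A) (supportR (cj g M)) = dadeSupport A (supportR M) := by
  ext y
  constructor
  · rintro ⟨_, ⟨a, ha, rfl⟩, u, hu, x, e⟩
    rw [FTsignalizer_cj] at hu
    refine ⟨a, ha, _, mem_cj.1 hu, g⁻¹ * x, ?_⟩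
    calc _ = g⁻¹ * (x * y * x⁻¹) * g := by group
      _ = _ := by rw [e]; group
  · rintro ⟨a, ha, u, hu, x, e⟩
    refine ⟨_, conj_mem_cjSet ha, g * u * g⁻¹, by rw [FTsignalizer_cj]; exact conj_mem_cj hu, g * x, ?_⟩
    calc _ = g * (x * y * x⁻¹) * g⁻¹ := by group
      _ = _ := by rw [e]; group

theorem FT_Dade1_support_cj (g : G) (M : Subgroup G) :
    dadeSupport (typeA1 (cj g M)) (supportR (cj g M)) = dadeSupport (typeA1 M) (supportR M) := by
  rw [FTsupp1_cj, FT_Dade_support_cj]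

theorem FT_DadeA_support_cj (g : G) (M : Subgroup G) :
    dadeSupport (typeA (cj g M)) (supportR (cj g M)) = dadeSupport (typeA M) (supportR M) := by
  rw [FTsupp_cj, FT_Dade_support_cj]

theorem FT_Dade0_support_cj (g : G) (M : Subgroup G) :
    dadeSupport (typeA0 (cj g M)) (supportR (cj g M)) = dadeSupport (typeA0 M) (supportR M) := by
  rw [FTsupp0_cj, FT_Dade_support_cj]

theorem FTcore_normal (M : Subgroup G) : typeCore M ⊴ M := by
  unfold typeCore; split_ifs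
  · exact derived_normalIn M
  · exact Fcore_normal M

omit [Finite G] in
theorem FTsupp_sub0 (M : Subgroup G) : typeA M ⊆ typeA0 M := Set.subset_union_left

omit [Finite G] in
theorem FTsupp_sub_der1 (h : FTtype M ≠ 1) : typeA M ⊆ ⁅M, M⁆^# := fun _ ha =>
  ⟨((mem_FTsupp_typeP h).1 ha).1, ((mem_FTsupp_typeP h).1 ha).2.1⟩

omit [Finite G] in
theorem FTsupp_sub (M : Subgroup G) : typeA M ⊆ M^# := fun a ha => by
  by_cases h : FTtype M = 1
  · exact ⟨((mem_FTsupp_type1 h).1 ha).1, ((mem_FTsupp_type1 h).1 ha).2.1⟩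
  · exact ⟨(derived_normalIn M).le (FTsupp_sub_der1 h ha).1, (FTsupp_sub_der1 h ha).2⟩

theorem typeP_V_sub (h : IsTypePWith M W₁ U W₂) : classSupport (cycV W₁ W₂) M ⊆ M^# := by
  rintro _ ⟨a, ha, m, hm, rfl⟩
  refine ⟨M.mul_mem (M.mul_mem hm (typeP_W_le h (cycV_subset ha))) (M.inv_mem hm), fun e => ?_⟩
  have : a = 1 := by simpa using e
  exact one_notMem_cycV (this ▸ ha)

theorem FTsupp0_sub (M : Subgroup G) : typeA0 M ⊆ M^# := fun a ha => by
  rcases mem_FTsupp0.1 ha with h | ⟨-, W₁, U, W₂, hP, h⟩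
  · exact FTsupp_sub M h
  · exact typeP_V_sub hP h

theorem FTsupp1_sub_max (M : Subgroup G) : typeA1 M ⊆ M^# := fun _ ha =>
  ⟨(FTcore_normal M).le ha.1, ha.2⟩

theorem FTsupp1_norm {x a : G} (hx : x ∈ M) (ha : a ∈ typeA1 M) : x * a * x⁻¹ ∈ typeA1 M := by
  have := conj_mem_cjSet (g := x) ha
  rwa [← FTsupp1_cj, cj_eq_self_of_mem hx] at this

theorem FTsupp_norm {x a : G} (hx : x ∈ M) (ha : a ∈ typeA M) : x * a * x⁻¹ ∈ typeA M := by
  have := conj_mem_cjSet (g := x) ha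
  rwa [← FTsupp_cj, cj_eq_self_of_mem hx] at this

theorem FTsupp0_norm {x a : G} (hx : x ∈ M) (ha : a ∈ typeA0 M) : x * a * x⁻¹ ∈ typeA0 M := by
  have := conj_mem_cjSet (g := x) ha
  rwa [← FTsupp0_cj, cj_eq_self_of_mem hx] at this

omit [Finite G] in
theorem FTsupp0_type1 (h : FTtype M = 1) : typeA0 M = typeA M := by
  ext a; rw [mem_FTsupp0]; simp [h]

theorem typeP_classSupport_eq (h : IsTypePWith M W₁ U W₂) {W₁' U' W₂' : Subgroup G}
    (h' : IsTypePWith M W₁' U' W₂') :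
    classSupport (cycV W₁' W₂') M = classSupport (cycV W₁ W₂) M := by
  obtain ⟨x, hx, rfl, -, rfl⟩ := of_typeP_conj h h'
  rw [cycV_cj, classSupport_cjSet_of_mem _ hx]

theorem FTtypeP_supp0_def (h : IsTypePWith M W₁ U W₂) (h1 : FTtype M ≠ 1) :
    typeA0 M = typeA M ∪ classSupport (cycV W₁ W₂) M := by
  ext a
  rw [mem_FTsupp0, Set.mem_union]
  refine or_congr_right ⟨?_, fun ha => ⟨h1, _, _, _, h, ha⟩⟩
  rintro ⟨-, W₁', U', W₂', h', ha⟩
  rwa [typeP_classSupport_eq h h'] at ha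

theorem FTtypeP_V_disjoint_der (h : IsTypePWith M W₁ U W₂) :
    Disjoint (classSupport (cycV W₁ W₂) M) (⁅M, M⁆ : Subgroup G) := by
  rw [Set.disjoint_left]
  rintro _ ⟨w, hw, m, hm, rfl⟩ hd
  obtain ⟨a, ha, ha1, b, hb, -, rfl⟩ := exists_of_mem_cycV (snc_dp h.selfNormalizing) hw
  have h1 := conj_mem_of_mem_normalizer' ((derived_normalIn M).norm hm) hd
  have h2 : a * b ∈ ⁅M, M⁆ := by simpa [mul_assoc] using h1
  have h3 : a ∈ ⁅M, M⁆ ⊓ W₁ := ⟨by simpa using mul_mem h2 (inv_mem (typeP_W2_le_der h hb)), ha⟩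
  rw [(typeP_sdp_der h).inf] at h3
  exact ha1 h3

omit [Finite G] in
/-- `A(M)` is closed under nontrivial powers. -/
theorem FTsupp_zpowers {a b : G} (ha : a ∈ typeA M) (hb : b ∈ zpowers a) (h1 : b ≠ 1) : b ∈ typeA M := by
  have hc : ∀ x : G, a * x = x * a → b * x = x * b := fun x e => by
    obtain ⟨k, rfl⟩ := hb
    exact ((show Commute a x from e).zpow_left k).eq
  by_cases h : FTtype M = 1
  · obtain ⟨h2, -, x, hx, hx1, e⟩ := (mem_FTsupp_type1 h).1 ha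
    exact (mem_FTsupp_type1 h).2 ⟨zpowers_le.2 h2 hb, h1, x, hx, hx1, hc x e⟩
  · obtain ⟨h2, -, x, hx, hx1, e⟩ := (mem_FTsupp_typeP h).1 ha
    exact (mem_FTsupp_typeP h).2 ⟨zpowers_le.2 h2 hb, h1, x, hx, hx1, hc x e⟩

omit [Finite G] in
theorem TypePPair.symm {S T : Subgroup G} (h : TypePPair S T W₁ W₂) : TypePPair T S W₂ W₁ :=
  ⟨snc_symm h.cti, h.maxT, h.maxS, h.sdpT, h.sdpS, by rw [inf_comm, h.inf, sup_comm], h.type2.symm,
    h.neT, h.neS, fun M hM h1 => (h.conj M hM h1).symm⟩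

theorem TypePPair.cj {S T : Subgroup G} (h : TypePPair S T W₁ W₂) (g : G) :
    TypePPair (cj g S) (cj g T) (cj g W₁) (cj g W₂) := by
  refine ⟨snc_cj h.cti g, isCoatom_cj h.maxS, isCoatom_cj h.maxT, ?_, ?_,
    by rw [← cj_inf, h.inf, cj_sup], by simpa only [FTtype_cj] using h.type2,
    by simpa only [FTtype_cj] using h.neS, by simpa only [FTtype_cj] using h.neT, fun M hM h1 => ?_⟩
  · rw [← cj_commutator]; exact h.sdpS.cj g
  · rw [← cj_commutator]; exact h.sdpT.cj g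
  · exact (h.conj M hM h1).imp (conj_cj g S).symm.trans (conj_cj g T).symm.trans

/-- Two subgroups with coprime nontrivial abelianizations are not conjugate. -/
theorem not_conj_of_sdp_der {S T : Subgroup G} (hS : IsSdp ⁅S, S⁆ W₁ S) (hT : IsSdp ⁅T, T⁆ W₂ T)
    (h : IsSelfNormalizingCyclic W₁ W₂) : ¬ Conj S T := by
  rintro ⟨g, rfl⟩
  have h1 := hS.card
  have h2 := hT.card
  rw [← cj_commutator, card_cj, card_cj, h1] at h2
  have h3 := Nat.eq_of_mul_eq_mul_left Nat.card_pos h2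
  have h4 := snc_coprime h
  rw [← h3, Nat.coprime_self] at h4
  exact h.1 (eq_bot_of_card_eq _ h4)

theorem exists_mmax_transversal : ∃ R : Finset (Subgroup G), (∀ M ∈ R, IsCoatom M) ∧
    (∀ M ∈ R, ∀ L ∈ R, Conj M L → M = L) ∧ ∀ L, IsCoatom L → ∃ M ∈ R, Conj M L := by
  classical
  let s : Setoid (Subgroup G) := ⟨Conj, conj_refl, Conj.symm, Conj.trans⟩
  have hfin : {M : Subgroup G | IsCoatom M ∧ (Quotient.mk s M).out = M}.Finite := Set.toFinite _
  refine ⟨hfin.toFinset, fun M hM => (hfin.mem_toFinset.1 hM).1, fun M hM L hL h => ?_, fun L hL => ?_⟩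
  · rw [← (hfin.mem_toFinset.1 hM).2, ← (hfin.mem_toFinset.1 hL).2, Quotient.sound (s := s) h]
  · have h : Conj (Quotient.mk s L).out L := Quotient.mk_out (s := s) L
    refine ⟨_, hfin.mem_toFinset.2 ⟨?_, by rw [Quotient.out_eq]⟩, h⟩
    obtain ⟨g, e⟩ := h
    exact isCoatom_cj_iff.1 (e ▸ hL)

/-- The frozen notion of a Frobenius group, for a subgroup of the ambient group. -/
theorem isFrobeniusKer_of_frobeniusKernel {M K : Subgroup G} (hK : K ⊴ M) (hne : K ≠ ⊥)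
    {E : Subgroup M} (hE : IsFrobeniusComplement E)
    (hk : frobeniusKernel E = (K.subgroupOf M : Set M)) : IsFrobeniusKer M K := by
  have hmem : ∀ x : M, (x : G) ∈ K ↔ x = 1 ∨ ∀ g : M, x ∉ cj g E := fun x =>
    (Set.ext_iff.1 hk x).symm
  refine isFrobeniusKer_of_cent1 hK hne (fun e => ?_) fun x hx h1 y hy => ?_
  · obtain ⟨⟨a, ha⟩, ha1⟩ := ne_bot_iff_exists_ne_one.1 hE.1
    rcases (hmem a).1 (e ▸ a.2) with h | h
    · exact ha1 (Subtype.ext h)
    · exact h 1 (by rwa [cj_one])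
  · by_contra hyK
    have hy' := mt (hmem ⟨y, hy.1⟩).2 hyK
    push Not at hy'
    obtain ⟨hy1, g, hg⟩ := hy'
    set x' : M := ⟨x, hK.le hx⟩
    set y' : M := ⟨y, hy.1⟩
    have hxy : x' * y' = y' * x' := Subtype.ext (mem_centralizer_singleton_iff.1 hy.2).symm
    rcases (hmem x').1 hx with h | h
    · exact h1 (congrArg Subtype.val h)
    · have h2 : g⁻¹ * x' * g ∉ E := fun e => h g (mem_cj.2 e)
      have h3 : g⁻¹ * y' * g ∈ E ⊓ cj (g⁻¹ * x' * g) E := by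
        refine ⟨mem_cj.1 hg, mem_cj.2 ?_⟩
        have : (g⁻¹ * x' * g)⁻¹ * (g⁻¹ * y' * g) * (g⁻¹ * x' * g) = g⁻¹ * y' * g := by
          calc _ = g⁻¹ * (x'⁻¹ * (y' * x')) * g := by group
            _ = _ := by rw [← hxy]; group
        rw [this]; exact mem_cj.1 hg
      have h4 := hE.2.2 _ h2
      rw [← cj_eq_smul] at h4
      rw [h4, mem_bot] at h3
      exact conj_ne_one_iff'.2 hy1 h3

variable (hG : IsMinSimpleOddOrder G)
include hG

/-- A nonempty set of non-identity elements of a maximal subgroup `M` normalized by `M` has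
normalizer `M`. -/
theorem mmax_norm_set (hM : IsCoatom M) {X : Set G} (hne : X.Nonempty) (hX : X ⊆ M^#)
    (hn : ∀ x ∈ M, ∀ a ∈ X, x * a * x⁻¹ ∈ X) : normalizer X = M := by
  have h1 : normalizer X ≤ N[closure X] := fun g hg => mem_normalizer_of_cj_le (by
    rw [cj_closure]
    refine closure_mono ?_
    rintro _ ⟨b, hb, rfl⟩
    exact conj_mem_of_mem_set_normalizer hg hb)
  have h2 : closure X ⊴ M :=
    ⟨(closure_le M).2 fun b hb => (hX hb).1, (le_set_normalizer hn).trans h1⟩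
  obtain ⟨a, ha⟩ := hne
  exact mmax_max hM (pr_of_le h1 (pr_norm_of_mmax_normal hG hM h2
    (ne_bot_of_mem (subset_closure ha) (hX ha).2))) (le_set_normalizer hn)

end FTtype

end Cfsg.Agent.H88.SZ.H68
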