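import Cfsg.Agent.H88.ZBG16B
import Cfsg.Agent.H88.ZBG16T

set_option autoImplicit false
set_option linter.unusedVariables false

namespace Cfsg.Agent.H88.SZ

open Cfsg Subgroup Cfsg.Agent.H63 Cfsg.Agent.H67 Cfsg.Agent.H66 Cfsg.Agent.H64
open Cfsg.Agent.H88.SZ.H63 Cfsg.Agent.H88.SZ.H67 Cfsg.Agent.H88.SZ.H66 Cfsg.Agent.H88.SZ.H64

variable [Om]

/-- Let G be a minimal simple group of odd order and M a maximal subgroup. Then M_σ (the largest normal σ(M)-subgroup of M) is a Hall σ(M)-subgroup of M and also of G, and every Hall σ(M)-subgroup of M that is normal in M equals M_σ. -/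
theorem R1350 {G : Type*} [Group G] [Finite G] (hG : IsMinSimpleOddOrder G)
    (M : Subgroup G) (hM : IsCoatom M) :
    Cfsg.IsPiHallOf (sigma M) (sigmaCore M) M ∧ Cfsg.IsPiHall (sigma M) (sigmaCore M) ∧
      ∀ N : Subgroup G, M ≤ Subgroup.normalizer (N : Set G) → Cfsg.IsPiHallOf (sigma M) N M →
        N = sigmaCore M :=
  by
  refine ⟨H66.Msigma_Hall hG hM, hall_top_iff.1 (H66.Msigma_Hall_G hG hM), fun N hn hN => ?_⟩
  exact (piCoreOf_eq_of_normal_hall hN ⟨hN.1, hn⟩).symm

/-- Let G be a minimal simple group of odd order and M a maximal subgroup. Then M possesses a Hall κ(M)-subgroup, and every Hall κ(M)-subgroup of M is cyclic. -/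
theorem R1351 {G : Type*} [Group G] [Finite G] (hG : IsMinSimpleOddOrder G)
    (M : Subgroup G) (hM : IsCoatom M) :
    (∃ K : Subgroup G, Cfsg.IsPiHallOf (kappa M) K M) ∧
      ∀ K : Subgroup G, Cfsg.IsPiHallOf (kappa M) K M → IsCyclic K := by
  exact ⟨H67.exists_hall _ (H67.mmax_sol hG hM), fun K hK => H63.kappa_hall_cyclic hG hM hK⟩

/-- Let G be a minimal simple group of odd order, M a maximal subgroup and K a cyclic Hall κ(M)-subgroup of M. Then there is a subgroup U of M, normalized by K, with U ∩ K M_σ = 1 and M = U K M_σ; moreover U M_σ is normal in M for any such U. -/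
theorem R1352 {G : Type*} [Group G] [Finite G] (hG : IsMinSimpleOddOrder G)
    (M : Subgroup G) (hM : IsCoatom M) (K : Subgroup G)
    (hKc : IsCyclic K) (hK : Cfsg.IsPiHallOf (kappa M) K M) :
    (∃ U : Subgroup G, IsSigmaDecomposition M K U) ∧
      ∀ U : Subgroup G, IsSigmaDecomposition M K U → M ≤ Subgroup.normalizer ((U ⊔ sigmaCore M : Subgroup G) : Set G) := by
  refine ⟨?_, fun U hU => ?_⟩
  · obtain ⟨U, hU⟩ := H63.ex_kappa_compl hG hM hK
    exact ⟨U, (H63.isSigmaDecomposition_iff hG hM).2 hU⟩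
  · have h := (H63.isSigmaDecomposition_iff hG hM).1 hU
    obtain ⟨-, d1, d2, -⟩ := H63.kappa_compl_context hG hM h
    rw [sup_comm]
    exact (d2.assoc_left d1).le_norm

/-- Let G be a minimal simple group of odd order and M a maximal subgroup. Then the largest normal nilpotent Hall subgroup M_F of M is nontrivial and contained in M_σ, M_σ is contained in the derived subgroup M', M' is proper in M, and the image of M' in M/M_F is nilpotent. -/
theorem R1355 {G : Type*} [Group G] [Finite G] (hG : IsMinSimpleOddOrder G)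
    (M : Subgroup G) (hM : IsCoatom M) :
    Cfsg.fittingHallOf M ≠ ⊥ ∧ Cfsg.fittingHallOf M ≤ sigmaCore M ∧ sigmaCore M ≤ ⁅M, M⁆ ∧ ⁅M, M⁆ < M ∧
      Group.IsNilpotent ↥((commutator ↥M).map (QuotientGroup.mk' (Cfsg.fittingHall ↥M))) := by
  obtain ⟨h1, h2, h3, h4⟩ := H66.Fcore_structure_chain hG hM
  refine ⟨h1, h2, h3, h4, ?_⟩
  have hn := (H66.Fitting_structure hG hM).2.2.1.2
  have hN := (H68.Fcore_normal M).norm
  let e := H63.quoEquiv hN (Cfsg.fittingHall ↥M) (H68.Fcore_subgroupOf M).symm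
  let f : (↥M ⧸ Cfsg.fittingHall ↥M) →* H63.Coset (Cfsg.fittingHallOf M) :=
    (Subgroup.subtype _).comp e.toMonoidHom
  have hf : Function.Injective f := Subtype.val_injective.comp e.injective
  refine H67.isNilpotent_of_map_injective hf (H67.isNilpotent_of_le hn ?_)
  rintro _ ⟨_, ⟨x, hx, rfl⟩, rfl⟩
  rw [← H67.commutator_subgroupOf_self] at hx
  have : f (QuotientGroup.mk' (Cfsg.fittingHall ↥M) x) = H63.coset (Cfsg.fittingHallOf M) x :=
    H63.quoEquiv_mk hN (Cfsg.fittingHall ↥M) (H68.Fcore_subgroupOf M).symm x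
  rw [this]
  exact H63.coset_mem_quo (hN x.2) hx

/-- Let G be a minimal simple group of odd order and M a maximal subgroup with standard factorisation M = K U M_σ. If M_F ≠ M_σ then U = 1, the Fitting subgroup F(M) meets its conjugates by elements outside its normalizer trivially, and K has prime order. -/
theorem R1357 {G : Type*} [Group G] [Finite G] (hG : IsMinSimpleOddOrder G)
    (M : Subgroup G) (hM : IsCoatom M) (K U : Subgroup G) (hKU : IsSigmaDecomposition M K U) (hne : Cfsg.fittingHallOf M ≠ sigmaCore M) :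
    U = ⊥ ∧ Cfsg.IsTISubset (Cfsg.fittingOf M : Set G) ∧ (Nat.card K).Prime := by
  obtain ⟨h1, h2, h3⟩ := H67.BGsummaryA8 hG hM ((H63.isSigmaDecomposition_iff hG hM).1 hKU) hne
  exact ⟨h1, H67.Fitting_TI_of_normedTI hG hM h2, h3⟩

/-- Let G be a minimal simple group of odd order and M a maximal subgroup with standard factorisation M = K U M_σ and K ≠ 1. Then the derived subgroup of M is generated by U and M_σ, and M_σ ∩ C_G(K) is contained in the second derived subgroup of M. -/
theorem R1365 {G : Type*} [Group G] [Finite G] (hG : IsMinSimpleOddOrder G)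
    (M : Subgroup G) (hM : IsCoatom M) (K U : Subgroup G) (hKU : IsSigmaDecomposition M K U) (hK1 : K ≠ ⊥) :
    ⁅M, M⁆ = U ⊔ sigmaCore M ∧ (sigmaCore M ⊓ Subgroup.centralizer (K : Set G)) ≤ ⁅⁅M, M⁆, ⁅M, M⁆⁆ := by
  have PM := (H63.ntrivg_kappa hM hKU.hall).1 hK1
  exact ⟨(H63.Ptype_der1 hG PM ((H63.isSigmaDecomposition_iff hG hM).1 hKU)).sup'.symm,
    (H66.Ptype_cyclics hG PM hKU.hall).2.2.1⟩

/-- Let G be a minimal simple group of odd order and M a maximal subgroup. For x ≠ 1 in M_σ let R(x) = 1 if C_G(x) ≤ M and otherwise R(x) = C_{N_F}(x) for the unique maximal subgroup N containing C_G(x). Then the union over G-conjugates of the cosets x R(x) has cardinality (#M_σ − 1) times the index of M. -/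
theorem R1377 {G : Type*} [Group G] [Finite G] (hG : IsMinSimpleOddOrder G)
    (M : Subgroup G) (hM : IsCoatom M) :
    Set.ncard (tildeOf M ((sigmaCore M : Set G) \ {1})) = (Nat.card (sigmaCore M) - 1) * M.index := by
  rw [tildeOf_eq hG hM, card_class_support_sigma hG hM]

/-- Let G be a minimal simple group of odd order. Then every prime dividing the order of G belongs to σ(M) for some maximal subgroup M, and if σ(M) and σ(N) have a prime in common for maximal subgroups M, N then N is conjugate to M; so the sets σ(M_i) over representatives of the conjugacy classes of maximal subgroups partition the prime divisors of #G. -/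
theorem R1378 {G : Type*} [Group G] [Finite G] (hG : IsMinSimpleOddOrder G) :
    (∀ p : ℕ, p.Prime → p ∣ Nat.card G → p ∈ ϖ → ∃ M : Subgroup G, IsCoatom M ∧ p ∈ sigma M) ∧
      ∀ M N : Subgroup G, IsCoatom M → IsCoatom N → (sigma M ∩ sigma N).Nonempty → ∃ g : G, N = M.map (MulAut.conj g).toMonoidHom := by
  exact ⟨fun p hp hd hw => sigma_mmax_exists hG hp hd hw,
    fun M N hM hN ⟨p, h1, h2⟩ => conj_of_sigma hG hM hN h1 h2⟩

/-- Let G be a minimal simple group of odd order; for a maximal subgroup M write M̃ for the union of the G-conjugates of the cosets x R(x), x ≠ 1 in M_σ. Then M̃ ∩ Ñ = ∅ for non-conjugate maximal M, N; if every maximal subgroup has κ empty, every g ≠ 1 lies in some M̃; and if M = K U M_σ has K ≠ 1 with Ẑ = K K* − (K ∪ K*), then every g ≠ 1 lies in some Ñ or in a conjugate of Ẑ, and no conjugate of an element of Ẑ lies in any Ñ. -/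
theorem R1379 {G : Type*} [Group G] [Finite G] (hG : IsMinSimpleOddOrder G) :
    (∀ M N : Subgroup G, IsCoatom M → IsCoatom N → (∀ g : G, N ≠ M.map (MulAut.conj g).toMonoidHom) → tildeOf M ((sigmaCore M : Set G) \ {1}) ∩ tildeOf N ((sigmaCore N : Set G) \ {1}) = ∅) ∧
      ((∀ M : Subgroup G, IsCoatom M → kappa M = ∅) →
        ∀ g : G, g ≠ 1 → PiElt ϖ g → ∃ M : Subgroup G, IsCoatom M ∧ g ∈ tildeOf M ((sigmaCore M : Set G) \ {1})) ∧
      ∀ (M K U : Subgroup G), IsCoatom M → IsSigmaDecomposition M K U → K ≠ ⊥ →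
        (∀ g : G, g ≠ 1 → PiElt ϖ g → (∃ N : Subgroup G, IsCoatom N ∧ g ∈ tildeOf N ((sigmaCore N : Set G) \ {1})) ∨
            ∃ y : G, ∃ z ∈ ((↑(K ⊔ (sigmaCore M ⊓ Subgroup.centralizer (K : Set G))) : Set G) \ ((K : Set G) ∪ ↑(sigmaCore M ⊓ Subgroup.centralizer (K : Set G)))), g = y * z * y⁻¹) ∧
        ∀ N : Subgroup G, IsCoatom N → ∀ y : G, ∀ z ∈ ((↑(K ⊔ (sigmaCore M ⊓ Subgroup.centralizer (K : Set G))) : Set G) \ ((K : Set G) ∪ ↑(sigmaCore M ⊓ Subgroup.centralizer (K : Set G)))), y * z * y⁻¹ ∉ tildeOf N ((sigmaCore N : Set G) \ {1}) := by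
  refine ⟨fun M N hM hN hj => ?_, fun h g g1 hw => ?_, fun M K U hM hKU hK1 => ?_⟩
  · rw [tildeOf_eq hG hM, tildeOf_eq hG hN, ← Set.disjoint_iff_inter_eq_empty]
    exact class_sigma_support_disjoint hG hM hN fun ⟨g, hg⟩ => hj g hg
  · obtain ⟨N, hN, hg⟩ := mFT_partition_F hG (fun M PM => PM.2.ne_empty (h M PM.1)) g1
    exact ⟨N, hN, tildeOf_eq hG hN ▸ subset_classSupport _ _ hg⟩
  · have PM : PType M := (ntrivg_kappa hM hKU.hall).1 hK1
    refine ⟨fun g g1 hw => ?_, fun N hN y z hz => ?_⟩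
    · rcases (mFT_partition_P hG PM hKU.hall).1 g g1 hw with ⟨z, hz, y, -, e⟩ | ⟨N, hN, hg⟩
      · exact Or.inr ⟨y, z, hz, e⟩
      · exact Or.inl ⟨N, hN, tildeOf_eq hG hN ▸ subset_classSupport _ _ hg⟩
    · rw [tildeOf_eq hG hN]
      exact (H3.goodP_self PM hKU.hall).class_disj hG hN (conj_mem_classSupport hz (mem_top y))

/-- Let G be a minimal simple group of odd order and M a maximal subgroup with standard factorisation M = K U M_σ. Then M is of Type II if and only if K ≠ 1 and U ≠ 1. -/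
theorem R1381 {G : Type*} [Group G] [Finite G] (hG : IsMinSimpleOddOrder G)
    (M : Subgroup G) (hM : IsCoatom M) (K U : Subgroup G) (hKU : IsSigmaDecomposition M K U) :
    IsOfTypeII M ↔ (K ≠ ⊥ ∧ U ≠ ⊥) := by
  rw [H71.typeII_iff_P2Type hG hM, H63.p2type_iff hM ((H63.isSigmaDecomposition_iff hG hM).1 hKU)]

/-- Let G be a minimal simple group of odd order and M a maximal subgroup with standard factorisation M = K U M_σ. Then M is of Type III or of Type IV if and only if K ≠ 1, U = 1 and M_F ≠ M_σ. -/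
theorem R1382 {G : Type*} [Group G] [Finite G] (hG : IsMinSimpleOddOrder G)
    (M : Subgroup G) (hM : IsCoatom M) (K U : Subgroup G) (hKU : IsSigmaDecomposition M K U) :
    (IsOfTypeIII M ∨ IsOfTypeIV M) ↔ (K ≠ ⊥ ∧ U = ⊥ ∧ Cfsg.fittingHallOf M ≠ sigmaCore M) := by
  have h := (H63.isSigmaDecomposition_iff hG hM).1 hKU
  rw [H71.typeIII_IV_iff hG hM, H63.trivg_kappa_compl hG hM h, H63.ntrivg_kappa hM h.hallK]
  exact ⟨fun e => ⟨e.1.ptype, e⟩, fun e => e.2⟩

/-- Let G be a minimal simple group of odd order and M a maximal subgroup with standard factorisation M = K U M_σ. Then M is of Type V if and only if K ≠ 1, U = 1 and M_F = M_σ. -/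
theorem R1383 {G : Type*} [Group G] [Finite G] (hG : IsMinSimpleOddOrder G)
    (M : Subgroup G) (hM : IsCoatom M) (K U : Subgroup G) (hKU : IsSigmaDecomposition M K U) :
    Cfsg.IsOfTypeV M ↔ (K ≠ ⊥ ∧ U = ⊥ ∧ Cfsg.fittingHallOf M = sigmaCore M) := by
  have h := (H63.isSigmaDecomposition_iff hG hM).1 hKU
  rw [H71.typeV_iff hG hM, H63.trivg_kappa_compl hG hM h, H63.ntrivg_kappa hM h.hallK]
  exact ⟨fun e => ⟨e.1.ptype, e⟩, fun e => e.2⟩

/-- Let G be a minimal simple group of odd order and M a maximal subgroup, and let M_s be M' if M is of Type III or IV and M_F otherwise. Then N_G(P) ≤ M for every nontrivial Sylow subgroup P of M_s, and both M_F and M_s have order coprime to their index in G. -/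
theorem R1389 {G : Type*} [Group G] [Finite G] (hG : IsMinSimpleOddOrder G)
    (M : Subgroup G) (hM : IsCoatom M) :
    (∀ (p : ℕ), p.Prime → ∀ (P : Sylow p ↥(typeCore M)), (P : Subgroup ↥(typeCore M)) ≠ ⊥ →
        Subgroup.normalizer ((((P : Subgroup ↥(typeCore M)).map (typeCore M).subtype : Subgroup G)) : Set G) ≤ M) ∧
      (Nat.card (Cfsg.fittingHallOf M)).Coprime (Cfsg.fittingHallOf M).index ∧
      (Nat.card (typeCore M)).Coprime (typeCore M).index := by
  rw [H71.typeCore_eq_Msigma hG hM]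
  have hs := H66.Msigma_Hall hG hM
  refine ⟨fun p hp P hP => ?_, ?_, ?_⟩
  · have : Fact p.Prime := ⟨hp⟩
    have h1 := H67.syl_map_sylow P
    have sp : p ∈ sigma M := H66.Msigma_pi M p hp (H67.dvd_card_of_syl_ne_bot h1
      fun h => hP ((Subgroup.map_eq_bot_iff_of_injective _ (Subgroup.subtype_injective _)).1 h))
    exact H66.norm_sigma_Sylow sp (H67.syl_of_hall hs sp h1)
  · have h := H67.hall_coprime (H66.hall_G_of_sub_sigma (π := H63.primesOf (Nat.card (Cfsg.fittingHallOf M)))
      (fun p hp => H66.Msigma_pi M p hp.1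
        (hp.2.trans (Subgroup.card_dvd_of_le (H66.Fcore_sub_Msigma hG hM))))
      (H68.Fcore_Hall M).hall)
    rwa [Subgroup.relIndex_top_right] at h
  · have h := H67.hall_coprime (H66.Msigma_Hall_G hG hM)
    rwa [Subgroup.relIndex_top_right] at h

end Cfsg.Agent.H88.SZ
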